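import Cfsg.Agent.S2622

set_option autoImplicit false
set_option linter.unusedSectionVars false

universe u

/-!
Orthonormal frames for the dot product in characteristic two, and the number of matrices `A`
with `A Aᵀ = 1` over a finite field of characteristic two.
-/

namespace Cfsg.Agent.Helper45.DotON

open Cfsg Matrix

section Basic

variable {F : Type u} [Field F]

/-- orthonormal families for the dot product -/
def IsON {r n : ℕ} (b : Fin r → (Fin n → F)) : Prop :=
  ∀ i j, b i ⬝ᵥ b j = if i = j then 1 else 0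

/-- the dot product as a bilinear form -/
def dotB (F : Type u) [Field F] (n : ℕ) : LinearMap.BilinForm F (Fin n → F) :=
  LinearMap.mk₂ F (fun v w => v ⬝ᵥ w) add_dotProduct (fun c v w => smul_dotProduct c v w)
    dotProduct_add (fun c v w => dotProduct_smul c v w)

theorem dotB_apply {n : ℕ} (v w : Fin n → F) : dotB F n v w = v ⬝ᵥ w := rfl

theorem dot_lincomb {r n : ℕ} (b : Fin r → (Fin n → F)) (hb : IsON b) (a a' : Fin r → F) :
    (∑ j, a j • b j) ⬝ᵥ (∑ l, a' l • b l) = a ⬝ᵥ a' := by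
  calc (∑ j, a j • b j) ⬝ᵥ (∑ l, a' l • b l)
      = ∑ j, ∑ l, a j * a' l * (b j ⬝ᵥ b l) := by
        rw [sum_dotProduct]
        apply Finset.sum_congr rfl
        intro j _
        rw [dotProduct_sum]
        apply Finset.sum_congr rfl
        intro l _
        rw [smul_dotProduct, dotProduct_smul, smul_eq_mul, smul_eq_mul]
        ring
    _ = ∑ j, a j * a' j := by
        apply Finset.sum_congr rfl
        intro j _
        rw [Finset.sum_eq_single j]
        · rw [hb, if_pos rfl, mul_one]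
        · intro l _ hl
          rw [hb, if_neg (Ne.symm hl), mul_zero]
        · intro hj
          exact absurd (Finset.mem_univ _) hj
    _ = a ⬝ᵥ a' := rfl

theorem dot_lincomb_basis {r n : ℕ} (b : Fin r → (Fin n → F)) (hb : IsON b) (a : Fin r → F)
    (j : Fin r) : (∑ l, a l • b l) ⬝ᵥ b j = a j := by
  rw [sum_dotProduct, Finset.sum_eq_single j]
  · rw [smul_dotProduct, hb, if_pos rfl, smul_eq_mul, mul_one]
  · intro l _ hl
    rw [smul_dotProduct, hb, if_neg hl, smul_eq_mul, mul_zero]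
  · intro hj
    exact absurd (Finset.mem_univ _) hj

/-- the number of matrices `A` with `A Aᵀ = 1` -/
noncomputable def ncount (F : Type u) [Field F] (r : ℕ) : ℕ :=
  Nat.card {A : Matrix (Fin r) (Fin r) F // A * Aᵀ = 1}

theorem mul_transpose_eq_one_iff {r : ℕ} (A : Matrix (Fin r) (Fin r) F) :
    A * Aᵀ = 1 ↔ IsON (fun i => A i) := by
  constructor
  · intro h i j
    have h1 := congrFun (congrFun h i) j
    rw [Matrix.mul_apply, Matrix.one_apply] at h1
    exact h1
  · intro h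
    ext i j
    rw [Matrix.mul_apply, Matrix.one_apply]
    exact h i j

theorem ncount_eq (r : ℕ) :
    ncount F r = Nat.card {b : Fin r → (Fin r → F) // IsON b} :=
  Nat.card_congr (Equiv.subtypeEquivRight (fun A => mul_transpose_eq_one_iff A))

/-- orthonormal families inside the span of an orthonormal family of the same size -/
theorem card_on_span {r n : ℕ} (b0 : Fin r → (Fin n → F)) (hb0 : IsON b0) :
    Nat.card {b : Fin r → (Fin n → F) //
      (∀ i, b i ∈ Submodule.span F (Set.range b0)) ∧ IsON b} = ncount F r := by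
  symm
  apply Nat.card_congr
  refine Equiv.ofBijective (fun A => ⟨fun i => ∑ j, A.1 i j • b0 j, ?_, ?_⟩) ⟨?_, ?_⟩
  · intro i
    apply Submodule.sum_mem
    intro j _
    exact Submodule.smul_mem _ _ (Submodule.subset_span ⟨j, rfl⟩)
  · intro i j
    rw [dot_lincomb b0 hb0]
    exact (mul_transpose_eq_one_iff A.1).mp A.2 i j
  · intro A A' hAA
    apply Subtype.ext
    ext i j
    have h1 : (∑ l, A.1 i l • b0 l) = ∑ l, A'.1 i l • b0 l :=
      congrFun (congrArg Subtype.val hAA) i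
    rw [← dot_lincomb_basis b0 hb0 (A.1 i) j, h1, dot_lincomb_basis b0 hb0]
  · rintro ⟨b, hmem, hON⟩
    have hex : ∀ i, ∃ a : Fin r → F, ∑ j, a j • b0 j = b i :=
      fun i => (Submodule.mem_span_range_iff_exists_fun F).mp (hmem i)
    choose A hA using hex
    refine ⟨⟨Matrix.of A, ?_⟩, Subtype.ext (funext hA)⟩
    rw [mul_transpose_eq_one_iff]
    intro i j
    have h1 := hON i j
    rw [← hA i, ← hA j, dot_lincomb b0 hb0] at h1
    exact h1

end Basic

section Recur

variable {F : Type u} [Field F] [CharP F 2]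

theorem dot_self {n : ℕ} (u : Fin n → F) : u ⬝ᵥ u = (∑ i, u i) * (∑ i, u i) := by
  rw [CharTwo.sum_mul_self]
  rfl

theorem eq_one_of_mul_self {a : F} (h : a * a = 1) : a = 1 := by
  have h1 : (a + 1) * (a + 1) = 0 := by
    have h2 : (a + 1) * (a + 1) = a * a + (a + a) + 1 := by ring
    rw [h2, h, CharTwo.add_self_eq_zero, add_zero, CharTwo.add_self_eq_zero]
  have h3 : a + 1 = 0 := mul_self_eq_zero.mp h1
  exact CharTwo.add_eq_zero.mp h3

theorem sum_eq_one_of_dot {n : ℕ} (v : Fin n → F) (hv : v ⬝ᵥ v = 1) : ∑ i, v i = 1 :=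
  eq_one_of_mul_self (by rw [← dot_self]; exact hv)

theorem isON_cons {r n : ℕ} (v : Fin n → F) (b : Fin r → (Fin n → F)) :
    IsON (Fin.cons v b : Fin (r + 1) → (Fin n → F)) ↔
      (v ⬝ᵥ v = 1 ∧ (∀ j, v ⬝ᵥ b j = 0) ∧ IsON b) := by
  constructor
  · intro h
    refine ⟨?_, fun j => ?_, fun i j => ?_⟩
    · have h1 := h 0 0
      rwa [Fin.cons_zero, if_pos rfl] at h1
    · have h1 := h 0 j.succ
      rwa [Fin.cons_zero, Fin.cons_succ, if_neg (Fin.succ_ne_zero j).symm] at h1
    · have h1 := h i.succ j.succ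
      rw [Fin.cons_succ, Fin.cons_succ] at h1
      rw [h1]
      simp [Fin.succ_inj]
  · rintro ⟨h1, h2, h3⟩ i j
    refine Fin.cases ?_ (fun i' => ?_) i
    · refine Fin.cases ?_ (fun j' => ?_) j
      · rw [Fin.cons_zero, if_pos rfl]
        exact h1
      · rw [Fin.cons_zero, Fin.cons_succ, if_neg (Fin.succ_ne_zero j').symm]
        exact h2 j'
    · refine Fin.cases ?_ (fun j' => ?_) j
      · rw [Fin.cons_zero, Fin.cons_succ, if_neg (Fin.succ_ne_zero i'), dotProduct_comm]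
        exact h2 i'
      · rw [Fin.cons_succ, Fin.cons_succ, h3]
        simp [Fin.succ_inj]

variable [Fintype F]

/-- for `v ≠ (1,…,1)` of norm one, the orthogonal complement of `v` has an orthonormal basis -/
theorem exists_on_perp {r : ℕ} (v : Fin (r + 1) → F) (hv : v ⬝ᵥ v = 1) (hne : v ≠ fun _ => 1) :
    ∃ b0 : Fin r → (Fin (r + 1) → F), IsON b0 ∧
      ∀ w, (w ∈ Submodule.span F (Set.range b0) ↔ v ⬝ᵥ w = 0) := by
  let U : Submodule F (Fin (r + 1) → F) := LinearMap.ker (dotB F (r + 1) v)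
  have hU : ∀ w, w ∈ U ↔ v ⬝ᵥ w = 0 := fun w => LinearMap.mem_ker
  have hproj : ∀ x : Fin (r + 1) → F, x + (v ⬝ᵥ x) • v ∈ U := by
    intro x
    rw [hU, dotProduct_add, dotProduct_smul, hv, smul_eq_mul, mul_one]
    exact CharTwo.add_self_eq_zero _
  have hfin : Module.finrank F U = r := by
    have h1 := LinearMap.finrank_range_add_finrank_ker (dotB F (r + 1) v)
    have h2 : LinearMap.range (dotB F (r + 1) v) = ⊤ := by
      rw [LinearMap.range_eq_top]
      intro c
      refine ⟨c • v, ?_⟩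
      rw [map_smul, dotB_apply, hv, smul_eq_mul, mul_one]
    rw [h2, finrank_top, Module.finrank_self, Module.finrank_fintype_fun_eq_card,
      Fintype.card_fin] at h1
    show Module.finrank F (LinearMap.ker (dotB F (r + 1) v)) = r
    omega
  let B : LinearMap.BilinForm F U := (dotB F (r + 1)).restrict U
  have hB : ∀ a b : U, B a b = (a : Fin (r + 1) → F) ⬝ᵥ (b : Fin (r + 1) → F) := fun a b => rfl
  have hS : B.IsSymm := ⟨fun a b => by
    rw [hB, hB]
    exact dotProduct_comm _ _⟩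
  have hleft : ∀ a : U, (∀ b : U, B a b = 0) → a = 0 := by
    intro a ha
    apply Subtype.ext
    funext i
    have h1 := ha ⟨_, hproj (Pi.single i 1)⟩
    rw [hB] at h1
    have h2 : (a : Fin (r + 1) → F) ⬝ᵥ v = 0 := by
      rw [dotProduct_comm]
      exact (hU _).mp a.2
    rw [dotProduct_add, dotProduct_smul, h2, smul_zero, add_zero, dotProduct_single_one] at h1
    exact h1
  have hnd : B.Nondegenerate :=
    ⟨hleft, fun a ha => hleft a (fun b => by rw [hS.eq a b]; exact ha b)⟩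
  have hna : ∃ u : U, B u u ≠ 0 := by
    by_contra hcon
    push Not at hcon
    apply hne
    funext i
    have h1 := hcon ⟨_, hproj (Pi.single i 1)⟩
    rw [hB, dot_self] at h1
    have h2 : ∑ l, ((Pi.single i (1 : F) + (v ⬝ᵥ Pi.single i 1) • v : Fin (r + 1) → F) l) = 0 :=
      mul_self_eq_zero.mp h1
    rw [dotProduct_single_one] at h2
    have h3 : ∑ l, ((Pi.single i (1 : F) + v i • v : Fin (r + 1) → F) l) = 1 + v i := by
      simp only [Pi.add_apply, Pi.smul_apply, smul_eq_mul]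
      rw [Finset.sum_add_distrib, Finset.sum_pi_single', ← Finset.mul_sum,
        sum_eq_one_of_dot v hv, mul_one, if_pos (Finset.mem_univ _)]
    rw [h3] at h2
    exact (CharTwo.add_eq_zero.mp h2).symm
  obtain ⟨b, hb⟩ := Cfsg.Agent.S2622.result hfin B hS hnd hna
  refine ⟨fun i => (b i : Fin (r + 1) → F), fun i j => hb i j, fun w => ?_⟩
  have hspan : Submodule.span F (Set.range fun i => (b i : Fin (r + 1) → F)) = U := by
    have h1 : (Set.range fun i => (b i : Fin (r + 1) → F)) = U.subtype '' (Set.range b) := by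
      rw [← Set.range_comp]
      rfl
    rw [h1, ← Submodule.map_span, b.span_eq, Submodule.map_subtype_top]
  rw [hspan, hU]

theorem card_sum_one (r : ℕ) :
    Nat.card {v : Fin (r + 1) → F // ∑ i, v i = 1} = Fintype.card F ^ r := by
  have e : {v : Fin (r + 1) → F // ∑ i, v i = 1} ≃ (Fin r → F) :=
    { toFun := fun v => Fin.tail v.1
      invFun := fun w => ⟨Fin.cons (1 + ∑ i, w i) w, by
        rw [Fin.sum_univ_succ]
        simp only [Fin.cons_zero, Fin.cons_succ]
        rw [add_assoc, CharTwo.add_self_eq_zero, add_zero]⟩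
      left_inv := fun v => by
        apply Subtype.ext
        have h := v.2
        rw [Fin.sum_univ_succ] at h
        have h0 : v.1 0 = 1 + ∑ i, Fin.tail v.1 i := by
          have h1 : ∑ i : Fin r, v.1 i.succ = ∑ i, Fin.tail v.1 i := rfl
          rw [h1] at h
          calc v.1 0 = (v.1 0 + ∑ i, Fin.tail v.1 i) + ∑ i, Fin.tail v.1 i := by
                rw [add_assoc, CharTwo.add_self_eq_zero, add_zero]
            _ = 1 + ∑ i, Fin.tail v.1 i := by rw [h]
        show Fin.cons (1 + ∑ i, Fin.tail v.1 i) (Fin.tail v.1) = v.1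
        rw [← h0, Fin.cons_self_tail]
      right_inv := fun w => Fin.tail_cons _ _ }
  rw [Nat.card_congr e, Nat.card_eq_fintype_card, Fintype.card_fun, Fintype.card_fin]

theorem sum_one_eq (n : ℕ) : (∑ _i : Fin n, (1 : F)) = if Odd n then 1 else 0 := by
  rw [Finset.sum_const, Finset.card_univ, Fintype.card_fin, nsmul_eq_mul, mul_one]
  by_cases h : Odd n
  · rw [if_pos h]
    obtain ⟨k, rfl⟩ := h
    push_cast
    rw [CharTwo.two_eq_zero, zero_mul, zero_add]
  · rw [if_neg h]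
    obtain ⟨k, rfl⟩ := Nat.not_odd_iff_even.mp h
    push_cast
    exact CharTwo.add_self_eq_zero _

theorem card_good (r : ℕ) :
    Nat.card {v : Fin (r + 1) → F // v ⬝ᵥ v = 1 ∧ v ≠ fun _ => 1} =
      Fintype.card F ^ r - if Odd (r + 1) then 1 else 0 := by
  have hset : {v : Fin (r + 1) → F | v ⬝ᵥ v = 1 ∧ v ≠ fun _ => 1} =
      {v : Fin (r + 1) → F | ∑ i, v i = 1} \ {fun _ => 1} := by
    ext v
    constructor
    · rintro ⟨h1, h2⟩
      exact ⟨sum_eq_one_of_dot v h1, h2⟩
    · rintro ⟨h1, h2⟩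
      refine ⟨?_, h2⟩
      have h3 : ∑ i, v i = 1 := h1
      rw [dot_self, h3, mul_one]
  show Nat.card ↥{v : Fin (r + 1) → F | v ⬝ᵥ v = 1 ∧ v ≠ fun _ => 1} = _
  have hS : Nat.card ↥{v : Fin (r + 1) → F | ∑ i, v i = 1} = Fintype.card F ^ r := card_sum_one r
  rw [Nat.card_coe_set_eq] at hS ⊢
  rw [hset]
  by_cases h : Odd (r + 1)
  · rw [if_pos h, Set.ncard_sdiff_singleton_of_mem, hS]
    show ∑ _i : Fin (r + 1), (1 : F) = 1
    rw [sum_one_eq, if_pos h]
  · rw [if_neg h, Set.sdiff_singleton_eq_self, hS, Nat.sub_zero]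
    intro hmem
    have h1 : ∑ _i : Fin (r + 1), (1 : F) = 1 := hmem
    rw [sum_one_eq, if_neg h] at h1
    exact zero_ne_one h1

/-- the recursion for the number of matrices `A` with `A Aᵀ = 1` -/
theorem ncount_succ (r : ℕ) (hr : 1 ≤ r) :
    ncount F (r + 1) = ncount F r * (Fintype.card F ^ r - if Odd (r + 1) then 1 else 0) := by
  classical
  let e₁ : (Fin (r + 1) → F) × (Fin r → (Fin (r + 1) → F)) ≃
      (Fin (r + 1) → (Fin (r + 1) → F)) := Fin.consEquiv (fun _ => (Fin (r + 1) → F))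
  have he₁ : ∀ p, e₁ p = Fin.cons p.1 p.2 := fun p => rfl
  let e₂ : {p : (Fin (r + 1) → F) × (Fin r → (Fin (r + 1) → F)) //
      p.1 ⬝ᵥ p.1 = 1 ∧ (∀ j, p.1 ⬝ᵥ p.2 j = 0) ∧ IsON p.2} ≃
      {b : Fin (r + 1) → (Fin (r + 1) → F) // IsON b} :=
    Equiv.subtypeEquiv e₁ (fun p => by rw [he₁, isON_cons])
  have hgood : ∀ p : (Fin (r + 1) → F) × (Fin r → (Fin (r + 1) → F)),
      (p.1 ⬝ᵥ p.1 = 1 ∧ (∀ j, p.1 ⬝ᵥ p.2 j = 0) ∧ IsON p.2) → p.1 ≠ fun _ => 1 := by
    rintro ⟨v, b⟩ ⟨-, h2, h3⟩ hv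
    dsimp only at h2 h3 hv
    subst hv
    have h4 := h2 ⟨0, hr⟩
    have h5 := h3 ⟨0, hr⟩ ⟨0, hr⟩
    rw [if_pos rfl] at h5
    have h6 := sum_eq_one_of_dot _ h5
    have h7 : (fun _ => (1 : F)) ⬝ᵥ b ⟨0, hr⟩ = ∑ i, b ⟨0, hr⟩ i := by
      show ∑ i, (1 : F) * b ⟨0, hr⟩ i = _
      apply Finset.sum_congr rfl
      intro i _
      rw [one_mul]
    rw [h7, h6] at h4
    exact one_ne_zero h4
  let e₃ : {p : (Fin (r + 1) → F) × (Fin r → (Fin (r + 1) → F)) //
      p.1 ⬝ᵥ p.1 = 1 ∧ (∀ j, p.1 ⬝ᵥ p.2 j = 0) ∧ IsON p.2} ≃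
      (Σ v : {v : Fin (r + 1) → F // v ⬝ᵥ v = 1 ∧ v ≠ fun _ => 1},
        {b : Fin r → (Fin (r + 1) → F) // (∀ j, v.1 ⬝ᵥ b j = 0) ∧ IsON b}) :=
    { toFun := fun p => ⟨⟨p.1.1, p.2.1, hgood p.1 p.2⟩, ⟨p.1.2, p.2.2.1, p.2.2.2⟩⟩
      invFun := fun q => ⟨(q.1.1, q.2.1), q.1.2.1, q.2.2.1, q.2.2.2⟩
      left_inv := fun p => rfl
      right_inv := fun q => rfl }
  have hfib : ∀ v : {v : Fin (r + 1) → F // v ⬝ᵥ v = 1 ∧ v ≠ fun _ => 1},
      Nat.card {b : Fin r → (Fin (r + 1) → F) // (∀ j, v.1 ⬝ᵥ b j = 0) ∧ IsON b} =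
        ncount F r := by
    intro v
    obtain ⟨b0, hb0, hspan⟩ := exists_on_perp v.1 v.2.1 v.2.2
    rw [← card_on_span b0 hb0]
    apply Nat.card_congr
    refine Equiv.subtypeEquivRight (fun b => ?_)
    constructor
    · rintro ⟨h1, h2⟩
      exact ⟨fun i => (hspan _).mpr (h1 i), h2⟩
    · rintro ⟨h1, h2⟩
      exact ⟨fun i => (hspan _).mp (h1 i), h2⟩
  rw [ncount_eq (r + 1), ← Nat.card_congr e₂, Nat.card_congr e₃, Nat.card_sigma,
    Finset.sum_congr rfl (fun v _ => hfib v), Finset.sum_const, Finset.card_univ,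
    smul_eq_mul, ← Nat.card_eq_fintype_card, card_good, mul_comm]

theorem ncount_one : ncount F 1 = 1 := by
  unfold ncount
  have hne : Nonempty {A : Matrix (Fin 1) (Fin 1) F // A * Aᵀ = 1} :=
    ⟨⟨1, by rw [Matrix.transpose_one, Matrix.mul_one]⟩⟩
  have hsub : Subsingleton {A : Matrix (Fin 1) (Fin 1) F // A * Aᵀ = 1} := by
    refine ⟨fun A A' => Subtype.ext ?_⟩
    have key : ∀ A : {A : Matrix (Fin 1) (Fin 1) F // A * Aᵀ = 1}, A.1 0 0 = 1 := by
      intro A
      have h1 := congrFun (congrFun A.2 0) 0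
      rw [Matrix.mul_apply, Fin.sum_univ_one, Matrix.transpose_apply, Matrix.one_apply_eq] at h1
      exact eq_one_of_mul_self h1
    ext i j
    rw [Subsingleton.elim i 0, Subsingleton.elim j 0, key A, key A']
  exact Nat.card_unique

theorem ncount_odd_even (j : ℕ) :
    ncount F (2 * j + 1) = Fintype.card F ^ (j ^ 2) *
        ∏ i ∈ Finset.range j, (Fintype.card F ^ (2 * (i + 1)) - 1) ∧
      ncount F (2 * j + 2) = Fintype.card F ^ (2 * j + 1) * (Fintype.card F ^ (j ^ 2) *
        ∏ i ∈ Finset.range j, (Fintype.card F ^ (2 * (i + 1)) - 1)) := by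
  induction j with
  | zero =>
    refine ⟨?_, ?_⟩
    · rw [ncount_one]
      simp
    · rw [ncount_succ 1 (le_refl 1), ncount_one, if_neg (by decide)]
      simp
  | succ j ih =>
    have h1 : ncount F (2 * (j + 1) + 1) = Fintype.card F ^ ((j + 1) ^ 2) *
        ∏ i ∈ Finset.range (j + 1), (Fintype.card F ^ (2 * (i + 1)) - 1) := by
      have h2 : 2 * (j + 1) + 1 = (2 * j + 2) + 1 := by ring
      rw [h2, ncount_succ (2 * j + 2) (by omega), ih.2, if_pos ⟨j + 1, by ring⟩,
        Finset.prod_range_succ]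
      have h3 : (j + 1) ^ 2 = (2 * j + 1) + j ^ 2 := by ring
      have h4 : 2 * j + 2 = 2 * (j + 1) := by ring
      rw [h3, pow_add, h4]
      ring
    refine ⟨h1, ?_⟩
    have h2 : 2 * (j + 1) + 2 = (2 * (j + 1) + 1) + 1 := by ring
    rw [h2, ncount_succ (2 * (j + 1) + 1) (by omega), h1,
      if_neg (by rw [Nat.not_odd_iff_even]; exact ⟨j + 2, by ring⟩), Nat.sub_zero]
    ring

end Recur

end Cfsg.Agent.Helper45.DotON
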