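import Cfsg.Agent.Helper45.SpCent4
import Cfsg.Agent.Helper45.DotON

set_option autoImplicit false
set_option linter.unusedSectionVars false

universe u

/-!
Centralisers of involutions of the symplectic group in characteristic two: the order of the
centraliser of an involution of type `b_s` or `c_s`.
-/

namespace Cfsg.Agent.Helper45.SpI

open Cfsg Matrix

variable {F : Type u} [Field F] [CharP F 2] {m : ℕ}

omit [CharP F 2] in
theorem shapeM_id (s : ℕ) : shapeM F (id : Fin s → Fin s) = 1 := by
  ext i j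
  simp [shapeM, Matrix.one_apply, eq_comm]

omit [CharP F 2] in
theorem card_shape_id (s : ℕ) :
    Nat.card {A : Matrix (Fin s) (Fin s) F //
        Aᵀ * shapeM F (id : Fin s → Fin s) * A = shapeM F id} = DotON.ncount F s := by
  rw [shapeM_id]
  unfold DotON.ncount
  exact Nat.card_congr (Equiv.subtypeEquivRight (fun A => by
    rw [Matrix.mul_one]
    exact mul_eq_one_comm))

theorem expD (m s : ℕ) (hs : s ≤ m) (h1 : 1 ≤ s) :
    2 * m * s - (3 * s ^ 2 - 3 * s) / 2 - 1 = 2 * m * s - (3 * s ^ 2 - s) / 2 + (s - 1) := by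
  obtain ⟨k, rfl⟩ := Nat.exists_eq_add_of_le hs
  have hT : s * (s - 1) / 2 * 2 + s = s ^ 2 := by
    rw [Nat.div_mul_cancel (Nat.even_mul_pred_self s).two_dvd]
    cases s with
    | zero => rfl
    | succ n => simp; ring
  have h2 : 2 * (s + k) * s = 2 * s ^ 2 + 2 * (s * k) := by ring
  rw [h2]
  generalize s ^ 2 = a at *
  generalize s * k = b at *
  generalize s * (s - 1) / 2 = T at *
  omega

variable [Fintype F]

/-- the order of the centraliser of an involution with `f(v, t v) ≠ 0` for some `v`, through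
the number of matrices `A` with `A Aᵀ = 1` -/
theorem card_centralizer_nonalt (q : ℕ) (hF : Fintype.card F = q)
    (t : Matrix.symplecticGroup (Fin m) F) (ht : t * t = 1) (s : ℕ) (hs : srank t = s)
    (hna : ∃ v, Helper13.sympB m F v (smv t v) ≠ 0) :
    Nat.card ↥(Subgroup.centralizer ({t} : Set (Matrix.symplecticGroup (Fin m) F))) =
      q ^ (2 * m * s - (3 * s ^ 2 - s) / 2) * DotON.ncount F s *
        (q ^ ((m - s) ^ 2) * ∏ i ∈ Finset.range (m - s), (q ^ (2 * (i + 1)) - 1)) := by
  obtain ⟨c, d, hf, hc⟩ := normal_nonalt t ht hna s hs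
  have hle : s ≤ m := by
    rw [← hs]
    exact srank_le t ht
  have key := card_centralizer_mul hf t hc
  have hpos := prod_frames_pos hf
  rw [Fintype.card_fin, hF] at key hpos
  rw [card_shape_id, Helper5.card_sp, hF] at key
  apply Nat.eq_of_mul_eq_mul_right hpos
  rw [key, ← sp_arith q m s hle]
  ring

/-- the order of the centraliser of an involution of type `b_s` (`s` odd) -/
theorem card_centralizer_odd (q : ℕ) (hF : Fintype.card F = q)
    (t : Matrix.symplecticGroup (Fin m) F) (ht : t * t = 1) (s : ℕ) (hs : srank t = s)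
    (hodd : Odd s) :
    Nat.card ↥(Subgroup.centralizer ({t} : Set (Matrix.symplecticGroup (Fin m) F))) =
      q ^ (2 * m * s - (3 * s ^ 2 - s) / 2) *
        (q ^ (((s - 1) / 2) ^ 2) * ∏ i ∈ Finset.range ((s - 1) / 2), (q ^ (2 * (i + 1)) - 1)) *
        (q ^ ((m - s) ^ 2) * ∏ i ∈ Finset.range (m - s), (q ^ (2 * (i + 1)) - 1)) := by
  have hna : ∃ v, Helper13.sympB m F v (smv t v) ≠ 0 := by
    by_contra hcon
    push Not at hcon
    obtain ⟨k, hk⟩ := alt_srank_even t ht hcon
    obtain ⟨j, hj⟩ := hodd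
    omega
  rw [card_centralizer_nonalt q hF t ht s hs hna]
  obtain ⟨j, rfl⟩ := hodd
  have h1 : (2 * j + 1 - 1) / 2 = j := by omega
  rw [h1, (DotON.ncount_odd_even j).1, hF]

/-- the order of the centraliser of an involution of type `c_s` (`s` even) -/
theorem card_centralizer_even_nonalt (q : ℕ) (hF : Fintype.card F = q)
    (t : Matrix.symplecticGroup (Fin m) F) (ht : t * t = 1) (s : ℕ) (hs : srank t = s)
    (heven : Even s) (hna : ∃ v, Helper13.sympB m F v (smv t v) ≠ 0) :
    Nat.card ↥(Subgroup.centralizer ({t} : Set (Matrix.symplecticGroup (Fin m) F))) =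
      q ^ (2 * m * s - (3 * s ^ 2 - 3 * s) / 2 - 1) *
        (q ^ (((s - 2) / 2) ^ 2) * ∏ i ∈ Finset.range ((s - 2) / 2), (q ^ (2 * (i + 1)) - 1)) *
        (q ^ ((m - s) ^ 2) * ∏ i ∈ Finset.range (m - s), (q ^ (2 * (i + 1)) - 1)) := by
  have hle : s ≤ m := by
    rw [← hs]
    exact srank_le t ht
  have hs1 : 1 ≤ s := by
    by_contra hcon
    have h0 : srank t = 0 := by omega
    have h1 : t = 1 := by
      by_contra hne
      have := srank_pos_of_ne_one t hne
      omega
    obtain ⟨v, hv⟩ := hna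
    rw [h1, smv_one] at hv
    exact hv (sB_self v)
  rw [card_centralizer_nonalt q hF t ht s hs hna, expD m s hle hs1]
  obtain ⟨k, hk⟩ := heven
  have hk1 : 1 ≤ k := by omega
  obtain ⟨j, rfl⟩ : ∃ j, k = j + 1 := ⟨k - 1, by omega⟩
  have h2 : s = 2 * j + 2 := by omega
  subst h2
  have h3 : (2 * j + 2 - 2) / 2 = j := by omega
  have h4 : 2 * j + 2 - 1 = 2 * j + 1 := by omega
  rw [h3, h4, (DotON.ncount_odd_even j).2, hF, pow_add]
  ring

end Cfsg.Agent.Helper45.SpI
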