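import Cfsg.Agent.Helper45.SpCent3
import Cfsg.Agent.Helper5.SympCard

set_option autoImplicit false
set_option linter.unusedSectionVars false

universe u

/-!
Centralisers of involutions of the symplectic group in characteristic two: the order of the
centraliser of an involution of type `a_s`.
-/

namespace Cfsg.Agent.Helper45.SpI
open Cfsg Matrix

variable {F : Type u} [Field F] [CharP F 2] {m : ℕ}

omit [CharP F 2] in
theorem srank_eq_rank (t : Matrix.symplecticGroup (Fin m) F) :
    srank t = ((t : Matrix (Fin m ⊕ Fin m) (Fin m ⊕ Fin m) F) - 1).rank := rfl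

theorem shapeM_swap_eq_J (k : ℕ) : shapeM F (Sum.swap : Fin k ⊕ Fin k → Fin k ⊕ Fin k) = Matrix.J (Fin k) F := by
  ext i j
  rcases i with i | i <;> rcases j with j | j <;>
    simp [shapeM, Matrix.J, Matrix.one_apply, CharTwo.neg_eq, eq_comm]

theorem prodA (q m s : ℕ) (hs : s ≤ m) :
    ∏ i ∈ Finset.range s, (q ^ (2 * m - i) - q ^ i) =
      q ^ (s * (s - 1) / 2) * ∏ i ∈ Finset.range s, (q ^ (2 * (m - i)) - 1) := by
  have h1 : ∀ i ∈ Finset.range s, q ^ (2 * m - i) - q ^ i = q ^ i * (q ^ (2 * (m - i)) - 1) := by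
    intro i hi
    rw [Finset.mem_range] at hi
    rw [Nat.mul_sub, mul_one, ← pow_add]
    congr 2
    omega
  rw [Finset.prod_congr rfl h1, Finset.prod_mul_distrib, Finset.prod_pow_eq_pow_sum,
    Finset.sum_range_id]

theorem prodB (q m : ℕ) : ∀ s, s ≤ m →
    ∏ i ∈ Finset.range m, (q ^ (2 * (i + 1)) - 1) =
      (∏ i ∈ Finset.range (m - s), (q ^ (2 * (i + 1)) - 1)) *
        ∏ i ∈ Finset.range s, (q ^ (2 * (m - i)) - 1) := by
  intro s
  induction s with
  | zero => intro _; simp
  | succ s ih =>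
    intro hs
    rw [ih (by omega), Finset.prod_range_succ]
    have h1 : m - s = (m - (s + 1)) + 1 := by omega
    rw [h1, Finset.prod_range_succ]
    have h2 : 2 * (m - (s + 1) + 1) = 2 * (m - s) := by omega
    rw [h2]
    ring

theorem expC (m s : ℕ) (hs : s ≤ m) :
    2 * m * s - (3 * s ^ 2 - s) / 2 + (m - s) ^ 2 + s * (s - 1) / 2 = m ^ 2 := by
  obtain ⟨k, rfl⟩ := Nat.exists_eq_add_of_le hs
  have h1 : s + k - s = k := by omega
  rw [h1]
  have hT : s * (s - 1) / 2 * 2 + s = s ^ 2 := by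
    rw [Nat.div_mul_cancel (Nat.even_mul_pred_self s).two_dvd]
    cases s with
    | zero => rfl
    | succ n => simp; ring
  have h2 : 2 * (s + k) * s = 2 * s ^ 2 + 2 * (s * k) := by ring
  have h3 : (s + k) ^ 2 = s ^ 2 + 2 * (s * k) + k ^ 2 := by ring
  rw [h2, h3]
  generalize s ^ 2 = a at *
  generalize s * k = b at *
  generalize k ^ 2 = c at *
  generalize s * (s - 1) / 2 = T at *
  omega

theorem sp_arith (q m s : ℕ) (hs : s ≤ m) :
    q ^ (2 * m * s - (3 * s ^ 2 - s) / 2) *
      (q ^ ((m - s) ^ 2) * ∏ i ∈ Finset.range (m - s), (q ^ (2 * (i + 1)) - 1)) *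
      ∏ i ∈ Finset.range s, (q ^ (2 * m - i) - q ^ i) =
    q ^ (m ^ 2) * ∏ i ∈ Finset.range m, (q ^ (2 * (i + 1)) - 1) := by
  rw [prodA q m s hs, prodB q m s hs, ← expC m s hs, pow_add, pow_add]
  ring

variable [Fintype F]

/-- the centraliser of an involution, the frames and the shape-preserving matrices -/
theorem card_centralizer_mul {κ : Type} [Fintype κ] [DecidableEq κ] {σ : κ → κ}
    {c d : κ → (Fin m ⊕ Fin m → F)} (h : InvFrame σ c d) (t : Matrix.symplecticGroup (Fin m) F)
    (ht : ∀ x, smv t x = x + frameN σ c x) :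
    Nat.card ↥(Subgroup.centralizer ({t} : Set (Matrix.symplecticGroup (Fin m) F))) *
        ∏ i ∈ Finset.range (Fintype.card κ), (Fintype.card F ^ (2 * m - i) - Fintype.card F ^ i) =
      Nat.card {A : Matrix κ κ F // Aᵀ * shapeM F σ * A = shapeM F σ} *
        Nat.card (Matrix.symplecticGroup (Fin m) F) := by
  rw [card_centralizer_eq h t ht, card_frames_eq h, card_sp_eq_frames h, card_frames σ h.invol]
  ring

theorem prod_frames_pos {κ : Type} [Fintype κ] [DecidableEq κ] {σ : κ → κ}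
    {c d : κ → (Fin m ⊕ Fin m → F)} (h : InvFrame σ c d) :
    0 < ∏ i ∈ Finset.range (Fintype.card κ),
      (Fintype.card F ^ (2 * m - i) - Fintype.card F ^ i) := by
  rw [← card_frames σ h.invol]
  have : Nonempty ↥{c' : κ → (Fin m ⊕ Fin m → F) | ∃ d', InvFrame σ c' d'} := ⟨⟨c, d, h⟩⟩
  exact Nat.card_pos

theorem card_shape_swap (k : ℕ) :
    Nat.card {A : Matrix (Fin k ⊕ Fin k) (Fin k ⊕ Fin k) F //
        Aᵀ * shapeM F (Sum.swap : Fin k ⊕ Fin k → Fin k ⊕ Fin k) * A = shapeM F Sum.swap} =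
      Nat.card (Matrix.symplecticGroup (Fin k) F) := by
  rw [shapeM_swap_eq_J]
  exact Nat.card_congr (Equiv.subtypeEquivRight (fun A => SymplecticGroup.mem_iff'.symm))

/-- the order of the centraliser of an involution of type `a_s` in `Sp_{2m}(q)`, `q` even -/
theorem card_centralizer_alt (q : ℕ) (hF : Fintype.card F = q)
    (t : Matrix.symplecticGroup (Fin m) F) (ht : t * t = 1) (s : ℕ) (hs : srank t = s)
    (halt : ∀ v, Helper13.sympB m F v (smv t v) = 0) :
    Nat.card ↥(Subgroup.centralizer ({t} : Set (Matrix.symplecticGroup (Fin m) F))) =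
      q ^ (2 * m * s - (3 * s ^ 2 - s) / 2) *
        (q ^ ((s / 2) ^ 2) * ∏ i ∈ Finset.range (s / 2), (q ^ (2 * (i + 1)) - 1)) *
        (q ^ ((m - s) ^ 2) * ∏ i ∈ Finset.range (m - s), (q ^ (2 * (i + 1)) - 1)) := by
  obtain ⟨k, c, d, hf, hc⟩ := normal_alt t ht halt
  have hsk : s = k + k := by
    rw [← hs, hf.srank_eq t hc, Fintype.card_sum, Fintype.card_fin]
  have hk : s / 2 = k := by omega
  have hle : s ≤ m := by
    rw [← hs]
    exact srank_le t ht
  have key := card_centralizer_mul hf t hc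
  have hpos := prod_frames_pos hf
  rw [Fintype.card_sum, Fintype.card_fin, hF, ← hsk] at key hpos
  rw [card_shape_swap, Helper5.card_sp, Helper5.card_sp, hF] at key
  apply Nat.eq_of_mul_eq_mul_right hpos
  rw [key, hk, ← sp_arith q m s hle]
  ring

end Cfsg.Agent.Helper45.SpI
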