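import Cfsg.Agent.Helper45.Center

set_option autoImplicit false

universe u

namespace Cfsg.Agent.Helper45

open Cfsg Matrix

section NegO

variable {ι : Type} [Fintype ι] [DecidableEq ι] {F : Type u} [Field F] (Q : QuadraticForm F (ι → F))

theorem negO_mem_iff_exists :
    negO Q ∈ Omega F ⇑Q ↔ ∃ g : ↥(isometryGroup F ⇑Q), g ∈ Omega F ⇑Q ∧
      ((g : GL ι F) : Matrix ι ι F) = -1 := by
  constructor
  · intro h
    exact ⟨negO Q, h, negO_coe Q⟩
  · rintro ⟨g, hg, hmat⟩
    have : g = negO Q := by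
      apply Subtype.ext
      apply Units.ext
      rw [hmat]
      rfl
    rw [← this]
    exact hg

end NegO

section PlusForm

variable {F : Type u} [Field F]

theorem plusQF_polar' (m : ℕ) (x y : Fin m ⊕ Fin m → F) :
    QuadraticMap.polar ⇑(Helper43.plusQF m F) x y =
      ∑ i : Fin m, (x (Sum.inl i) * y (Sum.inr i) + y (Sum.inl i) * x (Sum.inr i)) := by
  unfold QuadraticMap.polar
  rw [Helper43.plusQF_coe]
  unfold quadFormPlus
  simp only [Pi.add_apply]
  rw [← Finset.sum_sub_distrib, ← Finset.sum_sub_distrib]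
  apply Finset.sum_congr rfl
  intro i _
  ring

theorem plus_hypPairs (m : ℕ) :
    HypPairs (Helper43.plusQF m F) m (Sum.inl : Fin m → Fin m ⊕ Fin m) Sum.inr where
  hL := Sum.inl_injective
  hR := Sum.inr_injective
  hLR := fun a b => by simp
  hQL := fun a => by
    rw [Helper43.plusQF_coe]
    unfold quadFormPlus
    simp [Pi.single_apply]
  hQR := fun a => by
    rw [Helper43.plusQF_coe]
    unfold quadFormPlus
    simp [Pi.single_apply]
  hpL := fun a x => by
    rw [plusQF_polar']
    simp [Pi.single_apply, Finset.sum_ite_eq']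
  hpR := fun a x => by
    rw [plusQF_polar']
    simp [Pi.single_apply, Finset.sum_ite_eq']

theorem minus_hypPairs (k : ℕ) (a b : F) :
    HypPairs (Helper43.minusQF k F a b) k
      (fun i : Fin k => (Sum.inl (Sum.inl i) : (Fin k ⊕ Fin k) ⊕ Fin 2))
      (fun i : Fin k => (Sum.inl (Sum.inr i) : (Fin k ⊕ Fin k) ⊕ Fin 2)) where
  hL := fun i j h => by simpa using h
  hR := fun i j h => by simpa using h
  hLR := fun a b => by simp
  hQL := fun i => by
    rw [Helper43.minusQF_coe]
    unfold quadFormMinus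
    simp [Pi.single_apply]
  hQR := fun i => by
    rw [Helper43.minusQF_coe]
    unfold quadFormMinus
    simp [Pi.single_apply]
  hpL := fun i x => by
    rw [minusQF_polar]
    simp [Pi.single_apply, Finset.sum_ite_eq']
  hpR := fun i x => by
    rw [minusQF_polar]
    simp [Pi.single_apply, Finset.sum_ite_eq']

theorem oddQF_polar (m : ℕ) (x y : Unit ⊕ (Fin m ⊕ Fin m) → F) :
    QuadraticMap.polar ⇑(Helper43.oddQF m F) x y =
      2 * x (Sum.inl ()) * y (Sum.inl ()) +
      ∑ i : Fin m, (x (Sum.inr (Sum.inl i)) * y (Sum.inr (Sum.inr i)) +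
        y (Sum.inr (Sum.inl i)) * x (Sum.inr (Sum.inr i))) := by
  unfold QuadraticMap.polar
  rw [Helper43.oddQF_coe]
  unfold quadFormOdd
  simp only [Pi.add_apply]
  have h1 : ∑ i : Fin m, (x (Sum.inr (Sum.inl i)) + y (Sum.inr (Sum.inl i))) *
      (x (Sum.inr (Sum.inr i)) + y (Sum.inr (Sum.inr i))) =
      ∑ i : Fin m, x (Sum.inr (Sum.inl i)) * x (Sum.inr (Sum.inr i)) +
      ∑ i : Fin m, y (Sum.inr (Sum.inl i)) * y (Sum.inr (Sum.inr i)) +
      ∑ i : Fin m, (x (Sum.inr (Sum.inl i)) * y (Sum.inr (Sum.inr i)) +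
        y (Sum.inr (Sum.inl i)) * x (Sum.inr (Sum.inr i))) := by
    rw [← Finset.sum_add_distrib, ← Finset.sum_add_distrib]
    apply Finset.sum_congr rfl
    intro i _
    ring
  rw [h1]
  ring

theorem odd_hypPairs (m : ℕ) :
    HypPairs (Helper43.oddQF m F) m
      (fun i : Fin m => (Sum.inr (Sum.inl i) : Unit ⊕ (Fin m ⊕ Fin m)))
      (fun i : Fin m => (Sum.inr (Sum.inr i) : Unit ⊕ (Fin m ⊕ Fin m))) where
  hL := fun i j h => by simpa using h
  hR := fun i j h => by simpa using h
  hLR := fun a b => by simp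
  hQL := fun i => by
    rw [Helper43.oddQF_coe]
    unfold quadFormOdd
    simp [Pi.single_apply]
  hQR := fun i => by
    rw [Helper43.oddQF_coe]
    unfold quadFormOdd
    simp [Pi.single_apply]
  hpL := fun i x => by
    rw [oddQF_polar]
    simp [Pi.single_apply, Finset.sum_ite_eq']
  hpR := fun i x => by
    rw [oddQF_polar]
    simp [Pi.single_apply, Finset.sum_ite_eq']

/-- the polar form of the odd-dimensional form is non-degenerate in odd characteristic -/
theorem oddQF_nondeg' (m : ℕ) (h2 : (2 : F) ≠ 0) :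
    (QuadraticMap.polarBilin (Helper43.oddQF m F)).Nondegenerate := by
  have key : ∀ x : Unit ⊕ (Fin m ⊕ Fin m) → F,
      (∀ y, QuadraticMap.polar ⇑(Helper43.oddQF m F) x y = 0) → x = 0 := by
    intro x hx
    funext j
    rcases j with u | i | i
    · have h3 := hx (Pi.single (Sum.inl ()) 1)
      rw [oddQF_polar] at h3
      simp only [Pi.single_apply, reduceCtorEq, if_false, mul_zero, zero_mul, add_zero,
        Finset.sum_const_zero, if_true, mul_one] at h3
      exact (mul_eq_zero.mp h3).resolve_left h2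
    · have h3 := hx (Pi.single (Sum.inr (Sum.inr i)) 1)
      rw [oddQF_polar] at h3
      simpa [Pi.single_apply, Finset.sum_ite_eq'] using h3
    · have h3 := hx (Pi.single (Sum.inr (Sum.inl i)) 1)
      rw [oddQF_polar] at h3
      simpa [Pi.single_apply, Finset.sum_ite_eq'] using h3
  constructor
  · intro x hx
    exact key x hx
  · intro y hy
    apply key y
    intro x
    rw [QuadraticMap.polar_comm]
    exact hy x

end PlusForm

section Orders

theorem odd_pow_mod_four (q m : ℕ) (hq : Odd q) : q ^ m % 4 = 1 ∨ q ^ m % 4 = 3 := by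
  obtain ⟨k, hk⟩ := hq.pow (n := m)
  omega

theorem gcd_four_of_mod_zero (x : ℕ) (h : x % 4 = 0) : Nat.gcd 4 x = 4 := by
  rw [Nat.gcd_rec, h]
  rfl

theorem gcd_four_of_mod_two (x : ℕ) (h : x % 4 = 2) : Nat.gcd 4 x = 2 := by
  rw [Nat.gcd_rec, h]
  rfl

theorem gcd_four_of_odd (x : ℕ) (h : x % 2 = 1) : Nat.gcd 4 x = 1 := by
  have h4 : x % 4 = 1 ∨ x % 4 = 3 := by omega
  rcases h4 with h4 | h4
  · rw [Nat.gcd_rec, h4]
    rfl
  · rw [Nat.gcd_rec, h4]
    rfl

variable {F : Type u} [Field F] [Fintype F]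

theorem charP_two_of_even_card (h : Even (Fintype.card F)) : CharP F 2 := by
  apply ringChar.of_eq
  rw [FiniteField.even_card_iff_char_two]
  exact Nat.even_iff.mp h

theorem even_pow_sub_one_mod (q m : ℕ) (hq : Even q) (hq0 : 0 < q) (hm : 1 ≤ m) : (q ^ m - 1) % 2 = 1 := by
  have h1 : Even (q ^ m) := hq.pow_of_ne_zero (by omega)
  have h2 : 0 < q ^ m := pow_pos hq0 m
  obtain ⟨k, hk⟩ := h1
  omega

theorem even_pow_add_one_mod (q m : ℕ) (hq : Even q) (hm : 1 ≤ m) : (q ^ m + 1) % 2 = 1 := by
  have h1 : Even (q ^ m) := hq.pow_of_ne_zero (by omega)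
  obtain ⟨k, hk⟩ := h1
  omega

/-- the order of `PΩ⁺_{2m}(q)` in terms of the order of the orthogonal group -/
theorem plus_card_pomega (m : ℕ) (hm : 3 ≤ m) :
    Nat.gcd 4 (Fintype.card F ^ m - 1) * (2 * Nat.card (POmega F (quadFormPlus m F))) =
      Nat.card ↥(isometryGroup F (quadFormPlus m F)) := by
  have hnum : 2 ≤ 2 * m ∧ 2 * m ≠ 4 := by omega
  have hcard : 2 ≤ Fintype.card (Fin m ⊕ Fin m) := by
    rw [card_plus_index]
    exact hnum.1
  have hQ : (QuadraticMap.polarBilin (Helper43.plusQF m F)).Nondegenerate := plusQF_nondeg' m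
  have H : HypPairs (Helper43.plusQF m F) m Sum.inl Sum.inr := plus_hypPairs m
  rcases Nat.even_or_odd (Fintype.card F) with hev | hodd
  · have : CharP F 2 := charP_two_of_even_card hev
    have hex : (∃ t : F, t ≠ 0 ∧ t ≠ 1) ∨ Fintype.card (Fin m ⊕ Fin m) ≠ 4 := by
      right
      rw [card_plus_index]
      exact hnum.2
    have h1 : 2 * Nat.card (POmega F (quadFormPlus m F)) =
        Nat.card ↥(isometryGroup F (quadFormPlus m F)) := H.card_pomega_even hm hQ hcard hex
    rw [gcd_four_of_odd _ (even_pow_sub_one_mod _ m hev Fintype.card_pos (by omega)), one_mul]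
    exact h1
  · have h2 : (2 : F) ≠ 0 := two_ne_zero_of_odd_card hodd
    have h1 := H.card_pomega_odd hm hQ hcard h2
    have hiff := neg_one_mem_omega_plus_iff (F := F) (m := m) hodd (by omega)
    have hneg := negO_mem_iff_exists (Helper43.plusQF m F)
    rcases odd_pow_mod_four (Fintype.card F) m hodd with h | h
    · have h5 : 8 * Nat.card (POmega F (quadFormPlus m F)) =
          Nat.card ↥(isometryGroup F (quadFormPlus m F)) := h1.1 (hneg.mpr (hiff.mpr h))
      rw [gcd_four_of_mod_zero _ (by omega)]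
      omega
    · have h5 : 4 * Nat.card (POmega F (quadFormPlus m F)) =
          Nat.card ↥(isometryGroup F (quadFormPlus m F)) := h1.2 (fun hc => by
        have h6 := hiff.mp (hneg.mp hc)
        omega)
      rw [gcd_four_of_mod_two _ (by omega)]
      omega

/-- the order of `PΩ⁻_{2k+2}(q)` in terms of the order of the orthogonal group -/
theorem minus_card_pomega (k : ℕ) (hk : 3 ≤ k) (a b : F)
    (hab : ∀ z₁ z₂ : F, z₁ ^ 2 + a * z₁ * z₂ + b * z₂ ^ 2 = 0 → z₁ = 0 ∧ z₂ = 0) :
    Nat.gcd 4 (Fintype.card F ^ (k + 1) + 1) * (2 * Nat.card (POmega F (quadFormMinus k F a b))) =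
      Nat.card ↥(isometryGroup F (quadFormMinus k F a b)) := by
  have hnum : 2 ≤ 2 * k + 2 ∧ 2 * k + 2 ≠ 4 := by omega
  have hcard : 2 ≤ Fintype.card ((Fin k ⊕ Fin k) ⊕ Fin 2) := by
    rw [card_minus_index]
    exact hnum.1
  have hQ : (QuadraticMap.polarBilin (Helper43.minusQF k F a b)).Nondegenerate :=
    minusQF_nondeg' k a b hab
  have H := minus_hypPairs k a b
  rcases Nat.even_or_odd (Fintype.card F) with hev | hodd
  · have : CharP F 2 := charP_two_of_even_card hev
    have hex : (∃ t : F, t ≠ 0 ∧ t ≠ 1) ∨ Fintype.card ((Fin k ⊕ Fin k) ⊕ Fin 2) ≠ 4 := by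
      right
      rw [card_minus_index]
      exact hnum.2
    have h1 : 2 * Nat.card (POmega F (quadFormMinus k F a b)) =
        Nat.card ↥(isometryGroup F (quadFormMinus k F a b)) := H.card_pomega_even hk hQ hcard hex
    rw [gcd_four_of_odd _ (even_pow_add_one_mod _ (k + 1) hev (by omega)), one_mul]
    exact h1
  · have h2 : (2 : F) ≠ 0 := two_ne_zero_of_odd_card hodd
    have h1 := H.card_pomega_odd hk hQ hcard h2
    have hiff := neg_one_mem_omega_minus_iff (F := F) (m := k) hodd a b hab
    have hneg := negO_mem_iff_exists (Helper43.minusQF k F a b)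
    rcases odd_pow_mod_four (Fintype.card F) (k + 1) hodd with h | h
    · have h5 : 4 * Nat.card (POmega F (quadFormMinus k F a b)) =
          Nat.card ↥(isometryGroup F (quadFormMinus k F a b)) := h1.2 (fun hc => by
        have h6 := hiff.mp (hneg.mp hc)
        omega)
      rw [gcd_four_of_mod_two _ (by omega)]
      omega
    · have h5 : 8 * Nat.card (POmega F (quadFormMinus k F a b)) =
          Nat.card ↥(isometryGroup F (quadFormMinus k F a b)) := h1.1 (hneg.mpr (hiff.mpr h))
      rw [gcd_four_of_mod_zero _ (by omega)]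
      omega

/-- the order of `Ω_{2m+1}(q)`, `q` odd, in terms of the order of the orthogonal group -/
theorem odd_card_pomega (m : ℕ) (hm : 3 ≤ m) (hodd : Odd (Fintype.card F)) :
    4 * Nat.card (POmega F (quadFormOdd m F)) = Nat.card ↥(isometryGroup F (quadFormOdd m F)) := by
  have h2 : (2 : F) ≠ 0 := two_ne_zero_of_odd_card hodd
  have hci : Fintype.card (Unit ⊕ (Fin m ⊕ Fin m)) = 2 * m + 1 := by
    rw [Fintype.card_sum, Fintype.card_sum, Fintype.card_fin, Fintype.card_unit]
    ring
  have hnum : 2 ≤ 2 * m + 1 := by omega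
  have hcard : 2 ≤ Fintype.card (Unit ⊕ (Fin m ⊕ Fin m)) := by
    rw [hci]
    exact hnum
  have hQ : (QuadraticMap.polarBilin (Helper43.oddQF m F)).Nondegenerate := oddQF_nondeg' m h2
  have H := odd_hypPairs (F := F) m
  have h1 := H.card_pomega_odd hm hQ hcard h2
  have hnot : negO (Helper43.oddQF m F) ∉ Omega F ⇑(Helper43.oddQF m F) := by
    intro hc
    have h5 : negO (Helper43.oddQF m F) ∈ (detO (Helper43.oddQF m F)).ker :=
      Abelianization.commutator_subset_ker (detO (Helper43.oddQF m F)) hc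
    rw [MonoidHom.mem_ker] at h5
    have h6 := congrArg (fun x : Fˣ => (x : F)) h5
    simp only [detO_val, negO_coe, Units.val_one] at h6
    rw [Matrix.det_neg, Matrix.det_one, mul_one, hci, pow_succ, pow_mul] at h6
    apply h2
    have h7 : ((-1 : F) ^ 2) ^ m = 1 := by
      rw [neg_one_sq, one_pow]
    rw [h7] at h6
    linear_combination (-1 : F) * h6
  have h5 : 4 * Nat.card (POmega F (quadFormOdd m F)) =
      Nat.card ↥(isometryGroup F (quadFormOdd m F)) := h1.2 hnot
  exact h5

end Orders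

end Cfsg.Agent.Helper45
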