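import Cfsg.Agent.Helper45.OmegaPerfect

set_option autoImplicit false

/-!
Helper library (helper45): simplicity of `PΩ(Q) = Ω(Q)/Z(Ω(Q))` for every quadratic form `Q` with
non-degenerate polar form over a finite field, in dimension at least six (every characteristic), by
Iwasawa's argument for the action on singular points.
-/

universe u

namespace Cfsg.Agent.Helper45

open Cfsg Matrix

section Points

variable {ι : Type} [Fintype ι] [DecidableEq ι] {F : Type u} [Field F] [Fintype F]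
  (Q : QuadraticForm F (ι → F))

omit [Fintype F] in
/-- an Eichler transformation moving one singular vector to another -/
theorem eich_move (w w₁ w₂ : ι → F) (hw₁ : Q w₁ = 0) (hw₂ : Q w₂ = 0) (β : F) (hβ : β ≠ 0)
    (h1 : QuadraticMap.polar ⇑Q w w₁ = β) (h2 : QuadraticMap.polar ⇑Q w w₂ = β) :
    QuadraticMap.polar ⇑Q w (β⁻¹ • (w₁ - w₂)) = 0 ∧
      Helper44.eich Q w (β⁻¹ • (w₁ - w₂)) w₁ = w₂ := by
  constructor
  · rw [QuadraticMap.polar_smul_right, QuadraticMap.polar_sub_right, h1, h2, sub_self, smul_zero]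
  · have hcoef : QuadraticMap.polar ⇑Q (β⁻¹ • (w₁ - w₂)) w₁ -
        Q (β⁻¹ • (w₁ - w₂)) * QuadraticMap.polar ⇑Q w w₁ = 0 := by
      rw [QuadraticMap.polar_smul_left, QuadraticMap.polar_sub_left, polar_self_zero Q w₁ hw₁,
        QuadraticMap.map_smul, q_sub, hw₁, hw₂, h1, QuadraticMap.polar_comm ⇑Q w₂ w₁]
      simp only [smul_eq_mul]
      field_simp
      ring
    rw [Helper44.eich, hcoef, zero_smul, add_zero, h1, smul_smul, mul_inv_cancel₀ hβ, one_smul]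
    abel

omit [DecidableEq ι] [Fintype F] in
/-- a singular vector not orthogonal to either of two given non-zero singular vectors -/
theorem exists_sing_nonperp2 (hQ : (QuadraticMap.polarBilin Q).Nondegenerate)
    (hn : 5 ≤ Fintype.card ι) (w w' : ι → F) (hw : Q w = 0) (hw0 : w ≠ 0) (hw' : Q w' = 0)
    (hw'0 : w' ≠ 0) :
    ∃ s : ι → F, Q s = 0 ∧ QuadraticMap.polar ⇑Q s w ≠ 0 ∧ QuadraticMap.polar ⇑Q s w' ≠ 0 := by
  have hww : QuadraticMap.polar ⇑Q w w = 0 := by rw [QuadraticMap.polar_self, hw, smul_zero]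
  by_cases h : QuadraticMap.polar ⇑Q w w' = 0
  · obtain ⟨y₁, hy₁⟩ : ∃ y, QuadraticMap.polar ⇑Q y w ≠ 0 := by
      by_contra hcon
      push Not at hcon
      exact hw0 (hQ.1 w (fun y => by
        show QuadraticMap.polar ⇑Q w y = 0
        rw [QuadraticMap.polar_comm]; exact hcon y))
    obtain ⟨y₂, hy₂⟩ : ∃ y, QuadraticMap.polar ⇑Q y w' ≠ 0 := by
      by_contra hcon
      push Not at hcon
      exact hw'0 (hQ.1 w' (fun y => by
        show QuadraticMap.polar ⇑Q w' y = 0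
        rw [QuadraticMap.polar_comm]; exact hcon y))
    obtain ⟨y, hyw, hyw'⟩ : ∃ y, QuadraticMap.polar ⇑Q y w ≠ 0 ∧ QuadraticMap.polar ⇑Q y w' ≠ 0 := by
      by_cases h1 : QuadraticMap.polar ⇑Q y₁ w' = 0
      · by_cases h2 : QuadraticMap.polar ⇑Q y₂ w = 0
        · refine ⟨y₁ + y₂, ?_, ?_⟩
          · rw [QuadraticMap.polar_add_left, h2, add_zero]; exact hy₁
          · rw [QuadraticMap.polar_add_left, h1, zero_add]; exact hy₂
        · exact ⟨y₂, h2, hy₂⟩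
      · exact ⟨y₁, hy₁, h1⟩
    refine ⟨y + (-(Q y / QuadraticMap.polar ⇑Q y w)) • w, ?_, ?_, ?_⟩
    · rw [Helper13.Q_add', QuadraticMap.map_smul, hw, QuadraticMap.polar_smul_right]
      simp only [smul_eq_mul]
      field_simp
      ring
    · rw [QuadraticMap.polar_add_left, QuadraticMap.polar_smul_left, hww, smul_zero, add_zero]
      exact hyw
    · rw [QuadraticMap.polar_add_left, QuadraticMap.polar_smul_left, h, smul_zero, add_zero]
      exact hyw'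
  · obtain ⟨a, ha, hwa, hw'a⟩ := exists_nonsing_perp2 Q hQ hn w w'
    have hw'w' : QuadraticMap.polar ⇑Q w' w' = 0 := by rw [QuadraticMap.polar_self, hw', smul_zero]
    refine ⟨(w + (-(Q a / QuadraticMap.polar ⇑Q w w')) • w') + a, ?_, ?_, ?_⟩
    · rw [Helper13.Q_add', Helper13.Q_add', QuadraticMap.map_smul, hw, hw', QuadraticMap.polar_smul_right,
        QuadraticMap.polar_add_left, QuadraticMap.polar_smul_left, hwa, hw'a]
      simp only [smul_eq_mul]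
      field_simp
      ring
    · rw [QuadraticMap.polar_add_left, QuadraticMap.polar_add_left, QuadraticMap.polar_smul_left, hww,
        QuadraticMap.polar_comm ⇑Q a w, hwa, QuadraticMap.polar_comm ⇑Q w' w, smul_eq_mul, zero_add,
        add_zero, neg_mul, div_mul_cancel₀ _ h]
      exact neg_ne_zero.mpr ha
    · rw [QuadraticMap.polar_add_left, QuadraticMap.polar_add_left, QuadraticMap.polar_smul_left, hw'w',
        QuadraticMap.polar_comm ⇑Q a w', hw'a, smul_zero, add_zero, add_zero]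
      exact h

omit [DecidableEq ι] [Fintype F] in
/-- for orthogonal independent singular `u`, `w`: an Eichler transformation fixing `u` and moving `w` to a
vector not orthogonal to `w` -/
theorem exists_eich_tilt (hQ : (QuadraticMap.polarBilin Q).Nondegenerate)
    (hn : 5 ≤ Fintype.card ι) (u w : ι → F) (hw : Q w = 0)
    (huw : QuadraticMap.polar ⇑Q u w = 0) (hwu : ∀ t : F, w ≠ t • u) :
    ∃ (s v : ι → F), Q s = 0 ∧ QuadraticMap.polar ⇑Q s v = 0 ∧ QuadraticMap.polar ⇑Q s u = 0 ∧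
      QuadraticMap.polar ⇑Q v u = 0 ∧ QuadraticMap.polar ⇑Q (Helper44.eich Q s v w) w ≠ 0 := by
  have hww : QuadraticMap.polar ⇑Q w w = 0 := by rw [QuadraticMap.polar_self, hw, smul_zero]
  obtain ⟨y, huy, hwy⟩ := exists_perp_not_perp Q hQ u w hwu
  set s := y + (-(Q y / QuadraticMap.polar ⇑Q w y)) • w with hs
  have hQs : Q s = 0 := by
    rw [hs, Helper13.Q_add', QuadraticMap.map_smul, hw, QuadraticMap.polar_smul_right,
      QuadraticMap.polar_comm ⇑Q y w]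
    simp only [smul_eq_mul]
    field_simp
    ring
  have hsw : QuadraticMap.polar ⇑Q s w = QuadraticMap.polar ⇑Q w y := by
    rw [hs, QuadraticMap.polar_add_left, QuadraticMap.polar_smul_left, hww, smul_zero, add_zero,
      QuadraticMap.polar_comm]
  have hsu : QuadraticMap.polar ⇑Q s u = 0 := by
    rw [hs, QuadraticMap.polar_add_left, QuadraticMap.polar_smul_left, QuadraticMap.polar_comm ⇑Q y u,
      huy, QuadraticMap.polar_comm ⇑Q w u, huw, smul_zero, add_zero]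
  obtain ⟨v, hv, huv, hsv⟩ := exists_nonsing_perp2 Q hQ hn u s
  refine ⟨s, v, hQs, hsv, hsu, by rw [QuadraticMap.polar_comm]; exact huv, ?_⟩
  rw [Helper44.eich, QuadraticMap.polar_sub_left, QuadraticMap.polar_add_left,
    QuadraticMap.polar_smul_left, QuadraticMap.polar_smul_left, hww, hsw]
  simp only [smul_eq_mul]
  have e : 0 + (QuadraticMap.polar ⇑Q v w - Q v * QuadraticMap.polar ⇑Q w y) * QuadraticMap.polar ⇑Q w y
      - QuadraticMap.polar ⇑Q w y * QuadraticMap.polar ⇑Q v w =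
      -(Q v * QuadraticMap.polar ⇑Q w y * QuadraticMap.polar ⇑Q w y) := by ring
  rw [e]
  exact neg_ne_zero.mpr (mul_ne_zero (mul_ne_zero hv hwy) hwy)

end Points

section Trans

variable {ι : Type} [Fintype ι] [DecidableEq ι] {F : Type u} [Field F] [Fintype F]
  (Q : QuadraticForm F (ι → F))

omit [Fintype F] in
/-- an Eichler transformation at the point `w` is conjugate to one at `u`, by any isometry taking the
point of `u` to the point of `w` -/
theorem eichO_conj_eq (k : ↥(isometryGroup F ⇑Q)) (u w b : ι → F) (t : F) (ht : t ≠ 0)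
    (hkt : mv ⇑Q k u = t • w) (hu : Q u = 0) (hw : Q w = 0)
    (hwb : QuadraticMap.polar ⇑Q w b = 0) :
    ∃ (b₀ : ι → F) (hub₀ : QuadraticMap.polar ⇑Q u b₀ = 0),
      eichO Q w b hw hwb = k * eichO Q u b₀ hu hub₀ * k⁻¹ := by
  have hub₀ : QuadraticMap.polar ⇑Q u (mv ⇑Q k⁻¹ (t⁻¹ • b)) = 0 := by
    have h := mv_polar Q k u (mv ⇑Q k⁻¹ (t⁻¹ • b))
    rw [hkt, mv_inv_cancel, QuadraticMap.polar_smul_left, QuadraticMap.polar_smul_right, hwb] at h
    rw [← h]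
    simp
  refine ⟨mv ⇑Q k⁻¹ (t⁻¹ • b), hub₀, ?_⟩
  apply ext_mv
  intro x
  rw [mv_mul, mv_mul, mv_eichO, mv_eichO, mv_eich, mv_inv_cancel, hkt, mv_inv_cancel, eich_smul_left,
    smul_smul, mul_inv_cancel₀ ht, one_smul]

omit [Fintype F] in
/-- conjugating an Eichler transformation at `u` by an isometry fixing the point of `u` -/
theorem conj_eichO_fix (k : ↥(isometryGroup F ⇑Q)) (u b : ι → F) (t : F)
    (hkt : mv ⇑Q k u = t • u) (hu : Q u = 0) (hub : QuadraticMap.polar ⇑Q u b = 0) :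
    ∃ (b' : ι → F) (hub' : QuadraticMap.polar ⇑Q u b' = 0),
      k * eichO Q u b hu hub * k⁻¹ = eichO Q u b' hu hub' := by
  have hub' : QuadraticMap.polar ⇑Q u (t • mv ⇑Q k b) = 0 := by
    have h := mv_polar Q k u b
    rw [hkt, QuadraticMap.polar_smul_left, hub] at h
    rw [QuadraticMap.polar_smul_right]
    exact h
  refine ⟨t • mv ⇑Q k b, hub', ?_⟩
  apply ext_mv
  intro x
  rw [mv_mul, mv_mul, mv_eichO, mv_eichO, mv_eich, mv_inv_cancel, hkt, eich_smul_left]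

/-- a subgroup containing the stabiliser in `Ω` of a singular point and an element moving that point is
transitive on the singular points -/
theorem trans_of_stab (hQ : (QuadraticMap.polarBilin Q).Nondegenerate)
    (hn : 5 ≤ Fintype.card ι) (K : Subgroup ↥(isometryGroup F ⇑Q)) (u : ι → F) (hu : Q u = 0)
    (hstab : ∀ g ∈ Omega F ⇑Q, (∃ t : F, mv ⇑Q g u = t • u) → g ∈ K)
    (k : ↥(isometryGroup F ⇑Q)) (hk : k ∈ K) (hku : ∀ t : F, mv ⇑Q k u ≠ t • u) :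
    ∀ w : ι → F, Q w = 0 → w ≠ 0 → ∃ k' ∈ K, ∃ t : F, t ≠ 0 ∧ mv ⇑Q k' u = t • w := by
  -- the orbit of the point of `u`
  have hA : ∀ w : ι → F, (∃ k' ∈ K, ∃ t : F, t ≠ 0 ∧ mv ⇑Q k' u = t • w) →
      ∀ (b : ι → F) (hw : Q w = 0) (hwb : QuadraticMap.polar ⇑Q w b = 0), eichO Q w b hw hwb ∈ K := by
    rintro w ⟨k', hk', t, ht, hkt⟩ b hw hwb
    obtain ⟨b₀, hub₀, e⟩ := eichO_conj_eq Q k' u w b t ht hkt hu hw hwb
    rw [e]
    refine mul_mem (mul_mem hk' (hstab _ (eichO_mem_omega Q hQ hn u b₀ hu hub₀) ⟨1, ?_⟩)) (inv_mem hk')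
    rw [mv_eichO, eich_self Q u b₀ hu hub₀, one_smul]
  have hB : ∀ w w₁ w' : ι → F, Q w = 0 → (∃ k' ∈ K, ∃ t : F, t ≠ 0 ∧ mv ⇑Q k' u = t • w) →
      Q w₁ = 0 → (∃ k' ∈ K, ∃ t : F, t ≠ 0 ∧ mv ⇑Q k' u = t • w₁) →
      QuadraticMap.polar ⇑Q w w₁ ≠ 0 → Q w' = 0 → QuadraticMap.polar ⇑Q w w' ≠ 0 →
      ∃ k' ∈ K, ∃ t : F, t ≠ 0 ∧ mv ⇑Q k' u = t • w' := by
    rintro w w₁ w' hw hΔw hw₁ ⟨k₁, hk₁, t₁, ht₁, hk₁t⟩ hβ hw' hβ'
    set β := QuadraticMap.polar ⇑Q w w₁ with hβdef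
    set β' := QuadraticMap.polar ⇑Q w w' with hβ'def
    have hw₂ : Q ((β / β') • w') = 0 := by
      rw [QuadraticMap.map_smul, hw', smul_zero]
    have h2 : QuadraticMap.polar ⇑Q w ((β / β') • w') = β := by
      rw [QuadraticMap.polar_smul_right, ← hβ'def, smul_eq_mul, div_mul_cancel₀ _ hβ']
    obtain ⟨hwb, hmove⟩ := eich_move Q w w₁ ((β / β') • w') hw₁ hw₂ β hβ rfl h2
    have hg := hA w hΔw _ hw hwb
    refine ⟨eichO Q w _ hw hwb * k₁, mul_mem hg hk₁, t₁ * (β / β'),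
      mul_ne_zero ht₁ (div_ne_zero hβ hβ'), ?_⟩
    rw [mv_mul, hk₁t, mv_smul, mv_eichO, hmove, smul_smul]
  -- points of the orbit with a non-collinear neighbour in the orbit
  have hC : ∀ w w' : ι → F,
      (Q w = 0 ∧ (∃ k' ∈ K, ∃ t : F, t ≠ 0 ∧ mv ⇑Q k' u = t • w) ∧
        ∃ w₁ : ι → F, Q w₁ = 0 ∧ (∃ k' ∈ K, ∃ t : F, t ≠ 0 ∧ mv ⇑Q k' u = t • w₁) ∧
          QuadraticMap.polar ⇑Q w w₁ ≠ 0) →
      Q w' = 0 → QuadraticMap.polar ⇑Q w w' ≠ 0 →
      (Q w' = 0 ∧ (∃ k' ∈ K, ∃ t : F, t ≠ 0 ∧ mv ⇑Q k' u = t • w') ∧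
        ∃ w₁ : ι → F, Q w₁ = 0 ∧ (∃ k' ∈ K, ∃ t : F, t ≠ 0 ∧ mv ⇑Q k' u = t • w₁) ∧
          QuadraticMap.polar ⇑Q w' w₁ ≠ 0) := by
    rintro w w' ⟨hw, hΔw, w₁, hw₁, hΔw₁, hβ⟩ hw' hβ'
    refine ⟨hw', hB w w₁ w' hw hΔw hw₁ hΔw₁ hβ hw' hβ', w, hw, hΔw, ?_⟩
    rw [QuadraticMap.polar_comm]
    exact hβ'
  have hD : ∀ w w' : ι → F,
      (Q w = 0 ∧ (∃ k' ∈ K, ∃ t : F, t ≠ 0 ∧ mv ⇑Q k' u = t • w) ∧
        ∃ w₁ : ι → F, Q w₁ = 0 ∧ (∃ k' ∈ K, ∃ t : F, t ≠ 0 ∧ mv ⇑Q k' u = t • w₁) ∧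
          QuadraticMap.polar ⇑Q w w₁ ≠ 0) →
      Q w' = 0 → w' ≠ 0 → ∃ k' ∈ K, ∃ t : F, t ≠ 0 ∧ mv ⇑Q k' u = t • w' := by
    intro w w' hΔ hw' hw'0
    have hw0 : w ≠ 0 := by
      obtain ⟨-, -, w₁, -, -, hβ⟩ := hΔ
      rintro rfl
      apply hβ
      simp
    obtain ⟨s, hs, hsw, hsw'⟩ := exists_sing_nonperp2 Q hQ hn w w' hΔ.1 hw0 hw' hw'0
    have h1 := hC w s hΔ hs (by rw [QuadraticMap.polar_comm]; exact hsw)
    exact (hC s w' h1 hw' hsw').2.1
  -- the starting configuration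
  have hΔu : ∃ k' ∈ K, ∃ t : F, t ≠ 0 ∧ mv ⇑Q k' u = t • u :=
    ⟨1, one_mem K, 1, one_ne_zero, by rw [mv_one, one_smul]⟩
  have hw₀ : Q (mv ⇑Q k u) = 0 := by rw [mv_quad ⇑Q k]; exact hu
  have hΔw₀ : ∃ k' ∈ K, ∃ t : F, t ≠ 0 ∧ mv ⇑Q k' u = t • mv ⇑Q k u :=
    ⟨k, hk, 1, one_ne_zero, by rw [one_smul]⟩
  have hstart : ∃ w : ι → F, (Q w = 0 ∧ (∃ k' ∈ K, ∃ t : F, t ≠ 0 ∧ mv ⇑Q k' u = t • w) ∧
        ∃ w₁ : ι → F, Q w₁ = 0 ∧ (∃ k' ∈ K, ∃ t : F, t ≠ 0 ∧ mv ⇑Q k' u = t • w₁) ∧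
          QuadraticMap.polar ⇑Q w w₁ ≠ 0) := by
    by_cases h : QuadraticMap.polar ⇑Q u (mv ⇑Q k u) = 0
    · obtain ⟨s, v, hs, hsv, hsu, hvu, htilt⟩ := exists_eich_tilt Q hQ hn u (mv ⇑Q k u) hw₀ h hku
      have hhK : eichO Q s v hs hsv ∈ K := by
        apply hstab _ (eichO_mem_omega Q hQ hn s v hs hsv)
        refine ⟨1, ?_⟩
        rw [mv_eichO, eich_fix Q s v u hsu hvu, one_smul]
      refine ⟨mv ⇑Q k u, hw₀, hΔw₀, mv ⇑Q (eichO Q s v hs hsv) (mv ⇑Q k u), ?_, ?_, ?_⟩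
      · rw [mv_quad ⇑Q (eichO Q s v hs hsv)]
        exact hw₀
      · exact ⟨eichO Q s v hs hsv * k, mul_mem hhK hk, 1, one_ne_zero, by rw [mv_mul, one_smul]⟩
      · rw [QuadraticMap.polar_comm, mv_eichO]
        exact htilt
    · exact ⟨u, hu, hΔu, mv ⇑Q k u, hw₀, hΔw₀, h⟩
  obtain ⟨w, hw⟩ := hstart
  intro w' hw' hw'0
  exact hD w w' hw hw' hw'0

/-- **the stabiliser in `Ω` of a singular point is a maximal subgroup** -/
theorem omega_le_of_stab (hQ : (QuadraticMap.polarBilin Q).Nondegenerate)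
    (hn : 5 ≤ Fintype.card ι) (K : Subgroup ↥(isometryGroup F ⇑Q)) (hKΩ : K ≤ Omega F ⇑Q)
    (u : ι → F) (hu : Q u = 0) (hu0 : u ≠ 0)
    (hstab : ∀ g ∈ Omega F ⇑Q, (∃ t : F, mv ⇑Q g u = t • u) → g ∈ K)
    (k : ↥(isometryGroup F ⇑Q)) (hk : k ∈ K) (hku : ∀ t : F, mv ⇑Q k u ≠ t • u) :
    Omega F ⇑Q ≤ K := by
  intro g hg
  have hgu : Q (mv ⇑Q g u) = 0 := by rw [mv_quad ⇑Q g]; exact hu
  have hgu0 : mv ⇑Q g u ≠ 0 := by
    intro h
    apply hu0
    have h1 := mv_inv_cancel' Q g u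
    rw [h] at h1
    rw [← h1]
    exact Matrix.mulVec_zero _
  obtain ⟨k', hk', t, ht, hkt⟩ := trans_of_stab Q hQ hn K u hu hstab k hk hku (mv ⇑Q g u) hgu hgu0
  have h1 : g⁻¹ * k' ∈ K := by
    apply hstab _ (mul_mem (inv_mem hg) (hKΩ hk'))
    exact ⟨t, by rw [mv_mul, hkt, mv_smul, mv_inv_cancel']⟩
  have e : g = k' * (g⁻¹ * k')⁻¹ := by group
  rw [e]
  exact mul_mem hk' (inv_mem h1)

end Trans

section Scalar

variable {ι : Type} [Fintype ι] [DecidableEq ι] {F : Type u} [Field F] [Fintype F]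
  (Q : QuadraticForm F (ι → F))

omit [Fintype ι] [DecidableEq ι] [Fintype F] in
/-- a hyperbolic partner of `s` orthogonal to `p` -/
theorem exists_hyp_partner (hQ : (QuadraticMap.polarBilin Q).Nondegenerate)
    (p s : ι → F) (hs : Q s = 0) (hps : QuadraticMap.polar ⇑Q p s = 0) (hsp : ∀ t : F, s ≠ t • p) :
    ∃ t : ι → F, Q t = 0 ∧ QuadraticMap.polar ⇑Q s t = 1 ∧ QuadraticMap.polar ⇑Q p t = 0 := by
  obtain ⟨t₀, hxt₀, hst₀⟩ := exists_perp_not_perp Q hQ p s hsp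
  have hss : QuadraticMap.polar ⇑Q s s = 0 := by
    rw [QuadraticMap.polar_self, hs, smul_zero]
  set β := QuadraticMap.polar ⇑Q s t₀ with hβ
  refine ⟨β⁻¹ • t₀ + (-(β⁻¹ * β⁻¹ * Q t₀)) • s, ?_, ?_, ?_⟩
  · rw [Helper13.Q_add', QuadraticMap.map_smul, QuadraticMap.map_smul, hs,
      QuadraticMap.polar_smul_left, QuadraticMap.polar_smul_right, QuadraticMap.polar_comm ⇑Q t₀ s, ← hβ]
    simp only [smul_eq_mul]
    field_simp
    ring
  · rw [QuadraticMap.polar_add_right, QuadraticMap.polar_smul_right, QuadraticMap.polar_smul_right,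
      hss, smul_zero, add_zero, smul_eq_mul, ← hβ, inv_mul_cancel₀ hst₀]
  · rw [QuadraticMap.polar_add_right, QuadraticMap.polar_smul_right, QuadraticMap.polar_smul_right,
      hxt₀, hps, smul_zero, smul_zero, add_zero]

omit [Fintype F] in
theorem eig_eq_of_perp (g : ↥(isometryGroup F ⇑Q)) (u w : ι → F) (hu : Q u = 0) (hw : Q w = 0)
    (hu0 : u ≠ 0) (huw : QuadraticMap.polar ⇑Q u w = 0) (hwu : ∀ t : F, w ≠ t • u)
    (hfix : ∀ x : ι → F, Q x = 0 → x ≠ 0 → ∃ t : F, mv ⇑Q g x = t • x) (a b : F)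
    (ha : mv ⇑Q g u = a • u) (hb : mv ⇑Q g w = b • w) : a = b := by
  have hsum : Q (u + w) = 0 := by
    rw [Helper13.Q_add', hu, hw, huw, add_zero, add_zero]
  have hsum0 : u + w ≠ 0 := by
    intro h
    apply hwu (-1)
    rw [neg_smul, one_smul]
    exact eq_neg_of_add_eq_zero_right h
  obtain ⟨c, hc⟩ := hfix (u + w) hsum hsum0
  have h0 : a • u + b • w = c • u + c • w := by
    rw [← ha, ← hb, ← mv_add, hc, smul_add]
  have h : (a - c) • u = (c - b) • w := by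
    rw [sub_smul, sub_smul, sub_eq_sub_iff_add_eq_add, h0]
    abel
  by_cases hcb : c - b = 0
  · rw [hcb, zero_smul] at h
    rcases smul_eq_zero.mp h with h1 | h1
    · have h2 : a = c := sub_eq_zero.mp h1
      have h3 : c = b := sub_eq_zero.mp hcb
      rw [h2, h3]
    · exact absurd h1 hu0
  · exfalso
    apply hwu ((c - b)⁻¹ * (a - c))
    rw [mul_smul, h, smul_smul, inv_mul_cancel₀ hcb, one_smul]

omit [Fintype ι] [DecidableEq ι] [Fintype F] in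
theorem sing_ne_smul_of_perp (u w s : ι → F) (hs0 : s ≠ 0) (huw : QuadraticMap.polar ⇑Q u w ≠ 0)
    (hws : QuadraticMap.polar ⇑Q w s = 0) (t : F) : s ≠ t • u := by
  intro h
  by_cases ht : t = 0
  · apply hs0
    rw [h, ht, zero_smul]
  · rw [h, QuadraticMap.polar_smul_right, smul_eq_mul, QuadraticMap.polar_comm] at hws
    rcases mul_eq_zero.mp hws with h1 | h1
    · exact ht h1
    · exact huw h1

/-- the eigenvalues of an isometry fixing all singular points, on two singular vectors, agree -/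
theorem eig_eq (hn : 5 ≤ Fintype.card ι) (g : ↥(isometryGroup F ⇑Q))
    (hfix : ∀ x : ι → F, Q x = 0 → x ≠ 0 → ∃ t : F, mv ⇑Q g x = t • x) (u w : ι → F) (hu : Q u = 0)
    (hw : Q w = 0) (hu0 : u ≠ 0) (hw0 : w ≠ 0) (a b : F)
    (ha : mv ⇑Q g u = a • u) (hb : mv ⇑Q g w = b • w) : a = b := by
  by_cases hprop : ∃ t : F, w = t • u
  · obtain ⟨t, rfl⟩ := hprop
    rw [mv_smul, ha, smul_smul, smul_smul, mul_comm] at hb
    have h1 : (a * t - b * t) • u = 0 := by rw [sub_smul, hb, sub_self]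
    have ht : t ≠ 0 := by
      rintro rfl
      apply hw0
      rw [zero_smul]
    rcases smul_eq_zero.mp h1 with h2 | h2
    · have h3 : (a - b) * t = 0 := by rw [sub_mul]; exact h2
      rcases mul_eq_zero.mp h3 with h4 | h4
      · exact sub_eq_zero.mp h4
      · exact absurd h4 ht
    · exact absurd h2 hu0
  · push Not at hprop
    by_cases huw : QuadraticMap.polar ⇑Q u w = 0
    · exact eig_eq_of_perp Q g u w hu hw hu0 huw hprop hfix a b ha hb
    · obtain ⟨s, hs0, hs, hus, hws⟩ := exists_sing_perp2 Q hn u w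
      obtain ⟨c, hc⟩ := hfix s hs hs0
      have huw' : QuadraticMap.polar ⇑Q w u ≠ 0 := by rw [QuadraticMap.polar_comm]; exact huw
      have h1 := eig_eq_of_perp Q g u s hu hs hu0 hus (sing_ne_smul_of_perp Q u w s hs0 huw hws) hfix
        a c ha hc
      have h2 := eig_eq_of_perp Q g w s hw hs hw0 hws (sing_ne_smul_of_perp Q w u s hs0 huw' hus) hfix
        b c hb hc
      rw [h1, h2]

/-- **an isometry fixing every singular point is a scalar** -/
theorem scalar_of_fix_sing (hQ : (QuadraticMap.polarBilin Q).Nondegenerate)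
    (hn : 5 ≤ Fintype.card ι) (g : ↥(isometryGroup F ⇑Q))
    (hfix : ∀ x : ι → F, Q x = 0 → x ≠ 0 → ∃ t : F, mv ⇑Q g x = t • x) :
    ∃ l : F, ∀ x : ι → F, mv ⇑Q g x = l • x := by
  obtain ⟨u₀, hu₀0, hu₀, -, -⟩ := exists_sing_perp2 Q hn (0 : ι → F) 0
  obtain ⟨l, hl⟩ := hfix u₀ hu₀ hu₀0
  have hsing : ∀ x : ι → F, Q x = 0 → mv ⇑Q g x = l • x := by
    intro x hx
    by_cases hx0 : x = 0
    · rw [hx0, smul_zero]
      exact Matrix.mulVec_zero _
    · obtain ⟨t, ht⟩ := hfix x hx hx0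
      rw [ht, eig_eq Q hn g hfix x u₀ hx hu₀ hx0 hu₀0 t l ht hl]
  refine ⟨l, fun x => ?_⟩
  by_cases hx : Q x = 0
  · exact hsing x hx
  · obtain ⟨s, hs0, hs, hxs, -⟩ := exists_sing_perp2 Q hn x x
    obtain ⟨t, ht, hst, hxt⟩ := exists_hyp_partner Q hQ x s hs hxs (sing_ne_smul Q x s hx hs hs0)
    have hz : Q (x + (s + (-Q x) • t)) = 0 := by
      rw [Helper13.Q_add', Helper13.Q_add', QuadraticMap.map_smul, hs, ht, QuadraticMap.polar_smul_right,
        hst, QuadraticMap.polar_add_right, QuadraticMap.polar_smul_right, hxs, hxt]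
      simp
    have e : mv ⇑Q g x = mv ⇑Q g (x + (s + (-Q x) • t)) - mv ⇑Q g s + Q x • mv ⇑Q g t := by
      rw [← mv_smul, ← mv_sub, ← mv_add]
      congr 1
      rw [neg_smul]
      abel
    rw [e, hsing _ hz, hsing s hs, hsing t ht]
    funext i
    simp only [Pi.add_apply, Pi.sub_apply, Pi.smul_apply, smul_eq_mul]
    ring

end Scalar

section Iwasawa

variable {ι : Type} [Fintype ι] [DecidableEq ι] {F : Type u} [Field F] [Fintype F]
  (Q : QuadraticForm F (ι → F))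

omit [Fintype F] in
/-- an element of `Ω` acting as a scalar is central -/
theorem mem_center_of_scalar (g : ↥(Omega F ⇑Q)) (l : F)
    (hl : ∀ x : ι → F, mv ⇑Q (g : ↥(isometryGroup F ⇑Q)) x = l • x) :
    g ∈ Subgroup.center ↥(Omega F ⇑Q) := by
  rw [Subgroup.mem_center_iff]
  intro h
  apply Subtype.ext
  apply ext_mv
  intro x
  show mv ⇑Q ((h : ↥(isometryGroup F ⇑Q)) * (g : ↥(isometryGroup F ⇑Q))) x =
    mv ⇑Q ((g : ↥(isometryGroup F ⇑Q)) * (h : ↥(isometryGroup F ⇑Q))) x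
  rw [mv_mul, mv_mul, hl, hl, mv_smul]

omit [Fintype F] in
/-- the stabiliser in `Ω` of the point spanned by `u` -/
def stabPt (u : ι → F) (hu0 : u ≠ 0) : Subgroup ↥(Omega F ⇑Q) where
  carrier := {g | ∃ t : F, mv ⇑Q (g : ↥(isometryGroup F ⇑Q)) u = t • u}
  one_mem' := ⟨1, by
    rw [one_smul]
    exact mv_one ⇑Q u⟩
  mul_mem' := by
    rintro a b ⟨s, hs⟩ ⟨t, ht⟩
    refine ⟨t * s, ?_⟩
    show mv ⇑Q ((a : ↥(isometryGroup F ⇑Q)) * (b : ↥(isometryGroup F ⇑Q))) u = _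
    rw [mv_mul, ht, mv_smul, hs, smul_smul]
  inv_mem' := by
    rintro a ⟨s, hs⟩
    have hs0 : s ≠ 0 := by
      rintro rfl
      rw [zero_smul] at hs
      apply hu0
      have h1 := mv_inv_cancel' Q (a : ↥(isometryGroup F ⇑Q)) u
      rw [hs] at h1
      rw [← h1]
      exact Matrix.mulVec_zero _
    refine ⟨s⁻¹, ?_⟩
    show mv ⇑Q (a : ↥(isometryGroup F ⇑Q))⁻¹ u = _
    have h1 : mv ⇑Q (a : ↥(isometryGroup F ⇑Q))⁻¹ (s • u) = u := by
      rw [← hs, mv_inv_cancel']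
    rw [mv_smul] at h1
    calc mv ⇑Q (a : ↥(isometryGroup F ⇑Q))⁻¹ u
        = s⁻¹ • (s • mv ⇑Q (a : ↥(isometryGroup F ⇑Q))⁻¹ u) := by
          rw [smul_smul, inv_mul_cancel₀ hs0, one_smul]
      _ = s⁻¹ • u := by rw [h1]

omit [Fintype F] in
theorem eichO_zero (u : ι → F) (hu : Q u = 0) (h0 : QuadraticMap.polar ⇑Q u 0 = 0) :
    eichO Q u 0 hu h0 = 1 := by
  apply ext_mv
  intro x
  rw [mv_eichO, mv_one, eich_zero]

omit [Fintype F] in
/-- the group of Eichler transformations at the singular vector `u`, inside `Ω` -/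
def eichSub (u : ι → F) (hu : Q u = 0) : Subgroup ↥(Omega F ⇑Q) where
  carrier := {g | ∃ (b : ι → F) (hub : QuadraticMap.polar ⇑Q u b = 0),
    (g : ↥(isometryGroup F ⇑Q)) = eichO Q u b hu hub}
  one_mem' := ⟨0, by simp, (eichO_zero Q u hu (by simp)).symm⟩
  mul_mem' := by
    rintro a b ⟨b₁, h₁, e₁⟩ ⟨b₂, h₂, e₂⟩
    have h12 : QuadraticMap.polar ⇑Q u (b₁ + b₂) = 0 := by
      rw [QuadraticMap.polar_add_right, h₁, h₂, add_zero]
    refine ⟨b₁ + b₂, h12, ?_⟩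
    show (a : ↥(isometryGroup F ⇑Q)) * (b : ↥(isometryGroup F ⇑Q)) = _
    rw [e₁, e₂, eichO_mul Q u b₁ b₂ hu h₁ h₂ h12]
  inv_mem' := by
    rintro a ⟨b, hb, e⟩
    have hnb : QuadraticMap.polar ⇑Q u (-b) = 0 := by
      rw [QuadraticMap.polar_neg_right, hb, neg_zero]
    refine ⟨-b, hnb, ?_⟩
    show (a : ↥(isometryGroup F ⇑Q))⁻¹ = _
    rw [e]
    apply inv_eq_of_mul_eq_one_right
    apply ext_mv
    intro x
    rw [mv_mul, mv_eichO, mv_eichO, Helper44.eich_comp Q u b (-b) hu hb hnb, add_neg_cancel, eich_zero,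
      mv_one]

omit [Fintype F] in
theorem eichSub_comm (u : ι → F) (hu : Q u = 0) : IsMulCommutative ↥(eichSub Q u hu) := by
  refine ⟨⟨?_⟩⟩
  rintro ⟨a, b₁, h₁, e₁⟩ ⟨b, b₂, h₂, e₂⟩
  apply Subtype.ext
  apply Subtype.ext
  show (a : ↥(isometryGroup F ⇑Q)) * (b : ↥(isometryGroup F ⇑Q)) =
    (b : ↥(isometryGroup F ⇑Q)) * (a : ↥(isometryGroup F ⇑Q))
  rw [e₁, e₂, eichO_comm]

omit [DecidableEq ι] in
theorem exists_sing_ne_zero (hn : 5 ≤ Fintype.card ι) : ∃ u : ι → F, Q u = 0 ∧ u ≠ 0 := by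
  obtain ⟨u₀, hu₀0, hu₀, -, -⟩ := exists_sing_perp2 Q hn (0 : ι → F) 0
  exact ⟨u₀, hu₀, hu₀0⟩

/-- `Ω` is not trivial -/
theorem exists_omega_ne_one (hQ : (QuadraticMap.polarBilin Q).Nondegenerate)
    (hn : 5 ≤ Fintype.card ι) : ∃ g : ↥(Omega F ⇑Q), g ≠ 1 := by
  obtain ⟨u, hu, hu0⟩ := exists_sing_ne_zero Q hn
  obtain ⟨t, ht⟩ : ∃ t, QuadraticMap.polar ⇑Q u t ≠ 0 := by
    by_contra hcon
    push Not at hcon
    exact hu0 (hQ.1 u hcon)
  obtain ⟨s, hs0, hs, hus, hts⟩ := exists_sing_perp2 Q hn u t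
  refine ⟨⟨eichO Q u s hu hus, eichO_mem_omega Q hQ hn u s hu hus⟩, ?_⟩
  intro h
  have h1 : eichO Q u s hu hus = 1 := congrArg Subtype.val h
  have h2 : mv ⇑Q (eichO Q u s hu hus) t = t := by rw [h1, mv_one]
  rw [mv_eichO, Helper44.eich, QuadraticMap.polar_comm ⇑Q s t, hts, hs, zero_mul, sub_zero, zero_smul,
    add_zero] at h2
  have h3 : QuadraticMap.polar ⇑Q u t • s = 0 := by
    have h4 := sub_eq_self.mp h2
    exact h4
  rcases smul_eq_zero.mp h3 with h4 | h4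
  · exact ht h4
  · exact hs0 h4

/-- **Iwasawa's argument**: a normal subgroup of `Ω` not contained in the centre is all of `Ω` -/
theorem normal_eq_top (hQ : (QuadraticMap.polarBilin Q).Nondegenerate)
    (hn : 6 ≤ Fintype.card ι) (N : Subgroup ↥(Omega F ⇑Q)) [hNn : N.Normal]
    (hN : ¬ N ≤ Subgroup.center ↥(Omega F ⇑Q)) : N = ⊤ := by
  have hn5 : 5 ≤ Fintype.card ι := by omega
  obtain ⟨n, hnN, hnZ⟩ := SetLike.not_le_iff_exists.mp hN
  have hmove : ∃ u : ι → F, Q u = 0 ∧ u ≠ 0 ∧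
      ∀ t : F, mv ⇑Q (n : ↥(isometryGroup F ⇑Q)) u ≠ t • u := by
    by_contra hcon
    push Not at hcon
    obtain ⟨l, hl⟩ := scalar_of_fix_sing Q hQ hn5 (n : ↥(isometryGroup F ⇑Q))
      (fun x hx hx0 => hcon x hx hx0)
    exact hnZ (mem_center_of_scalar Q n l hl)
  obtain ⟨u, hu, hu0, hnu⟩ := hmove
  -- `N` and the stabiliser of the point of `u` generate `Ω`
  have hNH : N ⊔ stabPt Q u hu0 = ⊤ := by
    have h1 : Omega F ⇑Q ≤ (N ⊔ stabPt Q u hu0).map (Omega F ⇑Q).subtype := by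
      apply omega_le_of_stab Q hQ hn5 _ _ u hu hu0 _ (n : ↥(isometryGroup F ⇑Q)) _ hnu
      · rintro _ ⟨x, -, rfl⟩
        exact x.2
      · intro g hg hfix
        exact ⟨⟨g, hg⟩, (le_sup_right : stabPt Q u hu0 ≤ N ⊔ stabPt Q u hu0) hfix, rfl⟩
      · exact ⟨n, (le_sup_left : N ≤ N ⊔ stabPt Q u hu0) hnN, rfl⟩
    rw [eq_top_iff]
    intro g _
    obtain ⟨y, hy, hyg⟩ := h1 g.2
    have hyg' : y = g := Subtype.ext hyg
    rw [← hyg']
    exact hy
  -- `Ω` is transitive on singular points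
  have htrans : ∀ w : ι → F, Q w = 0 → w ≠ 0 →
      ∃ k' ∈ Omega F ⇑Q, ∃ t : F, t ≠ 0 ∧ mv ⇑Q k' u = t • w :=
    trans_of_stab Q hQ hn5 (Omega F ⇑Q) u hu (fun g hg _ => hg) (n : ↥(isometryGroup F ⇑Q)) n.2 hnu
  -- `N` and the Eichler transformations at `u` generate `Ω`
  have hNA : N ⊔ eichSub Q u hu = ⊤ := by
    have h0 : eichGroup Q ≤ (N ⊔ eichSub Q u hu).map (Omega F ⇑Q).subtype := by
      unfold eichGroup
      rw [Subgroup.closure_le]
      rintro _ ⟨w, b, hw, hwb, rfl⟩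
      by_cases hw0 : w = 0
      · have e1 : eichO Q w b hw hwb = 1 := by
          apply ext_mv
          intro x
          rw [mv_eichO, mv_one, hw0]
          simp [Helper44.eich]
        rw [e1]
        exact one_mem _
      · obtain ⟨k', hk'Ω, t, ht, hkt⟩ := htrans w hw hw0
        obtain ⟨b₀, hub₀, e⟩ := eichO_conj_eq Q k' u w b t ht hkt hu hw hwb
        have hk'mem : (⟨k', hk'Ω⟩ : ↥(Omega F ⇑Q)) ∈ N ⊔ stabPt Q u hu0 := by
          rw [hNH]
          trivial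
        rw [← SetLike.mem_coe, Subgroup.normal_mul] at hk'mem
        obtain ⟨n₁, hn₁, h₁, hh₁, hnh⟩ := hk'mem
        have he₀Ω : eichO Q u b₀ hu hub₀ ∈ Omega F ⇑Q := eichO_mem_omega Q hQ hn5 u b₀ hu hub₀
        have ha' : h₁ * ⟨eichO Q u b₀ hu hub₀, he₀Ω⟩ * h₁⁻¹ ∈ eichSub Q u hu := by
          obtain ⟨t₁, ht₁⟩ := hh₁
          obtain ⟨b', hub', e'⟩ := conj_eichO_fix Q (h₁ : ↥(isometryGroup F ⇑Q)) u b₀ t₁ ht₁ hu hub₀
          exact ⟨b', hub', e'⟩
        have hfinal : (⟨k', hk'Ω⟩ : ↥(Omega F ⇑Q)) * ⟨eichO Q u b₀ hu hub₀, he₀Ω⟩ *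
            (⟨k', hk'Ω⟩ : ↥(Omega F ⇑Q))⁻¹ ∈ N ⊔ eichSub Q u hu := by
          rw [← hnh]
          have e3 : n₁ * h₁ * ⟨eichO Q u b₀ hu hub₀, he₀Ω⟩ * (n₁ * h₁)⁻¹ =
              (n₁ * ((h₁ * ⟨eichO Q u b₀ hu hub₀, he₀Ω⟩ * h₁⁻¹) * n₁⁻¹ *
                (h₁ * ⟨eichO Q u b₀ hu hub₀, he₀Ω⟩ * h₁⁻¹)⁻¹)) *
              (h₁ * ⟨eichO Q u b₀ hu hub₀, he₀Ω⟩ * h₁⁻¹) := by group
          rw [e3]
          exact mul_mem ((le_sup_left : N ≤ N ⊔ eichSub Q u hu)
            (mul_mem hn₁ (hNn.conj_mem _ (inv_mem hn₁) _)))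
            ((le_sup_right : eichSub Q u hu ≤ N ⊔ eichSub Q u hu) ha')
        refine ⟨_, hfinal, ?_⟩
        rw [e]
        rfl
    have h1 : Omega F ⇑Q ≤ (N ⊔ eichSub Q u hu).map (Omega F ⇑Q).subtype := by
      intro g hg
      apply h0
      rw [← omega_eq_eichGroup Q hQ hn5]
      exact hg
    rw [eq_top_iff]
    intro g _
    obtain ⟨y, hy, hyg⟩ := h1 g.2
    have hyg' : y = g := Subtype.ext hyg
    rw [← hyg']
    exact hy
  have hcomm : commutator ↥(Omega F ⇑Q) ≤ N :=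
    Subgroup.Normal.commutator_le_of_self_sup_commutative_eq_top hNA (eichSub_comm Q u hu)
  rw [omega_perfect Q hQ hn] at hcomm
  exact top_le_iff.mp hcomm

/-- **`PΩ(Q)` is simple** for every quadratic form with non-degenerate polar form over a finite field, in
dimension at least six -/
theorem pomega_simple (hQ : (QuadraticMap.polarBilin Q).Nondegenerate)
    (hn : 6 ≤ Fintype.card ι) : IsSimpleGroup (POmega F ⇑Q) := by
  have hn5 : 5 ≤ Fintype.card ι := by omega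
  have hperf := omega_perfect Q hQ hn
  have hZ : Subgroup.center ↥(Omega F ⇑Q) ≠ ⊤ := by
    intro h
    have h1 := (commutator_eq_bot_iff_center_eq_top _).mpr h
    rw [hperf] at h1
    obtain ⟨g, hg⟩ := exists_omega_ne_one Q hQ hn5
    have h2 : g ∈ (⊤ : Subgroup ↥(Omega F ⇑Q)) := trivial
    rw [h1] at h2
    exact hg (Subgroup.mem_bot.mp h2)
  obtain ⟨g, hg⟩ : ∃ g : ↥(Omega F ⇑Q), g ∉ Subgroup.center ↥(Omega F ⇑Q) := by
    by_contra hcon
    push Not at hcon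
    exact hZ (eq_top_iff.mpr (fun x _ => hcon x))
  have hnt : Nontrivial (↥(Omega F ⇑Q) ⧸ Subgroup.center ↥(Omega F ⇑Q)) :=
    ⟨⟨(g : ↥(Omega F ⇑Q) ⧸ Subgroup.center ↥(Omega F ⇑Q)), 1,
      fun h => hg ((QuotientGroup.eq_one_iff g).mp h)⟩⟩
  show IsSimpleGroup (↥(Omega F ⇑Q) ⧸ Subgroup.center ↥(Omega F ⇑Q))
  refine { toNontrivial := hnt, eq_bot_or_eq_top_of_normal := ?_ }
  intro H hH
  have hcomapN : (H.comap (QuotientGroup.mk' (Subgroup.center ↥(Omega F ⇑Q)))).Normal :=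
    hH.comap _
  by_cases hle : H.comap (QuotientGroup.mk' (Subgroup.center ↥(Omega F ⇑Q))) ≤
      Subgroup.center ↥(Omega F ⇑Q)
  · left
    rw [eq_bot_iff]
    intro x hx
    obtain ⟨y, rfl⟩ := QuotientGroup.mk'_surjective (Subgroup.center ↥(Omega F ⇑Q)) x
    rw [Subgroup.mem_bot]
    exact (QuotientGroup.eq_one_iff y).mpr (hle (Subgroup.mem_comap.mpr hx))
  · right
    have h1 := normal_eq_top Q hQ hn _ hle
    rw [eq_top_iff]
    intro x _
    obtain ⟨y, rfl⟩ := QuotientGroup.mk'_surjective (Subgroup.center ↥(Omega F ⇑Q)) x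
    have h2 : y ∈ H.comap (QuotientGroup.mk' (Subgroup.center ↥(Omega F ⇑Q))) := by
      rw [h1]
      trivial
    exact Subgroup.mem_comap.mp h2

end Iwasawa

end Cfsg.Agent.Helper45
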