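import Cfsg.Agent.Helper45.PSO
import Cfsg.Agent.Helper45.D8

set_option autoImplicit false

universe u

namespace Cfsg.Agent.Helper45

open Cfsg Matrix

section PGO

variable {ι : Type} [Fintype ι] [DecidableEq ι] {F : Type u} [Field F]
  (Q : QuadraticForm F (ι → F))

/-- a similitude scales the polar form -/
theorem sim_polar (g : GL ι F) (c : F) (hc : ∀ v, Q ((g : Matrix ι ι F) *ᵥ v) = c * Q v) (x y : ι → F) :
    QuadraticMap.polar ⇑Q ((g : Matrix ι ι F) *ᵥ x) ((g : Matrix ι ι F) *ᵥ y) = c * QuadraticMap.polar ⇑Q x y := by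
  unfold QuadraticMap.polar
  rw [← Matrix.mulVec_add, hc, hc, hc]
  ring

/-- conjugating a reflection by a similitude gives the reflection in the image vector -/
theorem conjO_reflO (g : GL ι F) (hg : g ∈ Geo.quadSimilarityGroup (F := F) ⇑Q) (v : ι → F) (hv : Q v ≠ 0)
    (hgv : Q ((g : Matrix ι ι F) *ᵥ v) ≠ 0) :
    conjO ⇑Q g hg (reflO Q v hv) = reflO Q ((g : Matrix ι ι F) *ᵥ v) hgv := by
  have hg' := hg
  obtain ⟨c, hc⟩ := hg'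
  apply ext_mv
  intro x
  have e1 : mv ⇑Q (conjO ⇑Q g hg (reflO Q v hv)) x =
      (g : Matrix ι ι F) *ᵥ (reflectionMatrix ⇑Q v *ᵥ (((g⁻¹ : GL ι F) : Matrix ι ι F) *ᵥ x)) := by
    show ((g * ((reflO Q v hv : ↥(isometryGroup F ⇑Q)) : GL ι F) * g⁻¹ : GL ι F) : Matrix ι ι F) *ᵥ x = _
    rw [Units.val_mul, Units.val_mul, ← Matrix.mulVec_mulVec, ← Matrix.mulVec_mulVec]
    rfl
  have hgg : (g : Matrix ι ι F) *ᵥ (((g⁻¹ : GL ι F) : Matrix ι ι F) *ᵥ x) = x := by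
    rw [Matrix.mulVec_mulVec, ← Units.val_mul, mul_inv_cancel, Units.val_one, Matrix.one_mulVec]
  have hpol : QuadraticMap.polar ⇑Q ((g : Matrix ι ι F) *ᵥ v) x =
      (c : F) * QuadraticMap.polar ⇑Q v (((g⁻¹ : GL ι F) : Matrix ι ι F) *ᵥ x) := by
    rw [← sim_polar Q g c hc, hgg]
  rw [e1, Helper13.reflectionMatrix_mulVec, mv_reflO, Matrix.mulVec_sub, Matrix.mulVec_smul, hgg, hpol, hc]
  congr 2
  have hc0 : (c : F) ≠ 0 := c.ne_zero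
  field_simp

variable [Fintype F]

omit [Fintype F] in
theorem inn_le_psoAut : Inn (POmega F ⇑Q) ≤ psoAut F ⇑Q := by
  rintro _ ⟨x, rfl⟩
  obtain ⟨s, rfl⟩ := QuotientGroup.mk_surjective x
  rw [mem_psoAut_iff]
  refine ⟨((s : ↥(isometryGroup F ⇑Q)) : GL ι F), (mem_special_iff Q _).mpr ⟨s.1.2, ?_⟩, ind_conj Q s⟩
  have h1 : (s : ↥(isometryGroup F ⇑Q)) ∈ (detO Q).ker :=
    Abelianization.commutator_subset_ker (detO Q) s.2
  rw [MonoidHom.mem_ker] at h1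
  rw [← detO_val, h1, Units.val_one]

omit [Fintype F] in
theorem psoAut_le_pgoAut : psoAut F ⇑Q ≤ pgoAut F ⇑Q := by
  intro β hβ
  rw [mem_psoAut_iff] at hβ
  obtain ⟨g, hg, hind⟩ := hβ
  exact (mem_pgoAut_iff _ _).mpr ⟨g, specialIsometryGL_le _ hg, hind⟩

/-- `PGO / PΩ` is a four-group when `-1 ∉ Ω` -/
theorem pgo_mod_inn_klein (hodd : Odd (Fintype.card F)) (h2 : (2 : F) ≠ 0)
    (hQ : (QuadraticMap.polarBilin Q).Nondegenerate) (hcard : 2 ≤ Fintype.card ι)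
    (heven : Even (Fintype.card ι)) {n : ℕ} {J : Matrix ι ι F}
    {v₀ : ι → F} (D : KData ⇑Q n J v₀)
    (hsc : ∀ g : GL ι F, g ∈ Geo.quadSimilarityGroup (F := F) ⇑Q → Ind ⇑Q g 1 →
      ∃ c : F, (g : Matrix ι ι F) = c • (1 : Matrix ι ι F))
    (g₁ : GL ι F) (c₁ : F) (hg₁ : ∀ v, Q ((g₁ : Matrix ι ι F) *ᵥ v) = c₁ * Q v) (hc₁ : ¬ IsSquare c₁)
    (hdet₁ : (g₁ : Matrix ι ι F).det = c₁ ^ n)
    (g₂ : GL ι F) (hg₂ : ∀ v, Q ((g₂ : Matrix ι ι F) *ᵥ v) = Q v)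
    (hdet₂ : (g₂ : Matrix ι ι F).det = -1)
    (hneg : negO Q ∉ Omega F ⇑Q) :
    ∃ φ : ↥(pgoAut F ⇑Q) →* Multiplicative (ZMod 2 × ZMod 2),
      Function.Surjective φ ∧ φ.ker = (Inn (POmega F ⇑Q)).subgroupOf (pgoAut F ⇑Q) := by
  obtain ⟨φ, hs, hk⟩ := D.klein_four hodd hsc g₁ c₁ hg₁ hc₁ hdet₁ g₂ hg₂ hdet₂
  refine ⟨φ, hs, ?_⟩
  rw [hk]
  have : psoAut F ⇑Q = Inn (POmega F ⇑Q) :=
    le_antisymm (Subgroup.relIndex_eq_one.mp (pso_relIndex_one Q h2 hQ hcard heven hneg)) (inn_le_psoAut Q)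
  rw [this]

/-- `PGO / PΩ` is dihedral of order eight when `-1 ∈ Ω` -/
theorem pgo_mod_inn_d8 (hodd : Odd (Fintype.card F)) (h2 : (2 : F) ≠ 0)
    (hQ : (QuadraticMap.polarBilin Q).Nondegenerate) (hcard : 2 ≤ Fintype.card ι)
    {n : ℕ} {J : Matrix ι ι F}
    {v₀ : ι → F} (D : KData ⇑Q n J v₀)
    (hsc : ∀ g : GL ι F, g ∈ Geo.quadSimilarityGroup (F := F) ⇑Q → Ind ⇑Q g 1 →
      ∃ c : F, (g : Matrix ι ι F) = c • (1 : Matrix ι ι F))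
    (g₁ : GL ι F) (c₁ : F) (hg₁ : ∀ v, Q ((g₁ : Matrix ι ι F) *ᵥ v) = c₁ * Q v) (hc₁ : ¬ IsSquare c₁)
    (hdet₁ : (g₁ : Matrix ι ι F).det = c₁ ^ n)
    (g₂ : GL ι F) (hg₂ : ∀ v, Q ((g₂ : Matrix ι ι F) *ᵥ v) = Q v)
    (hdet₂ : (g₂ : Matrix ι ι F).det = -1)
    (hneg : negO Q ∈ Omega F ⇑Q) :
    ∃ φ : ↥(pgoAut F ⇑Q) →* DihedralGroup 4,
      Function.Surjective φ ∧ φ.ker = (Inn (POmega F ⇑Q)).subgroupOf (pgoAut F ⇑Q) := by
  obtain ⟨φ₀, hs₀, hk₀⟩ := D.klein_four hodd hsc g₁ c₁ hg₁ hc₁ hdet₁ g₂ hg₂ hdet₂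
  -- the order of the quotient
  have hidx4 : (psoAut F ⇑Q).relIndex (pgoAut F ⇑Q) = 4 := by
    unfold Subgroup.relIndex
    rw [← hk₀, Subgroup.index_ker, MonoidHom.range_eq_top.mpr hs₀, Subgroup.card_top, Nat.card_eq_fintype_card]
    rfl
  have hidx8 : (Inn (POmega F ⇑Q)).relIndex (pgoAut F ⇑Q) = 8 := by
    rw [← Subgroup.relIndex_mul_relIndex _ _ _ (inn_le_psoAut Q) (psoAut_le_pgoAut Q),
      pso_relIndex_two Q h2 hQ hcard hsc hneg, hidx4]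
  -- the two elements
  have hc₁0 : c₁ ≠ 0 := by
    rintro rfl
    exact hc₁ ⟨0, by simp⟩
  have hg₁mem : g₁ ∈ Geo.quadSimilarityGroup (F := F) ⇑Q := ⟨Units.mk0 c₁ hc₁0, hg₁⟩
  obtain ⟨u, hu⟩ := exists_norm_eq Q h2 hQ hcard 1
  have hu0 : Q u ≠ 0 := by rw [hu]; exact one_ne_zero
  have husq : IsSquare (Q u) := by rw [hu]; exact ⟨1, by ring⟩
  have hgu : Q ((g₁ : Matrix ι ι F) *ᵥ u) = c₁ := by rw [hg₁, hu, mul_one]
  have hgu0 : Q ((g₁ : Matrix ι ι F) *ᵥ u) ≠ 0 := by rw [hgu]; exact hc₁0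
  have hgunsq : ¬ IsSquare (Q ((g₁ : Matrix ι ι F) *ᵥ u)) := by rw [hgu]; exact hc₁
  obtain ⟨ε, hε⟩ := FiniteField.exists_nonsquare (ringChar_ne_two h2)
  obtain ⟨ru, hru⟩ : ∃ ru, ru = reflO Q u hu0 := ⟨_, rfl⟩
  obtain ⟨k, hkdef⟩ : ∃ k, k = conjO ⇑Q g₁ hg₁mem ru := ⟨_, rfl⟩
  have hkrefl : k = reflO Q ((g₁ : Matrix ι ι F) *ᵥ u) hgu0 := by
    rw [hkdef, hru]
    exact conjO_reflO Q g₁ hg₁mem u hu0 hgu0
  have vεu : spin ⇑Q ε ru = 1 := by rw [hru]; exact spin_eps_reflO_sq Q h2 ε hε u hu0 husq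
  have vεk : spin ⇑Q ε k = -1 := by rw [hkrefl]; exact spin_eps_reflO_nsq Q h2 ε hε _ hgu0 hgunsq
  have hrumem : ((ru : ↥(isometryGroup F ⇑Q)) : GL ι F) ∈ Geo.quadSimilarityGroup (F := F) ⇑Q :=
    iso_le_sim _ ru.2
  have hkmem : ((k : ↥(isometryGroup F ⇑Q)) : GL ι F) ∈ Geo.quadSimilarityGroup (F := F) ⇑Q :=
    iso_le_sim _ k.2
  obtain ⟨βa, hβadef⟩ : ∃ βa, βa = indAut ⇑Q ((ru : ↥(isometryGroup F ⇑Q)) : GL ι F) hrumem := ⟨_, rfl⟩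
  obtain ⟨βd, hβddef⟩ : ∃ βd, βd = indAut ⇑Q g₁ hg₁mem := ⟨_, rfl⟩
  have hβa : Ind ⇑Q ((ru : ↥(isometryGroup F ⇑Q)) : GL ι F) βa := by rw [hβadef]; exact ind_indAut _ _ _
  have hβd : Ind ⇑Q g₁ βd := by rw [hβddef]; exact ind_indAut _ _ _
  have hβamem : βa ∈ pgoAut F ⇑Q := (mem_pgoAut_iff _ _).mpr ⟨_, hrumem, hβa⟩
  have hβdmem : βd ∈ pgoAut F ⇑Q := (mem_pgoAut_iff _ _).mpr ⟨_, hg₁mem, hβd⟩
  -- the conjugate of `βa` by `βd` is induced by `k`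
  have hβk : Ind ⇑Q ((k : ↥(isometryGroup F ⇑Q)) : GL ι F) (βd * βa * βd⁻¹) := by
    have h1 := ind_mul ⇑Q (inv_mem hg₁mem) (ind_mul ⇑Q hrumem hβd hβa) (ind_inv ⇑Q hg₁mem hβd)
    rw [hkdef]
    exact h1
  have hne : ∃ v, Q v ≠ 0 := ⟨u, hu0⟩
  have mem_iff : ∀ (g : ↥(isometryGroup F ⇑Q)) (β : MulAut (POmega F ⇑Q)), Ind ⇑Q (g : GL ι F) β →
      (β ∈ Inn (POmega F ⇑Q) ↔ g ∈ Omega F ⇑Q) := fun g β hind =>
    ⟨omega_of_mem_inn Q hsc hneg hne g β hind, fun h => mem_inn_of_ind_omega Q g h β hind⟩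
  have hnormal : ((Inn (POmega F ⇑Q)).subgroupOf (pgoAut F ⇑Q)).Normal := inferInstance
  obtain ⟨A, hA⟩ : ∃ A : ↥(pgoAut F ⇑Q), A = ⟨βa, hβamem⟩ := ⟨_, rfl⟩
  obtain ⟨Dd, hDd⟩ : ∃ Dd : ↥(pgoAut F ⇑Q), Dd = ⟨βd, hβdmem⟩ := ⟨_, rfl⟩
  have hAc : (A : MulAut (POmega F ⇑Q)) = βa := by rw [hA]
  have hDc : (Dd : MulAut (POmega F ⇑Q)) = βd := by rw [hDd]
  -- the three facts
  have f1 : A * A ∈ (Inn (POmega F ⇑Q)).subgroupOf (pgoAut F ⇑Q) := by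
    rw [Subgroup.mem_subgroupOf]
    have h1 : Ind ⇑Q ((ru * ru : ↥(isometryGroup F ⇑Q)) : GL ι F) (βa * βa) := ind_mul ⇑Q hrumem hβa hβa
    have h3 : ((A * A : ↥(pgoAut F ⇑Q)) : MulAut (POmega F ⇑Q)) = βa * βa := by rw [hA]; rfl
    rw [h3, mem_iff _ _ h1, mem_omega_iff Q h2 hQ hcard ε hε, map_mul, map_mul, Int.units_mul_self,
      Int.units_mul_self]
    exact ⟨rfl, rfl⟩
  have f2 : (Dd * A * Dd⁻¹)⁻¹ * A ∉ (Inn (POmega F ⇑Q)).subgroupOf (pgoAut F ⇑Q) := by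
    intro h'
    rw [Subgroup.mem_subgroupOf] at h'
    have h3 : (((Dd * A * Dd⁻¹)⁻¹ * A : ↥(pgoAut F ⇑Q)) : MulAut (POmega F ⇑Q)) =
        (βd * βa * βd⁻¹)⁻¹ * βa := by rw [hA, hDd]; rfl
    have h1 : Ind ⇑Q ((k⁻¹ * ru : ↥(isometryGroup F ⇑Q)) : GL ι F) ((βd * βa * βd⁻¹)⁻¹ * βa) :=
      ind_mul ⇑Q hrumem (ind_inv ⇑Q hkmem hβk) hβa
    rw [h3, mem_iff _ _ h1, mem_omega_iff Q h2 hQ hcard ε hε, map_mul, map_mul, map_inv, map_inv,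
      vεu, vεk] at h'
    exact absurd h'.2 (by decide)
  have f3 : (A * (Dd * A * Dd⁻¹))⁻¹ * (Dd * A * Dd⁻¹ * A) ∈
      (Inn (POmega F ⇑Q)).subgroupOf (pgoAut F ⇑Q) := by
    rw [Subgroup.mem_subgroupOf]
    have h3 : (((A * (Dd * A * Dd⁻¹))⁻¹ * (Dd * A * Dd⁻¹ * A) : ↥(pgoAut F ⇑Q)) : MulAut (POmega F ⇑Q)) =
        (βa * (βd * βa * βd⁻¹))⁻¹ * (βd * βa * βd⁻¹ * βa) := by rw [hA, hDd]; rfl
    have h1 : Ind ⇑Q (((ru * k)⁻¹ * (k * ru) : ↥(isometryGroup F ⇑Q)) : GL ι F)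
        ((βa * (βd * βa * βd⁻¹))⁻¹ * (βd * βa * βd⁻¹ * βa)) :=
      ind_mul ⇑Q (mul_mem hkmem hrumem) (ind_inv ⇑Q (mul_mem hrumem hkmem) (ind_mul ⇑Q hkmem hβa hβk))
        (ind_mul ⇑Q hrumem hβk hβa)
    rw [h3, mem_iff _ _ h1, mem_omega_iff Q h2 hQ hcard ε hε]
    simp only [map_mul, map_inv]
    rw [mul_comm (spin ⇑Q 1 ru), mul_comm (spin ⇑Q ε ru), inv_mul_cancel, inv_mul_cancel]
    exact ⟨rfl, rfl⟩
  exact exists_hom_d8 _ hidx8 A Dd f1 f2 f3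

/-- version of `pgo_mod_inn_klein` for a form given as a function -/
theorem pgo_mod_inn_klein' (q : (ι → F) → F) (hq : ⇑Q = q) (hodd : Odd (Fintype.card F)) (h2 : (2 : F) ≠ 0)
    (hQ : (QuadraticMap.polarBilin Q).Nondegenerate) (hcard : 2 ≤ Fintype.card ι)
    (heven : Even (Fintype.card ι)) {n : ℕ} {J : Matrix ι ι F}
    {v₀ : ι → F} (D : KData q n J v₀)
    (hsc : ∀ g : GL ι F, g ∈ Geo.quadSimilarityGroup (F := F) q → Ind q g 1 →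
      ∃ c : F, (g : Matrix ι ι F) = c • (1 : Matrix ι ι F))
    (g₁ : GL ι F) (c₁ : F) (hg₁ : ∀ v, q ((g₁ : Matrix ι ι F) *ᵥ v) = c₁ * q v) (hc₁ : ¬ IsSquare c₁)
    (hdet₁ : (g₁ : Matrix ι ι F).det = c₁ ^ n)
    (g₂ : GL ι F) (hg₂ : ∀ v, q ((g₂ : Matrix ι ι F) *ᵥ v) = q v)
    (hdet₂ : (g₂ : Matrix ι ι F).det = -1)
    (hneg : negO Q ∉ Omega F ⇑Q) :
    ∃ φ : ↥(pgoAut F q) →* Multiplicative (ZMod 2 × ZMod 2),
      Function.Surjective φ ∧ φ.ker = (Inn (POmega F q)).subgroupOf (pgoAut F q) := by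
  subst hq
  exact pgo_mod_inn_klein Q hodd h2 hQ hcard heven D hsc g₁ c₁ hg₁ hc₁ hdet₁ g₂ hg₂ hdet₂ hneg

/-- version of `pgo_mod_inn_d8` for a form given as a function -/
theorem pgo_mod_inn_d8' (q : (ι → F) → F) (hq : ⇑Q = q) (hodd : Odd (Fintype.card F)) (h2 : (2 : F) ≠ 0)
    (hQ : (QuadraticMap.polarBilin Q).Nondegenerate) (hcard : 2 ≤ Fintype.card ι)
    {n : ℕ} {J : Matrix ι ι F}
    {v₀ : ι → F} (D : KData q n J v₀)
    (hsc : ∀ g : GL ι F, g ∈ Geo.quadSimilarityGroup (F := F) q → Ind q g 1 →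
      ∃ c : F, (g : Matrix ι ι F) = c • (1 : Matrix ι ι F))
    (g₁ : GL ι F) (c₁ : F) (hg₁ : ∀ v, q ((g₁ : Matrix ι ι F) *ᵥ v) = c₁ * q v) (hc₁ : ¬ IsSquare c₁)
    (hdet₁ : (g₁ : Matrix ι ι F).det = c₁ ^ n)
    (g₂ : GL ι F) (hg₂ : ∀ v, q ((g₂ : Matrix ι ι F) *ᵥ v) = q v)
    (hdet₂ : (g₂ : Matrix ι ι F).det = -1)
    (hneg : negO Q ∈ Omega F ⇑Q) :
    ∃ φ : ↥(pgoAut F q) →* DihedralGroup 4,
      Function.Surjective φ ∧ φ.ker = (Inn (POmega F q)).subgroupOf (pgoAut F q) := by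
  subst hq
  exact pgo_mod_inn_d8 Q hodd h2 hQ hcard D hsc g₁ c₁ hg₁ hc₁ hdet₁ g₂ hg₂ hdet₂ hneg

end PGO

section PlusMinus

variable {F : Type u} [Field F] [Fintype F] {m : ℕ}

theorem pgo_plus_mod_inn (hodd : Odd (Fintype.card F)) (hm : 4 ≤ m) :
    ((Odd m ∧ Fintype.card F % 4 = 3) →
      (∃ φ : ↥(pgoAut F (quadFormPlus m F)) →* Multiplicative (ZMod 2 × ZMod 2), Function.Surjective φ ∧
        φ.ker = (Inn (POmega F (quadFormPlus m F))).subgroupOf (pgoAut F (quadFormPlus m F)))) ∧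
    (¬ (Odd m ∧ Fintype.card F % 4 = 3) →
      (∃ φ : ↥(pgoAut F (quadFormPlus m F)) →* DihedralGroup 4, Function.Surjective φ ∧
        φ.ker = (Inn (POmega F (quadFormPlus m F))).subgroupOf (pgoAut F (quadFormPlus m F)))) := by
  have h2 := two_ne_zero_of_odd_card hodd
  have hchar : ringChar F ≠ 2 := ringChar_ne_two h2
  have hm3 : 3 ≤ m := by omega
  have hm1 : 1 ≤ m := by omega
  obtain ⟨i₀⟩ : Nonempty (Fin m) := ⟨⟨0, by omega⟩⟩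
  have hiff := negO_plus_mem_iff (m := m) hodd h2 hm1
  rw [(pow_mod_four _ m hodd).1] at hiff
  have hcard : 2 ≤ Fintype.card (Fin m ⊕ Fin m) := by rw [Fintype.card_sum, Fintype.card_fin]; omega
  have heven : Even (Fintype.card (Fin m ⊕ Fin m)) := by
    rw [Fintype.card_sum, Fintype.card_fin]; exact ⟨m, rfl⟩
  have D : KData (quadFormPlus m F) m (S2722.gramJ m F) (S2722.v0 F i₀) := by
    constructor
    · simp
    · exact S2722.quad_eq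
    · exact S2722.gramJ_transpose
    · exact S2722.gramJ_det
    · exact S2722.quad_v0 _
    · exact h2
  obtain ⟨c₁, hc₁⟩ := FiniteField.exists_nonsquare hchar
  have hc₁0 : c₁ ≠ 0 := by
    rintro rfl
    exact hc₁ ⟨0, by simp⟩
  obtain ⟨g₁, hg₁, hdet₁⟩ := S2722.exists_g1 (m := m) h2 c₁ hc₁0
  obtain ⟨g₂, hg₂, hdet₂⟩ := S2722.exists_g2 (F := F) i₀
  constructor
  · intro hc
    exact pgo_mod_inn_klein' (qPlus m F h2) (quadFormPlus m F) rfl hodd h2 (qPlus_nondeg h2) hcard heven D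
      (fun g hg h1 => scalar_of_ind_one_plus h2 hm3 g hg h1) g₁ c₁ hg₁ hc₁ hdet₁ g₂ hg₂ hdet₂
      (fun h => (hiff.mp h) hc)
  · intro hc
    exact pgo_mod_inn_d8' (qPlus m F h2) (quadFormPlus m F) rfl hodd h2 (qPlus_nondeg h2) hcard D
      (fun g hg h1 => scalar_of_ind_one_plus h2 hm3 g hg h1) g₁ c₁ hg₁ hc₁ hdet₁ g₂ hg₂ hdet₂
      (hiff.mpr hc)

theorem pgo_minus_mod_inn (hodd : Odd (Fintype.card F)) (hm : 3 ≤ m) (a b : F)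
    (hab : ∀ z₁ z₂ : F, z₁ ^ 2 + a * z₁ * z₂ + b * z₂ ^ 2 = 0 → z₁ = 0 ∧ z₂ = 0) :
    ((Even m ∧ Fintype.card F % 4 = 3) →
      (∃ φ : ↥(pgoAut F (quadFormMinus m F a b)) →* DihedralGroup 4, Function.Surjective φ ∧
        φ.ker = (Inn (POmega F (quadFormMinus m F a b))).subgroupOf (pgoAut F (quadFormMinus m F a b)))) ∧
    (¬ (Even m ∧ Fintype.card F % 4 = 3) →
      (∃ φ : ↥(pgoAut F (quadFormMinus m F a b)) →* Multiplicative (ZMod 2 × ZMod 2), Function.Surjective φ ∧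
        φ.ker = (Inn (POmega F (quadFormMinus m F a b))).subgroupOf (pgoAut F (quadFormMinus m F a b)))) := by
  have h2 := two_ne_zero_of_odd_card hodd
  have hchar : ringChar F ≠ 2 := ringChar_ne_two h2
  obtain ⟨i₀⟩ : Nonempty (Fin m) := ⟨⟨0, by omega⟩⟩
  have hR : Fintype.card F % 2 = 1 := by
    rcases hodd with ⟨k, hk⟩
    omega
  have D : KData (quadFormMinus m F a b) (m + 1) (S2726.gramM a b m)
      (S2726.v0M F i₀) := by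
    constructor
    · simp only [Fintype.card_sum, Fintype.card_fin]
      omega
    · exact S2726.quadM_eq a b
    · exact S2726.gramM_transpose a b
    · exact S2726.gramM_det a b h2 hab
    · exact S2726.quad_v0M a b _
    · exact h2
  have hpar : Odd (m + 1) ↔ Even m := by
    constructor
    · intro h
      rcases Nat.even_or_odd m with he | ho
      · exact he
      · exfalso
        obtain ⟨k, hk⟩ := h
        obtain ⟨l, hl⟩ := ho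
        omega
    · intro h
      exact h.add_one
  have hcard : 2 ≤ Fintype.card ((Fin m ⊕ Fin m) ⊕ Fin 2) := by
    rw [Fintype.card_sum, Fintype.card_sum, Fintype.card_fin, Fintype.card_fin]; omega
  have heven : Even (Fintype.card ((Fin m ⊕ Fin m) ⊕ Fin 2)) := by
    rw [Fintype.card_sum, Fintype.card_sum, Fintype.card_fin, Fintype.card_fin]; exact ⟨m + 1, by ring⟩
  have hex := FiniteField.exists_nonsquare hchar
  obtain ⟨c₁, hc₁⟩ := hex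
  have hc₁0 : c₁ ≠ 0 := by
    rintro rfl
    exact hc₁ ⟨0, by simp⟩
  have hex2 := S2726.exists_norm a b hR h2 (S2726.disc_ne a b h2 hab) c₁
  obtain ⟨z₁, z₂, hz⟩ := hex2
  have hex3 := S2726.exists_g1M (m := m) a b h2 c₁ hc₁0 z₁ z₂ hz
  obtain ⟨g₁, hg₁, hdet₁⟩ := hex3
  have hg2 := S2726.exists_g2M (F := F) (m := m) a b i₀
  obtain ⟨g₂, hg₂, hdet₂⟩ := hg2
  have hiff := negO_minus_mem_iff (m := m) hodd h2 a b hab
  rw [(pow_mod_four _ (m + 1) hodd).2] at hiff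
  rw [hpar] at hiff
  constructor
  · intro hc
    exact pgo_mod_inn_d8' (qMinus m F a b h2) (quadFormMinus m F a b) rfl hodd h2 (qMinus_nondeg a b h2 hab) hcard D
      (fun g hg h1 => scalar_of_ind_one_minus h2 hm a b hab g hg h1) g₁ c₁ hg₁ hc₁ hdet₁ g₂ hg₂ hdet₂
      (hiff.mpr hc)
  · intro hc
    exact pgo_mod_inn_klein' (qMinus m F a b h2) (quadFormMinus m F a b) rfl hodd h2 (qMinus_nondeg a b h2 hab) hcard heven D
      (fun g hg h1 => scalar_of_ind_one_minus h2 hm a b hab g hg h1) g₁ c₁ hg₁ hc₁ hdet₁ g₂ hg₂ hdet₂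
      (fun h => hc (hiff.mp h))

end PlusMinus

end Cfsg.Agent.Helper45
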