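import Cfsg.Agent.Helper45.OutB
import Cfsg.Agent.Helper45.PGO

set_option autoImplicit false
set_option linter.unusedSectionVars false
set_option linter.unusedSimpArgs false
set_option linter.unusedVariables false

/-!
Helper library (helper45), outer automorphisms of `PΩ(Q)`, part C: the field-automorphism
homomorphism `Aut(PΩ(Q)) → Aut(F)`, its kernel, a splitting lemma, and the odd-dimensional case.
-/

universe u

namespace Cfsg.Agent.Helper45.OO

open Cfsg Matrix Module Cfsg.Agent.Helper45.AO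

section Theta

variable {ι : Type} [Fintype ι] [DecidableEq ι] {F : Type u} [Field F] [Fintype F]
  (Q : QuadraticForm F (ι → F))

/-- **the field-automorphism homomorphism** `Aut(PΩ(Q)) → Aut(F)` -/
theorem exists_theta (hQ : (QuadraticMap.polarBilin Q).Nondegenerate) (hn7 : 7 ≤ Fintype.card ι)
    (hcase : 9 ≤ Fintype.card ι ∨ TS4free Q) :
    ∃ Θ : MulAut (POmega F ⇑Q) →* RingAut F,
      (∀ (g : GL ι F) (σ : F ≃+* F) (hg : IsSemisimilarityPair ⇑Q g σ),
        Θ (semiAut ⇑Q g σ hg) = σ) ∧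
      (∀ α : MulAut (POmega F ⇑Q), ∃ (g : GL ι F) (hg : IsSemisimilarityPair ⇑Q g (Θ α)),
        α = semiAut ⇑Q g (Θ α) hg) := by
  have hn : 5 ≤ Fintype.card ι := by omega
  have hex : ∀ α : MulAut (POmega F ⇑Q), ∃ σ : F ≃+* F,
      ∃ (g : GL ι F) (hg : IsSemisimilarityPair ⇑Q g σ), α = semiAut ⇑Q g σ hg := by
    intro α
    obtain ⟨g, σ, h1, h2⟩ := aut_induced Q hQ hn7 hcase α
    exact ⟨σ, g, h1, (semi_ind_iff ⇑Q g σ h1 α).mp h2⟩
  choose θ hθ using hex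
  have huniq : ∀ (g : GL ι F) (σ : F ≃+* F) (hg : IsSemisimilarityPair ⇑Q g σ),
      θ (semiAut ⇑Q g σ hg) = σ := by
    intro g σ hg
    obtain ⟨g', hg', e⟩ := hθ (semiAut ⇑Q g σ hg)
    exact (semi_unique Q hQ hn g g' σ _ hg hg' e).1
  refine ⟨{ toFun := θ, map_one' := ?_, map_mul' := ?_ }, huniq, hθ⟩
  · rw [← semiAut_one ⇑Q (semi_one ⇑Q)]
    exact huniq _ _ _
  · intro α β
    obtain ⟨g, hg, e⟩ := hθ α
    obtain ⟨g', hg', e'⟩ := hθ β
    have h1 : θ (α * β) = θ (semiAut ⇑Q g (θ α) hg * semiAut ⇑Q g' (θ β) hg') := by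
      rw [← e, ← e']
    rw [h1, semiAut_mul]
    exact huniq _ _ _

/-- the kernel of the field-automorphism homomorphism: the automorphisms induced by similarities -/
theorem theta_ker_iff (Θ : MulAut (POmega F ⇑Q) →* RingAut F)
    (hΘ1 : ∀ (g : GL ι F) (σ : F ≃+* F) (hg : IsSemisimilarityPair ⇑Q g σ),
        Θ (semiAut ⇑Q g σ hg) = σ)
    (hΘ2 : ∀ α : MulAut (POmega F ⇑Q), ∃ (g : GL ι F) (hg : IsSemisimilarityPair ⇑Q g (Θ α)),
        α = semiAut ⇑Q g (Θ α) hg) (α : MulAut (POmega F ⇑Q)) :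
    α ∈ Θ.ker ↔ IsSimilarityInducedAutPOmega ⇑Q α := by
  rw [MonoidHom.mem_ker]
  constructor
  · intro h
    obtain ⟨g, hg, e⟩ := hΘ2 α
    revert hg e
    rw [h]
    intro hg e
    exact ⟨g, hg, (semi_ind_iff ⇑Q g (RingEquiv.refl F) hg α).mpr e⟩
  · rintro ⟨g, hg, hind⟩
    have e := (semi_ind_iff ⇑Q g (RingEquiv.refl F) hg α).mp hind
    rw [e]
    exact hΘ1 g (RingEquiv.refl F) hg

omit [Fintype F] in
theorem inn_sim (α : MulAut (POmega F ⇑Q)) (h : α ∈ Inn (POmega F ⇑Q)) :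
    IsSimilarityInducedAutPOmega ⇑Q α := by
  obtain ⟨x, rfl⟩ := h
  obtain ⟨s, rfl⟩ := QuotientGroup.mk_surjective x
  exact ⟨((s : ↥(isometryGroup F ⇑Q)) : GL ι F), iso_le_sim _ s.1.2, ind_conj Q s⟩

end Theta

section Split

/-- a group with a normal subgroup `I`, a homomorphism onto a cyclic group of order `f` which is
split and whose kernel contains `I` with index two: the quotient by `I` is `2 × f` -/
theorem out_split {A : Type*} [Group A] (I : Subgroup A) [I.Normal] {C : Type*} [Group C]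
    (hcyc : IsCyclic C) (f : ℕ) (hC : Nat.card C = f) (Θ : A →* C) (s : C →* A)
    (hs : ∀ c, Θ (s c) = c) (hI : I ≤ Θ.ker) (hidx : I.relIndex Θ.ker = 2) :
    Nonempty (A ⧸ I ≃* Multiplicative (ZMod 2 × ZMod f)) := by
  classical
  obtain ⟨Θb, hΘb⟩ : ∃ Θb : A ⧸ I →* C, ∀ a : A, Θb (QuotientGroup.mk a) = Θ a :=
    ⟨QuotientGroup.lift I Θ hI, fun a => rfl⟩
  obtain ⟨K, hK⟩ : ∃ K : Subgroup (A ⧸ I), K = Θb.ker := ⟨_, rfl⟩
  have hKmap : K = Θ.ker.map (QuotientGroup.mk' I) := by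
    rw [hK]
    ext x
    obtain ⟨a, rfl⟩ := QuotientGroup.mk_surjective x
    rw [MonoidHom.mem_ker, hΘb, Subgroup.mem_map]
    constructor
    · intro h
      exact ⟨a, h, rfl⟩
    · rintro ⟨b, hb, hba⟩
      have h1 : b⁻¹ * a ∈ I := QuotientGroup.eq.mp hba
      have h2 := hI h1
      rw [MonoidHom.mem_ker, map_mul, map_inv, MonoidHom.mem_ker.mp hb] at h2
      simpa using h2
  have hKcard : Nat.card K = 2 := by
    rw [hKmap, ← Subgroup.relIndex_ker, QuotientGroup.ker_mk']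
    exact hidx
  have hKn : K.Normal := by
    rw [hK]
    infer_instance
  have hKc : ∀ k ∈ K, ∀ g : A ⧸ I, g * k = k * g := by
    intro k hk g
    by_cases hk1 : k = 1
    · rw [hk1]
      simp
    · have h1 : g * k * g⁻¹ ∈ K := hKn.conj_mem k hk g
      have h2 : g * k * g⁻¹ ≠ 1 := by
        intro h
        apply hk1
        have h3 : k = g⁻¹ * (g * k * g⁻¹) * g := by group
        rw [h3, h]
        group
      obtain ⟨y, hy, hy'⟩ := (Nat.card_eq_two_iff' (1 : K)).mp hKcard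
      have e1 := hy' ⟨k, hk⟩ (by
        intro h
        exact hk1 (congrArg Subtype.val h))
      have e2 := hy' ⟨g * k * g⁻¹, h1⟩ (by
        intro h
        exact h2 (congrArg Subtype.val h))
      have e3 : g * k * g⁻¹ = k := congrArg Subtype.val (e2.trans e1.symm)
      calc g * k = g * k * g⁻¹ * g := by group
        _ = k * g := by rw [e3]
  obtain ⟨sb, hsb⟩ : ∃ sb : C →* A ⧸ I, ∀ c, Θb (sb c) = c :=
    ⟨(QuotientGroup.mk' I).comp s, fun c => by
      show Θb (QuotientGroup.mk (s c)) = c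
      rw [hΘb, hs]⟩
  have hp1 : ∀ g : A ⧸ I, g * (sb (Θb g))⁻¹ ∈ K := by
    intro g
    rw [hK, MonoidHom.mem_ker, map_mul, map_inv, hsb, mul_inv_cancel]
  let p1 : A ⧸ I →* K :=
    { toFun := fun g => ⟨g * (sb (Θb g))⁻¹, hp1 g⟩
      map_one' := by
        apply Subtype.ext
        simp
      map_mul' := by
        intro g h
        apply Subtype.ext
        show g * h * (sb (Θb (g * h)))⁻¹ = (g * (sb (Θb g))⁻¹) * (h * (sb (Θb h))⁻¹)
        rw [map_mul, map_mul, _root_.mul_inv_rev]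
        have hc := hKc _ (hp1 h) (sb (Θb g))⁻¹
        calc g * h * ((sb (Θb h))⁻¹ * (sb (Θb g))⁻¹)
            = g * ((h * (sb (Θb h))⁻¹) * (sb (Θb g))⁻¹) := by group
          _ = g * ((sb (Θb g))⁻¹ * (h * (sb (Θb h))⁻¹)) := by rw [hc]
          _ = (g * (sb (Θb g))⁻¹) * (h * (sb (Θb h))⁻¹) := by group }
  have hp1v : ∀ g : A ⧸ I, ((p1 g : K) : A ⧸ I) = g * (sb (Θb g))⁻¹ := fun g => rfl
  have hbij : Function.Bijective (p1.prod Θb) := by
    constructor
    · intro g h hgh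
      have h1 : Θb g = Θb h := congrArg Prod.snd hgh
      have h2 : ((p1 g : K) : A ⧸ I) = ((p1 h : K) : A ⧸ I) :=
        congrArg (fun z : K × C => (z.1 : A ⧸ I)) hgh
      rw [hp1v, hp1v, h1] at h2
      exact mul_right_cancel h2
    · rintro ⟨k, c⟩
      refine ⟨(k : A ⧸ I) * sb c, ?_⟩
      have hk : Θb (k : A ⧸ I) = 1 := by
        have h3 : (k : A ⧸ I) ∈ Θb.ker := by
          rw [← hK]
          exact k.2
        exact h3
      have h1 : Θb ((k : A ⧸ I) * sb c) = c := by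
        rw [map_mul, hk, hsb, one_mul]
      apply Prod.ext
      · apply Subtype.ext
        show ((p1 ((k : A ⧸ I) * sb c) : K) : A ⧸ I) = k
        rw [hp1v, h1]
        group
      · exact h1
  have e1 : A ⧸ I ≃* K × C := MulEquiv.ofBijective (p1.prod Θb) hbij
  have hKcyc : IsCyclic K := isCyclic_of_prime_card (p := 2) hKcard
  have e2 : Multiplicative (ZMod 2) ≃* K := by
    have h3 := zmodCyclicMulEquiv hKcyc
    rw [hKcard] at h3
    exact h3
  have e3 : Multiplicative (ZMod f) ≃* C := by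
    have h3 := zmodCyclicMulEquiv hcyc
    rw [hC] at h3
    exact h3
  exact ⟨e1.trans ((MulEquiv.prodCongr e2.symm e3.symm).trans
    (MulEquiv.symm (MulEquiv.prodMultiplicative (ZMod 2) (ZMod f))))⟩

end Split

section Odd

variable {ι : Type} [Fintype ι] [DecidableEq ι] {F : Type u} [Field F] [Fintype F]
  (Q : QuadraticForm F (ι → F))

/-- the Gram matrix of the polar form -/
noncomputable def polarGram : Matrix ι ι F :=
  LinearMap.BilinForm.toMatrix' (QuadraticMap.polarBilin Q)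

omit [Fintype F] in
theorem polarGram_quad (v : ι → F) : 2 * Q v = v ⬝ᵥ (polarGram Q *ᵥ v) := by
  have h1 : v ⬝ᵥ (polarGram Q *ᵥ v) = Matrix.toBilin' (polarGram Q) v v :=
    (Matrix.toBilin'_apply' _ _ _).symm
  rw [h1, polarGram, Matrix.toBilin'_toMatrix']
  show 2 * Q v = QuadraticMap.polar ⇑Q v v
  rw [Helper44.polar_self_eq]

omit [Fintype F] in
theorem polarGram_symm : (polarGram Q)ᵀ = polarGram Q := by
  ext i j
  rw [Matrix.transpose_apply, polarGram, LinearMap.BilinForm.toMatrix'_apply,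
    LinearMap.BilinForm.toMatrix'_apply]
  exact QuadraticMap.polar_comm ⇑Q _ _

omit [Fintype F] in
theorem polarGram_det (hQ : (QuadraticMap.polarBilin Q).Nondegenerate) : (polarGram Q).det ≠ 0 := by
  rw [← Matrix.nondegenerate_iff_det_ne_zero, polarGram,
    LinearMap.BilinForm.nondegenerate_toMatrix'_iff]
  exact hQ

omit [Fintype F] in
/-- a nonzero scalar matrix as an element of `GL` -/
theorem exists_scGL (e : F) (he : e ≠ 0) :
    ∃ sc : GL ι F, (sc : Matrix ι ι F) = e • (1 : Matrix ι ι F) := by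
  refine ⟨Matrix.GeneralLinearGroup.scalar ι (Units.mk0 e he), ?_⟩
  rw [Matrix.GeneralLinearGroup.coe_scalar, Matrix.scalar_apply, ← Matrix.smul_one_eq_diagonal]
  rfl

omit [Fintype F] in
/-- in odd dimension a similarity is a scalar multiple of an isometry of determinant one -/
theorem sim_odd (h2 : (2 : F) ≠ 0) (hQ : (QuadraticMap.polarBilin Q).Nondegenerate)
    (hodd : Odd (Fintype.card ι)) (g : GL ι F) (hg : g ∈ Geo.quadSimilarityGroup (F := F) ⇑Q) :
    ∃ (sc : GL ι F) (e : F), (sc : Matrix ι ι F) = e • (1 : Matrix ι ι F) ∧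
      sc * g ∈ isometryGroup F ⇑Q ∧ ((sc * g : GL ι F) : Matrix ι ι F).det = 1 := by
  obtain ⟨c, hc⟩ := hg
  obtain ⟨k, hk⟩ := hodd
  have hG := gram_of_sim ⇑Q (polarGram Q) h2 (polarGram_quad Q) (polarGram_symm Q)
    (g : Matrix ι ι F) (c : F) hc
  have hdet := congrArg Matrix.det hG
  rw [Matrix.det_mul, Matrix.det_mul, Matrix.det_transpose, Matrix.det_smul, hk] at hdet
  have hJ0 := polarGram_det Q hQ
  obtain ⟨D, hD⟩ : ∃ D : F, D = (g : Matrix ι ι F).det := ⟨_, rfl⟩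
  rw [← hD] at hdet
  have hdd : D * D = (c : F) ^ (2 * k + 1) := by
    apply mul_right_cancel₀ hJ0
    linear_combination hdet
  have hc0 : (c : F) ≠ 0 := c.ne_zero
  have hck : (c : F) ^ k ≠ 0 := pow_ne_zero _ hc0
  have hD0 : D ≠ 0 := by
    rintro rfl
    rw [mul_zero] at hdd
    exact pow_ne_zero _ hc0 hdd.symm
  obtain ⟨d, hd⟩ : ∃ d : F, d = (c : F) ^ k / D := ⟨_, rfl⟩
  have hd0 : d ≠ 0 := by
    rw [hd]
    exact div_ne_zero hck hD0
  have hdc : d * d * (c : F) = 1 := by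
    rw [hd]
    field_simp
    linear_combination (-1 : F) * hdd
  obtain ⟨sc, hsc⟩ := exists_scGL (ι := ι) d hd0
  have hmv : ∀ w : ι → F, ((sc * g : GL ι F) : Matrix ι ι F) *ᵥ w = d • ((g : Matrix ι ι F) *ᵥ w) := by
    intro w
    rw [Units.val_mul, hsc, Matrix.smul_mul, Matrix.one_mul, Matrix.smul_mulVec]
  refine ⟨sc, d, hsc, ?_, ?_⟩
  · rw [mem_iso_iff]
    intro v
    rw [hmv, QuadraticMap.map_smul, hc, smul_eq_mul, ← mul_assoc, hdc, one_mul]
  · rw [Units.val_mul, hsc, Matrix.smul_mul, Matrix.one_mul, Matrix.det_smul, hk, ← hD]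
    have h3 : d ^ (2 * k + 1) * D = (d * d * (c : F)) ^ k * (d * D) / (c : F) ^ k := by
      field_simp
      ring
    rw [h3, hdc, one_pow, one_mul, hd]
    field_simp

/-- in odd dimension an isometry of determinant one inducing an inner automorphism lies in `Ω` -/
theorem omega_of_mem_inn_odd (h2 : (2 : F) ≠ 0) (hodd : Odd (Fintype.card ι))
    (hsc : ∀ g : GL ι F, g ∈ Geo.quadSimilarityGroup (F := F) ⇑Q → Ind ⇑Q g 1 →
      ∃ c : F, (g : Matrix ι ι F) = c • (1 : Matrix ι ι F))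
    (hne : ∃ v, Q v ≠ 0) (g : ↥(isometryGroup F ⇑Q))
    (hdet : ((g : GL ι F) : Matrix ι ι F).det = 1)
    (β : MulAut (POmega F ⇑Q)) (hβ : Ind ⇑Q (g : GL ι F) β) (hinn : β ∈ Inn (POmega F ⇑Q)) :
    g ∈ Omega F ⇑Q := by
  obtain ⟨x, rfl⟩ := hinn
  obtain ⟨s, rfl⟩ := QuotientGroup.mk_surjective x
  have h1 := ind_conj Q s
  have h3 := ind_mul ⇑Q (iso_le_sim _ g.2) (ind_inv ⇑Q (iso_le_sim _ s.1.2) h1) hβ
  rw [inv_mul_cancel] at h3
  obtain ⟨c, hc⟩ := hsc _ (mul_mem (inv_mem (iso_le_sim _ s.1.2)) (iso_le_sim _ g.2)) h3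
  obtain ⟨k, hkdef⟩ : ∃ k : ↥(isometryGroup F ⇑Q), k = (s : ↥(isometryGroup F ⇑Q))⁻¹ * g :=
    ⟨_, rfl⟩
  have hkc : ((k : GL ι F) : Matrix ι ι F) = c • (1 : Matrix ι ι F) := by
    rw [hkdef]
    exact hc
  have hk : ∀ x, mv ⇑Q k x = c • x := by
    intro x
    show ((k : GL ι F) : Matrix ι ι F) *ᵥ x = _
    rw [hkc, Matrix.smul_mulVec, Matrix.one_mulVec]
  obtain ⟨v, hv⟩ := hne
  have hcc : c * c = 1 := by
    have h4 := mv_quad ⇑Q k v
    rw [hk, QuadraticMap.map_smul, smul_eq_mul] at h4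
    exact mul_right_cancel₀ hv (by rw [h4, one_mul])
  have hg : g = s * k := by
    rw [hkdef, mul_inv_cancel_left]
  have hsdet : detO Q (s : ↥(isometryGroup F ⇑Q)) = 1 :=
    MonoidHom.mem_ker.mp (Abelianization.commutator_subset_ker (detO Q) s.2)
  have hgdet : detO Q g = 1 := by
    apply Units.ext
    rw [detO_val, hdet]
    rfl
  have hkdet : ((k : GL ι F) : Matrix ι ι F).det = 1 := by
    have h5 : detO Q k = 1 := by
      rw [hkdef, map_mul, map_inv, hsdet, hgdet, inv_one, one_mul]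
    have h6 := congrArg Units.val h5
    rw [detO_val] at h6
    exact h6
  rw [hkc, Matrix.det_smul, Matrix.det_one, mul_one] at hkdet
  rcases mul_self_eq_one_iff.mp hcc with rfl | rfl
  · have h7 : k = 1 := ext_mv Q _ _ (fun x => by rw [hk, one_smul, mv_one])
    rw [hg, h7, mul_one]
    exact s.2
  · exfalso
    rw [hodd.neg_one_pow] at hkdet
    apply h2
    linear_combination (-1 : F) * hkdet

/-- **odd dimension**: the inner automorphisms have index two in the group of automorphisms of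
`PΩ(Q)` induced by similarities -/
theorem odd_relIndex (h2 : (2 : F) ≠ 0) (hQ : (QuadraticMap.polarBilin Q).Nondegenerate)
    (hn : 5 ≤ Fintype.card ι) (hodd : Odd (Fintype.card ι))
    (K : Subgroup (MulAut (POmega F ⇑Q)))
    (hK : ∀ α, α ∈ K ↔ IsSimilarityInducedAutPOmega ⇑Q α) :
    (Inn (POmega F ⇑Q)).relIndex K = 2 := by
  have hcard : 2 ≤ Fintype.card ι := by omega
  have hsc := scalar_of_ind Q hQ hn
  rw [Subgroup.relIndex_eq_two_iff]
  obtain ⟨ε, hε⟩ := FiniteField.exists_nonsquare (ringChar_ne_two h2)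
  obtain ⟨ru, rw, v1u, vεu, v1w, vεw⟩ := exists_refl_pair Q h2 hQ hcard ε hε
  obtain ⟨g₀, hg₀⟩ : ∃ g₀ : ↥(isometryGroup F ⇑Q), g₀ = ru * rw := ⟨_, rfl⟩
  have hg₀1 : spin ⇑Q 1 g₀ = -1 := by
    rw [hg₀, map_mul, v1u, v1w]
    rfl
  have hg₀ε : spin ⇑Q ε g₀ = -1 := by
    rw [hg₀, map_mul, vεu, vεw]
    rfl
  have hg₀det : ((g₀ : GL ι F) : Matrix ι ι F).det = 1 :=
    (det_eq_one_iff Q h2 hQ ε hε g₀).mpr (by rw [hg₀1, hg₀ε]; rfl)
  have hβ₀ : Ind ⇑Q (g₀ : GL ι F) (indAut ⇑Q (g₀ : GL ι F) (iso_le_sim _ g₀.2)) :=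
    ind_indAut _ _ _
  have hne : ∃ v, Q v ≠ 0 := by
    obtain ⟨v, hv⟩ := exists_norm_eq Q h2 hQ hcard 1
    exact ⟨v, by rw [hv]; exact one_ne_zero⟩
  refine ⟨indAut ⇑Q (g₀ : GL ι F) (iso_le_sim _ g₀.2),
    (hK _).mpr ⟨g₀, iso_le_sim _ g₀.2, hβ₀⟩, ?_⟩
  intro β hβ
  obtain ⟨g, hgsim, hind⟩ := (hK β).mp hβ
  obtain ⟨sc, e, hsc1, hmem, hdet⟩ := sim_odd Q h2 hQ hodd g hgsim
  obtain ⟨g', hg'⟩ : ∃ g' : ↥(isometryGroup F ⇑Q), g' = ⟨sc * g, hmem⟩ := ⟨_, rfl⟩
  have hgc : ((g' : ↥(isometryGroup F ⇑Q)) : GL ι F) = sc * g := by rw [hg']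
  have hind' : Ind ⇑Q ((g' : ↥(isometryGroup F ⇑Q)) : GL ι F) β := by
    rw [hgc]
    have h5 := ind_mul ⇑Q hgsim (ind_scalar ⇑Q sc e hsc1) hind
    rwa [one_mul] at h5
  have hdet' : ((g' : GL ι F) : Matrix ι ι F).det = 1 := by
    rw [hgc]
    exact hdet
  have hχ : spin ⇑Q 1 g' * spin ⇑Q ε g' = 1 := (det_eq_one_iff Q h2 hQ ε hε g').mp hdet'
  have e1 : β ∈ Inn (POmega F ⇑Q) ↔ g' ∈ Omega F ⇑Q :=
    ⟨omega_of_mem_inn_odd Q h2 hodd hsc hne g' hdet' β hind',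
      fun h => mem_inn_of_ind_omega Q g' h β hind'⟩
  have hind2 : Ind ⇑Q ((g' * g₀ : ↥(isometryGroup F ⇑Q)) : GL ι F)
      (β * indAut ⇑Q (g₀ : GL ι F) (iso_le_sim _ g₀.2)) :=
    ind_mul ⇑Q (iso_le_sim _ g₀.2) hind' hβ₀
  have hdet2 : (((g' * g₀ : ↥(isometryGroup F ⇑Q)) : GL ι F) : Matrix ι ι F).det = 1 := by
    show (((g' : GL ι F) : Matrix ι ι F) * ((g₀ : GL ι F) : Matrix ι ι F)).det = 1
    rw [Matrix.det_mul, hdet', hg₀det, one_mul]
  have e2 : β * indAut ⇑Q (g₀ : GL ι F) (iso_le_sim _ g₀.2) ∈ Inn (POmega F ⇑Q) ↔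
      g' * g₀ ∈ Omega F ⇑Q :=
    ⟨omega_of_mem_inn_odd Q h2 hodd hsc hne _ hdet2 _ hind2,
      fun h => mem_inn_of_ind_omega Q _ h _ hind2⟩
  rw [e1, e2, mem_omega_iff Q h2 hQ hcard ε hε, mem_omega_iff Q h2 hQ hcard ε hε, map_mul, map_mul,
    hg₀1, hg₀ε]
  rcases Int.units_eq_one_or (spin ⇑Q ε g') with h3 | h3
  · have h1 : spin ⇑Q 1 g' = 1 := by
      rw [h3, mul_one] at hχ
      exact hχ
    rw [h1, h3]
    right
    exact ⟨⟨rfl, rfl⟩, by decide⟩
  · have h1 : spin ⇑Q 1 g' = -1 := by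
      rcases Int.units_eq_one_or (spin ⇑Q 1 g') with h | h
      · rw [h, h3] at hχ
        exact absurd hχ (by decide)
      · exact h
    rw [h1, h3]
    left
    exact ⟨⟨rfl, rfl⟩, by decide⟩

end Odd

end Cfsg.Agent.Helper45.OO
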