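import Cfsg.Agent.Helper45.OutC
import Cfsg.Agent.Helper45.DicksonRank

set_option autoImplicit false
set_option linter.unusedSectionVars false
set_option linter.unusedSimpArgs false
set_option linter.unusedVariables false
set_option linter.style.haveILetI false

/-!
Helper library (helper45), outer automorphisms of `PΩ(Q)`, part D: powers of the automorphism of a
semisimilarity pair, characteristic two (index of the inner automorphisms among those induced by
similarities), a cyclicity lemma, and the Frobenius-semilinear map of the minus-type form.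
-/

universe u

namespace Cfsg.Agent.Helper45.OO

open Cfsg Matrix Module Cfsg.Agent.Helper45.AO

section Pow

variable {ι : Type} [Fintype ι] [DecidableEq ι] {F : Type u} [Field F]

/-- powers of the automorphism of a pair -/
theorem semiAut_pow (Q : (ι → F) → F) (g : GL ι F) (σ : F ≃+* F) (hg : IsSemisimilarityPair Q g σ)
    (j : ℕ) :
    ∃ (g' : GL ι F) (τ : F ≃+* F) (_ : τ = (σ : RingAut F) ^ j) (hg' : IsSemisimilarityPair Q g' τ),
      semiAut Q g σ hg ^ j = semiAut Q g' τ hg' ∧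
      ∀ x, semiMap g' τ x = (semiMap g σ)^[j] x := by
  induction j with
  | zero =>
    refine ⟨1, RingEquiv.refl F, (pow_zero _).symm, semi_one Q, ?_, fun x => ?_⟩
    · rw [pow_zero, semiAut_one]
    · unfold semiMap
      rw [Units.val_one, Matrix.one_mulVec]
      rfl
  | succ j ih =>
    obtain ⟨g', τ, hτ, hg', hpow, hiter⟩ := ih
    refine ⟨g * glMap σ g', (σ * τ : RingAut F), ?_, semi_mul Q hg hg', ?_, fun x => ?_⟩
    · rw [hτ, pow_succ']
    · rw [pow_succ', hpow, semiAut_mul]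
    · rw [← semiMap_semiMap, hiter, Function.iterate_succ_apply']

variable [Fintype F] (Q : QuadraticForm F (ι → F))

/-- a semilinear semisimilarity comes from a pair -/
theorem exists_pair_of_SS (hQ : (QuadraticMap.polarBilin Q).Nondegenerate)
    {Φ : (ι → F) → (ι → F)} {σ : F ≃+* F} {c : F} (h : SS Q Φ σ c) :
    ∃ g : GL ι F, IsSemisimilarityPair ⇑Q g σ ∧ ∀ x, semiMap g σ x = Φ x := by
  obtain ⟨g, hg⟩ : ∃ g : GL ι F, (g : Matrix ι ι F) = ssMat Φ :=
    ⟨(h.isUnit hQ).unit, IsUnit.unit_spec (h.isUnit hQ)⟩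
  have hmap : ∀ x, semiMap g σ x = Φ x := by
    intro x
    unfold semiMap
    rw [hg, h.mulVec]
  refine ⟨g, ⟨Units.mk0 c h.c0, fun v => ?_⟩, hmap⟩
  show Q (semiMap g σ v) = c * σ (Q v)
  rw [hmap, h.quad]

end Pow

section CharTwo

variable {ι : Type} [Fintype ι] [DecidableEq ι] {F : Type u} [Field F] [Fintype F] [CharP F 2]
  (Q : QuadraticForm F (ι → F))

/-- in characteristic two a similarity is a scalar multiple of an isometry -/
theorem sim_char2 (g : GL ι F) (hg : g ∈ Geo.quadSimilarityGroup (F := F) ⇑Q) :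
    ∃ (sc : GL ι F) (e : F), (sc : Matrix ι ι F) = e • (1 : Matrix ι ι F) ∧
      sc * g ∈ isometryGroup F ⇑Q := by
  obtain ⟨c, hc⟩ := hg
  obtain ⟨d, hd⟩ := FiniteField.isSquare_of_char_two (ringChar.eq F 2) ((c : F)⁻¹)
  have hc0 : (c : F) ≠ 0 := c.ne_zero
  have hd0 : d ≠ 0 := by
    rintro rfl
    rw [mul_zero] at hd
    exact inv_ne_zero hc0 hd
  obtain ⟨sc, hsc⟩ := exists_scGL (ι := ι) d hd0
  refine ⟨sc, d, hsc, ?_⟩
  rw [mem_iso_iff]
  intro v
  rw [Units.val_mul, hsc, Matrix.smul_mul, Matrix.one_mul, Matrix.smul_mulVec,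
    QuadraticMap.map_smul, hc, smul_eq_mul, ← mul_assoc, ← hd, inv_mul_cancel₀ hc0, one_mul]

omit [Fintype F] in
/-- in characteristic two an isometry inducing an inner automorphism lies in `Ω` -/
theorem omega_of_mem_inn_char2
    (hsc : ∀ g : GL ι F, g ∈ Geo.quadSimilarityGroup (F := F) ⇑Q → Ind ⇑Q g 1 →
      ∃ c : F, (g : Matrix ι ι F) = c • (1 : Matrix ι ι F))
    (hne : ∃ v, Q v ≠ 0) (g : ↥(isometryGroup F ⇑Q))
    (β : MulAut (POmega F ⇑Q)) (hβ : Ind ⇑Q (g : GL ι F) β) (hinn : β ∈ Inn (POmega F ⇑Q)) :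
    g ∈ Omega F ⇑Q := by
  obtain ⟨x, rfl⟩ := hinn
  obtain ⟨s, rfl⟩ := QuotientGroup.mk_surjective x
  have h1 := ind_conj Q s
  have h3 := ind_mul ⇑Q (iso_le_sim _ g.2) (ind_inv ⇑Q (iso_le_sim _ s.1.2) h1) hβ
  rw [inv_mul_cancel] at h3
  obtain ⟨c, hc⟩ := hsc _ (mul_mem (inv_mem (iso_le_sim _ s.1.2)) (iso_le_sim _ g.2)) h3
  obtain ⟨k, hkdef⟩ : ∃ k : ↥(isometryGroup F ⇑Q), k = (s : ↥(isometryGroup F ⇑Q))⁻¹ * g :=
    ⟨_, rfl⟩
  have hkc : ((k : GL ι F) : Matrix ι ι F) = c • (1 : Matrix ι ι F) := by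
    rw [hkdef]
    exact hc
  have hk : ∀ x, mv ⇑Q k x = c • x := by
    intro x
    show ((k : GL ι F) : Matrix ι ι F) *ᵥ x = _
    rw [hkc, Matrix.smul_mulVec, Matrix.one_mulVec]
  obtain ⟨v, hv⟩ := hne
  have hcc : c * c = 1 := by
    have h4 := mv_quad ⇑Q k v
    rw [hk, QuadraticMap.map_smul, smul_eq_mul] at h4
    exact mul_right_cancel₀ hv (by rw [h4, one_mul])
  have hg : g = s * k := by
    rw [hkdef, mul_inv_cancel_left]
  have hc1 : c = 1 := by
    rcases mul_self_eq_one_iff.mp hcc with h | h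
    · exact h
    · rw [h, CharTwo.neg_eq]
  have h7 : k = 1 := ext_mv Q _ _ (fun x => by rw [hk, hc1, one_smul, mv_one])
  rw [hg, h7, mul_one]
  exact s.2

/-- **characteristic two**: the inner automorphisms have index two in the group of automorphisms
of `PΩ(Q)` induced by similarities -/
theorem char2_relIndex (hQ : (QuadraticMap.polarBilin Q).Nondegenerate)
    (hn : 5 ≤ Fintype.card ι) (K : Subgroup (MulAut (POmega F ⇑Q)))
    (hK : ∀ α, α ∈ K ↔ IsSimilarityInducedAutPOmega ⇑Q α) :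
    (Inn (POmega F ⇑Q)).relIndex K = 2 := by
  have hex : (∃ t : F, t ≠ 0 ∧ t ≠ 1) ∨ Fintype.card ι ≠ 4 := Or.inr (by omega)
  have hR := Helper44.reflGroup_eq_top_of Q hQ hex
  haveI : Nonempty ι := Fintype.card_pos_iff.mp (by omega)
  obtain ⟨v, hv⟩ := exists_nonsingular Q hQ
  have hne : ∃ v, Q v ≠ 0 := ⟨v, hv⟩
  have hsc := scalar_of_ind Q hQ hn
  rw [Subgroup.relIndex_eq_two_iff]
  obtain ⟨g₀, hg₀⟩ : ∃ g₀ : ↥(isometryGroup F ⇑Q), g₀ = reflO Q v hv := ⟨_, rfl⟩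
  have hβ₀ : Ind ⇑Q (g₀ : GL ι F) (indAut ⇑Q (g₀ : GL ι F) (iso_le_sim _ g₀.2)) :=
    ind_indAut _ _ _
  refine ⟨indAut ⇑Q (g₀ : GL ι F) (iso_le_sim _ g₀.2),
    (hK _).mpr ⟨g₀, iso_le_sim _ g₀.2, hβ₀⟩, ?_⟩
  intro β hβ
  obtain ⟨g, hgsim, hind⟩ := (hK β).mp hβ
  obtain ⟨sc, e, hsc1, hmem⟩ := sim_char2 Q g hgsim
  obtain ⟨g', hg'⟩ : ∃ g' : ↥(isometryGroup F ⇑Q), g' = ⟨sc * g, hmem⟩ := ⟨_, rfl⟩
  have hgc : ((g' : ↥(isometryGroup F ⇑Q)) : GL ι F) = sc * g := by rw [hg']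
  have hind' : Ind ⇑Q ((g' : ↥(isometryGroup F ⇑Q)) : GL ι F) β := by
    rw [hgc]
    have h5 := ind_mul ⇑Q hgsim (ind_scalar ⇑Q sc e hsc1) hind
    rwa [one_mul] at h5
  have e1 : β ∈ Inn (POmega F ⇑Q) ↔ g' ∈ Omega F ⇑Q :=
    ⟨omega_of_mem_inn_char2 Q hsc hne g' β hind',
      fun h => mem_inn_of_ind_omega Q g' h β hind'⟩
  have hind2 : Ind ⇑Q ((g' * g₀ : ↥(isometryGroup F ⇑Q)) : GL ι F)
      (β * indAut ⇑Q (g₀ : GL ι F) (iso_le_sim _ g₀.2)) :=
    ind_mul ⇑Q (iso_le_sim _ g₀.2) hind' hβ₀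
  have e2 : β * indAut ⇑Q (g₀ : GL ι F) (iso_le_sim _ g₀.2) ∈ Inn (POmega F ⇑Q) ↔
      g' * g₀ ∈ Omega F ⇑Q :=
    ⟨omega_of_mem_inn_char2 Q hsc hne _ _ hind2,
      fun h => mem_inn_of_ind_omega Q _ h _ hind2⟩
  rw [e1, e2, mem_omega_iff_dick Q hQ hex, mem_omega_iff_dick Q hQ hex,
    dick_mul_of_mem Q hQ g' (by rw [hR]; trivial) g₀, hg₀, dick_refl Q hQ]
  generalize dick Q g' = d
  revert d
  decide

end CharTwo

section Cyc

/-- a group with a normal subgroup `I` and a homomorphism to a group of order `f` whose kernel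
contains `I` with index two, such that the image of one element `ψ` generates and `ψ ^ f ∉ I`:
the quotient by `I` is cyclic of order `2 f` -/
theorem out_cyclic {A : Type*} [Group A] (I : Subgroup A) [I.Normal] {C : Type*} [Group C]
    (f : ℕ) (hC : Nat.card C = f) (hf : 0 < f) (Θ : A →* C) (hI : I ≤ Θ.ker)
    (hidx : I.relIndex Θ.ker = 2) (ψ : A) (hgen : ∀ c : C, ∃ j : ℕ, c = Θ ψ ^ j)
    (hψ : ψ ^ f ∉ I) :
    IsCyclic (A ⧸ I) ∧ Nat.card (A ⧸ I) = 2 * f := by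
  classical
  obtain ⟨Θb, hΘb⟩ : ∃ Θb : A ⧸ I →* C, ∀ a : A, Θb (QuotientGroup.mk a) = Θ a :=
    ⟨QuotientGroup.lift I Θ hI, fun a => rfl⟩
  obtain ⟨K, hK⟩ : ∃ K : Subgroup (A ⧸ I), K = Θb.ker := ⟨_, rfl⟩
  have hKmap : K = Θ.ker.map (QuotientGroup.mk' I) := by
    rw [hK]
    ext x
    obtain ⟨a, rfl⟩ := QuotientGroup.mk_surjective x
    rw [MonoidHom.mem_ker, hΘb, Subgroup.mem_map]
    constructor
    · intro h
      exact ⟨a, h, rfl⟩
    · rintro ⟨b, hb, hba⟩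
      have h1 : b⁻¹ * a ∈ I := QuotientGroup.eq.mp hba
      have h2 := hI h1
      rw [MonoidHom.mem_ker, map_mul, map_inv, MonoidHom.mem_ker.mp hb] at h2
      simpa using h2
  have hKcard : Nat.card K = 2 := by
    rw [hKmap, ← Subgroup.relIndex_ker, QuotientGroup.ker_mk']
    exact hidx
  obtain ⟨x, hx⟩ : ∃ x : A ⧸ I, x = QuotientGroup.mk ψ := ⟨_, rfl⟩
  have hΘx : Θb x = Θ ψ := by rw [hx, hΘb]
  haveI : Finite C := Nat.finite_of_card_ne_zero (by omega)
  have hxf : x ^ f ∈ K := by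
    rw [hK, MonoidHom.mem_ker, map_pow, hΘx, ← hC]
    exact pow_card_eq_one'
  have hxf1 : x ^ f ≠ 1 := by
    intro h
    apply hψ
    rw [hx, ← QuotientGroup.mk_pow] at h
    exact (QuotientGroup.eq_one_iff _).mp h
  have hsurj : Function.Surjective Θb := by
    intro c
    obtain ⟨j, hj⟩ := hgen c
    exact ⟨x ^ j, by rw [map_pow, hΘx, hj]⟩
  have hall : ∀ g : A ⧸ I, ∃ n : ℕ, g = x ^ n := by
    intro g
    obtain ⟨j, hj⟩ := hgen (Θb g)
    have h1 : g * (x ^ j)⁻¹ ∈ K := by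
      rw [hK, MonoidHom.mem_ker, map_mul, map_inv, map_pow, hΘx, hj, mul_inv_cancel]
    obtain ⟨y, hy, hy'⟩ := (Nat.card_eq_two_iff' (1 : K)).mp hKcard
    by_cases h2 : g * (x ^ j)⁻¹ = 1
    · exact ⟨j, mul_inv_eq_one.mp h2⟩
    · have e1 := hy' ⟨g * (x ^ j)⁻¹, h1⟩ (fun h => h2 (congrArg Subtype.val h))
      have e2 := hy' ⟨x ^ f, hxf⟩ (fun h => hxf1 (congrArg Subtype.val h))
      have e3 : g * (x ^ j)⁻¹ = x ^ f := congrArg Subtype.val (e1.trans e2.symm)
      refine ⟨f + j, ?_⟩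
      rw [pow_add, ← e3]
      group
  constructor
  · refine ⟨⟨x, fun g => ?_⟩⟩
    obtain ⟨n, hn⟩ := hall g
    exact ⟨(n : ℤ), by simp [hn]⟩
  · have h1 := Subgroup.card_eq_card_quotient_mul_card_subgroup K
    subst hK
    have e : (A ⧸ I) ⧸ Θb.ker ≃ C := (QuotientGroup.quotientKerEquivOfSurjective Θb hsurj).toEquiv
    rw [h1, Nat.card_congr e, hC, hKcard]
    ring

end Cyc

section Frob

variable {F : Type u} [Field F] [Fintype F] [CharP F 2]

/-- every automorphism of a finite field of characteristic two is a power of the Frobenius -/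
theorem ringAut_eq_frob_pow (σ : F ≃+* F) :
    ∃ j : ℕ, σ = (frobeniusEquiv F 2 : RingAut F) ^ j := by
  letI : Algebra (ZMod 2) F := ZMod.algebra F 2
  obtain ⟨σ', hσ'⟩ : ∃ σ' : F ≃ₐ[ZMod 2] F, ∀ x, σ' x = σ x := by
    refine ⟨AlgEquiv.ofRingEquiv (f := σ) ?_, fun x => rfl⟩
    intro r
    have h1 : ((σ : F →+* F).comp (algebraMap (ZMod 2) F)) = algebraMap (ZMod 2) F :=
      Subsingleton.elim _ _
    exact DFunLike.congr_fun h1 r
  obtain ⟨n, hn⟩ := (FiniteField.bijective_frobeniusAlgEquivOfAlgebraic_pow (ZMod 2) F).2 σ'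
  refine ⟨n.1, ?_⟩
  ext x
  have h3 := DFunLike.congr_fun hn x
  simp only at h3
  rw [AlgEquiv.coe_pow, FiniteField.coe_frobeniusAlgEquivOfAlgebraic_iterate, ZMod.card, hσ'] at h3
  rw [← h3, RingAut.coe_pow, coe_frobeniusEquiv, iterate_frobenius]

theorem frob_pow_card (f : ℕ) (hF : Fintype.card F = 2 ^ f) :
    (frobeniusEquiv F 2 : RingAut F) ^ f = RingEquiv.refl F := by
  ext x
  rw [RingAut.coe_pow, coe_frobeniusEquiv, iterate_frobenius, ← hF, FiniteField.pow_card]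
  rfl

/-- the Frobenius-semilinear map of the minus-type form in characteristic two -/
def frobMinus (k : ℕ) (a b : F) (x : (Fin k ⊕ Fin k) ⊕ Fin 2 → F) : (Fin k ⊕ Fin k) ⊕ Fin 2 → F :=
  Sum.elim (fun j => x (Sum.inl j) ^ 2)
    ![x (Sum.inr 0) ^ 2 + b * x (Sum.inr 1) ^ 2, a * x (Sum.inr 1) ^ 2]

omit [Fintype F] [CharP F 2] in
theorem frobMinus_inl (k : ℕ) (a b : F) (x : (Fin k ⊕ Fin k) ⊕ Fin 2 → F) (j : Fin k ⊕ Fin k) :
    frobMinus k a b x (Sum.inl j) = x (Sum.inl j) ^ 2 := rfl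

omit [Fintype F] [CharP F 2] in
theorem frobMinus_inr0 (k : ℕ) (a b : F) (x : (Fin k ⊕ Fin k) ⊕ Fin 2 → F) :
    frobMinus k a b x (Sum.inr 0) = x (Sum.inr 0) ^ 2 + b * x (Sum.inr 1) ^ 2 := rfl

omit [Fintype F] [CharP F 2] in
theorem frobMinus_inr1 (k : ℕ) (a b : F) (x : (Fin k ⊕ Fin k) ⊕ Fin 2 → F) :
    frobMinus k a b x (Sum.inr 1) = a * x (Sum.inr 1) ^ 2 := rfl

theorem frobMinus_SS (k : ℕ) (a b : F) :
    SS (Helper43.minusQF k F a b) (frobMinus k a b) (frobeniusEquiv F 2) 1 := by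
  have h2 : (2 : F) = 0 := CharTwo.two_eq_zero
  refine ⟨fun x y => ?_, fun t x => ?_, fun x => ?_, one_ne_zero⟩
  · funext i
    rcases i with j | t
    · rw [Pi.add_apply, frobMinus_inl, frobMinus_inl, frobMinus_inl, Pi.add_apply, CharTwo.add_sq]
    · fin_cases t
      · show frobMinus k a b (x + y) (Sum.inr 0) =
          frobMinus k a b x (Sum.inr 0) + frobMinus k a b y (Sum.inr 0)
        rw [frobMinus_inr0, frobMinus_inr0, frobMinus_inr0, Pi.add_apply, Pi.add_apply,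
          CharTwo.add_sq, CharTwo.add_sq]
        ring
      · show frobMinus k a b (x + y) (Sum.inr 1) =
          frobMinus k a b x (Sum.inr 1) + frobMinus k a b y (Sum.inr 1)
        rw [frobMinus_inr1, frobMinus_inr1, frobMinus_inr1, Pi.add_apply, CharTwo.add_sq]
        ring
  · funext i
    rcases i with j | s
    · rw [Pi.smul_apply, frobMinus_inl, frobMinus_inl, Pi.smul_apply, frobeniusEquiv_def,
        smul_eq_mul, smul_eq_mul, mul_pow]
    · fin_cases s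
      · show frobMinus k a b (t • x) (Sum.inr 0) =
          frobeniusEquiv F 2 t • frobMinus k a b x (Sum.inr 0)
        rw [frobMinus_inr0, frobMinus_inr0, Pi.smul_apply, Pi.smul_apply, frobeniusEquiv_def,
          smul_eq_mul, smul_eq_mul, smul_eq_mul]
        ring
      · show frobMinus k a b (t • x) (Sum.inr 1) =
          frobeniusEquiv F 2 t • frobMinus k a b x (Sum.inr 1)
        rw [frobMinus_inr1, frobMinus_inr1, Pi.smul_apply, frobeniusEquiv_def,
          smul_eq_mul, smul_eq_mul]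
        ring
  · rw [frobeniusEquiv_def, one_mul, Helper43.minusQF_coe]
    unfold quadFormMinus
    rw [frobMinus_inr0, frobMinus_inr1]
    have hS : ∑ i : Fin k, frobMinus k a b x (Sum.inl (Sum.inl i)) *
        frobMinus k a b x (Sum.inl (Sum.inr i)) =
        (∑ i : Fin k, x (Sum.inl (Sum.inl i)) * x (Sum.inl (Sum.inr i))) ^ 2 := by
      rw [CharTwo.sum_sq]
      apply Finset.sum_congr rfl
      intro i _
      rw [frobMinus_inl, frobMinus_inl, mul_pow]
    rw [hS]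
    obtain ⟨S, hSdef⟩ : ∃ S, S = ∑ i : Fin k, x (Sum.inl (Sum.inl i)) * x (Sum.inl (Sum.inr i)) :=
      ⟨_, rfl⟩
    rw [← hSdef]
    obtain ⟨A, hA⟩ : ∃ A, A = x (Sum.inr 0) := ⟨_, rfl⟩
    obtain ⟨B, hB⟩ : ∃ B, B = x (Sum.inr 1) := ⟨_, rfl⟩
    rw [← hA, ← hB]
    linear_combination (a ^ 2 * b * B ^ 4 - a * A ^ 3 * B - a * b * A * B ^ 3
      - S * (A ^ 2 + a * A * B + b * B ^ 2)) * h2

omit [Fintype F] [CharP F 2] in
theorem frobMinus_iter_inl (k : ℕ) (a b : F) (j : ℕ) (x : (Fin k ⊕ Fin k) ⊕ Fin 2 → F)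
    (i : Fin k ⊕ Fin k) : ((frobMinus k a b)^[j] x) (Sum.inl i) = x (Sum.inl i) ^ (2 ^ j) := by
  induction j with
  | zero => simp
  | succ j ih =>
    rw [Function.iterate_succ_apply', frobMinus_inl, ih, ← pow_mul, pow_succ]

omit [Fintype F] [CharP F 2] in
theorem frobMinus_iter_inr1 (k : ℕ) (a b : F) (j : ℕ) (x : (Fin k ⊕ Fin k) ⊕ Fin 2 → F) :
    a * ((frobMinus k a b)^[j] x) (Sum.inr 1) = (a * x (Sum.inr 1)) ^ (2 ^ j) := by
  induction j with
  | zero => simp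
  | succ j ih =>
    rw [Function.iterate_succ_apply', frobMinus_inr1]
    have h1 : a * (a * ((frobMinus k a b)^[j] x) (Sum.inr 1) ^ 2) =
        (a * ((frobMinus k a b)^[j] x) (Sum.inr 1)) ^ 2 := by ring
    rw [h1, ih, ← pow_mul, pow_succ]

theorem frobMinus_iter_quad (k : ℕ) (a b : F) (j : ℕ) (x : (Fin k ⊕ Fin k) ⊕ Fin 2 → F) :
    Helper43.minusQF k F a b ((frobMinus k a b)^[j] x) = Helper43.minusQF k F a b x ^ (2 ^ j) := by
  induction j with
  | zero => simp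
  | succ j ih =>
    rw [Function.iterate_succ_apply', (frobMinus_SS k a b).quad, one_mul, frobeniusEquiv_def, ih,
      ← pow_mul, pow_succ]

/-- the `f`-th power of the Frobenius-semilinear map is not the identity -/
theorem frobMinus_iter_ne (k : ℕ) (a b : F)
    (hab : ∀ z₁ z₂ : F, z₁ ^ 2 + a * z₁ * z₂ + b * z₂ ^ 2 = 0 → z₁ = 0 ∧ z₂ = 0) (f : ℕ)
    (hF : Fintype.card F = 2 ^ f) :
    ∃ x : (Fin k ⊕ Fin k) ⊕ Fin 2 → F, (frobMinus k a b)^[f] x ≠ x := by
  by_contra hcon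
  push Not at hcon
  have h2 : (2 : F) = 0 := CharTwo.two_eq_zero
  haveI : Fact (∀ r : F, r ^ 2 ≠ b + a * r) := ⟨fun r hr => by
    have h1 := hab r 1 (by linear_combination hr + (b + a * r) * h2)
    exact one_ne_zero h1.2⟩
  haveI : Finite (QuadraticAlgebra F b a) :=
    Finite.of_equiv _ (QuadraticAlgebra.equivProd b a).symm
  obtain ⟨κ, hκ⟩ : ∃ κ : ((Fin k ⊕ Fin k) ⊕ Fin 2 → F) → QuadraticAlgebra F b a,
      ∀ x, κ x = ⟨x (Sum.inr 0), x (Sum.inr 1)⟩ := ⟨fun x => ⟨x (Sum.inr 0), x (Sum.inr 1)⟩, fun x => rfl⟩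
  have hstep : ∀ x, κ (frobMinus k a b x) = κ x * κ x := by
    intro x
    rw [hκ, hκ]
    ext
    · rw [QuadraticAlgebra.re_mul, frobMinus_inr0]
      show x (Sum.inr 0) ^ 2 + b * x (Sum.inr 1) ^ 2 =
        x (Sum.inr 0) * x (Sum.inr 0) + b * x (Sum.inr 1) * x (Sum.inr 1)
      ring
    · rw [QuadraticAlgebra.im_mul, frobMinus_inr1]
      show a * x (Sum.inr 1) ^ 2 = x (Sum.inr 0) * x (Sum.inr 1) + x (Sum.inr 1) * x (Sum.inr 0) +
        a * x (Sum.inr 1) * x (Sum.inr 1)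
      linear_combination (-(x (Sum.inr 0) * x (Sum.inr 1))) * h2
  have hiter : ∀ (j : ℕ) x, κ ((frobMinus k a b)^[j] x) = κ x ^ (2 ^ j) := by
    intro j
    induction j with
    | zero =>
      intro x
      simp
    | succ j ih =>
      intro x
      rw [Function.iterate_succ_apply', hstep, ih, ← pow_two, ← pow_mul, pow_succ]
  have hall : ∀ z : QuadraticAlgebra F b a, z ^ (2 ^ f) = z := by
    intro z
    obtain ⟨x, hx⟩ : ∃ x : (Fin k ⊕ Fin k) ⊕ Fin 2 → F, κ x = z := by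
      refine ⟨Sum.elim (fun _ => 0) ![z.re, z.im], ?_⟩
      rw [hκ]
      rfl
    rw [← hx, ← hiter, hcon]
  have h1 := FiniteField.orderOf_frobeniusAlgHom F (QuadraticAlgebra F b a)
  have h3 : Module.finrank F (QuadraticAlgebra F b a) = 2 := by
    rw [Module.finrank_eq_card_basis (QuadraticAlgebra.basis b a)]
    simp
  have h4 : FiniteField.frobeniusAlgHom F (QuadraticAlgebra F b a) = 1 := by
    apply AlgHom.ext
    intro z
    rw [FiniteField.coe_frobeniusAlgHom]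
    show z ^ Fintype.card F = z
    rw [hF, hall]
  rw [h4, orderOf_one, h3] at h1
  exact absurd h1 (by decide)

end Frob

end Cfsg.Agent.Helper45.OO
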