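import Cfsg.Agent.Helper45.OmegaSimple

set_option autoImplicit false
set_option linter.unusedSectionVars false

/-!
Helper library (helper45), automorphisms of `PΩ(Q)`, part A: algebra of Eichler transformations
(Siegel groups `U(e)`), long root groups `XL L` attached to totally singular lines `L`, the centre of `Ω`.
-/

universe u

namespace Cfsg.Agent.Helper45.AO

open Cfsg Matrix

section Basic

variable {ι : Type} [Fintype ι] [DecidableEq ι] {F : Type u} [Field F] (Q : QuadraticForm F (ι → F))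

omit [Fintype ι] [DecidableEq ι] in
theorem eich_apply (u b x : ι → F) :
    Helper44.eich Q u b x = x + (QuadraticMap.polar ⇑Q b x - Q b * QuadraticMap.polar ⇑Q u x) • u
      - (QuadraticMap.polar ⇑Q u x) • b := rfl

omit [Fintype ι] [DecidableEq ι] in
/-- the Eichler transformation only depends on `b` modulo `u` -/
theorem eich_add_smul (u b x : ι → F) (t : F) (hu : Q u = 0) (hub : QuadraticMap.polar ⇑Q u b = 0) :
    Helper44.eich Q u (b + t • u) x = Helper44.eich Q u b x := by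
  have hbu : QuadraticMap.polar ⇑Q b u = 0 := by rw [QuadraticMap.polar_comm]; exact hub
  rw [eich_apply, eich_apply, Helper13.Q_add', QuadraticMap.map_smul, hu, QuadraticMap.polar_add_left,
    QuadraticMap.polar_smul_left, QuadraticMap.polar_smul_right, hbu]
  funext i
  simp only [Pi.add_apply, Pi.sub_apply, Pi.smul_apply, smul_eq_mul]
  ring

theorem eichO_add_smul (u b : ι → F) (t : F) (hu : Q u = 0) (hub : QuadraticMap.polar ⇑Q u b = 0)
    (hub' : QuadraticMap.polar ⇑Q u (b + t • u) = 0) :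
    eichO Q u (b + t • u) hu hub' = eichO Q u b hu hub := by
  apply ext_mv
  intro x
  rw [mv_eichO, mv_eichO, eich_add_smul Q u b x t hu hub]

omit [Fintype ι] [DecidableEq ι] in
theorem eich_sub_self (u b x : ι → F) :
    Helper44.eich Q u b x - x = (QuadraticMap.polar ⇑Q b x - Q b * QuadraticMap.polar ⇑Q u x) • u
      - (QuadraticMap.polar ⇑Q u x) • b := by
  rw [eich_apply]
  abel

omit [DecidableEq ι] in
/-- a vector fixed by all Eichler transformations at `u` is a multiple of `u` -/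
theorem fix_eich_all (hQ : (QuadraticMap.polarBilin Q).Nondegenerate)
    (hn : 5 ≤ Fintype.card ι) (u x : ι → F) (hu : Q u = 0) (hu0 : u ≠ 0)
    (h : ∀ b : ι → F, QuadraticMap.polar ⇑Q u b = 0 → Helper44.eich Q u b x = x) :
    ∃ t : F, x = t • u := by
  have key : ∀ b : ι → F, QuadraticMap.polar ⇑Q u b = 0 →
      (QuadraticMap.polar ⇑Q b x - Q b * QuadraticMap.polar ⇑Q u x) • u =
        (QuadraticMap.polar ⇑Q u x) • b := by
    intro b hb
    have h1 := eich_sub_self Q u b x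
    rw [h b hb, sub_self] at h1
    exact (sub_eq_zero.mp h1.symm)
  have hux : QuadraticMap.polar ⇑Q u x = 0 := by
    by_contra hne
    obtain ⟨a, ha, hua, -⟩ := exists_nonsing_perp2 Q hQ hn u u
    have h1 := key a hua
    have h2 : a = (QuadraticMap.polar ⇑Q u x)⁻¹ •
        ((QuadraticMap.polar ⇑Q a x - Q a * QuadraticMap.polar ⇑Q u x) • u) := by
      rw [h1, smul_smul, inv_mul_cancel₀ hne, one_smul]
    rw [smul_smul] at h2
    apply ha
    rw [h2, QuadraticMap.map_smul, hu, smul_zero]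
  by_contra hcon
  push Not at hcon
  obtain ⟨y, huy, hxy⟩ := exists_perp_not_perp Q hQ u x hcon
  have h1 := key y huy
  rw [hux, mul_zero, sub_zero, zero_smul] at h1
  rcases smul_eq_zero.mp h1 with h2 | h2
  · apply hxy
    rw [QuadraticMap.polar_comm]
    exact h2
  · exact hu0 h2

omit [Fintype ι] [DecidableEq ι] in
/-- some vector pairs to one with the non-zero vector `u` -/
theorem exists_polar_one (hQ : (QuadraticMap.polarBilin Q).Nondegenerate) (u : ι → F) (hu0 : u ≠ 0) :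
    ∃ w : ι → F, QuadraticMap.polar ⇑Q u w = 1 := by
  obtain ⟨t, ht⟩ : ∃ t, QuadraticMap.polar ⇑Q u t ≠ 0 := by
    by_contra hcon
    push Not at hcon
    exact hu0 (hQ.1 u hcon)
  refine ⟨(QuadraticMap.polar ⇑Q u t)⁻¹ • t, ?_⟩
  rw [QuadraticMap.polar_smul_right, smul_eq_mul, inv_mul_cancel₀ ht]

/-- Eichler transformations at `u` agree exactly when the parameters agree modulo `u` -/
theorem eichO_inj (hQ : (QuadraticMap.polarBilin Q).Nondegenerate) (u b b' : ι → F) (hu : Q u = 0)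
    (hu0 : u ≠ 0) (hub : QuadraticMap.polar ⇑Q u b = 0) (hub' : QuadraticMap.polar ⇑Q u b' = 0)
    (h : eichO Q u b hu hub = eichO Q u b' hu hub') : ∃ t : F, b = b' + t • u := by
  obtain ⟨w, hw⟩ := exists_polar_one Q hQ u hu0
  have h1 : mv ⇑Q (eichO Q u b hu hub) w = mv ⇑Q (eichO Q u b' hu hub') w := by rw [h]
  rw [mv_eichO, mv_eichO, eich_apply, eich_apply, hw] at h1
  refine ⟨(QuadraticMap.polar ⇑Q b w - Q b * 1) - (QuadraticMap.polar ⇑Q b' w - Q b' * 1), ?_⟩
  funext i
  have h3 := congrFun h1 i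
  simp only [Pi.add_apply, Pi.sub_apply, Pi.smul_apply, smul_eq_mul] at h3 ⊢
  linear_combination (-1 : F) * h3

/-- an Eichler transformation with parameter outside the line of `u` is not trivial -/
theorem eichO_ne_one (hQ : (QuadraticMap.polarBilin Q).Nondegenerate) (u b : ι → F) (hu : Q u = 0)
    (hu0 : u ≠ 0) (hub : QuadraticMap.polar ⇑Q u b = 0) (hb : ∀ t : F, b ≠ t • u) :
    eichO Q u b hu hub ≠ 1 := by
  intro h
  have h0 : QuadraticMap.polar ⇑Q u 0 = 0 := by simp
  rw [← eichO_zero Q u hu h0] at h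
  obtain ⟨t, ht⟩ := eichO_inj Q hQ u b 0 hu hu0 hub h0 h
  rw [zero_add] at ht
  exact hb t ht

theorem eichO_pow (u b : ι → F) (hu : Q u = 0) (hub : QuadraticMap.polar ⇑Q u b = 0) (k : ℕ) :
    ∃ h : QuadraticMap.polar ⇑Q u ((k : F) • b) = 0,
      eichO Q u b hu hub ^ k = eichO Q u ((k : F) • b) hu h := by
  induction k with
  | zero =>
    refine ⟨by simp, ?_⟩
    rw [pow_zero]
    symm
    have h0 : QuadraticMap.polar ⇑Q u 0 = 0 := by simp
    rw [← eichO_zero Q u hu h0]
    apply eichO_congr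
    simp
  | succ k ih =>
    obtain ⟨h1, h2⟩ := ih
    have h3 : QuadraticMap.polar ⇑Q u (((k + 1 : ℕ) : F) • b) = 0 := by
      rw [QuadraticMap.polar_smul_right, hub, smul_zero]
    refine ⟨h3, ?_⟩
    have h4 : QuadraticMap.polar ⇑Q u ((k : F) • b + b) = 0 := by
      rw [QuadraticMap.polar_add_right, h1, hub, add_zero]
    rw [pow_succ, h2, eichO_mul Q u _ _ hu h1 hub h4]
    apply eichO_congr
    rw [Nat.cast_succ, add_smul, one_smul]

theorem eichO_pow_char (p : ℕ) [CharP F p] (u b : ι → F) (hu : Q u = 0)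
    (hub : QuadraticMap.polar ⇑Q u b = 0) : eichO Q u b hu hub ^ p = 1 := by
  obtain ⟨h1, h2⟩ := eichO_pow Q u b hu hub p
  rw [h2]
  have h0 : QuadraticMap.polar ⇑Q u 0 = 0 := by simp
  rw [← eichO_zero Q u hu h0]
  apply eichO_congr
  rw [CharP.cast_eq_zero, zero_smul]

end Basic

section Center

variable {ι : Type} [Fintype ι] [DecidableEq ι] {F : Type u} [Field F] [Fintype F]
  (Q : QuadraticForm F (ι → F))

/-- the Eichler transformation as an element of `Ω` -/
noncomputable def eichΩ (hQ : (QuadraticMap.polarBilin Q).Nondegenerate) (hn : 5 ≤ Fintype.card ι)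
    (u b : ι → F) (hu : Q u = 0) (hub : QuadraticMap.polar ⇑Q u b = 0) : ↥(Omega F ⇑Q) :=
  ⟨eichO Q u b hu hub, eichO_mem_omega Q hQ hn u b hu hub⟩

/-- central elements of `Ω` are scalar -/
theorem center_scalar (hQ : (QuadraticMap.polarBilin Q).Nondegenerate) (hn : 5 ≤ Fintype.card ι)
    (z : ↥(Omega F ⇑Q)) (hz : z ∈ Subgroup.center ↥(Omega F ⇑Q)) :
    ∃ l : F, ∀ x : ι → F, mv ⇑Q (z : ↥(isometryGroup F ⇑Q)) x = l • x := by
  apply scalar_of_fix_sing Q hQ hn
  intro x hx hx0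
  apply fix_eich_all Q hQ hn x _ hx hx0
  intro b hb
  have h1 := (Subgroup.mem_center_iff.mp hz) (eichΩ Q hQ hn x b hx hb)
  have h2 : (eichO Q x b hx hb) * (z : ↥(isometryGroup F ⇑Q)) =
      (z : ↥(isometryGroup F ⇑Q)) * (eichO Q x b hx hb) := congrArg Subtype.val h1
  have h3 : mv ⇑Q ((eichO Q x b hx hb) * (z : ↥(isometryGroup F ⇑Q))) x =
      mv ⇑Q ((z : ↥(isometryGroup F ⇑Q)) * (eichO Q x b hx hb)) x := by rw [h2]
  rw [mv_mul, mv_mul, mv_eichO, mv_eichO, eich_self Q x b hx hb] at h3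
  exact h3

omit [Fintype F] in
theorem mv_pow_scalar (g : ↥(isometryGroup F ⇑Q)) (l : F) (hl : ∀ x : ι → F, mv ⇑Q g x = l • x)
    (k : ℕ) (x : ι → F) : mv ⇑Q (g ^ k) x = l ^ k • x := by
  induction k with
  | zero => rw [pow_zero, pow_zero, one_smul, mv_one]
  | succ k ih => rw [pow_succ, mv_mul, hl, mv_smul, ih, smul_smul, pow_succ, mul_comm]

/-- the centre of `Ω` has no elements of order a power of the characteristic -/
theorem center_pow_char (hQ : (QuadraticMap.polarBilin Q).Nondegenerate) (hn : 5 ≤ Fintype.card ι)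
    (p : ℕ) [Fact p.Prime] [CharP F p] (z : ↥(Omega F ⇑Q)) (hz : z ∈ Subgroup.center ↥(Omega F ⇑Q))
    (k : ℕ) (hk : z ^ (p ^ k) = 1) : z = 1 := by
  obtain ⟨l, hl⟩ := center_scalar Q hQ hn z hz
  obtain ⟨u, hu, hu0⟩ := exists_sing_ne_zero Q hn
  have h1 : (z : ↥(isometryGroup F ⇑Q)) ^ (p ^ k) = 1 := by
    rw [← Subgroup.coe_pow, hk]
    rfl
  have h2 := mv_pow_scalar Q (z : ↥(isometryGroup F ⇑Q)) l hl (p ^ k) u
  rw [h1, mv_one] at h2
  have h3 : (l ^ (p ^ k) - 1) • u = 0 := by rw [sub_smul, one_smul, ← h2, sub_self]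
  have h4 : l ^ (p ^ k) - 1 = 0 := by
    rcases smul_eq_zero.mp h3 with h | h
    · exact h
    · exact absurd h hu0
  have h5 : (l - 1) ^ (p ^ k) = 0 := by
    rw [sub_pow_char_pow, one_pow]
    exact h4
  have h6 : l = 1 := sub_eq_zero.mp (pow_eq_zero_iff (pow_pos (Fact.out : p.Prime).pos k).ne' |>.mp h5)
  apply Subtype.ext
  apply ext_mv
  intro x
  rw [hl, h6, one_smul]
  exact (mv_one ⇑Q x).symm

/-- the projection `Ω → PΩ` is injective on elements of order a power of the characteristic -/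
theorem mk_inj_of_pow (hQ : (QuadraticMap.polarBilin Q).Nondegenerate) (hn : 5 ≤ Fintype.card ι)
    (p : ℕ) [Fact p.Prime] [CharP F p] (x y : ↥(Omega F ⇑Q)) (kx ky : ℕ) (hx : x ^ (p ^ kx) = 1)
    (hy : y ^ (p ^ ky) = 1)
    (h : (QuotientGroup.mk x : POmega F ⇑Q) = QuotientGroup.mk y) : x = y := by
  have hz : x⁻¹ * y ∈ Subgroup.center ↥(Omega F ⇑Q) := QuotientGroup.eq.mp h
  have hcomm : Commute x (x⁻¹ * y) := Subgroup.mem_center_iff.mp hz x
  have h1 : (x * (x⁻¹ * y)) ^ (p ^ (kx + ky)) = x ^ (p ^ (kx + ky)) * (x⁻¹ * y) ^ (p ^ (kx + ky)) :=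
    hcomm.mul_pow _
  rw [mul_inv_cancel_left] at h1
  have h2 : y ^ (p ^ (kx + ky)) = 1 := by
    rw [add_comm, pow_add, pow_mul, hy, one_pow]
  have h3 : x ^ (p ^ (kx + ky)) = 1 := by
    rw [pow_add, pow_mul, hx, one_pow]
  rw [h2, h3, one_mul] at h1
  have h4 := center_pow_char Q hQ hn p (x⁻¹ * y) hz (kx + ky) h1.symm
  exact (inv_mul_eq_one.mp h4)

end Center

section Lines

variable {ι : Type} [Fintype ι] [DecidableEq ι] {F : Type u} [Field F] [Fintype F]
  (Q : QuadraticForm F (ι → F))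

/-- a totally singular pair: two independent, mutually orthogonal singular vectors -/
abbrev TSP (u v : ι → F) : Prop :=
  Q u = 0 ∧ Q v = 0 ∧ QuadraticMap.polar ⇑Q u v = 0 ∧ ∀ a b : F, a • u + b • v = 0 → a = 0 ∧ b = 0

/-- a totally singular line -/
def IsLine (L : Submodule F (ι → F)) : Prop := ∃ u v, TSP Q u v ∧ L = Submodule.span F {u, v}

variable {Q}

omit [Fintype ι] [DecidableEq ι] [Fintype F] in
theorem TSP.ne_zero_left {u v : ι → F} (h : TSP Q u v) : u ≠ 0 := by
  intro h0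
  have := h.2.2.2 1 0 (by rw [h0]; simp)
  exact one_ne_zero this.1

omit [Fintype ι] [DecidableEq ι] [Fintype F] in
theorem TSP.ne_zero_right {u v : ι → F} (h : TSP Q u v) : v ≠ 0 := by
  intro h0
  have := h.2.2.2 0 1 (by rw [h0]; simp)
  exact one_ne_zero this.2

omit [Fintype ι] [DecidableEq ι] [Fintype F] in
theorem TSP.not_smul {u v : ι → F} (h : TSP Q u v) (t : F) : v ≠ t • u := by
  intro h0
  have := h.2.2.2 t (-1) (by rw [h0]; simp)
  exact one_ne_zero (neg_eq_zero.mp this.2)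

omit [Fintype ι] [DecidableEq ι] [Fintype F] in
theorem TSP.not_smul' {u v : ι → F} (h : TSP Q u v) (t : F) : u ≠ t • v := by
  intro h0
  have := h.2.2.2 (-1) t (by rw [h0]; simp)
  exact one_ne_zero (neg_eq_zero.mp this.1)

omit [Fintype ι] [DecidableEq ι] [Fintype F] in
theorem TSP.symm {u v : ι → F} (h : TSP Q u v) : TSP Q v u :=
  ⟨h.2.1, h.1, by rw [QuadraticMap.polar_comm]; exact h.2.2.1, fun a b hab => by
    have := h.2.2.2 b a (by rw [add_comm]; exact hab)
    exact ⟨this.2, this.1⟩⟩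

omit [DecidableEq ι] [Fintype F] in
theorem TSP.sing {u v : ι → F} (h : TSP Q u v) (a b : F) : Q (a • u + b • v) = 0 := by
  rw [Helper13.Q_add', QuadraticMap.map_smul, QuadraticMap.map_smul, h.1, h.2.1,
    QuadraticMap.polar_smul_left, QuadraticMap.polar_smul_right, h.2.2.1]
  simp

omit [Fintype ι] [DecidableEq ι] [Fintype F] in
theorem mem_pair {u v x : ι → F} : x ∈ Submodule.span F {u, v} ↔ ∃ a b : F, a • u + b • v = x :=
  Submodule.mem_span_pair

omit [DecidableEq ι] [Fintype F] in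
theorem IsLine.sing {L : Submodule F (ι → F)} (hL : IsLine Q L) {x : ι → F} (hx : x ∈ L) : Q x = 0 := by
  obtain ⟨u, v, h, rfl⟩ := hL
  obtain ⟨a, b, rfl⟩ := mem_pair.mp hx
  exact h.sing a b

omit [DecidableEq ι] [Fintype F] in
theorem IsLine.perp {L : Submodule F (ι → F)} (hL : IsLine Q L) {x y : ι → F} (hx : x ∈ L)
    (hy : y ∈ L) : QuadraticMap.polar ⇑Q x y = 0 := by
  have h1 := hL.sing (L.add_mem hx hy)
  rw [Helper13.Q_add', hL.sing hx, hL.sing hy, zero_add, zero_add] at h1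
  exact h1

variable (Q)

/-- the long root group of the line `L` -/
def XL (L : Submodule F (ι → F)) : Subgroup ↥(Omega F ⇑Q) where
  carrier := {g | (∀ x : ι → F, mv ⇑Q (g : ↥(isometryGroup F ⇑Q)) x - x ∈ L) ∧
    ∀ y : ι → F, (∀ w ∈ L, QuadraticMap.polar ⇑Q w y = 0) → mv ⇑Q (g : ↥(isometryGroup F ⇑Q)) y = y}
  one_mem' := by
    refine ⟨fun x => ?_, fun y _ => ?_⟩
    · have : mv ⇑Q ((1 : ↥(Omega F ⇑Q)) : ↥(isometryGroup F ⇑Q)) x = x := mv_one ⇑Q x
      rw [this, sub_self]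
      exact L.zero_mem
    · exact mv_one ⇑Q y
  mul_mem' := by
    rintro a b ⟨ha1, ha2⟩ ⟨hb1, hb2⟩
    refine ⟨fun x => ?_, fun y hy => ?_⟩
    · have e : mv ⇑Q ((a * b : ↥(Omega F ⇑Q)) : ↥(isometryGroup F ⇑Q)) x =
          mv ⇑Q (a : ↥(isometryGroup F ⇑Q)) (mv ⇑Q (b : ↥(isometryGroup F ⇑Q)) x) := mv_mul ⇑Q _ _ x
      rw [e]
      have := L.add_mem (ha1 (mv ⇑Q (b : ↥(isometryGroup F ⇑Q)) x)) (hb1 x)
      rwa [sub_add_sub_cancel] at this
    · have e : mv ⇑Q ((a * b : ↥(Omega F ⇑Q)) : ↥(isometryGroup F ⇑Q)) y =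
          mv ⇑Q (a : ↥(isometryGroup F ⇑Q)) (mv ⇑Q (b : ↥(isometryGroup F ⇑Q)) y) := mv_mul ⇑Q _ _ y
      rw [e, hb2 y hy, ha2 y hy]
  inv_mem' := by
    rintro a ⟨ha1, ha2⟩
    refine ⟨fun x => ?_, fun y hy => ?_⟩
    · have e : mv ⇑Q (a : ↥(isometryGroup F ⇑Q))
          (mv ⇑Q ((a⁻¹ : ↥(Omega F ⇑Q)) : ↥(isometryGroup F ⇑Q)) x) = x := mv_inv_cancel Q _ x
      have h1 := ha1 (mv ⇑Q ((a⁻¹ : ↥(Omega F ⇑Q)) : ↥(isometryGroup F ⇑Q)) x)
      rw [e] at h1
      have h2 := L.neg_mem h1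
      rwa [neg_sub] at h2
    · have e : mv ⇑Q ((a⁻¹ : ↥(Omega F ⇑Q)) : ↥(isometryGroup F ⇑Q))
          (mv ⇑Q (a : ↥(isometryGroup F ⇑Q)) y) = y := mv_inv_cancel' Q _ y
      rw [ha2 y hy] at e
      exact e

omit [Fintype F] in
theorem mem_XL (L : Submodule F (ι → F)) (g : ↥(Omega F ⇑Q)) : g ∈ XL Q L ↔
    (∀ x : ι → F, mv ⇑Q (g : ↥(isometryGroup F ⇑Q)) x - x ∈ L) ∧
    ∀ y : ι → F, (∀ w ∈ L, QuadraticMap.polar ⇑Q w y = 0) → mv ⇑Q (g : ↥(isometryGroup F ⇑Q)) y = y :=
  Iff.rfl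

/-- Eichler transformations of a totally singular pair lie in the root group of the line -/
theorem eich_mem_XL (hQ : (QuadraticMap.polarBilin Q).Nondegenerate) (hn : 5 ≤ Fintype.card ι)
    (u v : ι → F) (h : TSP Q u v) (t : F) (hub : QuadraticMap.polar ⇑Q u (t • v) = 0) :
    eichΩ Q hQ hn u (t • v) h.1 hub ∈ XL Q (Submodule.span F {u, v}) := by
  rw [mem_XL]
  refine ⟨fun x => ?_, fun y hy => ?_⟩
  · show mv ⇑Q (eichO Q u (t • v) h.1 hub) x - x ∈ _
    rw [mv_eichO, eich_sub_self]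
    apply Submodule.sub_mem
    · exact Submodule.smul_mem _ _ (Submodule.subset_span (by simp))
    · rw [smul_smul]
      exact Submodule.smul_mem _ _ (Submodule.subset_span (by simp))
  · show mv ⇑Q (eichO Q u (t • v) h.1 hub) y = y
    rw [mv_eichO]
    apply eich_fix
    · exact hy u (Submodule.subset_span (by simp))
    · rw [QuadraticMap.polar_smul_left, hy v (Submodule.subset_span (by simp)), smul_zero]

/-- dual vector to the first member of a totally singular pair -/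
theorem TSP.exists_dual (hQ : (QuadraticMap.polarBilin Q).Nondegenerate) {u v : ι → F}
    (h : TSP Q u v) : ∃ w : ι → F, QuadraticMap.polar ⇑Q u w = 1 ∧ QuadraticMap.polar ⇑Q v w = 0 := by
  obtain ⟨x, hvx, hux⟩ := exists_perp_not_perp Q hQ v u h.not_smul'
  refine ⟨(QuadraticMap.polar ⇑Q u x)⁻¹ • x, ?_, ?_⟩
  · rw [QuadraticMap.polar_smul_right, smul_eq_mul, inv_mul_cancel₀ hux]
  · rw [QuadraticMap.polar_smul_right, hvx, smul_zero]

/-- the elements of the root group of a line are the Eichler transformations `eich(u, t v)` -/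
theorem XL_eq_eich (hQ : (QuadraticMap.polarBilin Q).Nondegenerate) (u v : ι → F) (h : TSP Q u v)
    (g : ↥(Omega F ⇑Q)) (hg : g ∈ XL Q (Submodule.span F {u, v})) :
    ∃ (t : F) (hub : QuadraticMap.polar ⇑Q u (t • v) = 0),
      (g : ↥(isometryGroup F ⇑Q)) = eichO Q u (t • v) h.1 hub := by
  rw [mem_XL] at hg
  obtain ⟨hg1, hg2⟩ := hg
  obtain ⟨w₁, hw₁u, hw₁v⟩ := h.exists_dual Q hQ
  obtain ⟨w₂, hw₂v, hw₂u⟩ := h.symm.exists_dual Q hQ
  set G := (g : ↥(isometryGroup F ⇑Q)) with hG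
  obtain ⟨a₁, c₁, e₁⟩ := mem_pair.mp (hg1 w₁)
  obtain ⟨a₂, c₂, e₂⟩ := mem_pair.mp (hg1 w₂)
  have f₁ : mv ⇑Q G w₁ = w₁ + (a₁ • u + c₁ • v) := by rw [e₁]; abel
  have f₂ : mv ⇑Q G w₂ = w₂ + (a₂ • u + c₂ • v) := by rw [e₂]; abel
  have huv := h.2.2.1
  have hvu : QuadraticMap.polar ⇑Q v u = 0 := by rw [QuadraticMap.polar_comm]; exact huv
  have hw₁u' : QuadraticMap.polar ⇑Q w₁ u = 1 := by rw [QuadraticMap.polar_comm]; exact hw₁u
  have hw₁v' : QuadraticMap.polar ⇑Q w₁ v = 0 := by rw [QuadraticMap.polar_comm]; exact hw₁v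
  have hw₂u' : QuadraticMap.polar ⇑Q w₂ u = 0 := by rw [QuadraticMap.polar_comm]; exact hw₂u
  have hw₂v' : QuadraticMap.polar ⇑Q w₂ v = 1 := by rw [QuadraticMap.polar_comm]; exact hw₂v
  have ha₁ : a₁ = 0 := by
    have h1 := mv_quad ⇑Q G w₁
    rw [f₁, Helper13.Q_add', h.sing a₁ c₁, QuadraticMap.polar_add_right, QuadraticMap.polar_smul_right,
      QuadraticMap.polar_smul_right, hw₁u', hw₁v'] at h1
    simpa using h1
  have hc₂ : c₂ = 0 := by
    have h1 := mv_quad ⇑Q G w₂
    rw [f₂, Helper13.Q_add', h.sing a₂ c₂, QuadraticMap.polar_add_right, QuadraticMap.polar_smul_right,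
      QuadraticMap.polar_smul_right, hw₂u', hw₂v'] at h1
    simpa using h1
  have ha₂ : a₂ = -c₁ := by
    have h1 := mv_polar Q G w₁ w₂
    rw [f₁, f₂, ha₁, hc₂] at h1
    simp only [zero_smul, zero_add, add_zero, QuadraticMap.polar_add_left, QuadraticMap.polar_add_right,
      QuadraticMap.polar_smul_left, QuadraticMap.polar_smul_right, hw₁u', hw₂v, hvu, smul_eq_mul,
      mul_zero, mul_one] at h1
    linear_combination h1
  have hub : QuadraticMap.polar ⇑Q u ((-c₁) • v) = 0 := by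
    rw [QuadraticMap.polar_smul_right, huv, smul_zero]
  refine ⟨-c₁, hub, ?_⟩
  apply ext_mv
  intro x
  have hx₀ : mv ⇑Q G (x - QuadraticMap.polar ⇑Q u x • w₁ - QuadraticMap.polar ⇑Q v x • w₂) =
      x - QuadraticMap.polar ⇑Q u x • w₁ - QuadraticMap.polar ⇑Q v x • w₂ := by
    apply hg2
    intro w hw
    obtain ⟨a, b, rfl⟩ := mem_pair.mp hw
    simp only [QuadraticMap.polar_add_left, QuadraticMap.polar_sub_right,
      QuadraticMap.polar_smul_left, QuadraticMap.polar_smul_right, hw₁u, hw₁v, hw₂u, hw₂v, smul_eq_mul]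
    ring
  rw [mv_sub, mv_sub, mv_smul, mv_smul, f₁, f₂, ha₁, hc₂, ha₂] at hx₀
  rw [mv_eichO, eich_apply, QuadraticMap.map_smul, h.2.1, QuadraticMap.polar_smul_left]
  funext i
  have h3 := congrFun hx₀ i
  simp only [Pi.add_apply, Pi.sub_apply, Pi.smul_apply, smul_eq_mul, zero_smul, Pi.zero_apply] at h3 ⊢
  linear_combination h3

/-- the root group of a line is not trivial -/
theorem XL_ne_bot (hQ : (QuadraticMap.polarBilin Q).Nondegenerate) (hn : 5 ≤ Fintype.card ι)
    (L : Submodule F (ι → F)) (hL : IsLine Q L) : ∃ g ∈ XL Q L, g ≠ 1 := by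
  obtain ⟨u, v, h, rfl⟩ := hL
  have hub : QuadraticMap.polar ⇑Q u ((1 : F) • v) = 0 := by
    rw [QuadraticMap.polar_smul_right, h.2.2.1, smul_zero]
  refine ⟨_, eich_mem_XL Q hQ hn u v h 1 hub, ?_⟩
  intro h1
  have h2 : eichO Q u ((1 : F) • v) h.1 hub = 1 := congrArg Subtype.val h1
  refine eichO_ne_one Q hQ u ((1 : F) • v) h.1 h.ne_zero_left hub ?_ h2
  intro t
  rw [one_smul]
  exact h.not_smul t

/-- the line is recovered from a non-trivial element of its root group -/
theorem le_of_mem_XL (hQ : (QuadraticMap.polarBilin Q).Nondegenerate) (L N : Submodule F (ι → F))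
    (hL : IsLine Q L) (g : ↥(Omega F ⇑Q)) (hg : g ∈ XL Q L) (hg1 : g ≠ 1)
    (hN : ∀ x : ι → F, mv ⇑Q (g : ↥(isometryGroup F ⇑Q)) x - x ∈ N) : L ≤ N := by
  obtain ⟨u, v, h, rfl⟩ := hL
  obtain ⟨t, hub, e⟩ := XL_eq_eich Q hQ u v h g hg
  have ht : t ≠ 0 := by
    rintro rfl
    apply hg1
    apply Subtype.ext
    rw [e]
    have h0 : QuadraticMap.polar ⇑Q u 0 = 0 := by simp
    show _ = (1 : ↥(isometryGroup F ⇑Q))
    rw [← eichO_zero Q u h.1 h0]
    apply eichO_congr
    rw [zero_smul]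
  obtain ⟨w₁, hw₁u, hw₁v⟩ := h.exists_dual Q hQ
  obtain ⟨w₂, hw₂v, hw₂u⟩ := h.symm.exists_dual Q hQ
  have k1 := hN w₁
  have k2 := hN w₂
  rw [e, mv_eichO, eich_sub_self, QuadraticMap.map_smul, h.2.1, QuadraticMap.polar_smul_left] at k1 k2
  rw [hw₁u, hw₁v] at k1
  rw [hw₂u, hw₂v] at k2
  simp only [smul_eq_mul, mul_zero, sub_zero, zero_smul, zero_sub, mul_one, one_smul] at k1 k2
  have hv : v ∈ N := by
    have := N.smul_mem (-t⁻¹) k1
    rwa [smul_neg, neg_smul, neg_neg, smul_smul, inv_mul_cancel₀ ht, one_smul] at this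
  have hu : u ∈ N := by
    have := N.smul_mem (t⁻¹) k2
    rwa [smul_smul, inv_mul_cancel₀ ht, one_smul] at this
  rw [Submodule.span_le]
  intro y hy
  rcases hy with rfl | rfl
  · exact hu
  · exact hv

theorem XL_inj (hQ : (QuadraticMap.polarBilin Q).Nondegenerate) (hn : 5 ≤ Fintype.card ι)
    (L N : Submodule F (ι → F)) (hL : IsLine Q L) (hN : IsLine Q N) (h : XL Q L = XL Q N) : L = N := by
  apply le_antisymm
  · obtain ⟨g, hg, hg1⟩ := XL_ne_bot Q hQ hn L hL
    refine le_of_mem_XL Q hQ L N hL g hg hg1 ?_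
    rw [h] at hg
    exact hg.1
  · obtain ⟨g, hg, hg1⟩ := XL_ne_bot Q hQ hn N hN
    refine le_of_mem_XL Q hQ N L hN g hg hg1 ?_
    rw [← h] at hg
    exact hg.1

/-- elements of root groups have order dividing the characteristic -/
theorem XL_pow_char (hQ : (QuadraticMap.polarBilin Q).Nondegenerate) (p : ℕ) [CharP F p]
    (L : Submodule F (ι → F)) (hL : IsLine Q L) (g : ↥(Omega F ⇑Q)) (hg : g ∈ XL Q L) : g ^ p = 1 := by
  obtain ⟨u, v, h, rfl⟩ := hL
  obtain ⟨t, hub, e⟩ := XL_eq_eich Q hQ u v h g hg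
  apply Subtype.ext
  rw [Subgroup.coe_pow, e, eichO_pow_char]
  rfl

end Lines

section Siegel

variable {ι : Type} [Fintype ι] [DecidableEq ι] {F : Type u} [Field F] [Fintype F]
  (Q : QuadraticForm F (ι → F))

/-- a line through the point of `e` has a basis starting with `e` -/
theorem line_basis_of_mem (L : Submodule F (ι → F)) (hL : IsLine Q L) (e : ι → F) (he : e ∈ L)
    (he0 : e ≠ 0) : ∃ v : ι → F, TSP Q e v ∧ L = Submodule.span F {e, v} := by
  have hLL := hL
  obtain ⟨u, v, h, rfl⟩ := hL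
  obtain ⟨a, b, hab⟩ := mem_pair.mp he
  have hu : u ∈ Submodule.span F {u, v} := Submodule.subset_span (by simp)
  have hv : v ∈ Submodule.span F {u, v} := Submodule.subset_span (by simp)
  by_cases ha : a = 0
  · have hb : b ≠ 0 := by
      rintro rfl
      apply he0
      rw [← hab, ha]
      simp
    rw [ha, zero_smul, zero_add] at hab
    refine ⟨u, ⟨hLL.sing he, h.1, hLL.perp he hu, ?_⟩, ?_⟩
    · intro α β hαβ
      rw [← hab, smul_smul, add_comm] at hαβ
      have := h.2.2.2 β (α * b) hαβ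
      refine ⟨?_, this.1⟩
      rcases mul_eq_zero.mp this.2 with h1 | h1
      · exact h1
      · exact absurd h1 hb
    · apply le_antisymm
      · rw [Submodule.span_le]
        intro y hy
        rcases hy with rfl | rfl
        · exact Submodule.subset_span (by simp)
        · have : y = b⁻¹ • e := by rw [← hab, smul_smul, inv_mul_cancel₀ hb, one_smul]
          rw [this]
          exact Submodule.smul_mem _ _ (Submodule.subset_span (by simp))
      · rw [Submodule.span_le]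
        intro y hy
        rcases hy with rfl | rfl
        · exact he
        · exact hu
  · refine ⟨v, ⟨hLL.sing he, h.2.1, hLL.perp he hv, ?_⟩, ?_⟩
    · intro α β hαβ
      rw [← hab, smul_add, smul_smul, smul_smul, add_assoc, ← add_smul] at hαβ
      have := h.2.2.2 (α * a) (α * b + β) hαβ
      have hα : α = 0 := by
        rcases mul_eq_zero.mp this.1 with h1 | h1
        · exact h1
        · exact absurd h1 ha
      refine ⟨hα, ?_⟩
      have h2 := this.2
      rw [hα, zero_mul, zero_add] at h2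
      exact h2
    · apply le_antisymm
      · rw [Submodule.span_le]
        intro y hy
        rcases hy with rfl | rfl
        · have : y = a⁻¹ • e - (a⁻¹ * b) • v := by
            rw [← hab, smul_add, smul_smul, smul_smul, inv_mul_cancel₀ ha, one_smul]
            abel
          rw [this]
          exact Submodule.sub_mem _ (Submodule.smul_mem _ _ (Submodule.subset_span (by simp)))
            (Submodule.smul_mem _ _ (Submodule.subset_span (by simp)))
        · exact Submodule.subset_span (by simp)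
      · rw [Submodule.span_le]
        intro y hy
        rcases hy with rfl | rfl
        · exact he
        · exact hv

/-- the root group of a line through the point of `e` lies in the Siegel group of `e` -/
theorem XL_le_eichSub (hQ : (QuadraticMap.polarBilin Q).Nondegenerate) (L : Submodule F (ι → F))
    (hL : IsLine Q L) (e : ι → F) (he : Q e = 0) (heL : e ∈ L) (he0 : e ≠ 0) :
    XL Q L ≤ eichSub Q e he := by
  obtain ⟨v, h, rfl⟩ := line_basis_of_mem Q L hL e heL he0
  intro g hg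
  obtain ⟨t, hub, e1⟩ := XL_eq_eich Q hQ e v h g hg
  exact ⟨t • v, hub, e1⟩

/-- if the root group of a line lies in the Siegel group of `e`, the line passes through `e` -/
theorem mem_of_XL_le_eichSub (hQ : (QuadraticMap.polarBilin Q).Nondegenerate)
    (hn : 5 ≤ Fintype.card ι) (N : Submodule F (ι → F)) (hN : IsLine Q N) (e : ι → F) (he : Q e = 0)
    (he0 : e ≠ 0) (h : XL Q N ≤ eichSub Q e he) : e ∈ N := by
  obtain ⟨g, hg, hg1⟩ := XL_ne_bot Q hQ hn N hN
  obtain ⟨b, hub, e1⟩ := h hg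
  have hb : ∀ t : F, b ≠ t • e := by
    intro t ht
    apply hg1
    apply Subtype.ext
    rw [e1]
    have h0 : QuadraticMap.polar ⇑Q e 0 = 0 := by simp
    show _ = (1 : ↥(isometryGroup F ⇑Q))
    rw [← eichO_zero Q e he h0]
    have h1 : QuadraticMap.polar ⇑Q e (0 + t • e) = 0 := by rw [zero_add, ← ht]; exact hub
    rw [← eichO_add_smul Q e 0 t he h0 h1]
    apply eichO_congr
    rw [zero_add, ht]
  obtain ⟨w, hew, hbw⟩ := exists_perp_not_perp Q hQ e b hb
  have h1 := hg.1 w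
  rw [e1, mv_eichO, eich_sub_self, hew, mul_zero, sub_zero, zero_smul, sub_zero] at h1
  have := N.smul_mem (QuadraticMap.polar ⇑Q b w)⁻¹ h1
  rwa [smul_smul, inv_mul_cancel₀ hbw, one_smul] at this

/-- the parameter of an Eichler transformation at `e` in the root group of a line through `e` lies on
the line -/
theorem param_mem_of_mem_XL (hQ : (QuadraticMap.polarBilin Q).Nondegenerate)
    (N : Submodule F (ι → F)) (e b : ι → F) (he : Q e = 0) (he0 : e ≠ 0) (heN : e ∈ N)
    (hub : QuadraticMap.polar ⇑Q e b = 0) (g : ↥(Omega F ⇑Q))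
    (hg : (g : ↥(isometryGroup F ⇑Q)) = eichO Q e b he hub) (hgN : g ∈ XL Q N) : b ∈ N := by
  obtain ⟨w, hw⟩ := exists_polar_one Q hQ e he0
  have h1 := hgN.1 w
  rw [hg, mv_eichO, eich_sub_self, hw, one_smul] at h1
  have h2 := N.sub_mem (N.smul_mem (QuadraticMap.polar ⇑Q b w - Q b * 1) heN) h1
  rwa [sub_sub_cancel] at h2

theorem eichSub_pow_char (p : ℕ) [CharP F p] (e : ι → F) (he : Q e = 0) (g : ↥(Omega F ⇑Q))
    (hg : g ∈ eichSub Q e he) : g ^ p = 1 := by
  obtain ⟨b, hub, e1⟩ := hg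
  apply Subtype.ext
  rw [Subgroup.coe_pow, e1, eichO_pow_char]
  rfl

/-- conjugation moves the Siegel group of `e` to that of the image of `e` -/
theorem conj_mem_eichSub (k : ↥(Omega F ⇑Q)) (e : ι → F) (he : Q e = 0)
    (he' : Q (mv ⇑Q (k : ↥(isometryGroup F ⇑Q)) e) = 0) (g : ↥(Omega F ⇑Q))
    (hg : g ∈ eichSub Q e he) :
    k * g * k⁻¹ ∈ eichSub Q (mv ⇑Q (k : ↥(isometryGroup F ⇑Q)) e) he' := by
  obtain ⟨b, hub, e1⟩ := hg
  have hub' : QuadraticMap.polar ⇑Q (mv ⇑Q (k : ↥(isometryGroup F ⇑Q)) e)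
      (mv ⇑Q (k : ↥(isometryGroup F ⇑Q)) b) = 0 := by rw [mv_polar]; exact hub
  refine ⟨mv ⇑Q (k : ↥(isometryGroup F ⇑Q)) b, hub', ?_⟩
  show (k : ↥(isometryGroup F ⇑Q)) * (g : ↥(isometryGroup F ⇑Q)) * (k : ↥(isometryGroup F ⇑Q))⁻¹ = _
  rw [e1, conj_eichO Q _ e b he hub he' hub']

/-- the Siegel group only depends on the point -/
theorem eichSub_smul (e : ι → F) (he : Q e = 0) (t : F) (ht : t ≠ 0) (he' : Q (t • e) = 0) :
    eichSub Q (t • e) he' = eichSub Q e he := by
  ext g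
  constructor
  · rintro ⟨b, hub, e1⟩
    have hub' : QuadraticMap.polar ⇑Q e (t • b) = 0 := by
      rw [QuadraticMap.polar_smul_left] at hub
      rw [QuadraticMap.polar_smul_right]
      exact hub
    refine ⟨t • b, hub', ?_⟩
    rw [e1]
    apply ext_mv
    intro x
    rw [mv_eichO, mv_eichO, eich_smul_left]
  · rintro ⟨b, hub, e1⟩
    have hub' : QuadraticMap.polar ⇑Q (t • e) (t⁻¹ • b) = 0 := by
      rw [QuadraticMap.polar_smul_left, QuadraticMap.polar_smul_right, hub]
      simp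
    refine ⟨t⁻¹ • b, hub', ?_⟩
    rw [e1]
    apply ext_mv
    intro x
    rw [mv_eichO, mv_eichO, eich_smul_left, smul_smul, mul_inv_cancel₀ ht, one_smul]

/-- inclusion of Siegel groups forces equality of the points -/
theorem eq_smul_of_eichSub_le (hQ : (QuadraticMap.polarBilin Q).Nondegenerate)
    (hn : 5 ≤ Fintype.card ι) (e e' : ι → F) (he : Q e = 0) (he' : Q e' = 0) (he0 : e ≠ 0)
    (h : eichSub Q e he ≤ eichSub Q e' he') : ∃ t : F, e' = t • e := by
  apply fix_eich_all Q hQ hn e e' he he0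
  intro b hb
  obtain ⟨b', hub', e1⟩ := h (show eichΩ Q hQ hn e b he hb ∈ eichSub Q e he from ⟨b, hb, rfl⟩)
  have e2 : eichO Q e b he hb = eichO Q e' b' he' hub' := e1
  rw [← mv_eichO Q e b he hb, e2, mv_eichO, eich_self Q e' b' he' hub']

/-- a hyperbolic pair of singular vectors orthogonal to the singular vector `e` -/
theorem exists_pair_perp (hQ : (QuadraticMap.polarBilin Q).Nondegenerate) (hn : 5 ≤ Fintype.card ι)
    (e : ι → F) (he0 : e ≠ 0) :
    ∃ u v : ι → F, Q u = 0 ∧ Q v = 0 ∧ QuadraticMap.polar ⇑Q e u = 0 ∧ QuadraticMap.polar ⇑Q e v = 0 ∧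
      QuadraticMap.polar ⇑Q u v = 1 ∧ ∀ t : F, u ≠ t • e := by
  obtain ⟨t₀, ht₀⟩ : ∃ t, QuadraticMap.polar ⇑Q e t ≠ 0 := by
    by_contra hcon
    push Not at hcon
    exact he0 (hQ.1 e hcon)
  obtain ⟨s, hs0, hs, hes, hts⟩ := exists_sing_perp2 Q hn e t₀
  have hse : ∀ c : F, s ≠ c • e := by
    intro c h
    by_cases hc : c = 0
    · apply hs0
      rw [h, hc, zero_smul]
    · rw [h, QuadraticMap.polar_smul_right, smul_eq_mul, QuadraticMap.polar_comm] at hts
      rcases mul_eq_zero.mp hts with h1 | h1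
      · exact hc h1
      · exact ht₀ h1
  obtain ⟨t, ht, hst, het⟩ := exists_hyp_partner Q hQ e s hs hes hse
  exact ⟨s, t, hs, ht, hes, het, hst, hse⟩

theorem tsp_of_perp (e s : ι → F) (he : Q e = 0) (hs : Q s = 0) (hes : QuadraticMap.polar ⇑Q e s = 0)
    (he0 : e ≠ 0) (hse : ∀ t : F, s ≠ t • e) : TSP Q e s := by
  refine ⟨he, hs, hes, ?_⟩
  intro a b hab
  have hb : b = 0 := by
    by_contra hb
    apply hse (-(b⁻¹ * a))
    have h1 : b • s = -(a • e) := eq_neg_of_add_eq_zero_right hab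
    calc s = b⁻¹ • (b • s) := by rw [smul_smul, inv_mul_cancel₀ hb, one_smul]
      _ = -(b⁻¹ * a) • e := by rw [h1, smul_neg, smul_smul, neg_smul]
  refine ⟨?_, hb⟩
  rw [hb, zero_smul, add_zero] at hab
  rcases smul_eq_zero.mp hab with h | h
  · exact h
  · exact absurd h he0

/-- the Siegel group of `e` is generated by the root groups of the lines through `e` -/
theorem eichSub_le_of_XL (hQ : (QuadraticMap.polarBilin Q).Nondegenerate) (hn : 5 ≤ Fintype.card ι)
    (e : ι → F) (he : Q e = 0) (he0 : e ≠ 0) (K : Subgroup ↥(Omega F ⇑Q))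
    (hK : ∀ L : Submodule F (ι → F), IsLine Q L → e ∈ L → XL Q L ≤ K) : eichSub Q e he ≤ K := by
  have key : ∀ (s : ι → F) (hs : Q s = 0) (hes : QuadraticMap.polar ⇑Q e s = 0),
      eichΩ Q hQ hn e s he hes ∈ K := by
    intro s hs hes
    by_cases hse : ∃ t : F, s = t • e
    · obtain ⟨t, rfl⟩ := hse
      have h0 : QuadraticMap.polar ⇑Q e 0 = 0 := by simp
      have h1 : QuadraticMap.polar ⇑Q e (0 + t • e) = 0 := by rw [zero_add]; exact hes
      have : eichΩ Q hQ hn e (t • e) he hes = 1 := by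
        apply Subtype.ext
        show eichO Q e (t • e) he hes = (1 : ↥(isometryGroup F ⇑Q))
        rw [← eichO_zero Q e he h0, ← eichO_add_smul Q e 0 t he h0 h1]
        apply eichO_congr
        rw [zero_add]
      rw [this]
      exact K.one_mem
    · push Not at hse
      have htsp := tsp_of_perp Q e s he hs hes he0 hse
      have hub : QuadraticMap.polar ⇑Q e ((1 : F) • s) = 0 := by rw [one_smul]; exact hes
      have h1 := eich_mem_XL Q hQ hn e s htsp 1 hub
      have h2 := hK _ ⟨e, s, htsp, rfl⟩ (Submodule.subset_span (by simp)) h1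
      have : eichΩ Q hQ hn e s he hes = eichΩ Q hQ hn e ((1 : F) • s) he hub := by
        apply Subtype.ext
        show eichO Q e s he hes = eichO Q e ((1 : F) • s) he hub
        apply eichO_congr
        rw [one_smul]
      rw [this]
      exact h2
  obtain ⟨u, v, hu, hv, heu, hev, huv, hue⟩ := exists_pair_perp Q hQ hn e he0
  have hvu : QuadraticMap.polar ⇑Q v u = 1 := by rw [QuadraticMap.polar_comm]; exact huv
  rintro g ⟨b, hub, e1⟩
  set b' := b - QuadraticMap.polar ⇑Q b v • u - QuadraticMap.polar ⇑Q b u • v with hb'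
  have hb'u : QuadraticMap.polar ⇑Q b' u = 0 := by
    rw [hb', QuadraticMap.polar_sub_left, QuadraticMap.polar_sub_left, QuadraticMap.polar_smul_left,
      QuadraticMap.polar_smul_left, polar_self_zero Q u hu, hvu]
    simp
  have hb'v : QuadraticMap.polar ⇑Q b' v = 0 := by
    rw [hb', QuadraticMap.polar_sub_left, QuadraticMap.polar_sub_left, QuadraticMap.polar_smul_left,
      QuadraticMap.polar_smul_left, polar_self_zero Q v hv, huv]
    simp
  have heb' : QuadraticMap.polar ⇑Q e b' = 0 := by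
    rw [hb', QuadraticMap.polar_sub_right, QuadraticMap.polar_sub_right, QuadraticMap.polar_smul_right,
      QuadraticMap.polar_smul_right, hub, heu, hev]
    simp
  set s₅ := u - Q b' • v + b' with hs₅
  have hs₅Q : Q s₅ = 0 := by
    rw [hs₅, Helper13.Q_add', q_sub, QuadraticMap.map_smul, hu, hv, QuadraticMap.polar_smul_right, huv,
      QuadraticMap.polar_sub_left, QuadraticMap.polar_smul_left, QuadraticMap.polar_comm ⇑Q u b',
      QuadraticMap.polar_comm ⇑Q v b', hb'u, hb'v]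
    simp
  have hes₅ : QuadraticMap.polar ⇑Q e s₅ = 0 := by
    rw [hs₅, QuadraticMap.polar_add_right, QuadraticMap.polar_sub_right, QuadraticMap.polar_smul_right,
      heu, hev, heb']
    simp
  have h1u : QuadraticMap.polar ⇑Q e ((QuadraticMap.polar ⇑Q b v - 1) • u) = 0 := by
    rw [QuadraticMap.polar_smul_right, heu, smul_zero]
  have h1v : QuadraticMap.polar ⇑Q e ((QuadraticMap.polar ⇑Q b u + Q b') • v) = 0 := by
    rw [QuadraticMap.polar_smul_right, hev, smul_zero]
  have hsu : Q ((QuadraticMap.polar ⇑Q b v - 1) • u) = 0 := by rw [QuadraticMap.map_smul, hu, smul_zero]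
  have hsv : Q ((QuadraticMap.polar ⇑Q b u + Q b') • v) = 0 := by
    rw [QuadraticMap.map_smul, hv, smul_zero]
  have hdecomp : b = (QuadraticMap.polar ⇑Q b v - 1) • u + (QuadraticMap.polar ⇑Q b u + Q b') • v + s₅ := by
    rw [hs₅, hb']
    funext i
    simp only [Pi.add_apply, Pi.sub_apply, Pi.smul_apply, smul_eq_mul]
    ring
  have h12 : QuadraticMap.polar ⇑Q e ((QuadraticMap.polar ⇑Q b v - 1) • u +
      (QuadraticMap.polar ⇑Q b u + Q b') • v) = 0 := by
    rw [QuadraticMap.polar_add_right, h1u, h1v, add_zero]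
  have h123 : QuadraticMap.polar ⇑Q e ((QuadraticMap.polar ⇑Q b v - 1) • u +
      (QuadraticMap.polar ⇑Q b u + Q b') • v + s₅) = 0 := by
    rw [QuadraticMap.polar_add_right, h12, hes₅, add_zero]
  have hg : g = eichΩ Q hQ hn e _ he h1u * eichΩ Q hQ hn e _ he h1v * eichΩ Q hQ hn e s₅ he hes₅ := by
    apply Subtype.ext
    show (g : ↥(isometryGroup F ⇑Q)) = eichO Q e _ he h1u * eichO Q e _ he h1v * eichO Q e s₅ he hes₅
    rw [e1, eichO_mul Q e _ _ he h1u h1v h12, eichO_mul Q e _ _ he h12 hes₅ h123]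
    exact eichO_congr Q e _ _ he hub h123 hdecomp
  rw [hg]
  exact K.mul_mem (K.mul_mem (key _ hsu h1u) (key _ hsv h1v)) (key _ hs₅Q hes₅)

end Siegel

end Cfsg.Agent.Helper45.AO
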