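import Cfsg.Agent.Helper45.AutA

set_option autoImplicit false
set_option linter.unusedSectionVars false

/-!
Helper library (helper45), automorphisms of `PΩ(Q)`, part B: the centre of a Sylow `p`-subgroup of `Ω(Q)`
(`p` the characteristic) is a long root group, and every long root group is such a centre.
-/

universe u

namespace Cfsg.Agent.Helper45.AO

open Cfsg Matrix Module

section Count

/-- Chevalley–Warning: the number of singular vectors of a quadratic form in at least three variables over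
a finite field is divisible by the characteristic -/
theorem card_sing_dvd {F V : Type*} [Field F] [Finite F] [AddCommGroup V] [Module F V]
    [FiniteDimensional F V] (Q : QuadraticForm F V) (h3 : 3 ≤ finrank F V) :
    ringChar F ∣ Nat.card {v : V // Q v = 0} := by
  classical
  have : Fintype F := Fintype.ofFinite F
  let b : Module.Basis (Fin (finrank F V)) F V := Module.finBasis F V
  let T := Q.toBilin b
  have hQ : ∀ v, Q v = T v v := fun v => by
    rw [← LinearMap.BilinMap.toQuadraticMap_apply, QuadraticMap.toQuadraticMap_toBilin]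
  let f : MvPolynomial (Fin (finrank F V)) F :=
    ∑ i, ∑ j, MvPolynomial.C (T (b i) (b j)) * MvPolynomial.X i * MvPolynomial.X j
  have heval : ∀ x : Fin (finrank F V) → F, MvPolynomial.eval x f = Q (b.equivFun.symm x) := by
    intro x
    rw [hQ, Module.Basis.equivFun_symm_apply]
    simp only [f, map_sum, map_mul, MvPolynomial.eval_C, MvPolynomial.eval_X, LinearMap.sum_apply,
      map_smul, LinearMap.smul_apply, smul_eq_mul, Finset.mul_sum]
    rw [Finset.sum_comm]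
    refine Finset.sum_congr rfl fun i _ => Finset.sum_congr rfl fun j _ => ?_
    ring
  have hdeg : f.totalDegree ≤ 2 := by
    apply MvPolynomial.totalDegree_finsetSum_le
    intro i _
    apply MvPolynomial.totalDegree_finsetSum_le
    intro j _
    calc (MvPolynomial.C (T (b i) (b j)) * MvPolynomial.X i * MvPolynomial.X j).totalDegree
        ≤ (MvPolynomial.C (T (b i) (b j)) * MvPolynomial.X i).totalDegree
            + (MvPolynomial.X j : MvPolynomial (Fin (finrank F V)) F).totalDegree :=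
          MvPolynomial.totalDegree_mul _ _
      _ ≤ ((MvPolynomial.C (T (b i) (b j)) : MvPolynomial (Fin (finrank F V)) F).totalDegree
            + (MvPolynomial.X i : MvPolynomial (Fin (finrank F V)) F).totalDegree)
            + (MvPolynomial.X j : MvPolynomial (Fin (finrank F V)) F).totalDegree :=
          Nat.add_le_add_right (MvPolynomial.totalDegree_mul _ _) _
      _ = 2 := by rw [MvPolynomial.totalDegree_C, MvPolynomial.totalDegree_X,
            MvPolynomial.totalDegree_X]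
  have hlt : f.totalDegree < Fintype.card (Fin (finrank F V)) := by
    rw [Fintype.card_fin]
    omega
  have hdvd := char_dvd_card_solutions (ringChar F) hlt
  rw [← Nat.card_eq_fintype_card] at hdvd
  have e : {x : Fin (finrank F V) → F // MvPolynomial.eval x f = 0} ≃ {v : V // Q v = 0} :=
    Equiv.subtypeEquiv b.equivFun.symm.toEquiv (fun x => by rw [heval]; rfl)
  rw [← Nat.card_congr e]
  exact hdvd

end Count

section Fixed

variable {ι : Type} [Fintype ι] [DecidableEq ι] {F : Type u} [Field F] [Fintype F]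
  (Q : QuadraticForm F (ι → F))

/-- the action of a subgroup of `Ω` on the singular vectors -/
@[reducible] def singAct (K : Subgroup ↥(Omega F ⇑Q)) : MulAction ↥K {x : ι → F // Q x = 0} where
  smul g x := ⟨mv ⇑Q ((g : ↥(Omega F ⇑Q)) : ↥(isometryGroup F ⇑Q)) x.1, by
    rw [mv_quad ⇑Q]; exact x.2⟩
  one_smul x := Subtype.ext (mv_one ⇑Q x.1)
  mul_smul g h x := Subtype.ext (mv_mul ⇑Q _ _ x.1)

/-- a `p`-subgroup of `Ω` (`p` the characteristic) fixes a non-zero singular vector -/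
theorem exists_fixed_sing (hn : 3 ≤ Fintype.card ι) (p : ℕ) [Fact p.Prime] [CharP F p]
    (K : Subgroup ↥(Omega F ⇑Q)) (hK : IsPGroup p K) :
    ∃ e : ι → F, e ≠ 0 ∧ Q e = 0 ∧
      ∀ g ∈ K, mv ⇑Q ((g : ↥(Omega F ⇑Q)) : ↥(isometryGroup F ⇑Q)) e = e := by
  let _ := singAct Q K
  have hdvd : p ∣ Nat.card {x : ι → F // Q x = 0} := by
    have h1 := card_sing_dvd Q (by rw [Module.finrank_fintype_fun_eq_card]; exact hn)
    rwa [ringChar.eq F p] at h1
  have hfix : (⟨0, map_zero Q⟩ : {x : ι → F // Q x = 0}) ∈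
      MulAction.fixedPoints ↥K {x : ι → F // Q x = 0} := by
    intro g
    apply Subtype.ext
    exact Matrix.mulVec_zero _
  obtain ⟨b, hb, hne⟩ := hK.exists_fixed_point_of_prime_dvd_card_of_fixed_point _ hdvd hfix
  refine ⟨b.1, ?_, b.2, ?_⟩
  · intro h
    apply hne
    apply Subtype.ext
    exact h.symm
  · intro g hg
    have := hb ⟨g, hg⟩
    exact congrArg Subtype.val this

/-- projection to the orthogonal complement of the hyperbolic pair `e, f` -/
def projH (e f x : ι → F) : ι → F :=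
  x - QuadraticMap.polar ⇑Q f x • e - QuadraticMap.polar ⇑Q e x • f

theorem projH_perp_e (e f x : ι → F) (he : Q e = 0) (hef : QuadraticMap.polar ⇑Q e f = 1) :
    QuadraticMap.polar ⇑Q e (projH Q e f x) = 0 := by
  unfold projH
  rw [QuadraticMap.polar_sub_right, QuadraticMap.polar_sub_right, QuadraticMap.polar_smul_right,
    QuadraticMap.polar_smul_right, polar_self_zero Q e he, hef]
  simp

theorem projH_perp_f (e f x : ι → F) (hf : Q f = 0) (hef : QuadraticMap.polar ⇑Q e f = 1) :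
    QuadraticMap.polar ⇑Q f (projH Q e f x) = 0 := by
  unfold projH
  rw [QuadraticMap.polar_sub_right, QuadraticMap.polar_sub_right, QuadraticMap.polar_smul_right,
    QuadraticMap.polar_smul_right, polar_self_zero Q f hf, QuadraticMap.polar_comm ⇑Q f e, hef]
  simp

theorem projH_of_perp (e f x : ι → F) (hex : QuadraticMap.polar ⇑Q e x = 0)
    (hfx : QuadraticMap.polar ⇑Q f x = 0) : projH Q e f x = x := by
  unfold projH
  rw [hex, hfx]
  simp

theorem projH_sub_smul (e f x : ι → F) (t : F) (he : Q e = 0) (hef : QuadraticMap.polar ⇑Q e f = 1) :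
    projH Q e f (x - t • e) = projH Q e f x := by
  unfold projH
  rw [QuadraticMap.polar_sub_right, QuadraticMap.polar_sub_right, QuadraticMap.polar_smul_right,
    QuadraticMap.polar_smul_right, polar_self_zero Q e he, QuadraticMap.polar_comm ⇑Q f e, hef]
  funext i
  simp only [Pi.add_apply, Pi.sub_apply, Pi.smul_apply, smul_eq_mul]
  ring

theorem projH_quad (e f x : ι → F) (he : Q e = 0) (hex : QuadraticMap.polar ⇑Q e x = 0) :
    Q (projH Q e f x) = Q x := by
  unfold projH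
  rw [hex, zero_smul, sub_zero, q_sub, QuadraticMap.map_smul, he, QuadraticMap.polar_smul_right,
    QuadraticMap.polar_comm ⇑Q x e, hex]
  simp

/-- the action of a subgroup of `Ω` fixing the singular vector `e` on the singular vectors orthogonal to
the hyperbolic pair `e, f` (the action on `e^⊥ / e`) -/
@[reducible] def perpAct (K : Subgroup ↥(Omega F ⇑Q)) (e f : ι → F) (he : Q e = 0) (hf : Q f = 0)
    (hef : QuadraticMap.polar ⇑Q e f = 1)
    (hK : ∀ g ∈ K, mv ⇑Q ((g : ↥(Omega F ⇑Q)) : ↥(isometryGroup F ⇑Q)) e = e) :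
    MulAction ↥K {y : ι → F // (QuadraticMap.polar ⇑Q e y = 0 ∧ QuadraticMap.polar ⇑Q f y = 0) ∧ Q y = 0} where
  smul g y := ⟨projH Q e f (mv ⇑Q ((g : ↥(Omega F ⇑Q)) : ↥(isometryGroup F ⇑Q)) y.1),
    ⟨projH_perp_e Q e f _ he hef, projH_perp_f Q e f _ hf hef⟩, by
      rw [projH_quad Q e f _ he, mv_quad ⇑Q]
      · exact y.2.2
      · have h1 := mv_polar Q ((g : ↥(Omega F ⇑Q)) : ↥(isometryGroup F ⇑Q)) e y.1
        rw [hK g g.2] at h1
        rw [h1]
        exact y.2.1.1⟩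
  one_smul y := by
    apply Subtype.ext
    show projH Q e f (mv ⇑Q ((1 : ↥(Omega F ⇑Q)) : ↥(isometryGroup F ⇑Q)) y.1) = y.1
    have : mv ⇑Q ((1 : ↥(Omega F ⇑Q)) : ↥(isometryGroup F ⇑Q)) y.1 = y.1 := mv_one ⇑Q y.1
    rw [this, projH_of_perp Q e f y.1 y.2.1.1 y.2.1.2]
  mul_smul g h y := by
    apply Subtype.ext
    show projH Q e f (mv ⇑Q (((g * h : ↥K) : ↥(Omega F ⇑Q)) : ↥(isometryGroup F ⇑Q)) y.1) =
      projH Q e f (mv ⇑Q ((g : ↥(Omega F ⇑Q)) : ↥(isometryGroup F ⇑Q))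
        (projH Q e f (mv ⇑Q ((h : ↥(Omega F ⇑Q)) : ↥(isometryGroup F ⇑Q)) y.1)))
    have e1 : mv ⇑Q (((g * h : ↥K) : ↥(Omega F ⇑Q)) : ↥(isometryGroup F ⇑Q)) y.1 =
        mv ⇑Q ((g : ↥(Omega F ⇑Q)) : ↥(isometryGroup F ⇑Q))
          (mv ⇑Q ((h : ↥(Omega F ⇑Q)) : ↥(isometryGroup F ⇑Q)) y.1) := mv_mul ⇑Q _ _ y.1
    have h1 := mv_polar Q ((h : ↥(Omega F ⇑Q)) : ↥(isometryGroup F ⇑Q)) e y.1
    rw [hK h h.2, y.2.1.1] at h1
    have e2 : projH Q e f (mv ⇑Q ((h : ↥(Omega F ⇑Q)) : ↥(isometryGroup F ⇑Q)) y.1) =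
        mv ⇑Q ((h : ↥(Omega F ⇑Q)) : ↥(isometryGroup F ⇑Q)) y.1 -
          QuadraticMap.polar ⇑Q f (mv ⇑Q ((h : ↥(Omega F ⇑Q)) : ↥(isometryGroup F ⇑Q)) y.1) • e := by
      unfold projH
      rw [h1, zero_smul, sub_zero]
    rw [e1, e2, mv_sub, mv_smul, hK g g.2, projH_sub_smul Q e f _ _ he hef]

/-- a `p`-subgroup of `Ω` fixing the singular vector `e` fixes a second singular vector modulo `e` -/
theorem exists_fixed_sing_perp (hQ : (QuadraticMap.polarBilin Q).Nondegenerate)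
    (hn : 5 ≤ Fintype.card ι) (p : ℕ) [Fact p.Prime] [CharP F p]
    (K : Subgroup ↥(Omega F ⇑Q)) (hKp : IsPGroup p K) (e f : ι → F) (he : Q e = 0) (hf : Q f = 0)
    (hef : QuadraticMap.polar ⇑Q e f = 1)
    (hK : ∀ g ∈ K, mv ⇑Q ((g : ↥(Omega F ⇑Q)) : ↥(isometryGroup F ⇑Q)) e = e) :
    ∃ b : ι → F, b ≠ 0 ∧ Q b = 0 ∧ QuadraticMap.polar ⇑Q e b = 0 ∧ QuadraticMap.polar ⇑Q f b = 0 ∧
      ∀ g ∈ K, ∃ t : F, mv ⇑Q ((g : ↥(Omega F ⇑Q)) : ↥(isometryGroup F ⇑Q)) b = b + t • e := by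
  let _ := perpAct Q K e f he hf hef hK
  have hdvd : p ∣ Nat.card {y : ι → F // (QuadraticMap.polar ⇑Q e y = 0 ∧ QuadraticMap.polar ⇑Q f y = 0)
      ∧ Q y = 0} := by
    have hfr := Helper43.finrank_pairPerp Q he hf hef
    rw [Module.finrank_fintype_fun_eq_card] at hfr
    have h1 := card_sing_dvd (Q.comp (Helper43.pairPerp Q e f).subtype) (by omega)
    rw [ringChar.eq F p] at h1
    have eqv : {w : ↥(Helper43.pairPerp Q e f) // (Q.comp (Helper43.pairPerp Q e f).subtype) w = 0} ≃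
        {y : ι → F // (QuadraticMap.polar ⇑Q e y = 0 ∧ QuadraticMap.polar ⇑Q f y = 0) ∧ Q y = 0} :=
      { toFun := fun w => ⟨w.1.1, (Helper43.mem_pairPerp Q e f w.1.1).mp w.1.2, w.2⟩
        invFun := fun y => ⟨⟨y.1, (Helper43.mem_pairPerp Q e f y.1).mpr y.2.1⟩, y.2.2⟩
        left_inv := fun w => rfl
        right_inv := fun y => rfl }
    rwa [Nat.card_congr eqv] at h1
  have hfix : (⟨0, ⟨by simp, by simp⟩, map_zero Q⟩ : {y : ι → F // (QuadraticMap.polar ⇑Q e y = 0 ∧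
      QuadraticMap.polar ⇑Q f y = 0) ∧ Q y = 0}) ∈ MulAction.fixedPoints ↥K _ := by
    intro g
    apply Subtype.ext
    show projH Q e f (mv ⇑Q ((g : ↥(Omega F ⇑Q)) : ↥(isometryGroup F ⇑Q)) 0) = 0
    have : mv ⇑Q ((g : ↥(Omega F ⇑Q)) : ↥(isometryGroup F ⇑Q)) 0 = 0 := Matrix.mulVec_zero _
    rw [this]
    unfold projH
    simp
  obtain ⟨b, hb, hne⟩ := hKp.exists_fixed_point_of_prime_dvd_card_of_fixed_point _ hdvd hfix
  refine ⟨b.1, ?_, b.2.2, b.2.1.1, b.2.1.2, ?_⟩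
  · intro h
    apply hne
    apply Subtype.ext
    exact h.symm
  · intro g hg
    have h1 : projH Q e f (mv ⇑Q ((g : ↥(Omega F ⇑Q)) : ↥(isometryGroup F ⇑Q)) b.1) = b.1 :=
      congrArg Subtype.val (hb ⟨g, hg⟩)
    have h2 := mv_polar Q ((g : ↥(Omega F ⇑Q)) : ↥(isometryGroup F ⇑Q)) e b.1
    rw [hK g hg, b.2.1.1] at h2
    unfold projH at h1
    rw [h2, zero_smul, sub_zero] at h1
    refine ⟨QuadraticMap.polar ⇑Q f (mv ⇑Q ((g : ↥(Omega F ⇑Q)) : ↥(isometryGroup F ⇑Q)) b.1), ?_⟩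
    rw [← sub_eq_iff_eq_add]
    exact h1

end Fixed

section Flag

variable {ι : Type} [Fintype ι] [DecidableEq ι] {F : Type u} [Field F] [Fintype F]
  (Q : QuadraticForm F (ι → F))

theorem eichO_congr' (u u' b b' : ι → F) (hu : Q u = 0) (hu' : Q u' = 0)
    (hub : QuadraticMap.polar ⇑Q u b = 0) (hub' : QuadraticMap.polar ⇑Q u' b' = 0) (h1 : u = u')
    (h2 : b = b') : eichO Q u b hu hub = eichO Q u' b' hu' hub' := by
  subst h1
  subst h2
  rfl

/-- `k` fixes `e`, and fixes `b` modulo `e` -/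
def Fl (e b : ι → F) (k : ↥(isometryGroup F ⇑Q)) : Prop :=
  mv ⇑Q k e = e ∧ ∃ t : F, mv ⇑Q k b = b + t • e

theorem Fl.one (e b : ι → F) : Fl Q e b 1 :=
  ⟨mv_one ⇑Q e, 0, by rw [zero_smul, add_zero]; exact mv_one ⇑Q b⟩

variable {Q}

theorem Fl.mul {e b : ι → F} {k l : ↥(isometryGroup F ⇑Q)} (hk : Fl Q e b k) (hl : Fl Q e b l) :
    Fl Q e b (k * l) := by
  obtain ⟨hk1, t, hk2⟩ := hk
  obtain ⟨hl1, s, hl2⟩ := hl
  refine ⟨by rw [mv_mul, hl1, hk1], t + s, ?_⟩
  rw [mv_mul, hl2, mv_add, mv_smul, hk1, hk2, add_smul, add_assoc]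

theorem Fl.inv {e b : ι → F} {k : ↥(isometryGroup F ⇑Q)} (hk : Fl Q e b k) : Fl Q e b k⁻¹ := by
  obtain ⟨hk1, t, hk2⟩ := hk
  have h1 : mv ⇑Q k⁻¹ e = e := by
    have := mv_inv_cancel' Q k e
    rwa [hk1] at this
  refine ⟨h1, -t, ?_⟩
  have h2 := mv_inv_cancel' Q k b
  rw [hk2, mv_add, mv_smul, h1] at h2
  rw [neg_smul, ← sub_eq_add_neg, eq_sub_iff_add_eq]
  exact h2

theorem Fl.perp {e b : ι → F} {k : ↥(isometryGroup F ⇑Q)} (hk : Fl Q e b k) (he : Q e = 0) (c : ι → F)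
    (hec : QuadraticMap.polar ⇑Q e c = 0) (hbc : QuadraticMap.polar ⇑Q b c = 0) :
    QuadraticMap.polar ⇑Q e (mv ⇑Q k c) = 0 ∧ QuadraticMap.polar ⇑Q b (mv ⇑Q k c) = 0 := by
  obtain ⟨hk1, t, hk2⟩ := hk
  have h1 : QuadraticMap.polar ⇑Q e (mv ⇑Q k c) = 0 := by
    have := mv_polar Q k e c
    rwa [hk1, hec] at this
  refine ⟨h1, ?_⟩
  have h2 := mv_polar Q k b c
  rw [hk2, QuadraticMap.polar_add_left, QuadraticMap.polar_smul_left, h1, hbc, smul_zero, add_zero] at h2
  exact h2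

theorem Fl.line {e b : ι → F} {k : ↥(isometryGroup F ⇑Q)} (hk : Fl Q e b k) (y : ι → F)
    (hy : y ∈ Submodule.span F {e, b}) : mv ⇑Q k y ∈ Submodule.span F {e, b} := by
  obtain ⟨hk1, t, hk2⟩ := hk
  obtain ⟨α, β, rfl⟩ := mem_pair.mp hy
  rw [mv_add, mv_smul, mv_smul, hk1, hk2]
  apply mem_pair.mpr
  refine ⟨α + β * t, β, ?_⟩
  rw [smul_add, add_smul, smul_smul]
  abel

variable (Q)

/-- the group of elements of `Ω` acting trivially on the factors of the flag `e < ⟨e,b⟩ < ⟨e,b⟩^⊥` -/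
def flagSub (e b : ι → F) (he : Q e = 0) : Subgroup ↥(Omega F ⇑Q) where
  carrier := {g | Fl Q e b (g : ↥(isometryGroup F ⇑Q)) ∧
    ∀ c : ι → F, QuadraticMap.polar ⇑Q e c = 0 → QuadraticMap.polar ⇑Q b c = 0 →
      mv ⇑Q (g : ↥(isometryGroup F ⇑Q)) c - c ∈ Submodule.span F {e, b}}
  one_mem' := by
    refine ⟨Fl.one Q e b, fun c _ _ => ?_⟩
    have : mv ⇑Q ((1 : ↥(Omega F ⇑Q)) : ↥(isometryGroup F ⇑Q)) c = c := mv_one ⇑Q c
    rw [this, sub_self]
    exact Submodule.zero_mem _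
  mul_mem' := by
    rintro g h ⟨hg1, hg2⟩ ⟨hh1, hh2⟩
    refine ⟨hg1.mul hh1, fun c hec hbc => ?_⟩
    have e1 : mv ⇑Q ((g * h : ↥(Omega F ⇑Q)) : ↥(isometryGroup F ⇑Q)) c =
        mv ⇑Q (g : ↥(isometryGroup F ⇑Q)) (mv ⇑Q (h : ↥(isometryGroup F ⇑Q)) c) := mv_mul ⇑Q _ _ c
    rw [e1]
    obtain ⟨p1, p2⟩ := hh1.perp he c hec hbc
    have := Submodule.add_mem _ (hg2 _ p1 p2) (hh2 c hec hbc)
    rwa [sub_add_sub_cancel] at this
  inv_mem' := by
    rintro g ⟨hg1, hg2⟩
    refine ⟨hg1.inv, fun c hec hbc => ?_⟩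
    obtain ⟨p1, p2⟩ := hg1.inv.perp he c hec hbc
    have h1 := hg2 _ p1 p2
    have e1 : mv ⇑Q (g : ↥(isometryGroup F ⇑Q)) (mv ⇑Q (g : ↥(isometryGroup F ⇑Q))⁻¹ c) = c :=
      mv_inv_cancel Q _ c
    rw [e1] at h1
    have h2 := Submodule.neg_mem _ h1
    rwa [neg_sub] at h2

/-- elements of the flag group are unipotent -/
theorem flagSub_pow (p : ℕ) [Fact p.Prime] [CharP F p] [Nonempty ι] (e b : ι → F) (he : Q e = 0)
    (g : ↥(Omega F ⇑Q)) (hg : g ∈ flagSub Q e b he) : g ^ (p ^ 3) = 1 := by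
  obtain ⟨⟨hg1, t, hgb⟩, hg2⟩ := hg
  set G := (g : ↥(isometryGroup F ⇑Q)) with hG
  set M : Matrix ι ι F := ((G : GL ι F) : Matrix ι ι F) with hM
  have hd : ∀ x : ι → F, (M - 1) *ᵥ x = mv ⇑Q G x - x := by
    intro x
    rw [Matrix.sub_mulVec, Matrix.one_mulVec]
  have d1 : ∀ x : ι → F, QuadraticMap.polar ⇑Q e (mv ⇑Q G x - x) = 0 := by
    intro x
    have := mv_polar Q G e x
    rw [hg1] at this
    rw [QuadraticMap.polar_sub_right, this, sub_self]
  have d2 : ∀ x : ι → F, QuadraticMap.polar ⇑Q e x = 0 →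
      QuadraticMap.polar ⇑Q b (mv ⇑Q G x - x) = 0 := by
    intro x hx
    have h1 := mv_polar Q G b x
    have h2 := mv_polar Q G e x
    rw [hg1, hx] at h2
    rw [hgb, QuadraticMap.polar_add_left, QuadraticMap.polar_smul_left, h2, smul_zero, add_zero] at h1
    rw [QuadraticMap.polar_sub_right, h1, sub_self]
  have d4 : ∀ y ∈ Submodule.span F {e, b}, ∃ s : F, mv ⇑Q G y - y = s • e := by
    intro y hy
    obtain ⟨α, β, rfl⟩ := mem_pair.mp hy
    refine ⟨β * t, ?_⟩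
    rw [mv_add, mv_smul, mv_smul, hg1, hgb, smul_add, smul_smul]
    abel
  have d5 : ∀ s : F, mv ⇑Q G (s • e) - s • e = 0 := by
    intro s
    rw [mv_smul, hg1, sub_self]
  have hD5 : (M - 1) * (M - 1) * (M - 1) * (M - 1) * (M - 1) = 0 := by
    apply Helper13.mulVec_ext
    intro x
    rw [← Matrix.mulVec_mulVec, ← Matrix.mulVec_mulVec, ← Matrix.mulVec_mulVec, ← Matrix.mulVec_mulVec,
      hd x, hd, hd, hd, hd, Matrix.zero_mulVec]
    obtain ⟨s, hs⟩ := d4 _ (hg2 _ (d1 _) (d2 _ (d1 x)))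
    rw [hs]
    exact d5 s
  have hp : 5 ≤ p ^ 3 := by
    have h2 : 2 ≤ p := (Fact.out : p.Prime).two_le
    calc 5 ≤ 2 ^ 3 := by norm_num
      _ ≤ p ^ 3 := Nat.pow_le_pow_left h2 3
  have hDp : (M - 1) ^ (p ^ 3) = 0 := by
    have h5 : (M - 1) ^ 5 = 0 := by
      rw [← hD5]
      simp only [pow_succ, pow_zero, one_mul]
    have : p ^ 3 = 5 + (p ^ 3 - 5) := by omega
    rw [this, pow_add, h5, zero_mul]
  have hMp : M ^ (p ^ 3) = 1 := by
    have h1 : M = 1 + (M - 1) := by abel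
    have h2 := add_pow_char_pow_of_commute p 3 (Commute.one_left (M - 1))
    rw [← h1, one_pow, hDp, add_zero] at h2
    exact h2
  apply Subtype.ext
  apply Subtype.ext
  apply Units.ext
  rw [Subgroup.coe_pow, Subgroup.coe_pow, Units.val_pow_eq_pow_val]
  exact hMp

theorem flagSub_isPGroup (p : ℕ) [Fact p.Prime] [CharP F p] [Nonempty ι] (e b : ι → F) (he : Q e = 0) :
    IsPGroup p ↥(flagSub Q e b he) := by
  intro g
  refine ⟨3, ?_⟩
  apply Subtype.ext
  rw [Subgroup.coe_pow]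
  exact flagSub_pow Q p e b he g.1 g.2

/-- Eichler transformations at `e` lie in the flag group -/
theorem eich_e_mem_flagSub (hQ : (QuadraticMap.polarBilin Q).Nondegenerate) (hn : 5 ≤ Fintype.card ι)
    (e b : ι → F) (h : TSP Q e b) (a : ι → F) (ha : QuadraticMap.polar ⇑Q e a = 0) :
    eichΩ Q hQ hn e a h.1 ha ∈ flagSub Q e b h.1 := by
  have heb := h.2.2.1
  refine ⟨⟨?_, QuadraticMap.polar ⇑Q a b, ?_⟩, fun c hec hbc => ?_⟩
  · show mv ⇑Q (eichO Q e a h.1 ha) e = e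
    rw [mv_eichO, eich_self Q e a h.1 ha]
  · show mv ⇑Q (eichO Q e a h.1 ha) b = _
    rw [mv_eichO, eich_apply, heb, mul_zero, sub_zero, zero_smul, sub_zero]
  · show mv ⇑Q (eichO Q e a h.1 ha) c - c ∈ _
    rw [mv_eichO, eich_sub_self, hec, mul_zero, sub_zero, zero_smul, sub_zero]
    exact Submodule.smul_mem _ _ (Submodule.subset_span (by simp))

/-- Eichler transformations at `b` with parameter orthogonal to the line lie in the flag group -/
theorem eich_b_mem_flagSub (hQ : (QuadraticMap.polarBilin Q).Nondegenerate) (hn : 5 ≤ Fintype.card ι)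
    (e b : ι → F) (h : TSP Q e b) (c : ι → F) (hec : QuadraticMap.polar ⇑Q e c = 0)
    (hbc : QuadraticMap.polar ⇑Q b c = 0) :
    eichΩ Q hQ hn b c h.2.1 hbc ∈ flagSub Q e b h.1 := by
  have heb := h.2.2.1
  have hbe : QuadraticMap.polar ⇑Q b e = 0 := by rw [QuadraticMap.polar_comm]; exact heb
  have hce : QuadraticMap.polar ⇑Q c e = 0 := by rw [QuadraticMap.polar_comm]; exact hec
  refine ⟨⟨?_, 0, ?_⟩, fun x hex hbx => ?_⟩
  · show mv ⇑Q (eichO Q b c h.2.1 hbc) e = e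
    rw [mv_eichO, eich_apply, hbe, hce]
    simp
  · show mv ⇑Q (eichO Q b c h.2.1 hbc) b = _
    rw [mv_eichO, eich_self Q b c h.2.1 hbc, zero_smul, add_zero]
  · show mv ⇑Q (eichO Q b c h.2.1 hbc) x - x ∈ _
    rw [mv_eichO, eich_sub_self, hbx, mul_zero, sub_zero, zero_smul, sub_zero]
    exact Submodule.smul_mem _ _ (Submodule.subset_span (by simp))

/-- a subgroup of `Ω` whose elements fix `e` and fix `b` modulo `e` normalises the flag group -/
theorem le_normalizer_flagSub (e b : ι → F) (he : Q e = 0) (K : Subgroup ↥(Omega F ⇑Q))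
    (hK : ∀ g ∈ K, Fl Q e b (g : ↥(isometryGroup F ⇑Q))) :
    K ≤ Subgroup.normalizer (flagSub Q e b he : Set ↥(Omega F ⇑Q)) := by
  have key : ∀ s ∈ K, ∀ g ∈ flagSub Q e b he, s * g * s⁻¹ ∈ flagSub Q e b he := by
    rintro s hs g ⟨hg1, hg2⟩
    have hs1 := hK s hs
    refine ⟨(hs1.mul hg1).mul hs1.inv, fun c hec hbc => ?_⟩
    obtain ⟨p1, p2⟩ := hs1.inv.perp he c hec hbc
    have h1 := hs1.line _ (hg2 _ p1 p2)
    have e1 : mv ⇑Q ((s * g * s⁻¹ : ↥(Omega F ⇑Q)) : ↥(isometryGroup F ⇑Q)) c =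
        mv ⇑Q (s : ↥(isometryGroup F ⇑Q)) (mv ⇑Q (g : ↥(isometryGroup F ⇑Q))
          (mv ⇑Q (s : ↥(isometryGroup F ⇑Q))⁻¹ c)) := by
      show mv ⇑Q ((s : ↥(isometryGroup F ⇑Q)) * (g : ↥(isometryGroup F ⇑Q)) *
        (s : ↥(isometryGroup F ⇑Q))⁻¹) c = _
      rw [mv_mul, mv_mul]
    rw [e1]
    rw [mv_sub, mv_inv_cancel] at h1
    exact h1
  intro s hs
  rw [Subgroup.mem_normalizer_iff]
  intro g
  constructor
  · exact key s hs g
  · intro h
    have := key s⁻¹ (K.inv_mem hs) _ h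
    simpa [mul_assoc] using this

/-- a `p`-subgroup normalised by a Sylow `p`-subgroup lies in it -/
theorem le_sylow_of_le_normalizer {G : Type*} [Group G] (p : ℕ) (S : Sylow p G) (R : Subgroup G)
    (hR : IsPGroup p R) (h : (S : Subgroup G) ≤ Subgroup.normalizer (R : Set G)) :
    R ≤ (S : Subgroup G) := by
  have h1 : IsPGroup p ((S : Subgroup G) ⊔ R : Subgroup G) := S.isPGroup'.to_sup_of_normal_right' hR h
  have h2 := S.is_maximal' h1 le_sup_left
  rw [← h2]
  exact le_sup_right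

/-- a vector orthogonal to `e` which all Eichler transformations `eich(b, c)`, `c ⟂ e, b`, fix modulo
`e`, lies on the line of `e` and `b` -/
theorem mem_line_of_fix (hQ : (QuadraticMap.polarBilin Q).Nondegenerate) (hn : 5 ≤ Fintype.card ι)
    (e b : ι → F) (h : TSP Q e b) (x : ι → F)
    (hx : ∀ c : ι → F, QuadraticMap.polar ⇑Q e c = 0 → QuadraticMap.polar ⇑Q b c = 0 →
      ∃ t : F, Helper44.eich Q b c x = x + t • e) : x ∈ Submodule.span F {e, b} := by
  have key : ∀ c : ι → F, QuadraticMap.polar ⇑Q e c = 0 → QuadraticMap.polar ⇑Q b c = 0 →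
      ∃ t : F, (QuadraticMap.polar ⇑Q c x - Q c * QuadraticMap.polar ⇑Q b x) • b
        - (QuadraticMap.polar ⇑Q b x) • c = t • e := by
    intro c hec hbc
    obtain ⟨t, ht⟩ := hx c hec hbc
    refine ⟨t, ?_⟩
    rw [← eich_sub_self, ht]
    abel
  have hbx : QuadraticMap.polar ⇑Q b x = 0 := by
    by_contra hne
    obtain ⟨c₀, hc₀, hec₀, hbc₀⟩ := exists_nonsing_perp2 Q hQ hn e b
    obtain ⟨t, ht⟩ := key c₀ hec₀ hbc₀
    apply hc₀
    have e1 : c₀ = (-((QuadraticMap.polar ⇑Q b x)⁻¹ * t)) • e + ((QuadraticMap.polar ⇑Q b x)⁻¹ *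
        (QuadraticMap.polar ⇑Q c₀ x - Q c₀ * QuadraticMap.polar ⇑Q b x)) • b := by
      have h2 : (QuadraticMap.polar ⇑Q b x) • c₀ =
          (QuadraticMap.polar ⇑Q c₀ x - Q c₀ * QuadraticMap.polar ⇑Q b x) • b - t • e := by
        rw [← ht]
        abel
      calc c₀ = (QuadraticMap.polar ⇑Q b x)⁻¹ • ((QuadraticMap.polar ⇑Q b x) • c₀) := by
            rw [smul_smul, inv_mul_cancel₀ hne, one_smul]
        _ = _ := by
            rw [h2, smul_sub, smul_smul, smul_smul, neg_smul]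
            abel
    rw [e1]
    exact h.sing _ _
  by_contra hcon
  obtain ⟨w, hw, hwx⟩ := exists_perp_of_notMem Q hQ _ x hcon
  have hew := hw e (Submodule.subset_span (by simp))
  have hbw := hw b (Submodule.subset_span (by simp))
  obtain ⟨t, ht⟩ := key w hew hbw
  rw [hbx, mul_zero, sub_zero, zero_smul, sub_zero] at ht
  have h3 : (-t) • e + (QuadraticMap.polar ⇑Q w x) • b = 0 := by
    rw [ht, neg_smul, neg_add_cancel]
  exact hwx (h.2.2.2 _ _ h3).2

/-- an isometry fixing `e` and commuting with all Eichler transformations at `e` is one of them -/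
theorem eq_eich_of_comm (hQ : (QuadraticMap.polarBilin Q).Nondegenerate)
    (g : ↥(isometryGroup F ⇑Q)) (e : ι → F) (he : Q e = 0) (he0 : e ≠ 0) (hge : mv ⇑Q g e = e)
    (hcomm : ∀ (a : ι → F) (ha : QuadraticMap.polar ⇑Q e a = 0),
      g * eichO Q e a he ha = eichO Q e a he ha * g) :
    ∃ (b : ι → F) (hb : QuadraticMap.polar ⇑Q e b = 0), g = eichO Q e b he hb := by
  have hi : ∀ a : ι → F, QuadraticMap.polar ⇑Q e a = 0 → ∃ t : F, mv ⇑Q g a = a + t • e := by
    intro a ha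
    have he' : Q (mv ⇑Q g e) = 0 := by rw [hge]; exact he
    have hub' : QuadraticMap.polar ⇑Q (mv ⇑Q g e) (mv ⇑Q g a) = 0 := by rw [mv_polar]; exact ha
    have hub'' : QuadraticMap.polar ⇑Q e (mv ⇑Q g a) = 0 := by rw [hge] at hub'; exact hub'
    have h1 := conj_eichO Q g e a he ha he' hub'
    rw [hcomm a ha, mul_inv_cancel_right] at h1
    rw [eichO_congr' Q _ e _ (mv ⇑Q g a) he' he hub' hub'' hge rfl] at h1
    exact eichO_inj Q hQ e _ _ he he0 hub'' ha h1.symm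
  obtain ⟨f, hf, hef⟩ := Helper43.exists_hyperbolic_pair Q
    (Helper43.polarNondeg_of_nondegenerate Q hQ) he0 he
  have hef' : QuadraticMap.polar ⇑Q e f = 1 := hef
  have hfe : QuadraticMap.polar ⇑Q f e = 1 := by rw [QuadraticMap.polar_comm]; exact hef'
  have hee : QuadraticMap.polar ⇑Q e e = 0 := polar_self_zero Q e he
  have hff : QuadraticMap.polar ⇑Q f f = 0 := polar_self_zero Q f hf
  obtain ⟨b, hb⟩ : ∃ b : ι → F, b = f - mv ⇑Q g f := ⟨_, rfl⟩
  have hgf : mv ⇑Q g f = f - b := by rw [hb]; abel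
  have heb : QuadraticMap.polar ⇑Q e b = 0 := by
    have h1 := mv_polar Q g e f
    rw [hge] at h1
    rw [hb, QuadraticMap.polar_sub_right, h1, sub_self]
  have hbe : QuadraticMap.polar ⇑Q b e = 0 := by rw [QuadraticMap.polar_comm]; exact heb
  have hQb : Q b = QuadraticMap.polar ⇑Q f b := by
    have h1 := mv_quad ⇑Q g f
    rw [hgf, q_sub, hf, zero_add] at h1
    exact sub_eq_zero.mp h1
  refine ⟨b, heb, ?_⟩
  apply ext_mv
  intro x
  obtain ⟨w, hw⟩ : ∃ w : ι → F, w = projH Q e f x := ⟨_, rfl⟩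
  have hew : QuadraticMap.polar ⇑Q e w = 0 := by rw [hw]; exact projH_perp_e Q e f x he hef'
  have hfw : QuadraticMap.polar ⇑Q f w = 0 := by rw [hw]; exact projH_perp_f Q e f x hf hef'
  have hx : x = QuadraticMap.polar ⇑Q f x • e + QuadraticMap.polar ⇑Q e x • f + w := by
    rw [hw]
    unfold projH
    abel
  obtain ⟨t, ht⟩ := hi w hew
  have htw : t = QuadraticMap.polar ⇑Q w b := by
    have h1 := mv_polar Q g w f
    rw [ht, hgf, QuadraticMap.polar_add_left, QuadraticMap.polar_sub_right, QuadraticMap.polar_sub_right,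
      QuadraticMap.polar_smul_left, QuadraticMap.polar_smul_left, hef', heb,
      QuadraticMap.polar_comm ⇑Q w f, hfw] at h1
    simp only [smul_eq_mul, mul_one, mul_zero, sub_zero, zero_sub] at h1
    linear_combination h1
  have e1 : mv ⇑Q g x = QuadraticMap.polar ⇑Q f x • e + QuadraticMap.polar ⇑Q e x • (f - b)
      + (w + t • e) := by
    conv_lhs => rw [hx]
    rw [mv_add, mv_add, mv_smul, mv_smul, hge, hgf, ht]
  have e2 : Helper44.eich Q e b x = QuadraticMap.polar ⇑Q f x • e + QuadraticMap.polar ⇑Q e x • (f - b)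
      + (w + t • e) := by
    rw [eich_apply, htw, hQb]
    have h3 : QuadraticMap.polar ⇑Q b x = QuadraticMap.polar ⇑Q e x * QuadraticMap.polar ⇑Q f b
        + QuadraticMap.polar ⇑Q w b := by
      conv_lhs => rw [hx]
      rw [QuadraticMap.polar_add_right, QuadraticMap.polar_add_right, QuadraticMap.polar_smul_right,
        QuadraticMap.polar_smul_right, hbe, QuadraticMap.polar_comm ⇑Q b f, QuadraticMap.polar_comm ⇑Q b w]
      simp
    rw [h3]
    funext i
    have h4 := congrFun hx i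
    simp only [Pi.add_apply, Pi.sub_apply, Pi.smul_apply, smul_eq_mul] at h4 ⊢
    linear_combination h4
  rw [e1, mv_eichO, e2]

end Flag

section SylowCentre

variable {ι : Type} [Fintype ι] [DecidableEq ι] {F : Type u} [Field F] [Fintype F]
  (Q : QuadraticForm F (ι → F))

/-- the centre of a Sylow subgroup containing the flag group of the totally singular pair `e, b` and fixing
the flag is the root group of the line of `e, b` -/
theorem sylow_center_eq (hQ : (QuadraticMap.polarBilin Q).Nondegenerate) (hn : 5 ≤ Fintype.card ι)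
    (p : ℕ) [Fact p.Prime] [CharP F p] (S : Sylow p ↥(Omega F ⇑Q)) (e b : ι → F) (h : TSP Q e b)
    (hR : flagSub Q e b h.1 ≤ (S : Subgroup ↥(Omega F ⇑Q)))
    (hS : ∀ s ∈ (S : Subgroup ↥(Omega F ⇑Q)), Fl Q e b (s : ↥(isometryGroup F ⇑Q))) :
    (S : Subgroup ↥(Omega F ⇑Q)) ⊓ Subgroup.centralizer ((S : Subgroup ↥(Omega F ⇑Q)) : Set ↥(Omega F ⇑Q))
      = XL Q (Submodule.span F {e, b}) := by
  have he := h.1
  have he0 := h.ne_zero_left
  apply le_antisymm
  · intro z hz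
    rw [Subgroup.mem_inf] at hz
    obtain ⟨hzS, hzC⟩ := hz
    rw [Subgroup.mem_centralizer_iff] at hzC
    have hze := (hS z hzS).1
    obtain ⟨b₁, hb₁, e1⟩ := eq_eich_of_comm Q hQ (z : ↥(isometryGroup F ⇑Q)) e he he0 hze (by
      intro a ha
      have h1 := hzC _ (hR (eich_e_mem_flagSub Q hQ hn e b h a ha))
      exact (congrArg Subtype.val h1).symm)
    have hline : b₁ ∈ Submodule.span F {e, b} := by
      apply mem_line_of_fix Q hQ hn e b h b₁
      intro c hec hbc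
      have hkS := hR (eich_b_mem_flagSub Q hQ hn e b h c hec hbc)
      have h1 := hzC _ hkS
      have h2 : eichO Q b c h.2.1 hbc * (z : ↥(isometryGroup F ⇑Q)) =
          (z : ↥(isometryGroup F ⇑Q)) * eichO Q b c h.2.1 hbc := congrArg Subtype.val h1
      have hke : mv ⇑Q (eichO Q b c h.2.1 hbc) e = e := (hS _ hkS).1
      have he' : Q (mv ⇑Q (eichO Q b c h.2.1 hbc) e) = 0 := by rw [hke]; exact he
      have hub' : QuadraticMap.polar ⇑Q (mv ⇑Q (eichO Q b c h.2.1 hbc) e)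
          (mv ⇑Q (eichO Q b c h.2.1 hbc) b₁) = 0 := by rw [mv_polar]; exact hb₁
      have hub'' : QuadraticMap.polar ⇑Q e (mv ⇑Q (eichO Q b c h.2.1 hbc) b₁) = 0 := by
        rw [hke] at hub'; exact hub'
      have h3 := conj_eichO Q (eichO Q b c h.2.1 hbc) e b₁ he hb₁ he' hub'
      rw [← e1, h2, mul_inv_cancel_right, e1,
        eichO_congr' Q _ e _ (mv ⇑Q (eichO Q b c h.2.1 hbc) b₁) he' he hub' hub'' hke rfl] at h3
      obtain ⟨t, ht⟩ := eichO_inj Q hQ e _ _ he he0 hub'' hb₁ h3.symm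
      rw [mv_eichO] at ht
      exact ⟨t, ht⟩
    obtain ⟨α, β, hαβ⟩ := mem_pair.mp hline
    have hub : QuadraticMap.polar ⇑Q e (β • b) = 0 := by
      rw [QuadraticMap.polar_smul_right, h.2.2.1, smul_zero]
    have hz : z = eichΩ Q hQ hn e (β • b) he hub := by
      apply Subtype.ext
      show (z : ↥(isometryGroup F ⇑Q)) = eichO Q e (β • b) he hub
      rw [e1]
      have hub2 : QuadraticMap.polar ⇑Q e (β • b + α • e) = 0 := by
        rw [QuadraticMap.polar_add_right, hub, QuadraticMap.polar_smul_right, polar_self_zero Q e he]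
        simp
      rw [← eichO_add_smul Q e (β • b) α he hub hub2]
      apply eichO_congr
      rw [← hαβ, add_comm]
    rw [hz]
    exact eich_mem_XL Q hQ hn e b h β hub
  · intro g hg
    obtain ⟨t, hub, e1⟩ := XL_eq_eich Q hQ e b h g hg
    have hg' : g = eichΩ Q hQ hn e (t • b) he hub := Subtype.ext e1
    have hgS : g ∈ (S : Subgroup ↥(Omega F ⇑Q)) := by
      rw [hg']
      exact hR (eich_e_mem_flagSub Q hQ hn e b h (t • b) hub)
    rw [Subgroup.mem_inf]
    refine ⟨hgS, ?_⟩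
    rw [Subgroup.mem_centralizer_iff]
    intro s hs
    obtain ⟨hse, t', hsb⟩ := hS s hs
    apply Subtype.ext
    show (s : ↥(isometryGroup F ⇑Q)) * (g : ↥(isometryGroup F ⇑Q)) =
      (g : ↥(isometryGroup F ⇑Q)) * (s : ↥(isometryGroup F ⇑Q))
    have he' : Q (mv ⇑Q (s : ↥(isometryGroup F ⇑Q)) e) = 0 := by rw [hse]; exact he
    have hub' : QuadraticMap.polar ⇑Q (mv ⇑Q (s : ↥(isometryGroup F ⇑Q)) e)
        (mv ⇑Q (s : ↥(isometryGroup F ⇑Q)) (t • b)) = 0 := by rw [mv_polar]; exact hub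
    have hub'' : QuadraticMap.polar ⇑Q e (t • b + (t * t') • e) = 0 := by
      rw [QuadraticMap.polar_add_right, hub, QuadraticMap.polar_smul_right, polar_self_zero Q e he]
      simp
    have h3 := conj_eichO Q (s : ↥(isometryGroup F ⇑Q)) e (t • b) he hub he' hub'
    rw [eichO_congr' Q _ e _ (t • b + (t * t') • e) he' he hub' hub'' hse
      (by rw [mv_smul, hsb, smul_add, smul_smul]), eichO_add_smul Q e (t • b) (t * t') he hub hub'',
      ← e1] at h3
    exact mul_inv_eq_iff_eq_mul.mp h3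

/-- **the centre of a Sylow `p`-subgroup of `Ω` is a long root group** -/
theorem sylow_center (hQ : (QuadraticMap.polarBilin Q).Nondegenerate) (hn : 5 ≤ Fintype.card ι)
    (p : ℕ) [Fact p.Prime] [CharP F p] (S : Sylow p ↥(Omega F ⇑Q)) :
    ∃ L : Submodule F (ι → F), IsLine Q L ∧
      (S : Subgroup ↥(Omega F ⇑Q)) ⊓
        Subgroup.centralizer ((S : Subgroup ↥(Omega F ⇑Q)) : Set ↥(Omega F ⇑Q)) = XL Q L := by
  have hne : Nonempty ι := Fintype.card_pos_iff.mp (by omega)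
  obtain ⟨e, he0, he, hefix⟩ := exists_fixed_sing Q (by omega) p (S : Subgroup ↥(Omega F ⇑Q)) S.isPGroup'
  obtain ⟨f, hf, hef⟩ := Helper43.exists_hyperbolic_pair Q
    (Helper43.polarNondeg_of_nondegenerate Q hQ) he0 he
  have hef' : QuadraticMap.polar ⇑Q e f = 1 := hef
  obtain ⟨b, hb0, hb, heb, hfb, hbfix⟩ := exists_fixed_sing_perp Q hQ hn p
    (S : Subgroup ↥(Omega F ⇑Q)) S.isPGroup' e f he hf hef' hefix
  have hbe : ∀ t : F, b ≠ t • e := by
    intro t ht
    rw [ht, QuadraticMap.polar_smul_right, QuadraticMap.polar_comm, hef', smul_eq_mul, mul_one] at hfb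
    apply hb0
    rw [ht, hfb, zero_smul]
  have h := tsp_of_perp Q e b he hb heb he0 hbe
  have hS : ∀ s ∈ (S : Subgroup ↥(Omega F ⇑Q)), Fl Q e b (s : ↥(isometryGroup F ⇑Q)) :=
    fun s hs => ⟨hefix s hs, hbfix s hs⟩
  have hR : flagSub Q e b h.1 ≤ (S : Subgroup ↥(Omega F ⇑Q)) :=
    le_sylow_of_le_normalizer p S _ (flagSub_isPGroup Q p e b h.1) (le_normalizer_flagSub Q e b h.1 _ hS)
  exact ⟨_, ⟨e, b, h, rfl⟩, sylow_center_eq Q hQ hn p S e b h hR hS⟩

/-- **every long root group is the centre of a Sylow `p`-subgroup of `Ω`** -/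
theorem exists_sylow_center (hQ : (QuadraticMap.polarBilin Q).Nondegenerate) (hn : 5 ≤ Fintype.card ι)
    (p : ℕ) [Fact p.Prime] [CharP F p] (L : Submodule F (ι → F)) (hL : IsLine Q L) :
    ∃ S : Sylow p ↥(Omega F ⇑Q), (S : Subgroup ↥(Omega F ⇑Q)) ⊓
        Subgroup.centralizer ((S : Subgroup ↥(Omega F ⇑Q)) : Set ↥(Omega F ⇑Q)) = XL Q L := by
  have hne : Nonempty ι := Fintype.card_pos_iff.mp (by omega)
  obtain ⟨e, b, h, rfl⟩ := hL
  have he := h.1
  have he0 := h.ne_zero_left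
  obtain ⟨S, hRS⟩ := (flagSub_isPGroup Q p e b h.1).exists_le_sylow
  obtain ⟨e', he'0, he', he'fix⟩ := exists_fixed_sing Q (by omega) p (S : Subgroup ↥(Omega F ⇑Q))
    S.isPGroup'
  obtain ⟨t, ht⟩ := fix_eich_all Q hQ hn e e' he he0 (by
    intro a ha
    have h1 := he'fix _ (hRS (eich_e_mem_flagSub Q hQ hn e b h a ha))
    rw [← mv_eichO Q e a he ha]
    exact h1)
  have ht0 : t ≠ 0 := by
    rintro rfl
    apply he'0
    rw [ht, zero_smul]
  have hefix : ∀ s ∈ (S : Subgroup ↥(Omega F ⇑Q)), mv ⇑Q (s : ↥(isometryGroup F ⇑Q)) e = e := by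
    intro s hs
    have h1 := he'fix s hs
    rw [ht, mv_smul] at h1
    exact smul_right_injective (ι → F) ht0 h1
  obtain ⟨f, hf, hef⟩ := Helper43.exists_hyperbolic_pair Q
    (Helper43.polarNondeg_of_nondegenerate Q hQ) he0 he
  have hef' : QuadraticMap.polar ⇑Q e f = 1 := hef
  obtain ⟨b', hb'0, hb', heb', hfb', hb'fix⟩ := exists_fixed_sing_perp Q hQ hn p
    (S : Subgroup ↥(Omega F ⇑Q)) S.isPGroup' e f he hf hef' hefix
  have hline : b' ∈ Submodule.span F {e, b} := by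
    apply mem_line_of_fix Q hQ hn e b h b'
    intro c hec hbc
    obtain ⟨t₁, ht₁⟩ := hb'fix _ (hRS (eich_b_mem_flagSub Q hQ hn e b h c hec hbc))
    refine ⟨t₁, ?_⟩
    rw [← mv_eichO Q b c h.2.1 hbc]
    exact ht₁
  obtain ⟨α, β, hαβ⟩ := mem_pair.mp hline
  have hβ : β ≠ 0 := by
    rintro rfl
    rw [zero_smul, add_zero] at hαβ
    rw [← hαβ, QuadraticMap.polar_smul_right, QuadraticMap.polar_comm, hef', smul_eq_mul, mul_one] at hfb'
    apply hb'0
    rw [← hαβ, hfb', zero_smul]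
  have hS : ∀ s ∈ (S : Subgroup ↥(Omega F ⇑Q)), Fl Q e b (s : ↥(isometryGroup F ⇑Q)) := by
    intro s hs
    refine ⟨hefix s hs, ?_⟩
    obtain ⟨t₁, ht₁⟩ := hb'fix s hs
    rw [← hαβ, mv_add, mv_smul, mv_smul, hefix s hs] at ht₁
    refine ⟨β⁻¹ * t₁, ?_⟩
    have h2 : β • mv ⇑Q (s : ↥(isometryGroup F ⇑Q)) b = β • b + t₁ • e := by
      have h3 : α • e + β • mv ⇑Q (s : ↥(isometryGroup F ⇑Q)) b = α • e + (β • b + t₁ • e) := by
        rw [ht₁]; abel
      exact add_left_cancel h3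
    calc mv ⇑Q (s : ↥(isometryGroup F ⇑Q)) b
        = β⁻¹ • (β • mv ⇑Q (s : ↥(isometryGroup F ⇑Q)) b) := by
          rw [smul_smul, inv_mul_cancel₀ hβ, one_smul]
      _ = b + (β⁻¹ * t₁) • e := by
          rw [h2, smul_add, smul_smul, smul_smul, inv_mul_cancel₀ hβ, one_smul]
  exact ⟨S, sylow_center_eq Q hQ hn p S e b h hRS hS⟩

end SylowCentre

end Cfsg.Agent.Helper45.AO
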