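import Cfsg.Agent.Helper45.AutB

set_option autoImplicit false
set_option linter.unusedSectionVars false

/-!
Helper library (helper45), automorphisms of `PΩ(Q)`, part C: every automorphism of `PΩ(Q)` permutes the
(images of the) long root groups.
-/

universe u

namespace Cfsg.Agent.Helper45.AO

open Cfsg Matrix Module

section General

/-- an automorphism maps the centre of a subgroup to the centre of its image -/
theorem map_inf_centralizer {G : Type*} [Group G] (α : G ≃* G) (H : Subgroup G) :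
    (H ⊓ Subgroup.centralizer (H : Set G)).map α.toMonoidHom =
      H.map α.toMonoidHom ⊓ Subgroup.centralizer ((H.map α.toMonoidHom : Subgroup G) : Set G) := by
  ext y
  constructor
  · rintro ⟨x, hx, rfl⟩
    rw [SetLike.mem_coe, Subgroup.mem_inf] at hx
    rw [Subgroup.mem_inf]
    refine ⟨⟨x, hx.1, rfl⟩, ?_⟩
    rw [Subgroup.mem_centralizer_iff]
    rintro h' ⟨h, hh, rfl⟩
    have := (Subgroup.mem_centralizer_iff.mp hx.2) h hh
    show α h * α x = α x * α h
    rw [← map_mul, ← map_mul, this]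
  · intro hy
    rw [Subgroup.mem_inf] at hy
    obtain ⟨⟨x, hx, rfl⟩, hy2⟩ := hy
    refine ⟨x, ?_, rfl⟩
    rw [SetLike.mem_coe, Subgroup.mem_inf]
    refine ⟨hx, ?_⟩
    rw [Subgroup.mem_centralizer_iff]
    intro h hh
    have := (Subgroup.mem_centralizer_iff.mp hy2) (α h) ⟨h, hh, rfl⟩
    apply α.injective
    rw [map_mul, map_mul]
    exact this

end General

section Transfer

variable {ι : Type} [Fintype ι] [DecidableEq ι] {F : Type u} [Field F] [Fintype F]
  (Q : QuadraticForm F (ι → F))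

/-- the projection `Ω → PΩ` -/
abbrev piΩ : ↥(Omega F ⇑Q) →* POmega F ⇑Q := QuotientGroup.mk' (Subgroup.center ↥(Omega F ⇑Q))

theorem piΩ_surjective : Function.Surjective (piΩ Q) := QuotientGroup.mk'_surjective _

/-- the image in `PΩ` of the long root group of a line -/
def XLb (L : Submodule F (ι → F)) : Subgroup (POmega F ⇑Q) := (XL Q L).map (piΩ Q)

/-- root subgroups of `PΩ` -/
def RootP (R : Subgroup (POmega F ⇑Q)) : Prop := ∃ L : Submodule F (ι → F), IsLine Q L ∧ R = XLb Q L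

/-- the projection is injective on each Sylow `p`-subgroup: centres correspond -/
theorem map_center_sylow (hQ : (QuadraticMap.polarBilin Q).Nondegenerate) (hn : 5 ≤ Fintype.card ι)
    (p : ℕ) [Fact p.Prime] [CharP F p] (S : Sylow p ↥(Omega F ⇑Q)) :
    (S : Subgroup ↥(Omega F ⇑Q)).map (piΩ Q) ⊓
      Subgroup.centralizer (((S : Subgroup ↥(Omega F ⇑Q)).map (piΩ Q) : Subgroup (POmega F ⇑Q)) :
        Set (POmega F ⇑Q)) =
    ((S : Subgroup ↥(Omega F ⇑Q)) ⊓
      Subgroup.centralizer ((S : Subgroup ↥(Omega F ⇑Q)) : Set ↥(Omega F ⇑Q))).map (piΩ Q) := by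
  have hpow : ∀ g ∈ (S : Subgroup ↥(Omega F ⇑Q)), ∃ k : ℕ, g ^ (p ^ k) = 1 := by
    intro g hg
    obtain ⟨k, hk⟩ := S.isPGroup' ⟨g, hg⟩
    exact ⟨k, congrArg Subtype.val hk⟩
  ext y
  constructor
  · intro hy
    rw [Subgroup.mem_inf] at hy
    obtain ⟨⟨z, hz, rfl⟩, hy2⟩ := hy
    refine ⟨z, ?_, rfl⟩
    rw [SetLike.mem_coe, Subgroup.mem_inf]
    refine ⟨hz, ?_⟩
    rw [Subgroup.mem_centralizer_iff]
    intro s hs
    have h1 := (Subgroup.mem_centralizer_iff.mp hy2) (piΩ Q s) ⟨s, hs, rfl⟩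
    obtain ⟨k1, hk1⟩ := hpow (s * z) (Subgroup.mul_mem _ hs hz)
    obtain ⟨k2, hk2⟩ := hpow (z * s) (Subgroup.mul_mem _ hz hs)
    apply mk_inj_of_pow Q hQ hn p (s * z) (z * s) k1 k2 hk1 hk2
    have h2 : piΩ Q (s * z) = piΩ Q (z * s) := by rw [map_mul, map_mul]; exact h1
    exact h2
  · rintro ⟨x, hx, rfl⟩
    rw [SetLike.mem_coe, Subgroup.mem_inf] at hx
    rw [Subgroup.mem_inf]
    refine ⟨⟨x, hx.1, rfl⟩, ?_⟩
    rw [Subgroup.mem_centralizer_iff]
    rintro h' ⟨h, hh, rfl⟩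
    have := (Subgroup.mem_centralizer_iff.mp hx.2) h hh
    rw [← map_mul, ← map_mul, this]

/-- **every automorphism of `PΩ` permutes the root subgroups** -/
theorem rootP_map (hQ : (QuadraticMap.polarBilin Q).Nondegenerate) (hn : 5 ≤ Fintype.card ι)
    (p : ℕ) [Fact p.Prime] [CharP F p] (α : POmega F ⇑Q ≃* POmega F ⇑Q)
    (R : Subgroup (POmega F ⇑Q)) (hR : RootP Q R) : RootP Q (R.map α.toMonoidHom) := by
  obtain ⟨L, hL, rfl⟩ := hR
  obtain ⟨S, hS⟩ := exists_sylow_center Q hQ hn p L hL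
  let S1 : Sylow p (POmega F ⇑Q) := S.mapSurjective (piΩ_surjective Q)
  let T : Sylow p (POmega F ⇑Q) := S1.mapSurjective (f := α.toMonoidHom) α.surjective
  obtain ⟨S', hS'⟩ := Sylow.mapSurjective_surjective (piΩ_surjective Q) p T
  obtain ⟨L', hL', hS'c⟩ := sylow_center Q hQ hn p S'
  refine ⟨L', hL', ?_⟩
  have h1 : (T : Subgroup (POmega F ⇑Q)) = (S' : Subgroup ↥(Omega F ⇑Q)).map (piΩ Q) := by
    rw [← hS']
    rfl
  have h2 : (T : Subgroup (POmega F ⇑Q)) =
      ((S : Subgroup ↥(Omega F ⇑Q)).map (piΩ Q)).map α.toMonoidHom := rfl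
  unfold XLb
  rw [← hS, ← map_center_sylow Q hQ hn p S, map_inf_centralizer, ← h2, h1,
    map_center_sylow Q hQ hn p S', hS'c]

/-- membership in the image of a root group can be tested upstairs on elements of `p`-power order -/
theorem mem_XLb_iff (hQ : (QuadraticMap.polarBilin Q).Nondegenerate) (hn : 5 ≤ Fintype.card ι)
    (p : ℕ) [Fact p.Prime] [CharP F p] (N : Submodule F (ι → F)) (hN : IsLine Q N)
    (g : ↥(Omega F ⇑Q)) (k : ℕ) (hg : g ^ (p ^ k) = 1) : piΩ Q g ∈ XLb Q N ↔ g ∈ XL Q N := by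
  constructor
  · rintro ⟨g', hg', e1⟩
    have h1 : g' ^ (p ^ 1) = 1 := by rw [pow_one]; exact XL_pow_char Q hQ p N hN g' hg'
    have := mk_inj_of_pow Q hQ hn p g' g 1 k h1 hg e1
    rw [← this]
    exact hg'
  · intro h
    exact ⟨g, h, rfl⟩

theorem XLb_inj (hQ : (QuadraticMap.polarBilin Q).Nondegenerate) (hn : 5 ≤ Fintype.card ι)
    (p : ℕ) [Fact p.Prime] [CharP F p] (L N : Submodule F (ι → F)) (hL : IsLine Q L)
    (hN : IsLine Q N) (h : XLb Q L = XLb Q N) : L = N := by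
  apply XL_inj Q hQ hn L N hL hN
  apply le_antisymm
  · intro g hg
    have h1 : g ^ (p ^ 1) = 1 := by rw [pow_one]; exact XL_pow_char Q hQ p L hL g hg
    apply (mem_XLb_iff Q hQ hn p N hN g 1 h1).mp
    rw [← h]
    exact ⟨g, hg, rfl⟩
  · intro g hg
    have h1 : g ^ (p ^ 1) = 1 := by rw [pow_one]; exact XL_pow_char Q hQ p N hN g hg
    apply (mem_XLb_iff Q hQ hn p L hL g 1 h1).mp
    rw [h]
    exact ⟨g, hg, rfl⟩

/-- commutation of root groups can be tested in `PΩ` -/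
theorem comm_of_commb (hQ : (QuadraticMap.polarBilin Q).Nondegenerate) (hn : 5 ≤ Fintype.card ι)
    (p : ℕ) [Fact p.Prime] [CharP F p] (L M : Submodule F (ι → F)) (hM : IsLine Q M)
    (h : ∀ x ∈ XLb Q L, ∀ y ∈ XLb Q M, x * y = y * x) :
    ∀ x ∈ XL Q L, ∀ y ∈ XL Q M, x * y = y * x := by
  intro x hx y hy
  have h1 := h (piΩ Q x) ⟨x, hx, rfl⟩ (piΩ Q y) ⟨y, hy, rfl⟩
  have h2 : piΩ Q (x * y * x⁻¹) = piΩ Q y := by
    rw [map_mul, map_mul, h1, map_inv, mul_inv_cancel_right]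
  have hyp : y ^ (p ^ 1) = 1 := by rw [pow_one]; exact XL_pow_char Q hQ p M hM y hy
  have hcp : (x * y * x⁻¹) ^ (p ^ 1) = 1 := by
    rw [conj_pow, hyp, mul_one, mul_inv_cancel]
  have h3 := mk_inj_of_pow Q hQ hn p (x * y * x⁻¹) y 1 1 hcp hyp h2
  exact mul_inv_eq_iff_eq_mul.mp h3

end Transfer

end Cfsg.Agent.Helper45.AO
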