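import Cfsg.Agent.Helper45.AutC

set_option autoImplicit false
set_option linter.unusedSectionVars false

/-!
Helper library (helper45), automorphisms of `PΩ(Q)`, part D: geometric meaning of the group-theoretic
relations between long root groups (commuting; products again root elements).
-/

universe u

namespace Cfsg.Agent.Helper45.AO

open Cfsg Matrix Module

section Geom

variable {ι : Type} [Fintype ι] [DecidableEq ι] {F : Type u} [Field F] [Fintype F]
  (Q : QuadraticForm F (ι → F))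

/-- two subspaces meet non-trivially -/
def Meet (L M : Submodule F (ι → F)) : Prop := ∃ x : ι → F, x ≠ 0 ∧ x ∈ L ∧ x ∈ M

/-- two subspaces are orthogonal -/
def Perp (L M : Submodule F (ι → F)) : Prop := ∀ x ∈ L, ∀ y ∈ M, QuadraticMap.polar ⇑Q x y = 0

theorem Meet.symm {L M : Submodule F (ι → F)} (h : Meet L M) : Meet M L := by
  obtain ⟨x, hx0, hxL, hxM⟩ := h
  exact ⟨x, hx0, hxM, hxL⟩

variable {Q} in
theorem Perp.symm {L M : Submodule F (ι → F)} (h : Perp Q L M) : Perp Q M L := by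
  intro x hx y hy
  rw [QuadraticMap.polar_comm]
  exact h y hy x hx

theorem perp_of_basis (u v u' v' : ι → F) (h1 : QuadraticMap.polar ⇑Q u u' = 0)
    (h2 : QuadraticMap.polar ⇑Q u v' = 0) (h3 : QuadraticMap.polar ⇑Q v u' = 0)
    (h4 : QuadraticMap.polar ⇑Q v v' = 0) :
    Perp Q (Submodule.span F {u, v}) (Submodule.span F {u', v'}) := by
  intro x hx y hy
  obtain ⟨a, b, rfl⟩ := mem_pair.mp hx
  obtain ⟨c, d, rfl⟩ := mem_pair.mp hy
  simp only [QuadraticMap.polar_add_left, QuadraticMap.polar_add_right, QuadraticMap.polar_smul_left,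
    QuadraticMap.polar_smul_right, h1, h2, h3, h4, smul_zero, add_zero]

theorem finrank_line (L : Submodule F (ι → F)) (hL : IsLine Q L) : finrank F L = 2 := by
  obtain ⟨u, v, h, rfl⟩ := hL
  have hli : LinearIndependent F ![u, v] := LinearIndependent.pair_iff.mpr h.2.2.2
  have h1 := finrank_span_eq_card hli
  have h2 : Set.range ![u, v] = {u, v} := by
    ext x
    constructor
    · rintro ⟨i, rfl⟩
      fin_cases i <;> simp
    · rintro (rfl | rfl)
      · exact ⟨0, rfl⟩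
      · exact ⟨1, rfl⟩
  rw [h2] at h1
  rw [h1]
  simp

theorem line_eq_of_le (L N : Submodule F (ι → F)) (hL : IsLine Q L) (hN : IsLine Q N) (h : L ≤ N) :
    L = N :=
  Submodule.eq_of_le_of_finrank_eq h (by rw [finrank_line Q L hL, finrank_line Q N hN])

theorem eich_line_sub (u v w : ι → F) (t : F) (hv : Q v = 0) :
    Helper44.eich Q u (t • v) w - w =
      (t * QuadraticMap.polar ⇑Q v w) • u - (t * QuadraticMap.polar ⇑Q u w) • v := by
  rw [eich_sub_self, QuadraticMap.map_smul, hv, QuadraticMap.polar_smul_left, smul_smul]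
  simp only [smul_eq_mul, mul_zero, zero_mul, sub_zero]
  rw [mul_comm (QuadraticMap.polar ⇑Q u w) t]

/-- concurrent lines have commuting root groups -/
theorem comm_of_meet (hQ : (QuadraticMap.polarBilin Q).Nondegenerate) (L M : Submodule F (ι → F))
    (hL : IsLine Q L) (hM : IsLine Q M) (h : Meet L M) :
    ∀ x ∈ XL Q L, ∀ y ∈ XL Q M, x * y = y * x := by
  obtain ⟨e, he0, heL, heM⟩ := h
  have he := hL.sing heL
  intro x hx y hy
  obtain ⟨b₁, h₁, e₁⟩ := XL_le_eichSub Q hQ L hL e he heL he0 hx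
  obtain ⟨b₂, h₂, e₂⟩ := XL_le_eichSub Q hQ M hM e he heM he0 hy
  apply Subtype.ext
  show (x : ↥(isometryGroup F ⇑Q)) * (y : ↥(isometryGroup F ⇑Q)) =
    (y : ↥(isometryGroup F ⇑Q)) * (x : ↥(isometryGroup F ⇑Q))
  rw [e₁, e₂, eichO_comm]

/-- orthogonal lines have commuting root groups -/
theorem comm_of_perp (L M : Submodule F (ι → F)) (h : Perp Q L M) :
    ∀ x ∈ XL Q L, ∀ y ∈ XL Q M, x * y = y * x := by
  intro x hx y hy
  apply Subtype.ext
  apply ext_mv
  intro w
  show mv ⇑Q ((x : ↥(isometryGroup F ⇑Q)) * (y : ↥(isometryGroup F ⇑Q))) w =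
    mv ⇑Q ((y : ↥(isometryGroup F ⇑Q)) * (x : ↥(isometryGroup F ⇑Q))) w
  rw [mv_mul, mv_mul]
  have h1 : mv ⇑Q (x : ↥(isometryGroup F ⇑Q)) (mv ⇑Q (y : ↥(isometryGroup F ⇑Q)) w - w) =
      mv ⇑Q (y : ↥(isometryGroup F ⇑Q)) w - w :=
    hx.2 _ (fun l hl => h l hl _ (hy.1 w))
  have h2 : mv ⇑Q (y : ↥(isometryGroup F ⇑Q)) (mv ⇑Q (x : ↥(isometryGroup F ⇑Q)) w - w) =
      mv ⇑Q (x : ↥(isometryGroup F ⇑Q)) w - w :=
    hy.2 _ (fun m hm => h.symm m hm _ (hx.1 w))
  rw [mv_sub] at h1 h2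
  have e1 := sub_eq_iff_eq_add.mp h1
  have e2 := sub_eq_iff_eq_add.mp h2
  rw [e1, e2]
  abel

/-- commuting root groups: the lines meet or are orthogonal -/
theorem meet_or_perp_of_comm (hQ : (QuadraticMap.polarBilin Q).Nondegenerate)
    (hn : 5 ≤ Fintype.card ι) (L M : Submodule F (ι → F)) (hL : IsLine Q L) (hM : IsLine Q M)
    (h : ∀ x ∈ XL Q L, ∀ y ∈ XL Q M, x * y = y * x) : Meet L M ∨ Perp Q L M := by
  by_cases hmeet : Meet L M
  · exact Or.inl hmeet
  right
  obtain ⟨u, v, huv, rfl⟩ := hL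
  obtain ⟨u', v', huv', rfl⟩ := hM
  have hub : QuadraticMap.polar ⇑Q u ((1 : F) • v) = 0 := by
    rw [QuadraticMap.polar_smul_right, huv.2.2.1, smul_zero]
  have hub' : QuadraticMap.polar ⇑Q u' ((1 : F) • v') = 0 := by
    rw [QuadraticMap.polar_smul_right, huv'.2.2.1, smul_zero]
  have hx := eich_mem_XL Q hQ hn u v huv 1 hub
  have hy := eich_mem_XL Q hQ hn u' v' huv' 1 hub'
  have hc := h _ hx _ hy
  have hc' : eichO Q u ((1 : F) • v) huv.1 hub * eichO Q u' ((1 : F) • v') huv'.1 hub' =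
      eichO Q u' ((1 : F) • v') huv'.1 hub' * eichO Q u ((1 : F) • v) huv.1 hub :=
    congrArg Subtype.val hc
  -- `x` fixes every `δ_y w`
  have key : ∀ w : ι → F, Helper44.eich Q u ((1 : F) • v) (Helper44.eich Q u' ((1 : F) • v') w - w) =
      Helper44.eich Q u' ((1 : F) • v') w - w := by
    intro w
    have h1 : mv ⇑Q (eichO Q u ((1 : F) • v) huv.1 hub * eichO Q u' ((1 : F) • v') huv'.1 hub') w =
        mv ⇑Q (eichO Q u' ((1 : F) • v') huv'.1 hub' * eichO Q u ((1 : F) • v) huv.1 hub) w := by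
      rw [hc']
    rw [mv_mul, mv_mul, mv_eichO, mv_eichO, mv_eichO, mv_eichO] at h1
    set dy := Helper44.eich Q u' ((1 : F) • v') w - w with hdy
    set dx := Helper44.eich Q u ((1 : F) • v) w - w with hdx
    have e1 : Helper44.eich Q u' ((1 : F) • v') w = w + dy := by rw [hdy]; abel
    have e2 : Helper44.eich Q u ((1 : F) • v) w = w + dx := by rw [hdx]; abel
    have l1 : ∀ a b : ι → F, Helper44.eich Q u ((1 : F) • v) (a + b) =
        Helper44.eich Q u ((1 : F) • v) a + Helper44.eich Q u ((1 : F) • v) b := by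
      intro a b
      rw [← mv_eichO Q u _ huv.1 hub, ← mv_eichO Q u _ huv.1 hub, ← mv_eichO Q u _ huv.1 hub, mv_add]
    have l2 : ∀ a b : ι → F, Helper44.eich Q u' ((1 : F) • v') (a + b) =
        Helper44.eich Q u' ((1 : F) • v') a + Helper44.eich Q u' ((1 : F) • v') b := by
      intro a b
      rw [← mv_eichO Q u' _ huv'.1 hub', ← mv_eichO Q u' _ huv'.1 hub', ← mv_eichO Q u' _ huv'.1 hub',
        mv_add]
    rw [e1, e2, l1, l2, e1, e2] at h1
    -- `z = x dy - dy = y dx - dx` lies on both lines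
    have hz : Helper44.eich Q u ((1 : F) • v) dy - dy = Helper44.eich Q u' ((1 : F) • v') dx - dx := by
      have := h1
      have h3 : Helper44.eich Q u ((1 : F) • v) dy - dy =
          (w + dx + Helper44.eich Q u ((1 : F) • v) dy) - (w + dx + dy) := by abel
      rw [h3, this]
      abel
    have hzL : Helper44.eich Q u ((1 : F) • v) dy - dy ∈ Submodule.span F {u, v} := by
      have := hx.1 dy
      rw [show mv ⇑Q ((eichΩ Q hQ hn u ((1 : F) • v) huv.1 hub : ↥(Omega F ⇑Q)) :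
        ↥(isometryGroup F ⇑Q)) dy = Helper44.eich Q u ((1 : F) • v) dy from
        mv_eichO Q u _ huv.1 hub dy] at this
      exact this
    have hzM : Helper44.eich Q u ((1 : F) • v) dy - dy ∈ Submodule.span F {u', v'} := by
      rw [hz]
      have := hy.1 dx
      rw [show mv ⇑Q ((eichΩ Q hQ hn u' ((1 : F) • v') huv'.1 hub' : ↥(Omega F ⇑Q)) :
        ↥(isometryGroup F ⇑Q)) dx = Helper44.eich Q u' ((1 : F) • v') dx from
        mv_eichO Q u' _ huv'.1 hub' dx] at this
      exact this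
    by_contra hne
    exact hmeet ⟨_, sub_ne_zero.mpr hne, hzL, hzM⟩
  -- evaluate at dual vectors
  obtain ⟨w₂, hw₂v, hw₂u⟩ := huv'.symm.exists_dual Q hQ
  obtain ⟨w₁, hw₁u, hw₁v⟩ := huv'.exists_dual Q hQ
  have k2 := key w₂
  have k1 := key w₁
  rw [eich_line_sub Q u' v' w₂ 1 huv'.2.1, hw₂v, hw₂u] at k2
  rw [eich_line_sub Q u' v' w₁ 1 huv'.2.1, hw₁v, hw₁u] at k1
  simp only [mul_one, mul_zero, one_smul, zero_smul, sub_zero, zero_sub] at k1 k2
  -- `k2 : x u' = u'`, `k1 : x (-v') = -v'`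
  have f2 := eich_line_sub Q u v u' 1 huv.2.1
  rw [one_smul, k2, sub_self] at f2
  have f1 := eich_line_sub Q u v (-v') 1 huv.2.1
  rw [one_smul, k1, sub_self] at f1
  have g2 := huv.2.2.2 (1 * QuadraticMap.polar ⇑Q v u') (-(1 * QuadraticMap.polar ⇑Q u u'))
    (by rw [neg_smul, ← sub_eq_add_neg]; exact f2.symm)
  have g1 := huv.2.2.2 (1 * QuadraticMap.polar ⇑Q v (-v')) (-(1 * QuadraticMap.polar ⇑Q u (-v')))
    (by rw [neg_smul, ← sub_eq_add_neg]; exact f1.symm)
  simp only [one_mul, neg_eq_zero, QuadraticMap.polar_neg_right] at g1 g2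
  exact perp_of_basis Q u v u' v' g2.2 g1.2 g2.1 g1.1

/-- concurrent orthogonal lines: products of root elements are root elements -/
theorem mul_mem_XL_of_meet_perp (hQ : (QuadraticMap.polarBilin Q).Nondegenerate)
    (hn : 5 ≤ Fintype.card ι) (L M : Submodule F (ι → F)) (hL : IsLine Q L) (hM : IsLine Q M)
    (h1 : Meet L M) (h2 : Perp Q L M) :
    ∀ x ∈ XL Q L, ∀ y ∈ XL Q M, ∃ N : Submodule F (ι → F), IsLine Q N ∧ x * y ∈ XL Q N := by
  obtain ⟨e, he0, heL, heM⟩ := h1
  have he := hL.sing heL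
  have hLL := hL
  obtain ⟨b₁, hb₁, rfl⟩ := line_basis_of_mem Q L hL e heL he0
  obtain ⟨b₂, hb₂, rfl⟩ := line_basis_of_mem Q M hM e heM he0
  intro x hx y hy
  obtain ⟨t, hub₁, e₁⟩ := XL_eq_eich Q hQ e b₁ hb₁ x hx
  obtain ⟨s, hub₂, e₂⟩ := XL_eq_eich Q hQ e b₂ hb₂ y hy
  have hb12 : QuadraticMap.polar ⇑Q b₁ b₂ = 0 :=
    h2 b₁ (Submodule.subset_span (by simp)) b₂ (Submodule.subset_span (by simp))
  have hec : QuadraticMap.polar ⇑Q e (t • b₁ + s • b₂) = 0 := by
    rw [QuadraticMap.polar_add_right, hub₁, hub₂, add_zero]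
  have hQc : Q (t • b₁ + s • b₂) = 0 := by
    rw [Helper13.Q_add', QuadraticMap.map_smul, QuadraticMap.map_smul, hb₁.2.1, hb₂.2.1,
      QuadraticMap.polar_smul_left, QuadraticMap.polar_smul_right, hb12]
    simp
  have hxy : x * y = eichΩ Q hQ hn e (t • b₁ + s • b₂) he hec := by
    apply Subtype.ext
    show (x : ↥(isometryGroup F ⇑Q)) * (y : ↥(isometryGroup F ⇑Q)) = eichO Q e _ he hec
    rw [e₁, e₂, eichO_mul Q e _ _ he hub₁ hub₂ hec]
  by_cases hc : ∃ r : F, t • b₁ + s • b₂ = r • e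
  · obtain ⟨r, hr⟩ := hc
    refine ⟨_, hLL, ?_⟩
    have : x * y = 1 := by
      rw [hxy]
      apply Subtype.ext
      show eichO Q e (t • b₁ + s • b₂) he hec = (1 : ↥(isometryGroup F ⇑Q))
      have h0 : QuadraticMap.polar ⇑Q e 0 = 0 := by simp
      have h1 : QuadraticMap.polar ⇑Q e (0 + r • e) = 0 := by rw [zero_add, ← hr]; exact hec
      rw [← eichO_zero Q e he h0, ← eichO_add_smul Q e 0 r he h0 h1]
      apply eichO_congr
      rw [zero_add, hr]
    rw [this]
    exact Subgroup.one_mem _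
  · push Not at hc
    have htsp := tsp_of_perp Q e _ he hQc hec he0 hc
    have hub : QuadraticMap.polar ⇑Q e ((1 : F) • (t • b₁ + s • b₂)) = 0 := by rw [one_smul]; exact hec
    refine ⟨_, ⟨e, _, htsp, rfl⟩, ?_⟩
    have : x * y = eichΩ Q hQ hn e ((1 : F) • (t • b₁ + s • b₂)) he hub := by
      rw [hxy]
      apply Subtype.ext
      show eichO Q e (t • b₁ + s • b₂) he hec = eichO Q e ((1 : F) • (t • b₁ + s • b₂)) he hub
      apply eichO_congr
      rw [one_smul]
    rw [this]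
    exact eich_mem_XL Q hQ hn e _ htsp 1 hub

/-- a vector orthogonal to `v` and to a subspace `M` not meeting the line of `u, v`, but not to `u` -/
theorem exists_dual_away (hQ : (QuadraticMap.polarBilin Q).Nondegenerate) (u v : ι → F)
    (huv : TSP Q u v) (M : Submodule F (ι → F))
    (hmeet : ¬ Meet (Submodule.span F {u, v}) M) :
    ∃ w : ι → F, QuadraticMap.polar ⇑Q v w = 0 ∧ (∀ m ∈ M, QuadraticMap.polar ⇑Q m w = 0) ∧
      QuadraticMap.polar ⇑Q u w ≠ 0 := by
  have hu : u ∉ Submodule.span F {v} ⊔ M := by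
    intro h
    obtain ⟨y, hy, m, hm, hym⟩ := Submodule.mem_sup.mp h
    obtain ⟨a, rfl⟩ := Submodule.mem_span_singleton.mp hy
    apply hmeet
    refine ⟨m, ?_, ?_, hm⟩
    · rintro rfl
      rw [add_zero] at hym
      exact huv.not_smul' a hym.symm
    · have : m = (1 : F) • u + (-a) • v := by
        rw [← hym, one_smul, neg_smul]
        abel
      rw [this]
      exact mem_pair.mpr ⟨1, -a, rfl⟩
  obtain ⟨w, hw, hwu⟩ := exists_perp_of_notMem Q hQ _ u hu
  refine ⟨w, hw v (Submodule.mem_sup_left (Submodule.subset_span (by simp))),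
    fun m hm => hw m (Submodule.mem_sup_right hm), ?_⟩
  rw [QuadraticMap.polar_comm]
  exact hwu

/-- if all products of root elements of two distinct lines with commuting root groups are root elements,
the lines meet and are orthogonal -/
theorem meet_perp_of_mul_mem (hQ : (QuadraticMap.polarBilin Q).Nondegenerate)
    (hn : 5 ≤ Fintype.card ι) (L M : Submodule F (ι → F)) (hL : IsLine Q L) (hM : IsLine Q M)
    (hne : L ≠ M) (hc : ∀ x ∈ XL Q L, ∀ y ∈ XL Q M, x * y = y * x)
    (hm : ∀ x ∈ XL Q L, ∀ y ∈ XL Q M, ∃ N : Submodule F (ι → F), IsLine Q N ∧ x * y ∈ XL Q N) :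
    Meet L M ∧ Perp Q L M := by
  by_cases hmeet : Meet L M
  · refine ⟨hmeet, ?_⟩
    obtain ⟨e, he0, heL, heM⟩ := hmeet
    have he := hL.sing heL
    obtain ⟨b₁, hb₁, rfl⟩ := line_basis_of_mem Q L hL e heL he0
    obtain ⟨b₂, hb₂, rfl⟩ := line_basis_of_mem Q M hM e heM he0
    have hee := polar_self_zero Q e he
    have hb1e : QuadraticMap.polar ⇑Q b₁ e = 0 := by rw [QuadraticMap.polar_comm]; exact hb₁.2.2.1
    suffices hb : QuadraticMap.polar ⇑Q b₁ b₂ = 0 from
      perp_of_basis Q e b₁ e b₂ hee hb₂.2.2.1 hb1e hb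
    by_contra hb
    have hub₁ : QuadraticMap.polar ⇑Q e ((1 : F) • b₁) = 0 := by rw [one_smul]; exact hb₁.2.2.1
    have hub₂ : QuadraticMap.polar ⇑Q e ((1 : F) • b₂) = 0 := by rw [one_smul]; exact hb₂.2.2.1
    obtain ⟨N, hN, hxy⟩ := hm _ (eich_mem_XL Q hQ hn e b₁ hb₁ 1 hub₁) _
      (eich_mem_XL Q hQ hn e b₂ hb₂ 1 hub₂)
    obtain ⟨w, hw⟩ := exists_polar_one Q hQ e he0
    have h1 := hxy.1 w
    have e1 : mv ⇑Q ((eichΩ Q hQ hn e ((1 : F) • b₁) he hub₁ * eichΩ Q hQ hn e ((1 : F) • b₂) he hub₂ :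
        ↥(Omega F ⇑Q)) : ↥(isometryGroup F ⇑Q)) w = Helper44.eich Q e ((1 : F) • b₁ + (1 : F) • b₂) w := by
      show mv ⇑Q (eichO Q e ((1 : F) • b₁) he hub₁ * eichO Q e ((1 : F) • b₂) he hub₂) w = _
      rw [mv_mul, mv_eichO, mv_eichO, Helper44.eich_comp Q e _ _ he hub₁ hub₂]
    rw [e1, eich_sub_self, hw, one_smul, one_smul, one_smul] at h1
    have h2 := hN.sing h1
    rw [q_sub, QuadraticMap.map_smul, he, QuadraticMap.polar_smul_left, QuadraticMap.polar_add_right,
      hb₁.2.2.1, hb₂.2.2.1, Helper13.Q_add', hb₁.2.1, hb₂.2.1] at h2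
    simp only [smul_eq_mul, mul_zero, add_zero, zero_add, sub_zero] at h2
    exact hb h2
  · exfalso
    have hperp : Perp Q L M := by
      rcases meet_or_perp_of_comm Q hQ hn L M hL hM hc with h | h
      · exact absurd h hmeet
      · exact h
    have hLL := hL
    have hMM := hM
    obtain ⟨u, v, huv, rfl⟩ := hL
    obtain ⟨u', v', huv', rfl⟩ := hM
    have hub : QuadraticMap.polar ⇑Q u ((1 : F) • v) = 0 := by
      rw [QuadraticMap.polar_smul_right, huv.2.2.1, smul_zero]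
    have hub' : QuadraticMap.polar ⇑Q u' ((1 : F) • v') = 0 := by
      rw [QuadraticMap.polar_smul_right, huv'.2.2.1, smul_zero]
    obtain ⟨N, hN, hxy⟩ := hm _ (eich_mem_XL Q hQ hn u v huv 1 hub) _
      (eich_mem_XL Q hQ hn u' v' huv' 1 hub')
    have hu'M : u' ∈ Submodule.span F {u', v'} := Submodule.subset_span (by simp)
    have hv'M : v' ∈ Submodule.span F {u', v'} := Submodule.subset_span (by simp)
    have huL : u ∈ Submodule.span F {u, v} := Submodule.subset_span (by simp)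
    have hvL : v ∈ Submodule.span F {u, v} := Submodule.subset_span (by simp)
    have key : ∀ w : ι → F, ((1 : F) * QuadraticMap.polar ⇑Q v w) • u -
        ((1 : F) * QuadraticMap.polar ⇑Q u w) • v + (((1 : F) * QuadraticMap.polar ⇑Q v' w) • u' -
        ((1 : F) * QuadraticMap.polar ⇑Q u' w) • v') ∈ N := by
      intro w
      have h1 := hxy.1 w
      have e1 : mv ⇑Q ((eichΩ Q hQ hn u ((1 : F) • v) huv.1 hub * eichΩ Q hQ hn u' ((1 : F) • v') huv'.1
          hub' : ↥(Omega F ⇑Q)) : ↥(isometryGroup F ⇑Q)) w =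
          Helper44.eich Q u ((1 : F) • v) (Helper44.eich Q u' ((1 : F) • v') w) := by
        show mv ⇑Q (eichO Q u ((1 : F) • v) huv.1 hub * eichO Q u' ((1 : F) • v') huv'.1 hub') w = _
        rw [mv_mul, mv_eichO, mv_eichO]
      have hdy : Helper44.eich Q u' ((1 : F) • v') w - w ∈ Submodule.span F {u', v'} := by
        rw [eich_line_sub Q u' v' w 1 huv'.2.1]
        exact Submodule.sub_mem _ (Submodule.smul_mem _ _ hu'M) (Submodule.smul_mem _ _ hv'M)
      have e2 : Helper44.eich Q u ((1 : F) • v) (Helper44.eich Q u' ((1 : F) • v') w) =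
          Helper44.eich Q u ((1 : F) • v) w + (Helper44.eich Q u' ((1 : F) • v') w - w) := by
        have e3 : Helper44.eich Q u' ((1 : F) • v') w = w + (Helper44.eich Q u' ((1 : F) • v') w - w) := by
          abel
        conv_lhs => rw [e3]
        rw [← mv_eichO Q u _ huv.1 hub, mv_add, mv_eichO, mv_eichO]
        congr 1
        apply eich_fix
        · exact hperp u huL _ hdy
        · rw [one_smul]; exact hperp v hvL _ hdy
      rw [e1, e2] at h1
      have e4 : Helper44.eich Q u ((1 : F) • v) w + (Helper44.eich Q u' ((1 : F) • v') w - w) - w =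
          (Helper44.eich Q u ((1 : F) • v) w - w) + (Helper44.eich Q u' ((1 : F) • v') w - w) := by abel
      rw [e4, eich_line_sub Q u v w 1 huv.2.1, eich_line_sub Q u' v' w 1 huv'.2.1] at h1
      exact h1
    have hmeet' : ¬ Meet (Submodule.span F {u', v'}) (Submodule.span F {u, v}) := fun h => hmeet h.symm
    have hmeet2 : ¬ Meet (Submodule.span F {v, u}) (Submodule.span F {u', v'}) := by
      rw [Set.pair_comm]; exact hmeet
    have hmeet2' : ¬ Meet (Submodule.span F {v', u'}) (Submodule.span F {u, v}) := by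
      rw [Set.pair_comm]; exact hmeet'
    -- `v ∈ N`
    have hvN : v ∈ N := by
      obtain ⟨w, hw1, hw2, hw3⟩ := exists_dual_away Q hQ u v huv _ hmeet
      have := key w
      rw [hw1, hw2 u' hu'M, hw2 v' hv'M] at this
      simp only [mul_zero, zero_smul, sub_zero, zero_sub, add_zero, one_mul] at this
      have h3 := N.smul_mem (-(QuadraticMap.polar ⇑Q u w)⁻¹) this
      rwa [smul_neg, neg_smul, neg_neg, smul_smul, inv_mul_cancel₀ hw3, one_smul] at h3
    have huN : u ∈ N := by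
      obtain ⟨w, hw1, hw2, hw3⟩ := exists_dual_away Q hQ v u huv.symm _ hmeet2
      have := key w
      rw [hw1, hw2 u' hu'M, hw2 v' hv'M] at this
      simp only [mul_zero, zero_smul, sub_zero, zero_sub, add_zero, one_mul] at this
      have h3 := N.smul_mem ((QuadraticMap.polar ⇑Q v w)⁻¹) this
      rwa [smul_smul, inv_mul_cancel₀ hw3, one_smul] at h3
    have hv'N : v' ∈ N := by
      obtain ⟨w, hw1, hw2, hw3⟩ := exists_dual_away Q hQ u' v' huv' _ hmeet'
      have := key w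
      rw [hw1, hw2 u huL, hw2 v hvL] at this
      simp only [mul_zero, zero_smul, sub_zero, zero_sub, zero_add, one_mul] at this
      have h3 := N.smul_mem (-(QuadraticMap.polar ⇑Q u' w)⁻¹) this
      rwa [smul_neg, neg_smul, neg_neg, smul_smul, inv_mul_cancel₀ hw3, one_smul] at h3
    have hu'N : u' ∈ N := by
      obtain ⟨w, hw1, hw2, hw3⟩ := exists_dual_away Q hQ v' u' huv'.symm _ hmeet2'
      have := key w
      rw [hw1, hw2 u huL, hw2 v hvL] at this
      simp only [mul_zero, zero_smul, sub_zero, zero_sub, zero_add, one_mul] at this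
      have h3 := N.smul_mem ((QuadraticMap.polar ⇑Q v' w)⁻¹) this
      rwa [smul_smul, inv_mul_cancel₀ hw3, one_smul] at h3
    have hLN : Submodule.span F {u, v} ≤ N := by
      rw [Submodule.span_le]
      intro y hy
      rcases hy with rfl | rfl
      · exact huN
      · exact hvN
    have hMN : Submodule.span F {u', v'} ≤ N := by
      rw [Submodule.span_le]
      intro y hy
      rcases hy with rfl | rfl
      · exact hu'N
      · exact hv'N
    apply hne
    rw [line_eq_of_le Q _ N hLL hN hLN, line_eq_of_le Q _ N hMM hN hMN]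

end Geom

section Bar

variable {ι : Type} [Fintype ι] [DecidableEq ι] {F : Type u} [Field F] [Fintype F]
  (Q : QuadraticForm F (ι → F))

/-- two subgroups of `PΩ` commute elementwise -/
def CommP (A B : Subgroup (POmega F ⇑Q)) : Prop := ∀ a ∈ A, ∀ b ∈ B, a * b = b * a

/-- the relation "distinct, commuting, and all products are root elements" -/
def R0P (A B : Subgroup (POmega F ⇑Q)) : Prop :=
  A ≠ B ∧ CommP Q A B ∧ ∀ a ∈ A, ∀ b ∈ B, ∃ C : Subgroup (POmega F ⇑Q), RootP Q C ∧ a * b ∈ C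

/-- the geometric counterpart of `R0P`: distinct concurrent lines spanning a totally singular plane -/
def R0g (L M : Submodule F (ι → F)) : Prop := L ≠ M ∧ Meet L M ∧ Perp Q L M

theorem commP_iff (hQ : (QuadraticMap.polarBilin Q).Nondegenerate) (hn : 5 ≤ Fintype.card ι)
    (p : ℕ) [Fact p.Prime] [CharP F p] (L M : Submodule F (ι → F)) (hL : IsLine Q L)
    (hM : IsLine Q M) : CommP Q (XLb Q L) (XLb Q M) ↔ Meet L M ∨ Perp Q L M := by
  constructor
  · intro h
    exact meet_or_perp_of_comm Q hQ hn L M hL hM (comm_of_commb Q hQ hn p L M hM h)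
  · intro h
    have hc : ∀ x ∈ XL Q L, ∀ y ∈ XL Q M, x * y = y * x := by
      rcases h with h | h
      · exact comm_of_meet Q hQ L M hL hM h
      · exact comm_of_perp Q L M h
    rintro a ⟨x, hx, rfl⟩ b ⟨y, hy, rfl⟩
    rw [← map_mul, ← map_mul, hc x hx y hy]

theorem R0P_iff (hQ : (QuadraticMap.polarBilin Q).Nondegenerate) (hn : 5 ≤ Fintype.card ι)
    (p : ℕ) [Fact p.Prime] [CharP F p] (L M : Submodule F (ι → F)) (hL : IsLine Q L)
    (hM : IsLine Q M) : R0P Q (XLb Q L) (XLb Q M) ↔ R0g Q L M := by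
  constructor
  · rintro ⟨hAB, hcomm, hprod⟩
    have hne : L ≠ M := by
      rintro rfl
      exact hAB rfl
    have hc := comm_of_commb Q hQ hn p L M hM hcomm
    refine ⟨hne, meet_perp_of_mul_mem Q hQ hn L M hL hM hne hc ?_⟩
    intro x hx y hy
    obtain ⟨C, ⟨N, hN, rfl⟩, hxy⟩ := hprod (piΩ Q x) ⟨x, hx, rfl⟩ (piΩ Q y) ⟨y, hy, rfl⟩
    refine ⟨N, hN, ?_⟩
    rw [← map_mul] at hxy
    have hpow : (x * y) ^ (p ^ 1) = 1 := by
      have hcomm : Commute x y := hc x hx y hy
      rw [pow_one, hcomm.mul_pow, XL_pow_char Q hQ p L hL x hx,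
        XL_pow_char Q hQ p M hM y hy, one_mul]
    exact (mem_XLb_iff Q hQ hn p N hN (x * y) 1 hpow).mp hxy
  · rintro ⟨hne, hmeet, hperp⟩
    refine ⟨fun h => hne (XLb_inj Q hQ hn p L M hL hM h),
      (commP_iff Q hQ hn p L M hL hM).mpr (Or.inl hmeet), ?_⟩
    rintro a ⟨x, hx, rfl⟩ b ⟨y, hy, rfl⟩
    obtain ⟨N, hN, hxy⟩ := mul_mem_XL_of_meet_perp Q hQ hn L M hL hM hmeet hperp x hx y hy
    exact ⟨XLb Q N, ⟨N, hN, rfl⟩, ⟨x * y, hxy, map_mul _ _ _⟩⟩

theorem map_symm_map (α : POmega F ⇑Q ≃* POmega F ⇑Q) (A : Subgroup (POmega F ⇑Q)) :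
    (A.map α.toMonoidHom).map α.symm.toMonoidHom = A := by
  ext x
  constructor
  · rintro ⟨y, ⟨z, hz, rfl⟩, rfl⟩
    simpa using hz
  · intro hx
    exact ⟨α x, ⟨x, hx, rfl⟩, by simp⟩

theorem map_map_symm (α : POmega F ⇑Q ≃* POmega F ⇑Q) (A : Subgroup (POmega F ⇑Q)) :
    (A.map α.symm.toMonoidHom).map α.toMonoidHom = A := by
  ext x
  constructor
  · rintro ⟨y, ⟨z, hz, rfl⟩, rfl⟩
    simpa using hz
  · intro hx
    exact ⟨α.symm x, ⟨x, hx, rfl⟩, by simp⟩

theorem map_inj_iff (α : POmega F ⇑Q ≃* POmega F ⇑Q) (A B : Subgroup (POmega F ⇑Q)) :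
    A.map α.toMonoidHom = B.map α.toMonoidHom ↔ A = B := by
  constructor
  · intro h
    have := congrArg (fun X => X.map α.symm.toMonoidHom) h
    simp only [map_symm_map] at this
    exact this
  · rintro rfl
    rfl

theorem commP_map (α : POmega F ⇑Q ≃* POmega F ⇑Q) (A B : Subgroup (POmega F ⇑Q))
    (h : CommP Q A B) : CommP Q (A.map α.toMonoidHom) (B.map α.toMonoidHom) := by
  rintro a ⟨x, hx, rfl⟩ b ⟨y, hy, rfl⟩
  show α x * α y = α y * α x
  rw [← map_mul, ← map_mul, h x hx y hy]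

theorem commP_map_iff (α : POmega F ⇑Q ≃* POmega F ⇑Q) (A B : Subgroup (POmega F ⇑Q)) :
    CommP Q (A.map α.toMonoidHom) (B.map α.toMonoidHom) ↔ CommP Q A B := by
  constructor
  · intro h
    have := commP_map Q α.symm _ _ h
    rwa [map_symm_map, map_symm_map] at this
  · exact commP_map Q α A B

theorem R0P_map (hQ : (QuadraticMap.polarBilin Q).Nondegenerate) (hn : 5 ≤ Fintype.card ι)
    (p : ℕ) [Fact p.Prime] [CharP F p] (α : POmega F ⇑Q ≃* POmega F ⇑Q)
    (A B : Subgroup (POmega F ⇑Q)) (h : R0P Q A B) :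
    R0P Q (A.map α.toMonoidHom) (B.map α.toMonoidHom) := by
  obtain ⟨hne, hc, hp⟩ := h
  refine ⟨fun h => hne ((map_inj_iff Q α A B).mp h), commP_map Q α A B hc, ?_⟩
  rintro a ⟨x, hx, rfl⟩ b ⟨y, hy, rfl⟩
  obtain ⟨C, hC, hxy⟩ := hp x hx y hy
  refine ⟨C.map α.toMonoidHom, rootP_map Q hQ hn p α C hC, ⟨x * y, hxy, ?_⟩⟩
  exact map_mul _ _ _

theorem R0P_map_iff (hQ : (QuadraticMap.polarBilin Q).Nondegenerate) (hn : 5 ≤ Fintype.card ι)
    (p : ℕ) [Fact p.Prime] [CharP F p] (α : POmega F ⇑Q ≃* POmega F ⇑Q)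
    (A B : Subgroup (POmega F ⇑Q)) :
    R0P Q (A.map α.toMonoidHom) (B.map α.toMonoidHom) ↔ R0P Q A B := by
  constructor
  · intro h
    have := R0P_map Q hQ hn p α.symm _ _ h
    rwa [map_symm_map, map_symm_map] at this
  · exact R0P_map Q hQ hn p α A B

end Bar

end Cfsg.Agent.Helper45.AO
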