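import Cfsg.Agent.Helper45.AutD

set_option autoImplicit false
set_option linter.unusedSectionVars false
set_option linter.unusedSimpArgs false

/-!
Helper library (helper45), automorphisms of `PΩ(Q)`, part E: geometry of the common neighbours of two
lines (grid for skew orthogonal lines, polar space for concurrent non-orthogonal lines).
-/

universe u

namespace Cfsg.Agent.Helper45.AO

open Cfsg Matrix Module

section Grid

variable {ι : Type} [Fintype ι] [DecidableEq ι] {F : Type u} [Field F] [Fintype F]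
  (Q : QuadraticForm F (ι → F))

/-- non-zero vectors on two skew orthogonal lines form a totally singular pair -/
theorem tsp_skew (L M : Submodule F (ι → F)) (hL : IsLine Q L) (hM : IsLine Q M)
    (hmeet : ¬ Meet L M) (hperp : Perp Q L M) (x y : ι → F) (hx : x ∈ L) (hy : y ∈ M) (hx0 : x ≠ 0)
    (hy0 : y ≠ 0) : TSP Q x y := by
  refine ⟨hL.sing hx, hM.sing hy, hperp x hx y hy, ?_⟩
  intro a b hab
  have ha : a = 0 := by
    by_contra ha
    apply hmeet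
    refine ⟨a • x, smul_ne_zero ha hx0, L.smul_mem a hx, ?_⟩
    have : a • x = (-b) • y := by
      rw [neg_smul]
      exact eq_neg_of_add_eq_zero_left hab
    rw [this]
    exact M.smul_mem _ hy
  refine ⟨ha, ?_⟩
  rw [ha, zero_smul, zero_add] at hab
  rcases smul_eq_zero.mp hab with h | h
  · exact h
  · exact absurd h hy0

/-- a line meeting two skew lines is spanned by a point on each -/
theorem line_in_sum (L M K : Submodule F (ι → F)) (hL : IsLine Q L) (hM : IsLine Q M)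
    (hK : IsLine Q K) (hmeet : ¬ Meet L M) (hKL : Meet K L) (hKM : Meet K M) :
    ∃ x y : ι → F, x ∈ L ∧ y ∈ M ∧ TSP Q x y ∧ K = Submodule.span F {x, y} := by
  obtain ⟨x, hx0, hxK, hxL⟩ := hKL
  obtain ⟨y, hy0, hyK, hyM⟩ := hKM
  have htsp : TSP Q x y := by
    refine ⟨hL.sing hxL, hM.sing hyM, hK.perp hxK hyK, ?_⟩
    intro a b hab
    have ha : a = 0 := by
      by_contra ha
      apply hmeet
      refine ⟨a • x, smul_ne_zero ha hx0, L.smul_mem a hxL, ?_⟩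
      have : a • x = (-b) • y := by
        rw [neg_smul]
        exact eq_neg_of_add_eq_zero_left hab
      rw [this]
      exact M.smul_mem _ hyM
    refine ⟨ha, ?_⟩
    rw [ha, zero_smul, zero_add] at hab
    rcases smul_eq_zero.mp hab with h | h
    · exact h
    · exact absurd h hy0
  refine ⟨x, y, hxL, hyM, htsp, ?_⟩
  symm
  apply line_eq_of_le Q _ K ⟨x, y, htsp, rfl⟩ hK
  rw [Submodule.span_le]
  intro z hz
  rcases hz with rfl | rfl
  · exact hxK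
  · exact hyK

/-- two lines meeting both of two skew orthogonal lines are orthogonal -/
theorem perp_of_in_sum (L M K K' : Submodule F (ι → F)) (hL : IsLine Q L) (hM : IsLine Q M)
    (hK : IsLine Q K) (hK' : IsLine Q K') (hmeet : ¬ Meet L M) (hperp : Perp Q L M)
    (hKL : Meet K L) (hKM : Meet K M) (hKL' : Meet K' L) (hKM' : Meet K' M) : Perp Q K K' := by
  obtain ⟨x, y, hx, hy, -, rfl⟩ := line_in_sum Q L M K hL hM hK hmeet hKL hKM
  obtain ⟨x', y', hx', hy', -, rfl⟩ := line_in_sum Q L M K' hL hM hK' hmeet hKL' hKM'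
  apply perp_of_basis
  · exact hL.perp hx hx'
  · exact hperp x hx y' hy'
  · exact hperp.symm y hy x' hx'
  · exact hM.perp hy hy'

/-- **the grid**: two skew orthogonal lines have two adjacent common neighbours, and among three common
neighbours of the two lines which are also neighbours of the first of these, two are adjacent -/
theorem skew_grid (L M : Submodule F (ι → F)) (hL : IsLine Q L) (hM : IsLine Q M)
    (hmeet : ¬ Meet L M) (hperp : Perp Q L M) :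
    ∃ N₀ N₁ : Submodule F (ι → F), IsLine Q N₀ ∧ IsLine Q N₁ ∧ R0g Q N₀ L ∧ R0g Q N₀ M ∧ R0g Q N₁ L ∧
      R0g Q N₁ M ∧ R0g Q N₀ N₁ ∧
      ∀ K₁ K₂ K₃ : Submodule F (ι → F), IsLine Q K₁ → IsLine Q K₂ → IsLine Q K₃ →
        R0g Q K₁ L → R0g Q K₁ M → R0g Q K₁ N₀ → R0g Q K₂ L → R0g Q K₂ M → R0g Q K₂ N₀ →
        R0g Q K₃ L → R0g Q K₃ M → R0g Q K₃ N₀ → K₁ ≠ K₂ → K₁ ≠ K₃ → K₂ ≠ K₃ →
        R0g Q K₁ K₂ ∨ R0g Q K₁ K₃ ∨ R0g Q K₂ K₃ := by
  have hLL := hL
  have hMM := hM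
  obtain ⟨u, v, huv, rfl⟩ := hL
  obtain ⟨u', v', huv', rfl⟩ := hM
  have huL : u ∈ Submodule.span F {u, v} := Submodule.subset_span (by simp)
  have hvL : v ∈ Submodule.span F {u, v} := Submodule.subset_span (by simp)
  have hu'M : u' ∈ Submodule.span F {u', v'} := Submodule.subset_span (by simp)
  have hv'M : v' ∈ Submodule.span F {u', v'} := Submodule.subset_span (by simp)
  have h0 := tsp_skew Q _ _ hLL hMM hmeet hperp u u' huL hu'M huv.ne_zero_left huv'.ne_zero_left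
  have h1 := tsp_skew Q _ _ hLL hMM hmeet hperp u v' huL hv'M huv.ne_zero_left huv'.ne_zero_right
  have hN₀ : IsLine Q (Submodule.span F {u, u'}) := ⟨u, u', h0, rfl⟩
  have hN₁ : IsLine Q (Submodule.span F {u, v'}) := ⟨u, v', h1, rfl⟩
  have huN₀ : u ∈ Submodule.span F {u, u'} := Submodule.subset_span (by simp)
  have hu'N₀ : u' ∈ Submodule.span F {u, u'} := Submodule.subset_span (by simp)
  have huN₁ : u ∈ Submodule.span F {u, v'} := Submodule.subset_span (by simp)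
  have hv'N₁ : v' ∈ Submodule.span F {u, v'} := Submodule.subset_span (by simp)
  have hN₀L : Meet (Submodule.span F {u, u'}) (Submodule.span F {u, v}) := ⟨u, huv.ne_zero_left, huN₀, huL⟩
  have hN₀M : Meet (Submodule.span F {u, u'}) (Submodule.span F {u', v'}) :=
    ⟨u', huv'.ne_zero_left, hu'N₀, hu'M⟩
  have hN₁L : Meet (Submodule.span F {u, v'}) (Submodule.span F {u, v}) := ⟨u, huv.ne_zero_left, huN₁, huL⟩
  have hN₁M : Meet (Submodule.span F {u, v'}) (Submodule.span F {u', v'}) :=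
    ⟨v', huv'.ne_zero_right, hv'N₁, hv'M⟩
  have hLLm : Meet (Submodule.span F {u, v}) (Submodule.span F {u, v}) := ⟨u, huv.ne_zero_left, huL, huL⟩
  have hMMm : Meet (Submodule.span F {u', v'}) (Submodule.span F {u', v'}) :=
    ⟨u', huv'.ne_zero_left, hu'M, hu'M⟩
  have hLMm : Meet (Submodule.span F {u, v}) (Submodule.span F {u', v'}) → False := hmeet
  refine ⟨_, _, hN₀, hN₁, ⟨?_, hN₀L, ?_⟩, ⟨?_, hN₀M, ?_⟩, ⟨?_, hN₁L, ?_⟩, ⟨?_, hN₁M, ?_⟩, ⟨?_, ?_, ?_⟩, ?_⟩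
  · intro h
    apply hmeet
    refine ⟨u', huv'.ne_zero_left, ?_, hu'M⟩
    rw [← h]; exact hu'N₀
  · exact perp_of_basis Q u u' u v (polar_self_zero Q u huv.1) huv.2.2.1
      (hperp.symm u' hu'M u huL) (hperp.symm u' hu'M v hvL)
  · intro h
    apply hmeet
    refine ⟨u, huv.ne_zero_left, huL, ?_⟩
    rw [← h]; exact huN₀
  · exact perp_of_basis Q u u' u' v' (hperp u huL u' hu'M) (hperp u huL v' hv'M)
      (polar_self_zero Q u' huv'.1) huv'.2.2.1
  · intro h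
    apply hmeet
    refine ⟨v', huv'.ne_zero_right, ?_, hv'M⟩
    rw [← h]; exact hv'N₁
  · exact perp_of_basis Q u v' u v (polar_self_zero Q u huv.1) huv.2.2.1
      (hperp.symm v' hv'M u huL) (hperp.symm v' hv'M v hvL)
  · intro h
    apply hmeet
    refine ⟨u, huv.ne_zero_left, huL, ?_⟩
    rw [← h]; exact huN₁
  · exact perp_of_basis Q u v' u' v' (hperp u huL u' hu'M) (hperp u huL v' hv'M)
      (by rw [QuadraticMap.polar_comm]; exact huv'.2.2.1) (polar_self_zero Q v' huv'.2.1)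
  · intro h
    have hv' : v' ∈ Submodule.span F {u, u'} := by rw [h]; exact hv'N₁
    obtain ⟨a, b, hab⟩ := mem_pair.mp hv'
    have ha : a = 0 := by
      by_contra ha
      apply hmeet
      refine ⟨a • u, smul_ne_zero ha huv.ne_zero_left, Submodule.smul_mem _ a huL, ?_⟩
      have : a • u = v' - b • u' := by rw [← hab]; abel
      rw [this]
      exact Submodule.sub_mem _ hv'M (Submodule.smul_mem _ _ hu'M)
    rw [ha, zero_smul, zero_add] at hab
    exact huv'.not_smul b hab.symm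
  · exact ⟨u, huv.ne_zero_left, huN₀, huN₁⟩
  · exact perp_of_in_sum Q _ _ _ _ hLL hMM hN₀ hN₁ hmeet hperp hN₀L hN₀M hN₁L hN₁M
  · -- no claw
    intro K₁ K₂ K₃ hK₁ hK₂ hK₃ a1 b1 c1 a2 b2 c2 a3 b3 c3 n12 n13 n23
    have key : ∀ K : Submodule F (ι → F), IsLine Q K → Meet K (Submodule.span F {u, v}) →
        Meet K (Submodule.span F {u', v'}) → Meet K (Submodule.span F {u, u'}) → u ∈ K ∨ u' ∈ K := by
      intro K hK hKL hKM hKN
      obtain ⟨x, y, hx, hy, hxy, rfl⟩ := line_in_sum Q _ _ K hLL hMM hK hmeet hKL hKM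
      obtain ⟨z, hz0, hzK, hzN⟩ := hKN
      obtain ⟨a, b, hab⟩ := mem_pair.mp hzK
      obtain ⟨c, d, hcd⟩ := mem_pair.mp hzN
      have e1 : a • x - c • u = d • u' - b • y := by
        have : a • x + b • y = c • u + d • u' := by rw [hab, hcd]
        rw [sub_eq_sub_iff_add_eq_add]
        rw [add_comm (d • u') (c • u), ← this]
      have e2 : a • x - c • u = 0 := by
        by_contra hne
        apply hmeet
        refine ⟨_, hne, Submodule.sub_mem _ (Submodule.smul_mem _ _ hx) (Submodule.smul_mem _ _ huL), ?_⟩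
        rw [e1]
        exact Submodule.sub_mem _ (Submodule.smul_mem _ _ hu'M) (Submodule.smul_mem _ _ hy)
      have e3 : d • u' - b • y = 0 := by rw [← e1]; exact e2
      by_cases hc : c = 0
      · right
        have hd : d ≠ 0 := by
          rintro rfl
          apply hz0
          rw [← hcd, hc, zero_smul, zero_smul, add_zero]
        have : u' = (d⁻¹ * b) • y := by
          rw [← smul_smul, ← sub_eq_zero.mp e3, smul_smul, inv_mul_cancel₀ hd, one_smul]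
        rw [this]
        exact Submodule.smul_mem _ _ (Submodule.subset_span (by simp))
      · left
        have : u = (c⁻¹ * a) • x := by
          rw [← smul_smul, sub_eq_zero.mp e2, smul_smul, inv_mul_cancel₀ hc, one_smul]
        rw [this]
        exact Submodule.smul_mem _ _ (Submodule.subset_span (by simp))
    have pair : ∀ K K' : Submodule F (ι → F), IsLine Q K → IsLine Q K' →
        Meet K (Submodule.span F {u, v}) → Meet K (Submodule.span F {u', v'}) →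
        Meet K' (Submodule.span F {u, v}) → Meet K' (Submodule.span F {u', v'}) → K ≠ K' →
        ((u ∈ K ∧ u ∈ K') ∨ (u' ∈ K ∧ u' ∈ K')) → R0g Q K K' := by
      intro K K' hK hK' m1 m2 m3 m4 hne hsh
      refine ⟨hne, ?_, perp_of_in_sum Q _ _ K K' hLL hMM hK hK' hmeet hperp m1 m2 m3 m4⟩
      rcases hsh with ⟨h1, h2⟩ | ⟨h1, h2⟩
      · exact ⟨u, huv.ne_zero_left, h1, h2⟩
      · exact ⟨u', huv'.ne_zero_left, h1, h2⟩
    have k1 := key K₁ hK₁ a1.2.1 b1.2.1 c1.2.1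
    have k2 := key K₂ hK₂ a2.2.1 b2.2.1 c2.2.1
    have k3 := key K₃ hK₃ a3.2.1 b3.2.1 c3.2.1
    rcases k1 with k1 | k1 <;> rcases k2 with k2 | k2 <;> rcases k3 with k3 | k3
    · exact Or.inl (pair K₁ K₂ hK₁ hK₂ a1.2.1 b1.2.1 a2.2.1 b2.2.1 n12 (Or.inl ⟨k1, k2⟩))
    · exact Or.inl (pair K₁ K₂ hK₁ hK₂ a1.2.1 b1.2.1 a2.2.1 b2.2.1 n12 (Or.inl ⟨k1, k2⟩))
    · exact Or.inr (Or.inl (pair K₁ K₃ hK₁ hK₃ a1.2.1 b1.2.1 a3.2.1 b3.2.1 n13 (Or.inl ⟨k1, k3⟩)))
    · exact Or.inr (Or.inr (pair K₂ K₃ hK₂ hK₃ a2.2.1 b2.2.1 a3.2.1 b3.2.1 n23 (Or.inr ⟨k2, k3⟩)))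
    · exact Or.inr (Or.inr (pair K₂ K₃ hK₂ hK₃ a2.2.1 b2.2.1 a3.2.1 b3.2.1 n23 (Or.inl ⟨k2, k3⟩)))
    · exact Or.inr (Or.inl (pair K₁ K₃ hK₁ hK₃ a1.2.1 b1.2.1 a3.2.1 b3.2.1 n13 (Or.inr ⟨k1, k3⟩)))
    · exact Or.inl (pair K₁ K₂ hK₁ hK₂ a1.2.1 b1.2.1 a2.2.1 b2.2.1 n12 (Or.inr ⟨k1, k2⟩))
    · exact Or.inl (pair K₁ K₂ hK₁ hK₂ a1.2.1 b1.2.1 a2.2.1 b2.2.1 n12 (Or.inr ⟨k1, k2⟩))

end Grid


section Conc

variable {ι : Type} [Fintype ι] [DecidableEq ι] {F : Type u} [Field F] [Fintype F]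
  (Q : QuadraticForm F (ι → F))

/-- expansion of the polar form on two combinations -/
theorem polar_comb (a b c d : F) (u v u' v' : ι → F) :
    QuadraticMap.polar ⇑Q (a • u + b • v) (c • u' + d • v') =
      a * c * QuadraticMap.polar ⇑Q u u' + a * d * QuadraticMap.polar ⇑Q u v' +
      b * c * QuadraticMap.polar ⇑Q v u' + b * d * QuadraticMap.polar ⇑Q v v' := by
  simp only [QuadraticMap.polar_add_left, QuadraticMap.polar_add_right, QuadraticMap.polar_smul_left,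
    QuadraticMap.polar_smul_right, smul_eq_mul]
  ring

/-- **the star lemma**: a line meeting two concurrent non-orthogonal lines passes through their
common point -/
theorem star_lemma (L M N : Submodule F (ι → F)) (hL : IsLine Q L) (hM : IsLine Q M)
    (hN : IsLine Q N) (e : ι → F) (he0 : e ≠ 0) (heL : e ∈ L) (heM : e ∈ M) (hperp : ¬ Perp Q L M)
    (hNL : Meet N L) (hNM : Meet N M) : e ∈ N := by
  obtain ⟨v, hv, rfl⟩ := line_basis_of_mem Q L hL e heL he0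
  obtain ⟨v', hv', rfl⟩ := line_basis_of_mem Q M hM e heM he0
  have hee := polar_self_zero Q e hv.1
  have hvv' : QuadraticMap.polar ⇑Q v v' ≠ 0 := by
    intro h
    apply hperp
    exact perp_of_basis Q e v e v' hee hv'.2.2.1 (by rw [QuadraticMap.polar_comm]; exact hv.2.2.1) h
  obtain ⟨x, hx0, hxN, hxL⟩ := hNL
  obtain ⟨y, hy0, hyN, hyM⟩ := hNM
  obtain ⟨a, b, hab⟩ := mem_pair.mp hxL
  obtain ⟨c, d, hcd⟩ := mem_pair.mp hyM
  have hxy := hN.perp hxN hyN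
  rw [← hab, ← hcd, polar_comb, hee, hv'.2.2.1, QuadraticMap.polar_comm ⇑Q v e, hv.2.2.1] at hxy
  simp only [mul_zero, zero_add] at hxy
  rcases mul_eq_zero.mp hxy with h | h
  · rcases mul_eq_zero.mp h with hb | hd
    · rw [hb, zero_smul, add_zero] at hab
      have ha : a ≠ 0 := by
        rintro rfl
        rw [zero_smul] at hab
        exact hx0 hab.symm
      have : e = a⁻¹ • x := by rw [← hab, smul_smul, inv_mul_cancel₀ ha, one_smul]
      rw [this]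
      exact N.smul_mem _ hxN
    · rw [hd, zero_smul, add_zero] at hcd
      have hc : c ≠ 0 := by
        rintro rfl
        rw [zero_smul] at hcd
        exact hy0 hcd.symm
      have : e = c⁻¹ • y := by rw [← hcd, smul_smul, inv_mul_cancel₀ hc, one_smul]
      rw [this]
      exact N.smul_mem _ hyN
  · exact absurd h hvv'

/-- there is no totally singular subspace of dimension four -/
def TS4free : Prop := ∀ W : Submodule F (ι → F), (∀ w ∈ W, Q w = 0) → finrank F W ≤ 3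

/-- adding an orthogonal singular vector to a totally singular subspace -/
theorem ts_sup_span (W : Submodule F (ι → F)) (hW : ∀ w ∈ W, Q w = 0) (x : ι → F) (hx : Q x = 0)
    (hWx : ∀ w ∈ W, QuadraticMap.polar ⇑Q w x = 0) : ∀ w ∈ W ⊔ Submodule.span F {x}, Q w = 0 := by
  intro w hw
  obtain ⟨w₁, hw₁, y, hy, rfl⟩ := Submodule.mem_sup.mp hw
  obtain ⟨a, rfl⟩ := Submodule.mem_span_singleton.mp hy
  rw [Helper13.Q_add', QuadraticMap.map_smul, hx, hW w₁ hw₁, QuadraticMap.polar_smul_right,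
    hWx w₁ hw₁]
  simp

/-- without totally singular 4-spaces, two concurrent non-orthogonal lines have no two adjacent
common neighbours -/
theorem conc_no_edge (h4 : TS4free Q) (L M N₀ N₁ : Submodule F (ι → F)) (hL : IsLine Q L)
    (hM : IsLine Q M) (hN₀ : IsLine Q N₀) (hN₁ : IsLine Q N₁) (hLM : Meet L M)
    (hperp : ¬ Perp Q L M) (h0L : R0g Q N₀ L) (h0M : R0g Q N₀ M) (h1L : R0g Q N₁ L)
    (h1M : R0g Q N₁ M) (h01 : R0g Q N₀ N₁) : False := by
  obtain ⟨e, he0, heL, heM⟩ := hLM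
  have he0' := star_lemma Q L M N₀ hL hM hN₀ e he0 heL heM hperp h0L.2.1 h0M.2.1
  have he1' := star_lemma Q L M N₁ hL hM hN₁ e he0 heL heM hperp h1L.2.1 h1M.2.1
  obtain ⟨b₁, hb₁, hLeq⟩ := line_basis_of_mem Q L hL e heL he0
  obtain ⟨b₂, hb₂, hMeq⟩ := line_basis_of_mem Q M hM e heM he0
  obtain ⟨c₁, hc₁, hN₁eq⟩ := line_basis_of_mem Q N₁ hN₁ e he1' he0
  have hb₁L : b₁ ∈ L := by rw [hLeq]; exact Submodule.subset_span (by simp)
  have hb₂M : b₂ ∈ M := by rw [hMeq]; exact Submodule.subset_span (by simp)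
  have hc₁N : c₁ ∈ N₁ := by rw [hN₁eq]; exact Submodule.subset_span (by simp)
  have hbb : QuadraticMap.polar ⇑Q b₁ b₂ ≠ 0 := by
    intro h
    apply hperp
    rw [hLeq, hMeq]
    exact perp_of_basis Q e b₁ e b₂ (polar_self_zero Q e hb₁.1) hb₂.2.2.1
      (by rw [QuadraticMap.polar_comm]; exact hb₁.2.2.1) h
  have hW₃ : ∀ w ∈ N₀ ⊔ Submodule.span F {c₁}, Q w = 0 :=
    ts_sup_span Q N₀ (fun w hw => hN₀.sing hw) c₁ hc₁.2.1 (fun w hw => h01.2.2 w hw c₁ hc₁N)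
  have hc₁N₀ : c₁ ∉ N₀ := by
    intro h
    apply h01.1
    symm
    apply line_eq_of_le Q N₁ N₀ hN₁ hN₀
    rw [hN₁eq, Submodule.span_le]
    intro z hz
    rcases hz with rfl | rfl
    · exact he0'
    · exact h
  have hlt₃ : N₀ < N₀ ⊔ Submodule.span F {c₁} := by
    refine lt_of_le_of_ne le_sup_left ?_
    intro h
    apply hc₁N₀
    rw [h]
    exact Submodule.mem_sup_right (Submodule.mem_span_singleton_self c₁)
  have hperp₃ : ∀ w ∈ N₀ ⊔ Submodule.span F {c₁},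
      QuadraticMap.polar ⇑Q w b₁ = 0 ∧ QuadraticMap.polar ⇑Q w b₂ = 0 := by
    intro w hw
    obtain ⟨w₁, hw₁, y, hy, rfl⟩ := Submodule.mem_sup.mp hw
    obtain ⟨a, rfl⟩ := Submodule.mem_span_singleton.mp hy
    rw [QuadraticMap.polar_add_left, QuadraticMap.polar_add_left, QuadraticMap.polar_smul_left,
      QuadraticMap.polar_smul_left, h0L.2.2 w₁ hw₁ b₁ hb₁L, h0M.2.2 w₁ hw₁ b₂ hb₂M,
      h1L.2.2 c₁ hc₁N b₁ hb₁L, h1M.2.2 c₁ hc₁N b₂ hb₂M]
    simp
  have hW₄ : ∀ w ∈ (N₀ ⊔ Submodule.span F {c₁}) ⊔ Submodule.span F {b₁}, Q w = 0 :=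
    ts_sup_span Q _ hW₃ b₁ hb₁.2.1 (fun w hw => (hperp₃ w hw).1)
  have hlt₄ : N₀ ⊔ Submodule.span F {c₁} <
      (N₀ ⊔ Submodule.span F {c₁}) ⊔ Submodule.span F {b₁} := by
    refine lt_of_le_of_ne le_sup_left ?_
    intro h
    have hb : b₁ ∈ N₀ ⊔ Submodule.span F {c₁} := by
      rw [h]
      exact Submodule.mem_sup_right (Submodule.mem_span_singleton_self b₁)
    exact hbb (hperp₃ b₁ hb).2
  have h2 := finrank_line Q N₀ hN₀
  have h3 := Submodule.finrank_lt_finrank_of_lt hlt₃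
  have h5 := Submodule.finrank_lt_finrank_of_lt hlt₄
  have h6 := h4 _ hW₄
  omega

/-- the restriction of the polar form to `W` is nondegenerate -/
def NdSub (W : Submodule F (ι → F)) : Prop :=
  ∀ x ∈ W, x ≠ 0 → ∃ y ∈ W, QuadraticMap.polar ⇑Q x y ≠ 0

/-- making a vector singular by moving it along a singular vector not orthogonal to it -/
theorem sing_adjust (x y : ι → F) (hx : Q x = 0) (hxy : QuadraticMap.polar ⇑Q x y ≠ 0) :
    Q (y - (Q y / QuadraticMap.polar ⇑Q x y) • x) = 0 ∧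
      QuadraticMap.polar ⇑Q x (y - (Q y / QuadraticMap.polar ⇑Q x y) • x) =
        QuadraticMap.polar ⇑Q x y := by
  constructor
  · rw [q_sub, QuadraticMap.map_smul, hx, QuadraticMap.polar_smul_right,
      QuadraticMap.polar_comm ⇑Q y x]
    simp only [smul_eq_mul, mul_zero, add_zero]
    rw [div_mul_cancel₀ _ hxy, sub_self]
  · rw [QuadraticMap.polar_sub_right, QuadraticMap.polar_smul_right, polar_self_zero Q x hx]
    simp

/-- **the conic**: a nondegenerate subspace of dimension at least three contains three pairwise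
non-orthogonal singular vectors -/
theorem conic (W : Submodule F (ι → F)) (hW : NdSub Q W) (h3 : 3 ≤ finrank F W) :
    ∃ x₁ x₂ x₃ : ι → F, x₁ ∈ W ∧ x₂ ∈ W ∧ x₃ ∈ W ∧ Q x₁ = 0 ∧ Q x₂ = 0 ∧ Q x₃ = 0 ∧
      QuadraticMap.polar ⇑Q x₁ x₂ ≠ 0 ∧ QuadraticMap.polar ⇑Q x₁ x₃ ≠ 0 ∧
      QuadraticMap.polar ⇑Q x₂ x₃ ≠ 0 := by
  obtain ⟨x₁, hx₁W, hx₁0, hx₁⟩ := exists_sing_in Q W h3
  obtain ⟨y, hyW, hy⟩ := hW x₁ hx₁W hx₁0
  obtain ⟨hx₂, hβ⟩ := sing_adjust Q x₁ y hx₁ hy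
  obtain ⟨x₂, hx₂def⟩ : ∃ x₂, x₂ = y - (Q y / QuadraticMap.polar ⇑Q x₁ y) • x₁ := ⟨_, rfl⟩
  rw [← hx₂def] at hx₂ hβ
  have hx₂W : x₂ ∈ W := by rw [hx₂def]; exact W.sub_mem hyW (W.smul_mem _ hx₁W)
  obtain ⟨β, hβdef⟩ : ∃ β, β = QuadraticMap.polar ⇑Q x₁ x₂ := ⟨_, rfl⟩
  have hβ0 : β ≠ 0 := by rw [hβdef, hβ]; exact hy
  have hfr : 1 ≤ finrank F ↥(W ⊓ perpSub Q x₁ ⊓ perpSub Q x₂) := by
    have h1 := finrank_inf_perpSub_ge Q W x₁
    have h2 := finrank_inf_perpSub_ge Q (W ⊓ perpSub Q x₁) x₂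
    omega
  have hmem : ∀ z, z ∈ W ⊓ perpSub Q x₁ ⊓ perpSub Q x₂ ↔
      z ∈ W ∧ QuadraticMap.polar ⇑Q x₁ z = 0 ∧ QuadraticMap.polar ⇑Q x₂ z = 0 := by
    intro z
    rw [Submodule.mem_inf, Submodule.mem_inf, mem_perpSub, mem_perpSub, and_assoc]
  obtain ⟨w, hwW₂, hw⟩ : ∃ w ∈ W ⊓ perpSub Q x₁ ⊓ perpSub Q x₂, Q w ≠ 0 := by
    by_contra hcon
    push Not at hcon
    obtain ⟨z, hz, hz0⟩ : ∃ z ∈ W ⊓ perpSub Q x₁ ⊓ perpSub Q x₂, z ≠ 0 := by
      by_contra h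
      push Not at h
      have : W ⊓ perpSub Q x₁ ⊓ perpSub Q x₂ = ⊥ := by
        rw [Submodule.eq_bot_iff]
        exact h
      rw [this, finrank_bot] at hfr
      omega
    have hzm := (hmem z).mp hz
    obtain ⟨z', hz'W, hzz'⟩ := hW z hzm.1 hz0
    have hdec : z' - (QuadraticMap.polar ⇑Q x₂ z' / β) • x₁ - (QuadraticMap.polar ⇑Q x₁ z' / β) • x₂
        ∈ W ⊓ perpSub Q x₁ ⊓ perpSub Q x₂ := by
      rw [hmem]
      refine ⟨W.sub_mem (W.sub_mem hz'W (W.smul_mem _ hx₁W)) (W.smul_mem _ hx₂W), ?_, ?_⟩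
      · rw [QuadraticMap.polar_sub_right, QuadraticMap.polar_sub_right,
          QuadraticMap.polar_smul_right, QuadraticMap.polar_smul_right, polar_self_zero Q x₁ hx₁,
          ← hβdef]
        simp only [smul_eq_mul, mul_zero, sub_zero]
        rw [div_mul_cancel₀ _ hβ0, sub_self]
      · rw [QuadraticMap.polar_sub_right, QuadraticMap.polar_sub_right,
          QuadraticMap.polar_smul_right, QuadraticMap.polar_smul_right, polar_self_zero Q x₂ hx₂,
          QuadraticMap.polar_comm ⇑Q x₂ x₁, ← hβdef]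
        simp only [smul_eq_mul, mul_zero, sub_zero]
        rw [div_mul_cancel₀ _ hβ0, sub_self]
    have hpol := ts_polar Q _ hcon z hz _ hdec
    rw [QuadraticMap.polar_sub_right, QuadraticMap.polar_sub_right, QuadraticMap.polar_smul_right,
      QuadraticMap.polar_smul_right, QuadraticMap.polar_comm ⇑Q z x₁,
      QuadraticMap.polar_comm ⇑Q z x₂, hzm.2.1, hzm.2.2] at hpol
    simp only [smul_eq_mul, mul_zero, sub_zero] at hpol
    exact hzz' hpol
  have hwm := (hmem w).mp hwW₂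
  refine ⟨x₁, x₂, x₁ + (-(Q w) / β) • x₂ + w, hx₁W, hx₂W,
    W.add_mem (W.add_mem hx₁W (W.smul_mem _ hx₂W)) hwm.1, hx₁, hx₂, ?_, ?_, ?_, ?_⟩
  · rw [Helper13.Q_add', Helper13.Q_add', QuadraticMap.map_smul, hx₁, hx₂,
      QuadraticMap.polar_smul_right, ← hβdef, QuadraticMap.polar_add_left,
      QuadraticMap.polar_smul_left, hwm.2.1, hwm.2.2]
    simp only [smul_eq_mul, mul_zero, add_zero, zero_add]
    rw [div_mul_cancel₀ _ hβ0]
    ring
  · rw [← hβdef]; exact hβ0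
  · rw [QuadraticMap.polar_add_right, QuadraticMap.polar_add_right, QuadraticMap.polar_smul_right,
      polar_self_zero Q x₁ hx₁, ← hβdef, hwm.2.1]
    simp only [smul_eq_mul, zero_add, add_zero]
    rw [div_mul_cancel₀ _ hβ0]
    exact neg_ne_zero.mpr hw
  · rw [QuadraticMap.polar_add_right, QuadraticMap.polar_add_right, QuadraticMap.polar_smul_right,
      polar_self_zero Q x₂ hx₂, QuadraticMap.polar_comm ⇑Q x₂ x₁, ← hβdef, hwm.2.2]
    simp only [smul_eq_mul, mul_zero, add_zero]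
    exact hβ0

/-- `W` is the image of a map which preserves the polar form against `W` -/
def Retr (W : Submodule F (ι → F)) : Prop :=
  ∃ p : (ι → F) → (ι → F), (∀ y, p y ∈ W) ∧
    ∀ x ∈ W, ∀ y, QuadraticMap.polar ⇑Q x (p y) = QuadraticMap.polar ⇑Q x y

theorem retr_top : Retr Q ⊤ := ⟨id, fun _ => Submodule.mem_top, fun _ _ _ => rfl⟩

theorem polar_projH (e f x z : ι → F) (hze : QuadraticMap.polar ⇑Q z e = 0)
    (hzf : QuadraticMap.polar ⇑Q z f = 0) :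
    QuadraticMap.polar ⇑Q z (projH Q e f x) = QuadraticMap.polar ⇑Q z x := by
  unfold projH
  rw [QuadraticMap.polar_sub_right, QuadraticMap.polar_sub_right, QuadraticMap.polar_smul_right,
    QuadraticMap.polar_smul_right, hze, hzf]
  simp

variable {Q} in
theorem Retr.pair {W : Submodule F (ι → F)} (h : Retr Q W) (e f : ι → F) (he : Q e = 0)
    (hf : Q f = 0) (hef : QuadraticMap.polar ⇑Q e f = 1) (heW : e ∈ W) (hfW : f ∈ W) :
    Retr Q (W ⊓ perpSub Q e ⊓ perpSub Q f) := by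
  obtain ⟨p, hp1, hp2⟩ := h
  refine ⟨fun y => projH Q e f (p y), ?_, ?_⟩
  · intro y
    rw [Submodule.mem_inf, Submodule.mem_inf, mem_perpSub, mem_perpSub]
    refine ⟨⟨?_, projH_perp_e Q e f _ he hef⟩, projH_perp_f Q e f _ hf hef⟩
    unfold projH
    exact W.sub_mem (W.sub_mem (hp1 y) (W.smul_mem _ heW)) (W.smul_mem _ hfW)
  · intro x hx y
    rw [Submodule.mem_inf, Submodule.mem_inf, mem_perpSub, mem_perpSub] at hx
    rw [polar_projH Q e f _ x (by rw [QuadraticMap.polar_comm]; exact hx.1.2)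
      (by rw [QuadraticMap.polar_comm]; exact hx.2)]
    exact hp2 x hx.1.1 y

variable {Q} in
theorem Retr.nd (hQ : (QuadraticMap.polarBilin Q).Nondegenerate) {W : Submodule F (ι → F)}
    (h : Retr Q W) : NdSub Q W := by
  obtain ⟨p, hp1, hp2⟩ := h
  intro x hx hx0
  obtain ⟨y, hy⟩ : ∃ y, QuadraticMap.polar ⇑Q x y ≠ 0 := by
    by_contra hcon
    push Not at hcon
    exact hx0 (Helper43.polarNondeg_of_nondegenerate Q hQ x hcon)
  exact ⟨p y, hp1 y, by rw [hp2 x hx y]; exact hy⟩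

/-- a hyperbolic partner built from a vector not orthogonal to a singular vector -/
theorem hyp_step (u y : ι → F) (hu : Q u = 0) (hy : QuadraticMap.polar ⇑Q u y ≠ 0) :
    ∃ f : ι → F, Q f = 0 ∧ QuadraticMap.polar ⇑Q u f = 1 ∧
      (∀ z : ι → F, QuadraticMap.polar ⇑Q z u = 0 → QuadraticMap.polar ⇑Q z y = 0 →
        QuadraticMap.polar ⇑Q z f = 0) ∧
      ∀ W : Submodule F (ι → F), u ∈ W → y ∈ W → f ∈ W := by
  obtain ⟨h1, h2⟩ := sing_adjust Q u y hu hy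
  refine ⟨(QuadraticMap.polar ⇑Q u y)⁻¹ • (y - (Q y / QuadraticMap.polar ⇑Q u y) • u), ?_, ?_, ?_, ?_⟩
  · rw [QuadraticMap.map_smul, h1, smul_zero]
  · rw [QuadraticMap.polar_smul_right, h2, smul_eq_mul, inv_mul_cancel₀ hy]
  · intro z hzu hzy
    rw [QuadraticMap.polar_smul_right, QuadraticMap.polar_sub_right, QuadraticMap.polar_smul_right,
      hzu, hzy]
    simp
  · intro W huW hyW
    exact W.smul_mem _ (W.sub_mem hyW (W.smul_mem _ huW))

variable {Q} in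
/-- a hyperbolic partner inside a retract -/
theorem Retr.partner (hQ : (QuadraticMap.polarBilin Q).Nondegenerate) {W : Submodule F (ι → F)}
    (h : Retr Q W) (u c : ι → F) (hu : Q u = 0) (huW : u ∈ W) (hcW : c ∈ W)
    (huc : ∀ t : F, u ≠ t • c) (hcu : QuadraticMap.polar ⇑Q c u = 0) :
    ∃ f ∈ W, Q f = 0 ∧ QuadraticMap.polar ⇑Q u f = 1 ∧ QuadraticMap.polar ⇑Q c f = 0 := by
  obtain ⟨p, hp1, hp2⟩ := h
  obtain ⟨y, hcy, huy⟩ := exists_perp_not_perp Q hQ c u huc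
  have h1 : QuadraticMap.polar ⇑Q u (p y) ≠ 0 := by rw [hp2 u huW y]; exact huy
  have h2 : QuadraticMap.polar ⇑Q c (p y) = 0 := by rw [hp2 c hcW y]; exact hcy
  obtain ⟨f, hf, huf, hz, hfW⟩ := hyp_step Q u (p y) hu h1
  exact ⟨f, hfW W huW (hp1 y), hf, huf, hz c hcu h2⟩

theorem finrank_pair_ge (W : Submodule F (ι → F)) (e f : ι → F) :
    finrank F W ≤ finrank F ↥(W ⊓ perpSub Q e ⊓ perpSub Q f) + 2 := by
  have h1 := finrank_inf_perpSub_ge Q W e
  have h2 := finrank_inf_perpSub_ge Q (W ⊓ perpSub Q e) f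
  omega

/-- a line through `e` spanned by a suitable singular vector is a common neighbour -/
theorem claw_line (L M N₀ : Submodule F (ι → F)) (e b₁ b₂ c₀ x x' : ι → F)
    (hLeq : L = Submodule.span F {e, b₁}) (hMeq : M = Submodule.span F {e, b₂})
    (hNeq : N₀ = Submodule.span F {e, c₀}) (hb₁ : TSP Q e b₁) (hb₂ : TSP Q e b₂) (hc₀ : TSP Q e c₀)
    (hbb : QuadraticMap.polar ⇑Q b₁ b₂ ≠ 0) (hc₀x' : QuadraticMap.polar ⇑Q c₀ x' = 0)
    (hex' : QuadraticMap.polar ⇑Q e x' = 0) (hx : Q x = 0) (hex : QuadraticMap.polar ⇑Q e x = 0)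
    (hb₁x : QuadraticMap.polar ⇑Q b₁ x = 0) (hb₂x : QuadraticMap.polar ⇑Q b₂ x = 0)
    (hc₀x : QuadraticMap.polar ⇑Q c₀ x = 0) (hxx' : QuadraticMap.polar ⇑Q x x' ≠ 0) :
    IsLine Q (Submodule.span F {e, x}) ∧ R0g Q (Submodule.span F {e, x}) L ∧
      R0g Q (Submodule.span F {e, x}) M ∧ R0g Q (Submodule.span F {e, x}) N₀ := by
  have hee := polar_self_zero Q e hb₁.1
  have hxe : QuadraticMap.polar ⇑Q x e = 0 := by rw [QuadraticMap.polar_comm]; exact hex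
  have hne : ∀ t : F, x ≠ t • e := by
    intro t h
    apply hxx'
    rw [h, QuadraticMap.polar_smul_left, hex', smul_zero]
  have hT := tsp_of_perp Q e x hb₁.1 hx hex hb₁.ne_zero_left hne
  have heK : e ∈ Submodule.span F {e, x} := Submodule.subset_span (by simp)
  have heL : e ∈ L := by rw [hLeq]; exact Submodule.subset_span (by simp)
  have heM : e ∈ M := by rw [hMeq]; exact Submodule.subset_span (by simp)
  have heN : e ∈ N₀ := by rw [hNeq]; exact Submodule.subset_span (by simp)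
  refine ⟨⟨e, x, hT, rfl⟩, ⟨?_, ⟨e, hb₁.ne_zero_left, heK, heL⟩, ?_⟩,
    ⟨?_, ⟨e, hb₁.ne_zero_left, heK, heM⟩, ?_⟩, ⟨?_, ⟨e, hb₁.ne_zero_left, heK, heN⟩, ?_⟩⟩
  · intro h
    have hb : b₁ ∈ Submodule.span F {e, x} := by
      rw [h, hLeq]; exact Submodule.subset_span (by simp)
    obtain ⟨a, b, hab⟩ := mem_pair.mp hb
    apply hbb
    rw [← hab, QuadraticMap.polar_add_left, QuadraticMap.polar_smul_left,
      QuadraticMap.polar_smul_left, hb₂.2.2.1, QuadraticMap.polar_comm ⇑Q x b₂, hb₂x]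
    simp
  · rw [hLeq]
    exact perp_of_basis Q e x e b₁ hee hb₁.2.2.1 hxe (by rw [QuadraticMap.polar_comm]; exact hb₁x)
  · intro h
    have hb : b₂ ∈ Submodule.span F {e, x} := by
      rw [h, hMeq]; exact Submodule.subset_span (by simp)
    obtain ⟨a, b, hab⟩ := mem_pair.mp hb
    apply hbb
    rw [← hab, QuadraticMap.polar_add_right, QuadraticMap.polar_smul_right,
      QuadraticMap.polar_smul_right, QuadraticMap.polar_comm ⇑Q b₁ e, hb₁.2.2.1, hb₁x]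
    simp
  · rw [hMeq]
    exact perp_of_basis Q e x e b₂ hee hb₂.2.2.1 hxe (by rw [QuadraticMap.polar_comm]; exact hb₂x)
  · intro h
    have hb : x ∈ Submodule.span F {e, c₀} := by
      rw [← hNeq, ← h]; exact Submodule.subset_span (by simp)
    obtain ⟨a, b, hab⟩ := mem_pair.mp hb
    apply hxx'
    rw [← hab, QuadraticMap.polar_add_left, QuadraticMap.polar_smul_left,
      QuadraticMap.polar_smul_left, hex', hc₀x']
    simp
  · rw [hNeq]
    exact perp_of_basis Q e x e c₀ hee hc₀.2.2.1 hxe (by rw [QuadraticMap.polar_comm]; exact hc₀x)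

/-- two lines through `e` spanned by non-orthogonal vectors are distinct and not adjacent -/
theorem claw_pair (e x x' : ι → F) (hex' : QuadraticMap.polar ⇑Q e x' = 0) (hx' : Q x' = 0)
    (hxx' : QuadraticMap.polar ⇑Q x x' ≠ 0) :
    Submodule.span F {e, x} ≠ Submodule.span F {e, x'} ∧
      ¬ R0g Q (Submodule.span F {e, x}) (Submodule.span F {e, x'}) := by
  have hxK : x ∈ Submodule.span F {e, x} := Submodule.subset_span (by simp)
  have hx'K : x' ∈ Submodule.span F {e, x'} := Submodule.subset_span (by simp)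
  constructor
  · intro h
    rw [h] at hxK
    obtain ⟨a, b, hab⟩ := mem_pair.mp hxK
    apply hxx'
    rw [← hab, QuadraticMap.polar_add_left, QuadraticMap.polar_smul_left,
      QuadraticMap.polar_smul_left, hex', polar_self_zero Q x' hx']
    simp
  · intro h
    exact hxx' (h.2.2 x hxK x' hx'K)

/-- **the claw**: in dimension at least nine, every common neighbour of two concurrent
non-orthogonal lines has three pairwise non-adjacent common neighbours adjacent to it -/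
theorem conc_claw (hQ : (QuadraticMap.polarBilin Q).Nondegenerate) (hn : 9 ≤ Fintype.card ι)
    (L M N₀ : Submodule F (ι → F)) (hL : IsLine Q L) (hM : IsLine Q M) (hN₀ : IsLine Q N₀)
    (hLM : Meet L M) (hperp : ¬ Perp Q L M) (h0L : R0g Q N₀ L) (h0M : R0g Q N₀ M) :
    ∃ K₁ K₂ K₃ : Submodule F (ι → F),
      (IsLine Q K₁ ∧ R0g Q K₁ L ∧ R0g Q K₁ M ∧ R0g Q K₁ N₀) ∧
      (IsLine Q K₂ ∧ R0g Q K₂ L ∧ R0g Q K₂ M ∧ R0g Q K₂ N₀) ∧
      (IsLine Q K₃ ∧ R0g Q K₃ L ∧ R0g Q K₃ M ∧ R0g Q K₃ N₀) ∧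
      K₁ ≠ K₂ ∧ K₁ ≠ K₃ ∧ K₂ ≠ K₃ ∧ ¬ R0g Q K₁ K₂ ∧ ¬ R0g Q K₁ K₃ ∧ ¬ R0g Q K₂ K₃ := by
  obtain ⟨e, he0, heL, heM⟩ := hLM
  have heN := star_lemma Q L M N₀ hL hM hN₀ e he0 heL heM hperp h0L.2.1 h0M.2.1
  obtain ⟨b₁, hb₁, hLeq⟩ := line_basis_of_mem Q L hL e heL he0
  obtain ⟨b₂, hb₂, hMeq⟩ := line_basis_of_mem Q M hM e heM he0
  obtain ⟨c₀, hc₀, hNeq⟩ := line_basis_of_mem Q N₀ hN₀ e heN he0
  have hb₁L : b₁ ∈ L := by rw [hLeq]; exact Submodule.subset_span (by simp)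
  have hb₂M : b₂ ∈ M := by rw [hMeq]; exact Submodule.subset_span (by simp)
  have hc₀N : c₀ ∈ N₀ := by rw [hNeq]; exact Submodule.subset_span (by simp)
  have he := hb₁.1
  have hee := polar_self_zero Q e he
  have hbb : QuadraticMap.polar ⇑Q b₁ b₂ ≠ 0 := by
    intro h
    apply hperp
    rw [hLeq, hMeq]
    exact perp_of_basis Q e b₁ e b₂ hee hb₂.2.2.1
      (by rw [QuadraticMap.polar_comm]; exact hb₁.2.2.1) h
  have hc₀b₁ : QuadraticMap.polar ⇑Q c₀ b₁ = 0 := h0L.2.2 c₀ hc₀N b₁ hb₁L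
  have hc₀b₂ : QuadraticMap.polar ⇑Q c₀ b₂ = 0 := h0M.2.2 c₀ hc₀N b₂ hb₂M
  obtain ⟨β, hβdef⟩ : ∃ β, β = QuadraticMap.polar ⇑Q b₁ b₂ := ⟨_, rfl⟩
  have hβ0 : β ≠ 0 := by rw [hβdef]; exact hbb
  obtain ⟨b₂', hb₂'def⟩ : ∃ b₂', b₂' = β⁻¹ • b₂ := ⟨_, rfl⟩
  have hb₂'s : Q b₂' = 0 := by rw [hb₂'def, QuadraticMap.map_smul, hb₂.2.1, smul_zero]
  have hb₁b₂' : QuadraticMap.polar ⇑Q b₁ b₂' = 1 := by
    rw [hb₂'def, QuadraticMap.polar_smul_right, ← hβdef, smul_eq_mul, inv_mul_cancel₀ hβ0]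
  have hb₂'x : ∀ x : ι → F, QuadraticMap.polar ⇑Q b₂' x = 0 ↔ QuadraticMap.polar ⇑Q b₂ x = 0 := by
    intro x
    rw [hb₂'def, QuadraticMap.polar_smul_left, smul_eq_mul]
    constructor
    · intro h
      rcases mul_eq_zero.mp h with h | h
      · exact absurd h (inv_ne_zero hβ0)
      · exact h
    · intro h
      rw [h, mul_zero]
  -- first pair
  have hR₁ := (retr_top Q).pair b₁ b₂' hb₁.2.1 hb₂'s hb₁b₂' Submodule.mem_top Submodule.mem_top
  have hmem₁ : ∀ x : ι → F, x ∈ (⊤ : Submodule F (ι → F)) ⊓ perpSub Q b₁ ⊓ perpSub Q b₂' ↔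
      QuadraticMap.polar ⇑Q b₁ x = 0 ∧ QuadraticMap.polar ⇑Q b₂ x = 0 := by
    intro x
    rw [Submodule.mem_inf, Submodule.mem_inf, mem_perpSub, mem_perpSub, hb₂'x]
    simp
  have heW₁ : e ∈ (⊤ : Submodule F (ι → F)) ⊓ perpSub Q b₁ ⊓ perpSub Q b₂' := by
    rw [hmem₁]
    exact ⟨by rw [QuadraticMap.polar_comm]; exact hb₁.2.2.1,
      by rw [QuadraticMap.polar_comm]; exact hb₂.2.2.1⟩
  have hc₀W₁ : c₀ ∈ (⊤ : Submodule F (ι → F)) ⊓ perpSub Q b₁ ⊓ perpSub Q b₂' := by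
    rw [hmem₁]
    exact ⟨by rw [QuadraticMap.polar_comm]; exact hc₀b₁,
      by rw [QuadraticMap.polar_comm]; exact hc₀b₂⟩
  obtain ⟨f₀, hf₀W, hf₀, hef₀, hc₀f₀⟩ := hR₁.partner hQ e c₀ he heW₁ hc₀W₁ hc₀.not_smul'
    (by rw [QuadraticMap.polar_comm]; exact hc₀.2.2.1)
  -- second pair
  have hR₂ := hR₁.pair e f₀ he hf₀ hef₀ heW₁ hf₀W
  have hc₀W₂ : c₀ ∈ (⊤ : Submodule F (ι → F)) ⊓ perpSub Q b₁ ⊓ perpSub Q b₂' ⊓ perpSub Q e ⊓
      perpSub Q f₀ := by
    rw [Submodule.mem_inf, Submodule.mem_inf, mem_perpSub, mem_perpSub]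
    exact ⟨⟨hc₀W₁, hc₀.2.2.1⟩, by rw [QuadraticMap.polar_comm]; exact hc₀f₀⟩
  obtain ⟨d₀, hd₀W, hd₀, hc₀d₀, -⟩ := hR₂.partner hQ c₀ 0 hc₀.2.1 hc₀W₂ (Submodule.zero_mem _)
    (by intro t h; rw [smul_zero] at h; exact hc₀.ne_zero_right h)
    (by simp)
  -- third pair
  have hR₃ := hR₂.pair c₀ d₀ hc₀.2.1 hd₀ hc₀d₀ hc₀W₂ hd₀W
  have hfr : 3 ≤ finrank F ↥((⊤ : Submodule F (ι → F)) ⊓ perpSub Q b₁ ⊓ perpSub Q b₂' ⊓
      perpSub Q e ⊓ perpSub Q f₀ ⊓ perpSub Q c₀ ⊓ perpSub Q d₀) := by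
    have h1 := finrank_pair_ge Q (⊤ : Submodule F (ι → F)) b₁ b₂'
    have h2 := finrank_pair_ge Q ((⊤ : Submodule F (ι → F)) ⊓ perpSub Q b₁ ⊓ perpSub Q b₂') e f₀
    have h3 := finrank_pair_ge Q ((⊤ : Submodule F (ι → F)) ⊓ perpSub Q b₁ ⊓ perpSub Q b₂' ⊓
      perpSub Q e ⊓ perpSub Q f₀) c₀ d₀
    have h4 : finrank F ↥(⊤ : Submodule F (ι → F)) = Fintype.card ι := by
      rw [finrank_top, Module.finrank_fintype_fun_eq_card]
    omega
  obtain ⟨x₁, x₂, x₃, hx₁W, hx₂W, hx₃W, hx₁, hx₂, hx₃, h12, h13, h23⟩ := conic Q _ (hR₃.nd hQ) hfr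
  have key : ∀ x : ι → F, x ∈ (⊤ : Submodule F (ι → F)) ⊓ perpSub Q b₁ ⊓ perpSub Q b₂' ⊓
      perpSub Q e ⊓ perpSub Q f₀ ⊓ perpSub Q c₀ ⊓ perpSub Q d₀ →
      QuadraticMap.polar ⇑Q e x = 0 ∧ QuadraticMap.polar ⇑Q b₁ x = 0 ∧
        QuadraticMap.polar ⇑Q b₂ x = 0 ∧ QuadraticMap.polar ⇑Q c₀ x = 0 := by
    intro x hx
    rw [Submodule.mem_inf, Submodule.mem_inf, Submodule.mem_inf, Submodule.mem_inf, hmem₁,
      mem_perpSub, mem_perpSub, mem_perpSub, mem_perpSub] at hx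
    exact ⟨hx.1.1.1.2, hx.1.1.1.1.1, hx.1.1.1.1.2, hx.1.2⟩
  have k1 := key x₁ hx₁W
  have k2 := key x₂ hx₂W
  have k3 := key x₃ hx₃W
  have h21 : QuadraticMap.polar ⇑Q x₂ x₁ ≠ 0 := by rw [QuadraticMap.polar_comm]; exact h12
  have h31 : QuadraticMap.polar ⇑Q x₃ x₁ ≠ 0 := by rw [QuadraticMap.polar_comm]; exact h13
  have l1 := claw_line Q L M N₀ e b₁ b₂ c₀ x₁ x₂ hLeq hMeq hNeq hb₁ hb₂ hc₀ hbb k2.2.2.2 k2.1 hx₁
    k1.1 k1.2.1 k1.2.2.1 k1.2.2.2 h12
  have l2 := claw_line Q L M N₀ e b₁ b₂ c₀ x₂ x₁ hLeq hMeq hNeq hb₁ hb₂ hc₀ hbb k1.2.2.2 k1.1 hx₂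
    k2.1 k2.2.1 k2.2.2.1 k2.2.2.2 h21
  have l3 := claw_line Q L M N₀ e b₁ b₂ c₀ x₃ x₁ hLeq hMeq hNeq hb₁ hb₂ hc₀ hbb k1.2.2.2 k1.1 hx₃
    k3.1 k3.2.1 k3.2.2.1 k3.2.2.2 h31
  have p12 := claw_pair Q e x₁ x₂ k2.1 hx₂ h12
  have p13 := claw_pair Q e x₁ x₃ k3.1 hx₃ h13
  have p23 := claw_pair Q e x₂ x₃ k3.1 hx₃ h23
  exact ⟨_, _, _, l1, l2, l3, p12.1, p13.1, p23.1, p12.2, p13.2, p23.2⟩

end Conc

end Cfsg.Agent.Helper45.AO
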