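import Cfsg.Agent.Helper45.AutE

set_option autoImplicit false
set_option linter.unusedSectionVars false
set_option linter.unusedSimpArgs false

/-!
Helper library (helper45), automorphisms of `PΩ(Q)`, part F: the concurrency relation on root
subgroups is invariant under automorphisms, and every automorphism permutes the images of the
groups of Eichler transformations at the singular points.
-/

universe u

namespace Cfsg.Agent.Helper45.AO

open Cfsg Matrix Module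

section PLevel

variable {ι : Type} [Fintype ι] [DecidableEq ι] {F : Type u} [Field F] [Fintype F]
  (Q : QuadraticForm F (ι → F))

/-- a common neighbour of two subgroups -/
def NbrP (A B N : Subgroup (POmega F ⇑Q)) : Prop := RootP Q N ∧ R0P Q N A ∧ R0P Q N B

/-- three pairwise distinct, pairwise non-adjacent common neighbours, all adjacent to `N₀` -/
def ClawP (A B N₀ : Subgroup (POmega F ⇑Q)) : Prop :=
  ∃ K₁ K₂ K₃ : Subgroup (POmega F ⇑Q), NbrP Q A B K₁ ∧ NbrP Q A B K₂ ∧ NbrP Q A B K₃ ∧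
    R0P Q K₁ N₀ ∧ R0P Q K₂ N₀ ∧ R0P Q K₃ N₀ ∧ K₁ ≠ K₂ ∧ K₁ ≠ K₃ ∧ K₂ ≠ K₃ ∧
    ¬ R0P Q K₁ K₂ ∧ ¬ R0P Q K₁ K₃ ∧ ¬ R0P Q K₂ K₃

/-- the common neighbours look like a grid -/
def GdP (A B : Subgroup (POmega F ⇑Q)) : Prop :=
  ∃ N₀ N₁ : Subgroup (POmega F ⇑Q), NbrP Q A B N₀ ∧ NbrP Q A B N₁ ∧ R0P Q N₀ N₁ ∧
    ¬ ClawP Q A B N₀

/-- the relation which will describe concurrent non-orthogonal lines -/
def R1P (A B : Subgroup (POmega F ⇑Q)) : Prop :=
  A ≠ B ∧ CommP Q A B ∧ ¬ R0P Q A B ∧ ¬ GdP Q A B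

/-- the relation which will describe concurrent lines -/
def ConcP (A B : Subgroup (POmega F ⇑Q)) : Prop := A = B ∨ R0P Q A B ∨ R1P Q A B

variable (hQ : (QuadraticMap.polarBilin Q).Nondegenerate) (hn : 5 ≤ Fintype.card ι)
  (p : ℕ) [Fact p.Prime] [CharP F p]

include hQ hn p in
theorem nbrP_map (α : POmega F ⇑Q ≃* POmega F ⇑Q) (A B N : Subgroup (POmega F ⇑Q))
    (h : NbrP Q A B N) : NbrP Q (A.map α.toMonoidHom) (B.map α.toMonoidHom) (N.map α.toMonoidHom) :=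
  ⟨rootP_map Q hQ hn p α N h.1, R0P_map Q hQ hn p α N A h.2.1, R0P_map Q hQ hn p α N B h.2.2⟩

include hQ hn p in
theorem clawP_map (α : POmega F ⇑Q ≃* POmega F ⇑Q) (A B N₀ : Subgroup (POmega F ⇑Q))
    (h : ClawP Q A B N₀) :
    ClawP Q (A.map α.toMonoidHom) (B.map α.toMonoidHom) (N₀.map α.toMonoidHom) := by
  obtain ⟨K₁, K₂, K₃, a1, a2, a3, c1, c2, c3, n12, n13, n23, r12, r13, r23⟩ := h
  refine ⟨K₁.map α.toMonoidHom, K₂.map α.toMonoidHom, K₃.map α.toMonoidHom,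
    nbrP_map Q hQ hn p α A B K₁ a1, nbrP_map Q hQ hn p α A B K₂ a2, nbrP_map Q hQ hn p α A B K₃ a3,
    R0P_map Q hQ hn p α K₁ N₀ c1, R0P_map Q hQ hn p α K₂ N₀ c2, R0P_map Q hQ hn p α K₃ N₀ c3,
    ?_, ?_, ?_, ?_, ?_, ?_⟩
  · exact fun h => n12 ((map_inj_iff Q α K₁ K₂).mp h)
  · exact fun h => n13 ((map_inj_iff Q α K₁ K₃).mp h)
  · exact fun h => n23 ((map_inj_iff Q α K₂ K₃).mp h)
  · exact fun h => r12 ((R0P_map_iff Q hQ hn p α K₁ K₂).mp h)
  · exact fun h => r13 ((R0P_map_iff Q hQ hn p α K₁ K₃).mp h)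
  · exact fun h => r23 ((R0P_map_iff Q hQ hn p α K₂ K₃).mp h)

include hQ hn p in
theorem clawP_map_iff (α : POmega F ⇑Q ≃* POmega F ⇑Q) (A B N₀ : Subgroup (POmega F ⇑Q)) :
    ClawP Q (A.map α.toMonoidHom) (B.map α.toMonoidHom) (N₀.map α.toMonoidHom) ↔ ClawP Q A B N₀ := by
  constructor
  · intro h
    have := clawP_map Q hQ hn p α.symm _ _ _ h
    rwa [map_symm_map, map_symm_map, map_symm_map] at this
  · exact clawP_map Q hQ hn p α A B N₀

include hQ hn p in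
theorem gdP_map (α : POmega F ⇑Q ≃* POmega F ⇑Q) (A B : Subgroup (POmega F ⇑Q))
    (h : GdP Q A B) : GdP Q (A.map α.toMonoidHom) (B.map α.toMonoidHom) := by
  obtain ⟨N₀, N₁, a0, a1, h01, hc⟩ := h
  exact ⟨N₀.map α.toMonoidHom, N₁.map α.toMonoidHom, nbrP_map Q hQ hn p α A B N₀ a0,
    nbrP_map Q hQ hn p α A B N₁ a1, R0P_map Q hQ hn p α N₀ N₁ h01,
    fun h => hc ((clawP_map_iff Q hQ hn p α A B N₀).mp h)⟩

include hQ hn p in
theorem gdP_map_iff (α : POmega F ⇑Q ≃* POmega F ⇑Q) (A B : Subgroup (POmega F ⇑Q)) :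
    GdP Q (A.map α.toMonoidHom) (B.map α.toMonoidHom) ↔ GdP Q A B := by
  constructor
  · intro h
    have := gdP_map Q hQ hn p α.symm _ _ h
    rwa [map_symm_map, map_symm_map] at this
  · exact gdP_map Q hQ hn p α A B

include hQ hn p in
theorem r1P_map_iff (α : POmega F ⇑Q ≃* POmega F ⇑Q) (A B : Subgroup (POmega F ⇑Q)) :
    R1P Q (A.map α.toMonoidHom) (B.map α.toMonoidHom) ↔ R1P Q A B := by
  unfold R1P
  rw [Ne, map_inj_iff, commP_map_iff, R0P_map_iff Q hQ hn p, gdP_map_iff Q hQ hn p]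

include hQ hn p in
theorem concP_map_iff (α : POmega F ⇑Q ≃* POmega F ⇑Q) (A B : Subgroup (POmega F ⇑Q)) :
    ConcP Q (A.map α.toMonoidHom) (B.map α.toMonoidHom) ↔ ConcP Q A B := by
  unfold ConcP
  rw [map_inj_iff, R0P_map_iff Q hQ hn p, r1P_map_iff Q hQ hn p]

include hQ hn p in
/-- two skew orthogonal lines: the common neighbours form a grid -/
theorem gdP_of_skew (L M : Submodule F (ι → F)) (hL : IsLine Q L) (hM : IsLine Q M)
    (hmeet : ¬ Meet L M) (hperp : Perp Q L M) : GdP Q (XLb Q L) (XLb Q M) := by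
  obtain ⟨N₀, N₁, hN₀, hN₁, a, b, c, d, e', claw⟩ := skew_grid Q L M hL hM hmeet hperp
  refine ⟨XLb Q N₀, XLb Q N₁, ⟨⟨N₀, hN₀, rfl⟩, (R0P_iff Q hQ hn p N₀ L hN₀ hL).mpr a,
    (R0P_iff Q hQ hn p N₀ M hN₀ hM).mpr b⟩, ⟨⟨N₁, hN₁, rfl⟩, (R0P_iff Q hQ hn p N₁ L hN₁ hL).mpr c,
    (R0P_iff Q hQ hn p N₁ M hN₁ hM).mpr d⟩, (R0P_iff Q hQ hn p N₀ N₁ hN₀ hN₁).mpr e', ?_⟩
  rintro ⟨K₁, K₂, K₃, ⟨⟨K₁', hK₁, rfl⟩, a1, b1⟩, ⟨⟨K₂', hK₂, rfl⟩, a2, b2⟩, ⟨⟨K₃', hK₃, rfl⟩, a3, b3⟩,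
    c1, c2, c3, n12, n13, n23, r12, r13, r23⟩
  have := claw K₁' K₂' K₃' hK₁ hK₂ hK₃ ((R0P_iff Q hQ hn p K₁' L hK₁ hL).mp a1)
    ((R0P_iff Q hQ hn p K₁' M hK₁ hM).mp b1) ((R0P_iff Q hQ hn p K₁' N₀ hK₁ hN₀).mp c1)
    ((R0P_iff Q hQ hn p K₂' L hK₂ hL).mp a2)
    ((R0P_iff Q hQ hn p K₂' M hK₂ hM).mp b2) ((R0P_iff Q hQ hn p K₂' N₀ hK₂ hN₀).mp c2)
    ((R0P_iff Q hQ hn p K₃' L hK₃ hL).mp a3)
    ((R0P_iff Q hQ hn p K₃' M hK₃ hM).mp b3) ((R0P_iff Q hQ hn p K₃' N₀ hK₃ hN₀).mp c3)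
    (fun h => n12 (by rw [h])) (fun h => n13 (by rw [h])) (fun h => n23 (by rw [h]))
  rcases this with h | h | h
  · exact r12 ((R0P_iff Q hQ hn p K₁' K₂' hK₁ hK₂).mpr h)
  · exact r13 ((R0P_iff Q hQ hn p K₁' K₃' hK₁ hK₃).mpr h)
  · exact r23 ((R0P_iff Q hQ hn p K₂' K₃' hK₂ hK₃).mpr h)

include hQ hn p in
/-- two concurrent non-orthogonal lines: the common neighbours do not form a grid -/
theorem not_gdP_of_conc (hcase : 9 ≤ Fintype.card ι ∨ TS4free Q) (L M : Submodule F (ι → F))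
    (hL : IsLine Q L) (hM : IsLine Q M) (hmeet : Meet L M) (hperp : ¬ Perp Q L M) :
    ¬ GdP Q (XLb Q L) (XLb Q M) := by
  rintro ⟨N₀, N₁, ⟨⟨N₀', hN₀, rfl⟩, a0, b0⟩, ⟨⟨N₁', hN₁, rfl⟩, a1, b1⟩, h01, hclaw⟩
  have a0' := (R0P_iff Q hQ hn p N₀' L hN₀ hL).mp a0
  have b0' := (R0P_iff Q hQ hn p N₀' M hN₀ hM).mp b0
  rcases hcase with h9 | h4
  · apply hclaw
    obtain ⟨K₁, K₂, K₃, ⟨hK₁, x1, y1, z1⟩, ⟨hK₂, x2, y2, z2⟩, ⟨hK₃, x3, y3, z3⟩, n12, n13, n23, r12,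
      r13, r23⟩ := conc_claw Q hQ h9 L M N₀' hL hM hN₀ hmeet hperp a0' b0'
    refine ⟨XLb Q K₁, XLb Q K₂, XLb Q K₃,
      ⟨⟨K₁, hK₁, rfl⟩, (R0P_iff Q hQ hn p K₁ L hK₁ hL).mpr x1, (R0P_iff Q hQ hn p K₁ M hK₁ hM).mpr y1⟩,
      ⟨⟨K₂, hK₂, rfl⟩, (R0P_iff Q hQ hn p K₂ L hK₂ hL).mpr x2, (R0P_iff Q hQ hn p K₂ M hK₂ hM).mpr y2⟩,
      ⟨⟨K₃, hK₃, rfl⟩, (R0P_iff Q hQ hn p K₃ L hK₃ hL).mpr x3, (R0P_iff Q hQ hn p K₃ M hK₃ hM).mpr y3⟩,
      (R0P_iff Q hQ hn p K₁ N₀' hK₁ hN₀).mpr z1, (R0P_iff Q hQ hn p K₂ N₀' hK₂ hN₀).mpr z2,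
      (R0P_iff Q hQ hn p K₃ N₀' hK₃ hN₀).mpr z3, ?_, ?_, ?_, ?_, ?_, ?_⟩
    · exact fun h => n12 (XLb_inj Q hQ hn p K₁ K₂ hK₁ hK₂ h)
    · exact fun h => n13 (XLb_inj Q hQ hn p K₁ K₃ hK₁ hK₃ h)
    · exact fun h => n23 (XLb_inj Q hQ hn p K₂ K₃ hK₂ hK₃ h)
    · exact fun h => r12 ((R0P_iff Q hQ hn p K₁ K₂ hK₁ hK₂).mp h)
    · exact fun h => r13 ((R0P_iff Q hQ hn p K₁ K₃ hK₁ hK₃).mp h)
    · exact fun h => r23 ((R0P_iff Q hQ hn p K₂ K₃ hK₂ hK₃).mp h)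
  · exact conc_no_edge Q h4 L M N₀' N₁' hL hM hN₀ hN₁ hmeet hperp a0' b0'
      ((R0P_iff Q hQ hn p N₁' L hN₁ hL).mp a1) ((R0P_iff Q hQ hn p N₁' M hN₁ hM).mp b1)
      ((R0P_iff Q hQ hn p N₀' N₁' hN₀ hN₁).mp h01)

include hQ hn p in
/-- **concurrency is a group-theoretic relation** -/
theorem concP_iff (hcase : 9 ≤ Fintype.card ι ∨ TS4free Q) (L M : Submodule F (ι → F))
    (hL : IsLine Q L) (hM : IsLine Q M) : ConcP Q (XLb Q L) (XLb Q M) ↔ Meet L M := by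
  constructor
  · rintro (h | h | h)
    · have hLM := XLb_inj Q hQ hn p L M hL hM h
      obtain ⟨u, v, huv, rfl⟩ := hL
      have hu : u ∈ Submodule.span F {u, v} := Submodule.subset_span (by simp)
      exact ⟨u, huv.ne_zero_left, hu, by rw [← hLM]; exact hu⟩
    · exact ((R0P_iff Q hQ hn p L M hL hM).mp h).2.1
    · obtain ⟨hne, hcomm, hnr0, hngd⟩ := h
      by_contra hmeet
      rcases (commP_iff Q hQ hn p L M hL hM).mp hcomm with h | h
      · exact hmeet h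
      · exact hngd (gdP_of_skew Q hQ hn p L M hL hM hmeet h)
  · intro hmeet
    by_cases hLM : L = M
    · left
      rw [hLM]
    by_cases hperp : Perp Q L M
    · right; left
      exact (R0P_iff Q hQ hn p L M hL hM).mpr ⟨hLM, hmeet, hperp⟩
    · right; right
      exact ⟨fun h => hLM (XLb_inj Q hQ hn p L M hL hM h),
        (commP_iff Q hQ hn p L M hL hM).mpr (Or.inl hmeet),
        fun h => hperp ((R0P_iff Q hQ hn p L M hL hM).mp h).2.2,
        not_gdP_of_conc Q hQ hn p hcase L M hL hM hmeet hperp⟩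

end PLevel

section Stars

variable {ι : Type} [Fintype ι] [DecidableEq ι] {F : Type u} [Field F] [Fintype F]
  (Q : QuadraticForm F (ι → F))

/-- the image in `PΩ` of the group of Eichler transformations at the singular vector `e` -/
def Ub (e : ι → F) (he : Q e = 0) : Subgroup (POmega F ⇑Q) := (eichSub Q e he).map (piΩ Q)

variable (hQ : (QuadraticMap.polarBilin Q).Nondegenerate) (hn : 5 ≤ Fintype.card ι)
  (p : ℕ) [Fact p.Prime] [CharP F p]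

include hQ hn p in
theorem line_image (α : POmega F ⇑Q ≃* POmega F ⇑Q) (L : Submodule F (ι → F)) (hL : IsLine Q L) :
    ∃ L' : Submodule F (ι → F), IsLine Q L' ∧ (XLb Q L).map α.toMonoidHom = XLb Q L' := by
  obtain ⟨L', hL', h⟩ := rootP_map Q hQ hn p α (XLb Q L) ⟨L, hL, rfl⟩
  exact ⟨L', hL', h⟩

include hQ hn p in
theorem meet_image (hcase : 9 ≤ Fintype.card ι ∨ TS4free Q) (α : POmega F ⇑Q ≃* POmega F ⇑Q)
    (L M L' M' : Submodule F (ι → F)) (hL : IsLine Q L) (hM : IsLine Q M) (hL' : IsLine Q L')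
    (hM' : IsLine Q M') (h1 : (XLb Q L).map α.toMonoidHom = XLb Q L')
    (h2 : (XLb Q M).map α.toMonoidHom = XLb Q M') : Meet L' M' ↔ Meet L M := by
  rw [← concP_iff Q hQ hn p hcase L' M' hL' hM', ← concP_iff Q hQ hn p hcase L M hL hM, ← h1, ← h2,
    concP_map_iff Q hQ hn p]

include hQ hn p in
theorem r0g_image (α : POmega F ⇑Q ≃* POmega F ⇑Q)
    (L M L' M' : Submodule F (ι → F)) (hL : IsLine Q L) (hM : IsLine Q M) (hL' : IsLine Q L')
    (hM' : IsLine Q M') (h1 : (XLb Q L).map α.toMonoidHom = XLb Q L')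
    (h2 : (XLb Q M).map α.toMonoidHom = XLb Q M') : R0g Q L' M' ↔ R0g Q L M := by
  rw [← R0P_iff Q hQ hn p L' M' hL' hM', ← R0P_iff Q hQ hn p L M hL hM, ← h1, ← h2,
    R0P_map_iff Q hQ hn p]

include hQ in
theorem XLb_le_Ub (L : Submodule F (ι → F)) (hL : IsLine Q L) (e : ι → F) (he : Q e = 0)
    (heL : e ∈ L) (he0 : e ≠ 0) : XLb Q L ≤ Ub Q e he :=
  Subgroup.map_mono (XL_le_eichSub Q hQ L hL e he heL he0)

include hQ hn p in
theorem XL_le_of_XLb_le_Ub (N : Submodule F (ι → F)) (hN : IsLine Q N) (e : ι → F) (he : Q e = 0)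
    (h : XLb Q N ≤ Ub Q e he) : XL Q N ≤ eichSub Q e he := by
  intro g hg
  have h1 : piΩ Q g ∈ Ub Q e he := h (Subgroup.mem_map_of_mem _ hg)
  obtain ⟨g', hg', hgg'⟩ := Subgroup.mem_map.mp h1
  have h2 : g' = g := mk_inj_of_pow Q hQ hn p g' g 1 1
    (by rw [pow_one]; exact eichSub_pow_char Q p e he g' hg')
    (by rw [pow_one]; exact XL_pow_char Q hQ p N hN g hg) hgg'
  rw [← h2]
  exact hg'

include hQ hn p in
theorem eichSub_le_of_Ub_le (e e' : ι → F) (he : Q e = 0) (he' : Q e' = 0)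
    (h : Ub Q e he ≤ Ub Q e' he') : eichSub Q e he ≤ eichSub Q e' he' := by
  intro g hg
  have h1 : piΩ Q g ∈ Ub Q e' he' := h (Subgroup.mem_map_of_mem _ hg)
  obtain ⟨g', hg', hgg'⟩ := Subgroup.mem_map.mp h1
  have h2 : g' = g := mk_inj_of_pow Q hQ hn p g' g 1 1
    (by rw [pow_one]; exact eichSub_pow_char Q p e' he' g' hg')
    (by rw [pow_one]; exact eichSub_pow_char Q p e he g hg) hgg'
  rw [← h2]
  exact hg'

include hQ hn p in
/-- the image of the star of a singular point lies in the star of a singular point -/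
theorem star_map_le (hcase : 9 ≤ Fintype.card ι ∨ TS4free Q) (α : POmega F ⇑Q ≃* POmega F ⇑Q)
    (e : ι → F) (he : Q e = 0) (he0 : e ≠ 0) :
    ∃ (e' : ι → F) (he' : Q e' = 0), e' ≠ 0 ∧ (Ub Q e he).map α.toMonoidHom ≤ Ub Q e' he' := by
  obtain ⟨u, v, hu, hv, heu, hev, huv, hue⟩ := exists_pair_perp Q hQ hn e he0
  have hve : ∀ t : F, v ≠ t • e := by
    intro t h
    rw [h, QuadraticMap.polar_smul_right, QuadraticMap.polar_comm, heu, smul_zero] at huv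
    exact zero_ne_one huv
  have hTu := tsp_of_perp Q e u he hu heu he0 hue
  have hTv := tsp_of_perp Q e v he hv hev he0 hve
  have hL₀ : IsLine Q (Submodule.span F {e, u}) := ⟨e, u, hTu, rfl⟩
  have hM₀ : IsLine Q (Submodule.span F {e, v}) := ⟨e, v, hTv, rfl⟩
  obtain ⟨L', hL', hLeq⟩ := line_image Q hQ hn p α _ hL₀
  obtain ⟨M', hM', hMeq⟩ := line_image Q hQ hn p α _ hM₀
  have heL₀ : e ∈ Submodule.span F {e, u} := Submodule.subset_span (by simp)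
  have heM₀ : e ∈ Submodule.span F {e, v} := Submodule.subset_span (by simp)
  have huL₀ : u ∈ Submodule.span F {e, u} := Submodule.subset_span (by simp)
  have hvM₀ : v ∈ Submodule.span F {e, v} := Submodule.subset_span (by simp)
  have hmeet₀ : Meet (Submodule.span F {e, u}) (Submodule.span F {e, v}) := ⟨e, he0, heL₀, heM₀⟩
  have hnperp₀ : ¬ Perp Q (Submodule.span F {e, u}) (Submodule.span F {e, v}) := by
    intro h
    have := h u huL₀ v hvM₀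
    rw [huv] at this
    exact one_ne_zero this
  have hmeet' : Meet L' M' :=
    (meet_image Q hQ hn p hcase α _ _ L' M' hL₀ hM₀ hL' hM' hLeq hMeq).mpr hmeet₀
  have hnperp' : ¬ Perp Q L' M' := by
    intro h
    by_cases heq : L' = M'
    · have h1 : Submodule.span F {e, u} = Submodule.span F {e, v} := by
        apply XLb_inj Q hQ hn p _ _ hL₀ hM₀
        apply (map_inj_iff Q α _ _).mp
        rw [hLeq, hMeq, heq]
      apply hnperp₀
      rw [← h1]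
      intro x hx y hy
      exact hL₀.perp hx hy
    · have h1 : R0g Q L' M' := ⟨heq, hmeet', h⟩
      have h2 := (r0g_image Q hQ hn p α _ _ L' M' hL₀ hM₀ hL' hM' hLeq hMeq).mp h1
      exact hnperp₀ h2.2.2
  obtain ⟨e', he'0, he'L, he'M⟩ := hmeet'
  have he' : Q e' = 0 := hL'.sing he'L
  refine ⟨e', he', he'0, ?_⟩
  have key : eichSub Q e he ≤ ((Ub Q e' he').comap α.toMonoidHom).comap (piΩ Q) := by
    apply eichSub_le_of_XL Q hQ hn e he he0
    intro N hN heN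
    obtain ⟨N', hN', hNeq⟩ := line_image Q hQ hn p α N hN
    have h1 : Meet N' L' :=
      (meet_image Q hQ hn p hcase α N _ N' L' hN hL₀ hN' hL' hNeq hLeq).mpr ⟨e, he0, heN, heL₀⟩
    have h2 : Meet N' M' :=
      (meet_image Q hQ hn p hcase α N _ N' M' hN hM₀ hN' hM' hNeq hMeq).mpr ⟨e, he0, heN, heM₀⟩
    have he'N : e' ∈ N' := star_lemma Q L' M' N' hL' hM' hN' e' he'0 he'L he'M hnperp' h1 h2
    intro g hg
    rw [Subgroup.mem_comap, Subgroup.mem_comap]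
    have h3 : α.toMonoidHom (piΩ Q g) ∈ (XLb Q N).map α.toMonoidHom :=
      Subgroup.mem_map_of_mem _ (Subgroup.mem_map_of_mem _ hg)
    rw [hNeq] at h3
    exact XLb_le_Ub Q hQ N' hN' e' he' he'N he'0 h3
  intro x hx
  obtain ⟨y, hy, rfl⟩ := Subgroup.mem_map.mp hx
  obtain ⟨g, hg, rfl⟩ := Subgroup.mem_map.mp hy
  exact key hg

include hQ hn p in
/-- **every automorphism permutes the stars of the singular points** -/
theorem star_map (hcase : 9 ≤ Fintype.card ι ∨ TS4free Q) (α : POmega F ⇑Q ≃* POmega F ⇑Q)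
    (e : ι → F) (he : Q e = 0) (he0 : e ≠ 0) :
    ∃ (e' : ι → F) (he' : Q e' = 0), e' ≠ 0 ∧ (Ub Q e he).map α.toMonoidHom = Ub Q e' he' := by
  obtain ⟨e', he', he'0, h1⟩ := star_map_le Q hQ hn p hcase α e he he0
  obtain ⟨e'', he'', he''0, h2⟩ := star_map_le Q hQ hn p hcase α.symm e' he' he'0
  refine ⟨e', he', he'0, le_antisymm h1 ?_⟩
  have h3 : Ub Q e he ≤ Ub Q e'' he'' := by
    have := Subgroup.map_mono (f := α.symm.toMonoidHom) h1
    rw [map_symm_map] at this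
    exact this.trans h2
  have h4 := eichSub_le_of_Ub_le Q hQ hn p e e'' he he'' h3
  obtain ⟨t, ht⟩ := eq_smul_of_eichSub_le Q hQ hn e e'' he he'' he0 h4
  have ht0 : t ≠ 0 := by
    rintro rfl
    rw [zero_smul] at ht
    exact he''0 ht
  have h5 : Ub Q e'' he'' = Ub Q e he := by
    subst ht
    unfold Ub
    rw [eichSub_smul Q e he t ht0 he'']
  rw [h5] at h2
  have h6 := Subgroup.map_mono (f := α.toMonoidHom) h2
  rw [map_map_symm] at h6
  exact h6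

end Stars

end Cfsg.Agent.Helper45.AO
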