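import Cfsg.Agent.Helper45.AutF

set_option autoImplicit false
set_option linter.unusedSectionVars false
set_option linter.unusedSimpArgs false
set_option linter.unusedVariables false

/-!
Helper library (helper45), automorphisms of `PΩ(Q)`, part G: an automorphism permuting the stars
of the singular points, analysed on the two groups of Eichler transformations of a hyperbolic pair.
-/

universe u

namespace Cfsg.Agent.Helper45.AO

open Cfsg Matrix Module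

section Points

variable {ι : Type} [Fintype ι] [DecidableEq ι] {F : Type u} [Field F] [Fintype F]
  (Q : QuadraticForm F (ι → F))
  (hQ : (QuadraticMap.polarBilin Q).Nondegenerate) (hn : 5 ≤ Fintype.card ι)
  (p : ℕ) [Fact p.Prime] [CharP F p]

theorem eichSub_congr (u u' : ι → F) (hu : Q u = 0) (hu' : Q u' = 0) (h : u = u') :
    eichSub Q u hu = eichSub Q u' hu' := by
  subst h
  rfl

theorem eichΩ_congr (u b b' : ι → F) (hu : Q u = 0) (hb : QuadraticMap.polar ⇑Q u b = 0)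
    (hb' : QuadraticMap.polar ⇑Q u b' = 0) (h : b = b') :
    eichΩ Q hQ hn u b hu hb = eichΩ Q hQ hn u b' hu hb' := by
  subst h
  rfl

theorem eichO_eq_one_of_smul (u b : ι → F) (t : F) (hu : Q u = 0)
    (hub : QuadraticMap.polar ⇑Q u b = 0) (h : b = t • u) : eichO Q u b hu hub = 1 := by
  subst h
  have h0 : QuadraticMap.polar ⇑Q u (0 : ι → F) = 0 := by simp
  have h1 : QuadraticMap.polar ⇑Q u (0 + t • u) = 0 := by rw [zero_add]; exact hub
  have h2 := eichO_add_smul Q u 0 t hu h0 h1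
  rw [← eichO_zero Q u hu h0, ← h2]
  exact eichO_congr Q u _ _ hu _ _ (by rw [zero_add])

include hQ hn p in
/-- the stars of two non-orthogonal singular points meet trivially -/
theorem ub_inf_bot (e e' : ι → F) (he : Q e = 0) (he' : Q e' = 0)
    (h : QuadraticMap.polar ⇑Q e e' ≠ 0) : Ub Q e he ⊓ Ub Q e' he' = ⊥ := by
  rw [Subgroup.eq_bot_iff_forall]
  intro x hx
  rw [Subgroup.mem_inf] at hx
  obtain ⟨g, hg, rfl⟩ := Subgroup.mem_map.mp hx.1
  obtain ⟨g', hg', hgg'⟩ := Subgroup.mem_map.mp hx.2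
  have h2 : g' = g := mk_inj_of_pow Q hQ hn p g' g 1 1
    (by rw [pow_one]; exact eichSub_pow_char Q p e' he' g' hg')
    (by rw [pow_one]; exact eichSub_pow_char Q p e he g hg) hgg'
  subst h2
  obtain ⟨b, hb, hgb⟩ := hg
  obtain ⟨b', hb', hgb'⟩ := hg'
  have h3 : mv ⇑Q (g' : ↥(isometryGroup F ⇑Q)) e' = e' := by
    rw [hgb', mv_eichO]
    exact eich_self Q e' b' he' hb'
  rw [hgb, mv_eichO, eich_apply] at h3
  have h5 : QuadraticMap.polar ⇑Q e e' • b =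
      (QuadraticMap.polar ⇑Q b e' - Q b * QuadraticMap.polar ⇑Q e e') • e := by
    have h4 : (QuadraticMap.polar ⇑Q b e' - Q b * QuadraticMap.polar ⇑Q e e') • e -
        QuadraticMap.polar ⇑Q e e' • b = 0 := by
      have h3' : e' + ((QuadraticMap.polar ⇑Q b e' - Q b * QuadraticMap.polar ⇑Q e e') • e -
        QuadraticMap.polar ⇑Q e e' • b) = e' + 0 := by
        rw [add_zero, ← add_sub_assoc]
        exact h3
      exact add_left_cancel h3'
    exact (sub_eq_zero.mp h4).symm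
  have h4 : b = ((QuadraticMap.polar ⇑Q b e' - Q b * QuadraticMap.polar ⇑Q e e') /
      QuadraticMap.polar ⇑Q e e') • e := by
    rw [div_eq_inv_mul, ← smul_smul, ← h5, smul_smul, inv_mul_cancel₀ h, one_smul]
  have h6 : (g' : ↥(isometryGroup F ⇑Q)) = 1 := by
    rw [hgb]
    exact eichO_eq_one_of_smul Q e b _ he hb h4
  have h7 : g' = 1 := Subtype.ext h6
  rw [h7]
  exact map_one _

include hQ hn p in
/-- the stars of two orthogonal singular points meet non-trivially -/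
theorem ub_inf_ne_bot (e e' : ι → F) (he : Q e = 0) (he' : Q e' = 0) (he0 : e ≠ 0) (he'0 : e' ≠ 0)
    (h : QuadraticMap.polar ⇑Q e e' = 0) : Ub Q e he ⊓ Ub Q e' he' ≠ ⊥ := by
  obtain ⟨L, hL, heL, he'L⟩ : ∃ L : Submodule F (ι → F), IsLine Q L ∧ e ∈ L ∧ e' ∈ L := by
    by_cases hc : ∃ t : F, e' = t • e
    · obtain ⟨t, rfl⟩ := hc
      obtain ⟨u, v, hu, hv, heu, hev, huv, hue⟩ := exists_pair_perp Q hQ hn e he0
      exact ⟨Submodule.span F {e, u}, ⟨e, u, tsp_of_perp Q e u he hu heu he0 hue, rfl⟩,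
        Submodule.subset_span (by simp), Submodule.smul_mem _ _ (Submodule.subset_span (by simp))⟩
    · push Not at hc
      exact ⟨Submodule.span F {e, e'}, ⟨e, e', tsp_of_perp Q e e' he he' h he0 hc, rfl⟩,
        Submodule.subset_span (by simp), Submodule.subset_span (by simp)⟩
  obtain ⟨g, hg, hg1⟩ := XL_ne_bot Q hQ hn L hL
  intro hbot
  have h1 : piΩ Q g ∈ Ub Q e he ⊓ Ub Q e' he' := by
    rw [Subgroup.mem_inf]
    exact ⟨Subgroup.mem_map_of_mem _ (XL_le_eichSub Q hQ L hL e he heL he0 hg),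
      Subgroup.mem_map_of_mem _ (XL_le_eichSub Q hQ L hL e' he' he'L he'0 hg)⟩
  rw [hbot, Subgroup.mem_bot] at h1
  apply hg1
  exact mk_inj_of_pow Q hQ hn p g 1 1 1 (by rw [pow_one]; exact XL_pow_char Q hQ p L hL g hg)
    (by simp) (h1.trans (map_one (piΩ Q)).symm)

include hQ hn p in
/-- an automorphism permuting stars preserves orthogonality of singular points -/
theorem perp_image (α : POmega F ⇑Q ≃* POmega F ⇑Q) (e e' e₁ e₁' : ι → F) (he : Q e = 0)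
    (he' : Q e' = 0) (he₁ : Q e₁ = 0) (he₁' : Q e₁' = 0) (he0 : e ≠ 0) (he'0 : e' ≠ 0)
    (he₁0 : e₁ ≠ 0) (he₁'0 : e₁' ≠ 0) (h1 : (Ub Q e he).map α.toMonoidHom = Ub Q e₁ he₁)
    (h2 : (Ub Q e' he').map α.toMonoidHom = Ub Q e₁' he₁') :
    QuadraticMap.polar ⇑Q e₁ e₁' = 0 ↔ QuadraticMap.polar ⇑Q e e' = 0 := by
  have hinj : Function.Injective α.toMonoidHom := α.injective
  have key : (Ub Q e he ⊓ Ub Q e' he').map α.toMonoidHom = Ub Q e₁ he₁ ⊓ Ub Q e₁' he₁' := by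
    rw [Subgroup.map_inf_eq _ _ _ hinj, h1, h2]
  constructor
  · intro h
    by_contra hne
    have h3 := ub_inf_bot Q hQ hn p e e' he he' hne
    rw [h3, Subgroup.map_bot] at key
    exact ub_inf_ne_bot Q hQ hn p e₁ e₁' he₁ he₁' he₁0 he₁'0 h key.symm
  · intro h
    by_contra hne
    have h3 := ub_inf_bot Q hQ hn p e₁ e₁' he₁ he₁' hne
    rw [h3] at key
    apply ub_inf_ne_bot Q hQ hn p e e' he he' he0 he'0 h
    exact (Subgroup.map_eq_bot_iff_of_injective _ hinj).mp key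

theorem eichSub_conj (k : ↥(Omega F ⇑Q)) (u : ι → F) (hu : Q u = 0)
    (hu' : Q (mv ⇑Q (k : ↥(isometryGroup F ⇑Q)) u) = 0) :
    eichSub Q (mv ⇑Q (k : ↥(isometryGroup F ⇑Q)) u) hu' =
      (eichSub Q u hu).map (MulAut.conj k).toMonoidHom := by
  ext x
  constructor
  · intro hx
    rw [Subgroup.mem_map]
    refine ⟨k⁻¹ * x * k, ?_, ?_⟩
    · have h1 : Q (mv ⇑Q ((k⁻¹ : ↥(Omega F ⇑Q)) : ↥(isometryGroup F ⇑Q))
          (mv ⇑Q (k : ↥(isometryGroup F ⇑Q)) u)) = 0 := by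
        rw [mv_quad ⇑Q]; exact hu'
      have h2 := conj_mem_eichSub Q k⁻¹ (mv ⇑Q (k : ↥(isometryGroup F ⇑Q)) u) hu' h1 x hx
      rw [inv_inv] at h2
      have h3 : mv ⇑Q ((k⁻¹ : ↥(Omega F ⇑Q)) : ↥(isometryGroup F ⇑Q))
          (mv ⇑Q (k : ↥(isometryGroup F ⇑Q)) u) = u :=
        mv_inv_cancel' Q (k : ↥(isometryGroup F ⇑Q)) u
      rw [eichSub_congr Q _ u h1 hu h3] at h2
      exact h2
    · show k * (k⁻¹ * x * k) * k⁻¹ = x
      group
  · intro hx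
    obtain ⟨y, hy, rfl⟩ := Subgroup.mem_map.mp hx
    exact conj_mem_eichSub Q k u hu hu' y hy

theorem ub_conj (k : ↥(Omega F ⇑Q)) (u : ι → F) (hu : Q u = 0)
    (hu' : Q (mv ⇑Q (k : ↥(isometryGroup F ⇑Q)) u) = 0) :
    Ub Q (mv ⇑Q (k : ↥(isometryGroup F ⇑Q)) u) hu' =
      (Ub Q u hu).map (MulAut.conj (piΩ Q k)).toMonoidHom := by
  unfold Ub
  rw [eichSub_conj Q k u hu hu', Subgroup.map_map, Subgroup.map_map]
  congr 1

/-- the image of the star of a translated point -/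
theorem ub_image (α : POmega F ⇑Q ≃* POmega F ⇑Q) (k k₁ : ↥(Omega F ⇑Q))
    (hk : α (piΩ Q k) = piΩ Q k₁) (u u₁ : ι → F) (hu : Q u = 0) (hu₁ : Q u₁ = 0)
    (h : (Ub Q u hu).map α.toMonoidHom = Ub Q u₁ hu₁)
    (hu' : Q (mv ⇑Q (k : ↥(isometryGroup F ⇑Q)) u) = 0)
    (hu₁' : Q (mv ⇑Q (k₁ : ↥(isometryGroup F ⇑Q)) u₁) = 0) :
    (Ub Q (mv ⇑Q (k : ↥(isometryGroup F ⇑Q)) u) hu').map α.toMonoidHom =
      Ub Q (mv ⇑Q (k₁ : ↥(isometryGroup F ⇑Q)) u₁) hu₁' := by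
  have hk' : α (k : POmega F ⇑Q) = (k₁ : POmega F ⇑Q) := hk
  rw [ub_conj Q k u hu hu', ub_conj Q k₁ u₁ hu₁ hu₁', ← h, Subgroup.map_map, Subgroup.map_map]
  congr 1
  ext x
  simp [MulAut.conj_apply, hk']

end Points

section Frame

variable {ι : Type} [Fintype ι] [DecidableEq ι] {F : Type u} [Field F] [Fintype F]
  (Q : QuadraticForm F (ι → F))
  (hQ : (QuadraticMap.polarBilin Q).Nondegenerate) (hn : 5 ≤ Fintype.card ι)
  (p : ℕ) [Fact p.Prime] [CharP F p]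

/-- a hyperbolic pair `e, f` whose stars are mapped by `α` to the stars of the hyperbolic pair
`e₁, f₁` -/
structure Fr (α : POmega F ⇑Q ≃* POmega F ⇑Q) (e f e₁ f₁ : ι → F) : Prop where
  he : Q e = 0
  hf : Q f = 0
  hef : QuadraticMap.polar ⇑Q e f = 1
  he₁ : Q e₁ = 0
  hf₁ : Q f₁ = 0
  hef₁ : QuadraticMap.polar ⇑Q e₁ f₁ = 1
  hUe : (Ub Q e he).map α.toMonoidHom = Ub Q e₁ he₁
  hUf : (Ub Q f hf).map α.toMonoidHom = Ub Q f₁ hf₁

variable {Q}

theorem Fr.symm {α : POmega F ⇑Q ≃* POmega F ⇑Q} {e f e₁ f₁ : ι → F} (h : Fr Q α e f e₁ f₁) :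
    Fr Q α.symm e₁ f₁ e f :=
  ⟨h.he₁, h.hf₁, h.hef₁, h.he, h.hf, h.hef, by rw [← h.hUe, map_symm_map],
    by rw [← h.hUf, map_symm_map]⟩

theorem Fr.swap {α : POmega F ⇑Q ≃* POmega F ⇑Q} {e f e₁ f₁ : ι → F} (h : Fr Q α e f e₁ f₁) :
    Fr Q α f e f₁ e₁ :=
  ⟨h.hf, h.he, by rw [QuadraticMap.polar_comm]; exact h.hef, h.hf₁, h.he₁,
    by rw [QuadraticMap.polar_comm]; exact h.hef₁, h.hUf, h.hUe⟩

theorem Fr.e_ne {α : POmega F ⇑Q ≃* POmega F ⇑Q} {e f e₁ f₁ : ι → F} (h : Fr Q α e f e₁ f₁) :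
    e ≠ 0 := by
  intro h0
  have := h.hef
  rw [h0, QuadraticMap.polar_zero_left] at this
  exact zero_ne_one this

theorem Fr.f_ne {α : POmega F ⇑Q ≃* POmega F ⇑Q} {e f e₁ f₁ : ι → F} (h : Fr Q α e f e₁ f₁) :
    f ≠ 0 := h.swap.e_ne

theorem Fr.e₁_ne {α : POmega F ⇑Q ≃* POmega F ⇑Q} {e f e₁ f₁ : ι → F} (h : Fr Q α e f e₁ f₁) :
    e₁ ≠ 0 := h.symm.e_ne

theorem Fr.f₁_ne {α : POmega F ⇑Q ≃* POmega F ⇑Q} {e f e₁ f₁ : ι → F} (h : Fr Q α e f e₁ f₁) :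
    f₁ ≠ 0 := h.symm.swap.e_ne

variable (Q)

include hQ hn p in
/-- frames exist -/
theorem exists_frame (α : POmega F ⇑Q ≃* POmega F ⇑Q)
    (hstar : ∀ (e : ι → F) (he : Q e = 0), e ≠ 0 → ∃ (e' : ι → F) (he' : Q e' = 0), e' ≠ 0 ∧
      (Ub Q e he).map α.toMonoidHom = Ub Q e' he')
    (e f : ι → F) (he : Q e = 0) (hf : Q f = 0) (hef : QuadraticMap.polar ⇑Q e f = 1) :
    ∃ e₁ f₁ : ι → F, Fr Q α e f e₁ f₁ := by
  have he0 : e ≠ 0 := by
    intro h0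
    rw [h0, QuadraticMap.polar_zero_left] at hef
    exact zero_ne_one hef
  have hf0 : f ≠ 0 := by
    intro h0
    rw [h0, QuadraticMap.polar_zero_right] at hef
    exact zero_ne_one hef
  obtain ⟨e₁, he₁, he₁0, h1⟩ := hstar e he he0
  obtain ⟨f₁, hf₁, hf₁0, h2⟩ := hstar f hf hf0
  have hne : QuadraticMap.polar ⇑Q e₁ f₁ ≠ 0 := by
    intro h
    have h3 := (perp_image Q hQ hn p α e f e₁ f₁ he hf he₁ hf₁ he0 hf0 he₁0 hf₁0 h1 h2).mp h
    rw [hef] at h3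
    exact one_ne_zero h3
  have hf₁' : Q ((QuadraticMap.polar ⇑Q e₁ f₁)⁻¹ • f₁) = 0 := by
    rw [QuadraticMap.map_smul, hf₁, smul_zero]
  refine ⟨e₁, (QuadraticMap.polar ⇑Q e₁ f₁)⁻¹ • f₁, ⟨he, hf, hef, he₁, hf₁', ?_, h1, ?_⟩⟩
  · rw [QuadraticMap.polar_smul_right, smul_eq_mul, inv_mul_cancel₀ hne]
  · rw [h2]
    unfold Ub
    rw [eichSub_smul Q f₁ hf₁ _ (inv_ne_zero hne)]

/-- `φ` describes `α` on the Eichler transformations at `e` with parameter orthogonal to `e, f` -/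
def XMap (α : POmega F ⇑Q ≃* POmega F ⇑Q) (e f e₁ f₁ : ι → F) (φ : (ι → F) → (ι → F)) : Prop :=
  ∀ h : ι → F, QuadraticMap.polar ⇑Q e h = 0 → QuadraticMap.polar ⇑Q f h = 0 →
    QuadraticMap.polar ⇑Q e₁ (φ h) = 0 ∧ QuadraticMap.polar ⇑Q f₁ (φ h) = 0 ∧
    ∀ (he : Q e = 0) (he₁ : Q e₁ = 0) (hh : QuadraticMap.polar ⇑Q e h = 0)
      (hh' : QuadraticMap.polar ⇑Q e₁ (φ h) = 0),
      α (piΩ Q (eichΩ Q hQ hn e h he hh)) = piΩ Q (eichΩ Q hQ hn e₁ (φ h) he₁ hh')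

theorem exists_xmap {α : POmega F ⇑Q ≃* POmega F ⇑Q} {e f e₁ f₁ : ι → F} (fr : Fr Q α e f e₁ f₁) :
    ∃ φ : (ι → F) → (ι → F), XMap Q hQ hn α e f e₁ f₁ φ := by
  have key : ∀ h : ι → F, QuadraticMap.polar ⇑Q e h = 0 → ∃ h' : ι → F,
      QuadraticMap.polar ⇑Q e₁ h' = 0 ∧ QuadraticMap.polar ⇑Q f₁ h' = 0 ∧
      ∀ (he : Q e = 0) (he₁ : Q e₁ = 0) (hh : QuadraticMap.polar ⇑Q e h = 0)
        (hh' : QuadraticMap.polar ⇑Q e₁ h' = 0),
        α (piΩ Q (eichΩ Q hQ hn e h he hh)) = piΩ Q (eichΩ Q hQ hn e₁ h' he₁ hh') := by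
    intro h hh
    have h1 : α.toMonoidHom (piΩ Q (eichΩ Q hQ hn e h fr.he hh)) ∈ Ub Q e₁ fr.he₁ := by
      rw [← fr.hUe]
      exact Subgroup.mem_map_of_mem _ (Subgroup.mem_map_of_mem _ ⟨h, hh, rfl⟩)
    obtain ⟨g, ⟨b, hb, hgb⟩, hg⟩ := Subgroup.mem_map.mp h1
    have hb' : QuadraticMap.polar ⇑Q e₁ (b + (-(QuadraticMap.polar ⇑Q f₁ b)) • e₁) = 0 := by
      rw [QuadraticMap.polar_add_right, QuadraticMap.polar_smul_right, polar_self_zero Q e₁ fr.he₁,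
        hb]
      simp
    refine ⟨b + (-(QuadraticMap.polar ⇑Q f₁ b)) • e₁, hb', ?_, ?_⟩
    · rw [QuadraticMap.polar_add_right, QuadraticMap.polar_smul_right,
        QuadraticMap.polar_comm ⇑Q f₁ e₁, fr.hef₁]
      simp
    · intro he he₁ hh2 hh'
      have h2 : eichΩ Q hQ hn e₁ (b + (-(QuadraticMap.polar ⇑Q f₁ b)) • e₁) he₁ hh' = g := by
        apply Subtype.ext
        rw [hgb]
        exact eichO_add_smul Q e₁ b _ he₁ hb hh'
      rw [h2]
      exact hg.symm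
  classical
  refine ⟨fun h => if hh : QuadraticMap.polar ⇑Q e h = 0 then Classical.choose (key h hh) else 0, ?_⟩
  intro h hh hfh
  simp only [dif_pos hh]
  exact Classical.choose_spec (key h hh)

include p in
/-- the parameter of an Eichler transformation is determined by its image in `PΩ` -/
theorem eichΩ_inj (e f : ι → F) (he : Q e = 0) (hef : QuadraticMap.polar ⇑Q e f = 1)
    (b b' : ι → F) (hb : QuadraticMap.polar ⇑Q e b = 0) (hb' : QuadraticMap.polar ⇑Q e b' = 0)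
    (hfb : QuadraticMap.polar ⇑Q f b = 0) (hfb' : QuadraticMap.polar ⇑Q f b' = 0)
    (h : piΩ Q (eichΩ Q hQ hn e b he hb) = piΩ Q (eichΩ Q hQ hn e b' he hb')) : b = b' := by
  have he0 : e ≠ 0 := by
    intro h0
    rw [h0, QuadraticMap.polar_zero_left] at hef
    exact zero_ne_one hef
  have h1 := mk_inj_of_pow Q hQ hn p _ _ 1 1
    (by rw [pow_one]; exact eichSub_pow_char Q p e he _ ⟨b, hb, rfl⟩)
    (by rw [pow_one]; exact eichSub_pow_char Q p e he _ ⟨b', hb', rfl⟩) h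
  have h2 : eichO Q e b he hb = eichO Q e b' he hb' := congrArg Subtype.val h1
  obtain ⟨t, ht⟩ := eichO_inj Q hQ e b b' he he0 hb hb' h2
  have h3 : t = 0 := by
    have h4 := hfb
    rw [ht, QuadraticMap.polar_add_right, QuadraticMap.polar_smul_right, hfb',
      QuadraticMap.polar_comm ⇑Q f e, hef] at h4
    simpa using h4
  rw [ht, h3, zero_smul, add_zero]

variable {Q hQ hn}

include p in
theorem xmap_add {α : POmega F ⇑Q ≃* POmega F ⇑Q} {e f e₁ f₁ : ι → F} {φ : (ι → F) → (ι → F)}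
    (fr : Fr Q α e f e₁ f₁) (hφ : XMap Q hQ hn α e f e₁ f₁ φ) (h h' : ι → F)
    (hh : QuadraticMap.polar ⇑Q e h = 0) (hfh : QuadraticMap.polar ⇑Q f h = 0)
    (hh' : QuadraticMap.polar ⇑Q e h' = 0) (hfh' : QuadraticMap.polar ⇑Q f h' = 0) :
    φ (h + h') = φ h + φ h' := by
  have hs : QuadraticMap.polar ⇑Q e (h + h') = 0 := by
    rw [QuadraticMap.polar_add_right, hh, hh', add_zero]
  have hfs : QuadraticMap.polar ⇑Q f (h + h') = 0 := by
    rw [QuadraticMap.polar_add_right, hfh, hfh', add_zero]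
  obtain ⟨a1, a2, a3⟩ := hφ h hh hfh
  obtain ⟨b1, b2, b3⟩ := hφ h' hh' hfh'
  obtain ⟨c1, c2, c3⟩ := hφ (h + h') hs hfs
  have d1 : QuadraticMap.polar ⇑Q e₁ (φ h + φ h') = 0 := by
    rw [QuadraticMap.polar_add_right, a1, b1, add_zero]
  have d2 : QuadraticMap.polar ⇑Q f₁ (φ h + φ h') = 0 := by
    rw [QuadraticMap.polar_add_right, a2, b2, add_zero]
  apply eichΩ_inj Q hQ hn p e₁ f₁ fr.he₁ fr.hef₁ _ _ c1 d1 c2 d2
  rw [← c3 fr.he fr.he₁ hs c1]
  have e1 : eichΩ Q hQ hn e (h + h') fr.he hs =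
      eichΩ Q hQ hn e h fr.he hh * eichΩ Q hQ hn e h' fr.he hh' := by
    apply Subtype.ext
    exact (eichO_mul Q e h h' fr.he hh hh' hs).symm
  have e2 : eichΩ Q hQ hn e₁ (φ h + φ h') fr.he₁ d1 =
      eichΩ Q hQ hn e₁ (φ h) fr.he₁ a1 * eichΩ Q hQ hn e₁ (φ h') fr.he₁ b1 := by
    apply Subtype.ext
    exact (eichO_mul Q e₁ _ _ fr.he₁ a1 b1 d1).symm
  rw [e1, e2]
  simp only [map_mul]
  rw [a3 fr.he fr.he₁ hh a1, b3 fr.he fr.he₁ hh' b1]

include p in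
theorem xmap_zero {α : POmega F ⇑Q ≃* POmega F ⇑Q} {e f e₁ f₁ : ι → F} {φ : (ι → F) → (ι → F)}
    (fr : Fr Q α e f e₁ f₁) (hφ : XMap Q hQ hn α e f e₁ f₁ φ) : φ 0 = 0 := by
  have h0 : QuadraticMap.polar ⇑Q e (0 : ι → F) = 0 := by simp
  have h0' : QuadraticMap.polar ⇑Q f (0 : ι → F) = 0 := by simp
  have h1 := xmap_add p fr hφ 0 0 h0 h0' h0 h0'
  rw [add_zero] at h1
  have h2 : φ 0 + φ 0 = φ 0 + 0 := by rw [add_zero]; exact h1.symm
  exact add_left_cancel h2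

include p in
theorem xmap_inj {α : POmega F ⇑Q ≃* POmega F ⇑Q} {e f e₁ f₁ : ι → F} {φ : (ι → F) → (ι → F)}
    (fr : Fr Q α e f e₁ f₁) (hφ : XMap Q hQ hn α e f e₁ f₁ φ) (h h' : ι → F)
    (hh : QuadraticMap.polar ⇑Q e h = 0) (hfh : QuadraticMap.polar ⇑Q f h = 0)
    (hh' : QuadraticMap.polar ⇑Q e h' = 0) (hfh' : QuadraticMap.polar ⇑Q f h' = 0)
    (heq : φ h = φ h') : h = h' := by
  obtain ⟨a1, a2, a3⟩ := hφ h hh hfh
  obtain ⟨b1, b2, b3⟩ := hφ h' hh' hfh'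
  apply eichΩ_inj Q hQ hn p e f fr.he fr.hef h h' hh hh' hfh hfh'
  apply α.injective
  rw [a3 fr.he fr.he₁ hh a1, b3 fr.he fr.he₁ hh' b1]
  rw [eichΩ_congr Q hQ hn e₁ (φ h) (φ h') fr.he₁ a1 b1 heq]

include p in
/-- the map of the inverse automorphism is the inverse map -/
theorem xmap_inv {α β : POmega F ⇑Q ≃* POmega F ⇑Q} (hβ : ∀ x, β (α x) = x) {e f e₁ f₁ : ι → F}
    {φ φ' : (ι → F) → (ι → F)} (fr : Fr Q α e f e₁ f₁) (hφ : XMap Q hQ hn α e f e₁ f₁ φ)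
    (hφ' : XMap Q hQ hn β e₁ f₁ e f φ') (h : ι → F) (hh : QuadraticMap.polar ⇑Q e h = 0)
    (hfh : QuadraticMap.polar ⇑Q f h = 0) : φ' (φ h) = h := by
  obtain ⟨a1, a2, a3⟩ := hφ h hh hfh
  obtain ⟨b1, b2, b3⟩ := hφ' (φ h) a1 a2
  apply eichΩ_inj Q hQ hn p e f fr.he fr.hef _ _ b1 hh b2 hfh
  rw [← b3 fr.he₁ fr.he a1 b1, ← a3 fr.he fr.he₁ hh a1, hβ]

end Frame

section Semi

variable {ι : Type} [Fintype ι] [DecidableEq ι] {F : Type u} [Field F] [Fintype F]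
  (Q : QuadraticForm F (ι → F))
  (hQ : (QuadraticMap.polarBilin Q).Nondegenerate) (hn : 5 ≤ Fintype.card ι)
  (p : ℕ) [Fact p.Prime] [CharP F p]

/-- the image of `f` under the Eichler transformation at `e` with parameter `h` -/
theorem eich_pt (e f h : ι → F) (hef : QuadraticMap.polar ⇑Q e f = 1)
    (hfh : QuadraticMap.polar ⇑Q f h = 0) :
    Helper44.eich Q e h f = f + (-(Q h)) • e - h := by
  rw [eich_apply, hef, QuadraticMap.polar_comm ⇑Q h f, hfh]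
  simp

theorem polar_pts (e f h k : ι → F) (he : Q e = 0) (hf : Q f = 0)
    (hef : QuadraticMap.polar ⇑Q e f = 1) (hh : QuadraticMap.polar ⇑Q e h = 0)
    (hfh : QuadraticMap.polar ⇑Q f h = 0) (hk : QuadraticMap.polar ⇑Q e k = 0)
    (hfk : QuadraticMap.polar ⇑Q f k = 0) :
    QuadraticMap.polar ⇑Q (f + (-(Q h)) • e - h) (e + (-(Q k)) • f - k) =
      1 + Q h * Q k + QuadraticMap.polar ⇑Q h k := by
  have hee := polar_self_zero Q e he
  have hff := polar_self_zero Q f hf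
  have hfe : QuadraticMap.polar ⇑Q f e = 1 := by rw [QuadraticMap.polar_comm]; exact hef
  have hhe : QuadraticMap.polar ⇑Q h e = 0 := by rw [QuadraticMap.polar_comm]; exact hh
  have hhf : QuadraticMap.polar ⇑Q h f = 0 := by rw [QuadraticMap.polar_comm]; exact hfh
  simp only [QuadraticMap.polar_sub_left, QuadraticMap.polar_sub_right, QuadraticMap.polar_add_left,
    QuadraticMap.polar_add_right, QuadraticMap.polar_smul_left, QuadraticMap.polar_smul_right,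
    smul_eq_mul, hee, hff, hfe, hef, hhe, hhf, hk, hfk]
  ring

/-- the orthogonal complement of a pair of vectors -/
abbrev HH (e f : ι → F) : Submodule F (ι → F) :=
  (⊤ : Submodule F (ι → F)) ⊓ perpSub Q e ⊓ perpSub Q f

theorem mem_HH (e f x : ι → F) :
    x ∈ HH Q e f ↔ QuadraticMap.polar ⇑Q e x = 0 ∧ QuadraticMap.polar ⇑Q f x = 0 := by
  unfold HH
  rw [Submodule.mem_inf, Submodule.mem_inf, mem_perpSub, mem_perpSub]
  simp

theorem retr_HH (e f : ι → F) (he : Q e = 0) (hf : Q f = 0) (hef : QuadraticMap.polar ⇑Q e f = 1) :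
    Retr Q (HH Q e f) :=
  (retr_top Q).pair e f he hf hef Submodule.mem_top Submodule.mem_top

theorem finrank_HH_ge (e f : ι → F) : Fintype.card ι ≤ finrank F ↥(HH Q e f) + 2 := by
  show Fintype.card ι ≤ finrank F ↥((⊤ : Submodule F (ι → F)) ⊓ perpSub Q e ⊓ perpSub Q f) + 2
  have h1 := finrank_pair_ge Q (⊤ : Submodule F (ι → F)) e f
  have h4 : finrank F ↥(⊤ : Submodule F (ι → F)) = Fintype.card ι := by
    rw [finrank_top, Module.finrank_fintype_fun_eq_card]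
  omega

include hQ in
/-- a nondegenerate subspace of dimension at least three is spanned by its singular vectors -/
theorem span_sing (W : Submodule F (ι → F)) (hR : Retr Q W) (h3 : 3 ≤ finrank F W) :
    ∀ x ∈ W, x ∈ Submodule.span F {s : ι → F | s ∈ W ∧ Q s = 0} := by
  have hnd := hR.nd hQ
  obtain ⟨s₀, hs₀W, hs₀0, hs₀⟩ := exists_sing_in Q W h3
  obtain ⟨y₀, hy₀W, hy₀⟩ := hnd s₀ hs₀W hs₀0
  have hTW : Submodule.span F {s : ι → F | s ∈ W ∧ Q s = 0} ≤ W := by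
    rw [Submodule.span_le]
    intro s hs
    exact hs.1
  have hs₀T : s₀ ∈ Submodule.span F {s : ι → F | s ∈ W ∧ Q s = 0} :=
    Submodule.subset_span ⟨hs₀W, hs₀⟩
  have claimA : ∀ x ∈ W, (∀ t ∈ Submodule.span F {s : ι → F | s ∈ W ∧ Q s = 0},
      QuadraticMap.polar ⇑Q t x = 0) → x = 0 := by
    intro x hxW hx
    by_contra hx0
    obtain ⟨y, hyW, hxy⟩ := hnd x hxW hx0
    have key : ∀ y ∈ W, QuadraticMap.polar ⇑Q s₀ y ≠ 0 → QuadraticMap.polar ⇑Q x y = 0 := by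
      intro y hyW hy
      obtain ⟨h1, h2⟩ := sing_adjust Q s₀ y hs₀ hy
      have hs' : y - (Q y / QuadraticMap.polar ⇑Q s₀ y) • s₀ ∈
          Submodule.span F {s : ι → F | s ∈ W ∧ Q s = 0} :=
        Submodule.subset_span ⟨W.sub_mem hyW (W.smul_mem _ hs₀W), h1⟩
      have e1 := hx _ hs'
      have e2 := hx _ hs₀T
      rw [QuadraticMap.polar_sub_left, QuadraticMap.polar_smul_left, e2, smul_zero, sub_zero] at e1
      rw [QuadraticMap.polar_comm]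
      exact e1
    by_cases hy : QuadraticMap.polar ⇑Q s₀ y = 0
    · have h1 := key (y + y₀) (W.add_mem hyW hy₀W)
        (by rw [QuadraticMap.polar_add_right, hy, zero_add]; exact hy₀)
      have h2 := key y₀ hy₀W hy₀
      rw [QuadraticMap.polar_add_right, h2, add_zero] at h1
      exact hxy h1
    · exact hxy (key y hyW hy)
  have hsymm : (QuadraticMap.polarBilin Q).IsSymm := ⟨fun x y => QuadraticMap.polar_comm ⇑Q x y⟩
  have claimB : ∀ y : ι → F, y ∈ Submodule.span F {s : ι → F | s ∈ W ∧ Q s = 0} ⊔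
      LinearMap.BilinForm.orthogonal (QuadraticMap.polarBilin Q) W := by
    intro y
    by_contra hy
    obtain ⟨w, hwU, hwy⟩ := exists_perp_of_notMem Q hQ _ y hy
    have hwW : w ∈ W := by
      rw [← LinearMap.BilinForm.orthogonal_orthogonal hQ hsymm.isRefl W]
      rw [LinearMap.BilinForm.mem_orthogonal_iff]
      intro n hn
      show QuadraticMap.polar ⇑Q n w = 0
      exact hwU n (Submodule.mem_sup_right hn)
    have hw0 : w = 0 := claimA w hwW (fun t ht => hwU t (Submodule.mem_sup_left ht))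
    rw [hw0, QuadraticMap.polar_zero_left] at hwy
    exact hwy rfl
  intro x hxW
  obtain ⟨t, ht, w', hw', htw⟩ := Submodule.mem_sup.mp (claimB x)
  have hw'W : w' ∈ W := by
    have : w' = x - t := by rw [← htw]; abel
    rw [this]
    exact W.sub_mem hxW (hTW ht)
  have hw'0 : w' = 0 := by
    by_contra hne
    obtain ⟨y, hyW, hy⟩ := hnd w' hw'W hne
    rw [LinearMap.BilinForm.mem_orthogonal_iff] at hw'
    have h1 : QuadraticMap.polar ⇑Q y w' = 0 := hw' y hyW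
    rw [QuadraticMap.polar_comm] at h1
    exact hy h1
  rw [hw'0, add_zero] at htw
  rw [← htw]
  exact ht

variable {Q hQ hn}

include p in
/-- `φ` preserves singularity in both directions -/
theorem xmap_sing {α : POmega F ⇑Q ≃* POmega F ⇑Q} {e f e₁ f₁ : ι → F} {φ : (ι → F) → (ι → F)}
    (fr : Fr Q α e f e₁ f₁) (hφ : XMap Q hQ hn α e f e₁ f₁ φ) (h : ι → F)
    (hh : QuadraticMap.polar ⇑Q e h = 0) (hfh : QuadraticMap.polar ⇑Q f h = 0) :
    Q (φ h) = 0 ↔ Q h = 0 := by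
  obtain ⟨a1, a2, a3⟩ := hφ h hh hfh
  have c1 : mv ⇑Q ((eichΩ Q hQ hn e h fr.he hh : ↥(Omega F ⇑Q)) : ↥(isometryGroup F ⇑Q)) f =
      f + (-(Q h)) • e - h := by
    show mv ⇑Q (eichO Q e h fr.he hh) f = _
    rw [mv_eichO]
    exact eich_pt Q e f h fr.hef hfh
  have c2 : mv ⇑Q ((eichΩ Q hQ hn e₁ (φ h) fr.he₁ a1 : ↥(Omega F ⇑Q)) : ↥(isometryGroup F ⇑Q)) f₁ =
      f₁ + (-(Q (φ h))) • e₁ - φ h := by
    show mv ⇑Q (eichO Q e₁ (φ h) fr.he₁ a1) f₁ = _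
    rw [mv_eichO]
    exact eich_pt Q e₁ f₁ (φ h) fr.hef₁ a2
  have q1 : Q (mv ⇑Q ((eichΩ Q hQ hn e h fr.he hh : ↥(Omega F ⇑Q)) : ↥(isometryGroup F ⇑Q)) f) = 0 := by
    rw [mv_quad ⇑Q]; exact fr.hf
  have q2 : Q (mv ⇑Q ((eichΩ Q hQ hn e₁ (φ h) fr.he₁ a1 : ↥(Omega F ⇑Q)) :
      ↥(isometryGroup F ⇑Q)) f₁) = 0 := by
    rw [mv_quad ⇑Q]; exact fr.hf₁
  have hk := ub_image Q α _ _ (a3 fr.he fr.he₁ hh a1) f f₁ fr.hf fr.hf₁ fr.hUf q1 q2
  have n1 : mv ⇑Q ((eichΩ Q hQ hn e h fr.he hh : ↥(Omega F ⇑Q)) : ↥(isometryGroup F ⇑Q)) f ≠ 0 := by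
    intro h0
    have h1 := mv_polar Q ((eichΩ Q hQ hn e h fr.he hh : ↥(Omega F ⇑Q)) : ↥(isometryGroup F ⇑Q)) e f
    rw [h0, QuadraticMap.polar_zero_right, fr.hef] at h1
    exact zero_ne_one h1
  have n2 : mv ⇑Q ((eichΩ Q hQ hn e₁ (φ h) fr.he₁ a1 : ↥(Omega F ⇑Q)) :
      ↥(isometryGroup F ⇑Q)) f₁ ≠ 0 := by
    intro h0
    have h1 := mv_polar Q ((eichΩ Q hQ hn e₁ (φ h) fr.he₁ a1 : ↥(Omega F ⇑Q)) :
      ↥(isometryGroup F ⇑Q)) e₁ f₁
    rw [h0, QuadraticMap.polar_zero_right, fr.hef₁] at h1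
    exact zero_ne_one h1
  have hp := perp_image Q hQ hn p α f _ f₁ _ fr.hf q1 fr.hf₁ q2 fr.f_ne n1 fr.f₁_ne n2 fr.hUf hk
  rw [c1, c2] at hp
  have v1 : QuadraticMap.polar ⇑Q f (f + (-(Q h)) • e - h) = -(Q h) := by
    rw [QuadraticMap.polar_sub_right, QuadraticMap.polar_add_right, QuadraticMap.polar_smul_right,
      polar_self_zero Q f fr.hf, QuadraticMap.polar_comm ⇑Q f e, fr.hef, hfh]
    simp
  have v2 : QuadraticMap.polar ⇑Q f₁ (f₁ + (-(Q (φ h))) • e₁ - φ h) = -(Q (φ h)) := by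
    rw [QuadraticMap.polar_sub_right, QuadraticMap.polar_add_right, QuadraticMap.polar_smul_right,
      polar_self_zero Q f₁ fr.hf₁, QuadraticMap.polar_comm ⇑Q f₁ e₁, fr.hef₁, a2]
    simp
  rw [v1, v2, neg_eq_zero, neg_eq_zero] at hp
  exact hp

include p in
/-- `φ` maps the multiples of a singular vector to the multiples of its image -/
theorem xmap_line {α : POmega F ⇑Q ≃* POmega F ⇑Q} {e f e₁ f₁ : ι → F} {φ : (ι → F) → (ι → F)}
    (fr : Fr Q α e f e₁ f₁) (hφ : XMap Q hQ hn α e f e₁ f₁ φ) (h : ι → F)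
    (hh : QuadraticMap.polar ⇑Q e h = 0) (hfh : QuadraticMap.polar ⇑Q f h = 0) (hs : Q h = 0)
    (t : F) : ∃ s : F, φ (t • h) = s • φ h := by
  by_cases h0 : h = 0
  · subst h0
    exact ⟨1, by rw [smul_zero, one_smul]⟩
  have he0 := fr.e_ne
  have he₁0 := fr.e₁_ne
  have hne : ∀ r : F, h ≠ r • e := by
    intro r hr
    have h1 := hfh
    rw [hr, QuadraticMap.polar_smul_right, QuadraticMap.polar_comm ⇑Q f e, fr.hef, smul_eq_mul,
      mul_one] at h1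
    rw [h1, zero_smul] at hr
    exact h0 hr
  have hT := tsp_of_perp Q e h fr.he hs hh he0 hne
  have hN : IsLine Q (Submodule.span F {e, h}) := ⟨e, h, hT, rfl⟩
  obtain ⟨N', hN', hNeq⟩ := line_image Q hQ hn p α _ hN
  have heN : e ∈ Submodule.span F {e, h} := Submodule.subset_span (by simp)
  have h1 : XLb Q N' ≤ Ub Q e₁ fr.he₁ := by
    rw [← hNeq, ← fr.hUe]
    exact Subgroup.map_mono (XLb_le_Ub Q hQ _ hN e fr.he heN he0)
  have h2 := XL_le_of_XLb_le_Ub Q hQ hn p N' hN' e₁ fr.he₁ h1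
  have he₁N : e₁ ∈ N' := mem_of_XL_le_eichSub Q hQ hn N' hN' e₁ fr.he₁ he₁0 h2
  have key : ∀ r : F, φ (r • h) ∈ N' ∧ QuadraticMap.polar ⇑Q e₁ (φ (r • h)) = 0 ∧
      QuadraticMap.polar ⇑Q f₁ (φ (r • h)) = 0 := by
    intro r
    have hr : QuadraticMap.polar ⇑Q e (r • h) = 0 := by
      rw [QuadraticMap.polar_smul_right, hh, smul_zero]
    have hfr : QuadraticMap.polar ⇑Q f (r • h) = 0 := by
      rw [QuadraticMap.polar_smul_right, hfh, smul_zero]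
    obtain ⟨a1, a2, a3⟩ := hφ (r • h) hr hfr
    refine ⟨?_, a1, a2⟩
    have m1 : eichΩ Q hQ hn e (r • h) fr.he hr ∈ XL Q (Submodule.span F {e, h}) :=
      eich_mem_XL Q hQ hn e h hT r hr
    have m2 : α.toMonoidHom (piΩ Q (eichΩ Q hQ hn e (r • h) fr.he hr)) ∈ XLb Q N' := by
      rw [← hNeq]
      exact Subgroup.mem_map_of_mem _ (Subgroup.mem_map_of_mem _ m1)
    have m3 : piΩ Q (eichΩ Q hQ hn e₁ (φ (r • h)) fr.he₁ a1) ∈ XLb Q N' := by
      rw [← a3 fr.he fr.he₁ hr a1]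
      exact m2
    have m4 := (mem_XLb_iff Q hQ hn p N' hN' _ 1
      (by rw [pow_one]; exact eichSub_pow_char Q p e₁ fr.he₁ _ ⟨_, a1, rfl⟩)).mp m3
    exact param_mem_of_mem_XL Q hQ N' e₁ (φ (r • h)) fr.he₁ he₁0 he₁N a1 _ rfl m4
  obtain ⟨v, hv, hN'eq⟩ := line_basis_of_mem Q N' hN' e₁ he₁N he₁0
  have hφh0 : φ h ≠ 0 := by
    intro h0'
    apply h0
    exact xmap_inj p fr hφ h 0 hh hfh (by simp) (by simp) (by rw [h0', xmap_zero p fr hφ])
  obtain ⟨k1, k2, k3⟩ := key 1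
  rw [one_smul] at k1 k2 k3
  obtain ⟨l1, l2, l3⟩ := key t
  rw [hN'eq] at k1 l1
  obtain ⟨a, b, hab⟩ := mem_pair.mp k1
  obtain ⟨a', b', hab'⟩ := mem_pair.mp l1
  have ea : a = -(b * QuadraticMap.polar ⇑Q f₁ v) := by
    have h3 := k3
    rw [← hab, QuadraticMap.polar_add_right, QuadraticMap.polar_smul_right,
      QuadraticMap.polar_smul_right, QuadraticMap.polar_comm ⇑Q f₁ e₁, fr.hef₁] at h3
    simp only [smul_eq_mul, mul_one] at h3
    linear_combination h3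
  have ea' : a' = -(b' * QuadraticMap.polar ⇑Q f₁ v) := by
    have h3 := l3
    rw [← hab', QuadraticMap.polar_add_right, QuadraticMap.polar_smul_right,
      QuadraticMap.polar_smul_right, QuadraticMap.polar_comm ⇑Q f₁ e₁, fr.hef₁] at h3
    simp only [smul_eq_mul, mul_one] at h3
    linear_combination h3
  have hb0 : b ≠ 0 := by
    rintro rfl
    apply hφh0
    rw [← hab, ea]
    simp
  refine ⟨b' / b, ?_⟩
  rw [← hab, ← hab', ea, ea']
  funext i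
  simp only [Pi.add_apply, Pi.smul_apply, smul_eq_mul]
  field_simp

end Semi

end Cfsg.Agent.Helper45.AO
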