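import Cfsg.Agent.Helper45.AutG

set_option autoImplicit false
set_option linter.unusedSectionVars false
set_option linter.unusedSimpArgs false
set_option linter.unusedVariables false

/-!
Helper library (helper45), automorphisms of `PΩ(Q)`, part H: semilinearity of the map induced on the
parameters of the Eichler transformations, and the cone lemma.
-/

universe u

namespace Cfsg.Agent.Helper45.AO

open Cfsg Matrix Module

section Sigma

variable {ι : Type} [Fintype ι] [DecidableEq ι] {F : Type u} [Field F] [Fintype F]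
  {Q : QuadraticForm F (ι → F)}
  {hQ : (QuadraticMap.polarBilin Q).Nondegenerate} {hn : 5 ≤ Fintype.card ι}
  (p : ℕ) [Fact p.Prime] [CharP F p]

include p in
theorem sigma_perp {α : POmega F ⇑Q ≃* POmega F ⇑Q} {e f e₁ f₁ : ι → F}
    {φ φ' : (ι → F) → (ι → F)} (fr : Fr Q α e f e₁ f₁) (hφ : XMap Q hQ hn α e f e₁ f₁ φ)
    (hφ' : XMap Q hQ hn α.symm e₁ f₁ e f φ') (h h' : ι → F)
    (hh : QuadraticMap.polar ⇑Q e h = 0) (hfh : QuadraticMap.polar ⇑Q f h = 0)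
    (hh' : QuadraticMap.polar ⇑Q e h' = 0) (hfh' : QuadraticMap.polar ⇑Q f h' = 0)
    (hs : Q h = 0) (hs' : Q h' = 0) (h0 : h ≠ 0) (hperp : QuadraticMap.polar ⇑Q h h' = 0)
    (hne : ∀ r : F, h' ≠ r • h) (t s : F) (hts : φ (t • h) = s • φ h) :
    φ (t • h') = s • φ h' := by
  obtain ⟨s', hs'eq⟩ := xmap_line p fr hφ h' hh' hfh' hs' t
  have hsum_e : QuadraticMap.polar ⇑Q e (h + h') = 0 := by
    rw [QuadraticMap.polar_add_right, hh, hh', add_zero]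
  have hsum_f : QuadraticMap.polar ⇑Q f (h + h') = 0 := by
    rw [QuadraticMap.polar_add_right, hfh, hfh', add_zero]
  have hsum_s : Q (h + h') = 0 := by
    rw [Helper13.Q_add', hs, hs', hperp]
    simp
  obtain ⟨s'', hs''eq⟩ := xmap_line p fr hφ (h + h') hsum_e hsum_f hsum_s t
  have hth : QuadraticMap.polar ⇑Q e (t • h) = 0 := by
    rw [QuadraticMap.polar_smul_right, hh, smul_zero]
  have hfth : QuadraticMap.polar ⇑Q f (t • h) = 0 := by
    rw [QuadraticMap.polar_smul_right, hfh, smul_zero]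
  have hth' : QuadraticMap.polar ⇑Q e (t • h') = 0 := by
    rw [QuadraticMap.polar_smul_right, hh', smul_zero]
  have hfth' : QuadraticMap.polar ⇑Q f (t • h') = 0 := by
    rw [QuadraticMap.polar_smul_right, hfh', smul_zero]
  have e1 : φ (t • (h + h')) = φ (t • h) + φ (t • h') := by
    rw [smul_add]
    exact xmap_add p fr hφ _ _ hth hfth hth' hfth'
  have e2 : φ (h + h') = φ h + φ h' := xmap_add p fr hφ h h' hh hfh hh' hfh'
  rw [e1, e2, hts, hs'eq, smul_add] at hs''eq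
  have key : (s - s'') • φ h + (s' - s'') • φ h' = 0 := by
    rw [sub_smul, sub_smul]
    have h1 := sub_eq_zero.mpr hs''eq
    rw [← h1]
    abel
  have hinv : ∀ x, α.symm (α x) = x := fun x => α.symm_apply_apply x
  have i1 := xmap_inv p hinv fr hφ hφ' h hh hfh
  have i2 := xmap_inv p hinv fr hφ hφ' h' hh' hfh'
  obtain ⟨a1, a2, -⟩ := hφ h hh hfh
  have sφh : Q (φ h) = 0 := (xmap_sing p fr hφ h hh hfh).mpr hs
  have c2 : s' - s'' = 0 := by
    by_contra hc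
    have hr : φ h' = (-(s - s'') / (s' - s'')) • φ h := by
      have h1 : (s' - s'') • φ h' = (-(s - s'')) • φ h := by
        rw [neg_smul]
        exact eq_neg_of_add_eq_zero_right key
      rw [div_eq_inv_mul, ← smul_smul, ← h1, smul_smul, inv_mul_cancel₀ hc, one_smul]
    obtain ⟨s₀, hs₀⟩ := xmap_line p fr.symm hφ' (φ h) a1 a2 sφh (-(s - s'') / (s' - s''))
    rw [← hr, i1, i2] at hs₀
    exact hne s₀ hs₀
  have c1 : s - s'' = 0 := by
    rw [c2, zero_smul, add_zero] at key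
    rcases smul_eq_zero.mp key with h1 | h1
    · exact h1
    · exfalso
      apply h0
      exact xmap_inj p fr hφ h 0 hh hfh (by simp) (by simp) (by rw [h1, xmap_zero p fr hφ])
  rw [hs'eq]
  have h3 : s' = s := by
    rw [sub_eq_zero] at c1 c2
    rw [c2, ← c1]
  rw [h3]

include p in
theorem sigma_rel (hn7 : 7 ≤ Fintype.card ι) {α : POmega F ⇑Q ≃* POmega F ⇑Q} {e f e₁ f₁ : ι → F}
    {φ φ' : (ι → F) → (ι → F)} (fr : Fr Q α e f e₁ f₁) (hφ : XMap Q hQ hn α e f e₁ f₁ φ)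
    (hφ' : XMap Q hQ hn α.symm e₁ f₁ e f φ') (h h' : ι → F)
    (hh : QuadraticMap.polar ⇑Q e h = 0) (hfh : QuadraticMap.polar ⇑Q f h = 0)
    (hh' : QuadraticMap.polar ⇑Q e h' = 0) (hfh' : QuadraticMap.polar ⇑Q f h' = 0)
    (hs : Q h = 0) (hs' : Q h' = 0) (h0 : h ≠ 0) (h0' : h' ≠ 0) (t s : F)
    (hts : φ (t • h) = s • φ h) : φ (t • h') = s • φ h' := by
  have nonperp : ∀ x y : ι → F, QuadraticMap.polar ⇑Q e x = 0 → QuadraticMap.polar ⇑Q f x = 0 →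
      QuadraticMap.polar ⇑Q e y = 0 → QuadraticMap.polar ⇑Q f y = 0 → Q x = 0 → Q y = 0 →
      x ≠ 0 → QuadraticMap.polar ⇑Q x y ≠ 0 → φ (t • x) = s • φ x → φ (t • y) = s • φ y := by
    intro x y hx hfx hy hfy hsx hsy hx0 hxy hxs
    have hfr : 3 ≤ finrank F ↥(HH Q e f ⊓ perpSub Q x ⊓ perpSub Q y) := by
      have h1 := finrank_HH_ge Q e f
      have h2 := finrank_pair_ge Q (HH Q e f) x y
      omega
    obtain ⟨z, hzW, hz0, hz⟩ := exists_sing_in Q _ hfr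
    rw [Submodule.mem_inf, Submodule.mem_inf, mem_HH, mem_perpSub, mem_perpSub] at hzW
    obtain ⟨⟨⟨hez, hfz⟩, hxz⟩, hyz⟩ := hzW
    have hzx : ∀ r : F, z ≠ r • x := by
      intro r hr
      have h1 := hyz
      rw [hr, QuadraticMap.polar_smul_right, QuadraticMap.polar_comm ⇑Q y x, smul_eq_mul] at h1
      rcases mul_eq_zero.mp h1 with h2 | h2
      · rw [h2, zero_smul] at hr
        exact hz0 hr
      · exact hxy h2
    have hyz' : ∀ r : F, y ≠ r • z := by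
      intro r hr
      apply hxy
      rw [hr, QuadraticMap.polar_smul_right, hxz, smul_zero]
    have step1 := sigma_perp p fr hφ hφ' x z hx hfx hez hfz hsx hz hx0 hxz hzx t s hxs
    exact sigma_perp p fr hφ hφ' z y hez hfz hy hfy hz hsy hz0
      (by rw [QuadraticMap.polar_comm]; exact hyz) hyz' t s step1
  by_cases hperp : QuadraticMap.polar ⇑Q h h' = 0
  · by_cases hc : ∃ r : F, h' = r • h
    · obtain ⟨r, hr⟩ := hc
      have hR := retr_HH Q e f fr.he fr.hf fr.hef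
      have hhW : h ∈ HH Q e f := (mem_HH Q e f h).mpr ⟨hh, hfh⟩
      obtain ⟨y, hyW, hy⟩ := (hR.nd hQ) h hhW h0
      obtain ⟨q1, q2⟩ := sing_adjust Q h y hs hy
      obtain ⟨z, hzdef⟩ : ∃ z, z = y - (Q y / QuadraticMap.polar ⇑Q h y) • h := ⟨_, rfl⟩
      rw [← hzdef] at q1 q2
      have hzW : z ∈ HH Q e f := by
        rw [hzdef]
        exact (HH Q e f).sub_mem hyW ((HH Q e f).smul_mem _ hhW)
      rw [mem_HH] at hzW
      have hhz : QuadraticMap.polar ⇑Q h z ≠ 0 := by rw [q2]; exact hy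
      have hz0 : z ≠ 0 := by
        intro h1
        rw [h1, QuadraticMap.polar_zero_right] at hhz
        exact hhz rfl
      have hr0 : r ≠ 0 := by
        rintro rfl
        rw [zero_smul] at hr
        exact h0' hr
      have hzh' : QuadraticMap.polar ⇑Q z h' ≠ 0 := by
        rw [hr, QuadraticMap.polar_smul_right, QuadraticMap.polar_comm ⇑Q z h, smul_eq_mul]
        exact mul_ne_zero hr0 hhz
      exact nonperp z h' hzW.1 hzW.2 hh' hfh' q1 hs' hz0 hzh'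
        (nonperp h z hh hfh hzW.1 hzW.2 hs q1 h0 hhz hts)
    · push Not at hc
      exact sigma_perp p fr hφ hφ' h h' hh hfh hh' hfh' hs hs' h0 hperp hc t s hts
  · exact nonperp h h' hh hfh hh' hfh' hs hs' h0 hperp hts

include p in
theorem xmap_sigma (hn7 : 7 ≤ Fintype.card ι) {α : POmega F ⇑Q ≃* POmega F ⇑Q} {e f e₁ f₁ : ι → F}
    {φ φ' : (ι → F) → (ι → F)} (fr : Fr Q α e f e₁ f₁) (hφ : XMap Q hQ hn α e f e₁ f₁ φ)
    (hφ' : XMap Q hQ hn α.symm e₁ f₁ e f φ') :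
    ∃ σ : F → F, ∀ h : ι → F, QuadraticMap.polar ⇑Q e h = 0 → QuadraticMap.polar ⇑Q f h = 0 →
      Q h = 0 → ∀ t : F, φ (t • h) = σ t • φ h := by
  have hfr : 3 ≤ finrank F ↥(HH Q e f) := by
    have := finrank_HH_ge Q e f
    omega
  obtain ⟨h₀, hW, h₀0, hs₀⟩ := exists_sing_in Q _ hfr
  rw [mem_HH] at hW
  have ex : ∀ t : F, ∃ s : F, φ (t • h₀) = s • φ h₀ :=
    fun t => xmap_line p fr hφ h₀ hW.1 hW.2 hs₀ t
  refine ⟨fun t => Classical.choose (ex t), ?_⟩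
  intro h hh hfh hs t
  by_cases h0 : h = 0
  · subst h0
    rw [smul_zero, xmap_zero p fr hφ, smul_zero]
  · exact sigma_rel p hn7 fr hφ hφ' h₀ h hW.1 hW.2 hh hfh hs₀ hs h₀0 h0 t _
      (Classical.choose_spec (ex t))

include p in
/-- **semilinearity** of the map induced on the parameters -/
theorem xmap_semilinear (hn7 : 7 ≤ Fintype.card ι) {α : POmega F ⇑Q ≃* POmega F ⇑Q}
    {e f e₁ f₁ : ι → F} {φ φ' : (ι → F) → (ι → F)} (fr : Fr Q α e f e₁ f₁)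
    (hφ : XMap Q hQ hn α e f e₁ f₁ φ) (hφ' : XMap Q hQ hn α.symm e₁ f₁ e f φ') :
    ∃ σ : F ≃+* F, ∀ h : ι → F, QuadraticMap.polar ⇑Q e h = 0 → QuadraticMap.polar ⇑Q f h = 0 →
      ∀ t : F, φ (t • h) = σ t • φ h := by
  obtain ⟨σ, hσ⟩ := xmap_sigma p hn7 fr hφ hφ'
  have hfr : 3 ≤ finrank F ↥(HH Q e f) := by
    have := finrank_HH_ge Q e f
    omega
  obtain ⟨h₀, hW, h₀0, hs₀⟩ := exists_sing_in Q _ hfr
  rw [mem_HH] at hW
  have hφh₀ : φ h₀ ≠ 0 := by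
    intro h1
    apply h₀0
    exact xmap_inj p fr hφ h₀ 0 hW.1 hW.2 (by simp) (by simp) (by rw [h1, xmap_zero p fr hφ])
  have cancel : ∀ a b : F, a • φ h₀ = b • φ h₀ → a = b := by
    intro a b hab
    have h1 : (a - b) • φ h₀ = 0 := by rw [sub_smul, hab, sub_self]
    rcases smul_eq_zero.mp h1 with h2 | h2
    · exact sub_eq_zero.mp h2
    · exact absurd h2 hφh₀
  have hmem : ∀ a : F, QuadraticMap.polar ⇑Q e (a • h₀) = 0 ∧
      QuadraticMap.polar ⇑Q f (a • h₀) = 0 ∧ Q (a • h₀) = 0 := by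
    intro a
    refine ⟨?_, ?_, ?_⟩
    · rw [QuadraticMap.polar_smul_right, hW.1, smul_zero]
    · rw [QuadraticMap.polar_smul_right, hW.2, smul_zero]
    · rw [QuadraticMap.map_smul, hs₀, smul_zero]
  have σ1 : σ 1 = 1 := by
    apply cancel
    rw [← hσ h₀ hW.1 hW.2 hs₀ 1, one_smul, one_smul]
  have σadd : ∀ a b : F, σ (a + b) = σ a + σ b := by
    intro a b
    apply cancel
    rw [← hσ h₀ hW.1 hW.2 hs₀ (a + b), add_smul,
      xmap_add p fr hφ _ _ (hmem a).1 (hmem a).2.1 (hmem b).1 (hmem b).2.1,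
      hσ h₀ hW.1 hW.2 hs₀ a, hσ h₀ hW.1 hW.2 hs₀ b, add_smul]
  have σmul : ∀ a b : F, σ (a * b) = σ a * σ b := by
    intro a b
    apply cancel
    rw [← hσ h₀ hW.1 hW.2 hs₀ (a * b), mul_smul, hσ (b • h₀) (hmem b).1 (hmem b).2.1 (hmem b).2.2 a,
      hσ h₀ hW.1 hW.2 hs₀ b, smul_smul]
  have σ0 : σ 0 = 0 := by
    apply cancel
    rw [← hσ h₀ hW.1 hW.2 hs₀ 0, zero_smul, zero_smul, xmap_zero p fr hφ]
  have σinj : Function.Injective σ := by
    intro a b hab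
    have h1 : φ (a • h₀) = φ (b • h₀) := by
      rw [hσ h₀ hW.1 hW.2 hs₀ a, hσ h₀ hW.1 hW.2 hs₀ b, hab]
    have h2 := xmap_inj p fr hφ _ _ (hmem a).1 (hmem a).2.1 (hmem b).1 (hmem b).2.1 h1
    have h3 : (a - b) • h₀ = 0 := by rw [sub_smul, h2, sub_self]
    rcases smul_eq_zero.mp h3 with h4 | h4
    · exact sub_eq_zero.mp h4
    · exact absurd h4 h₀0
  let σh : F →+* F :=
    { toFun := σ, map_one' := σ1, map_mul' := σmul, map_zero' := σ0, map_add' := σadd }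
  have σbij : Function.Bijective σh := ⟨σinj, Finite.injective_iff_surjective.mp σinj⟩
  refine ⟨RingEquiv.ofBijective σh σbij, ?_⟩
  intro h hh hfh t
  show φ (t • h) = σ t • φ h
  have hspan := span_sing Q hQ (HH Q e f) (retr_HH Q e f fr.he fr.hf fr.hef) hfr h
    ((mem_HH Q e f h).mpr ⟨hh, hfh⟩)
  have key : ∀ x ∈ Submodule.span F {s : ι → F | s ∈ HH Q e f ∧ Q s = 0},
      (QuadraticMap.polar ⇑Q e x = 0 ∧ QuadraticMap.polar ⇑Q f x = 0) ∧
        ∀ t : F, φ (t • x) = σ t • φ x := by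
    intro x hx
    induction hx using Submodule.span_induction with
    | mem x hx =>
      have h1 := (mem_HH Q e f x).mp hx.1
      exact ⟨h1, fun t => hσ x h1.1 h1.2 hx.2 t⟩
    | zero =>
      exact ⟨⟨by simp, by simp⟩, fun t => by rw [smul_zero, xmap_zero p fr hφ, smul_zero]⟩
    | add x y hx hy ihx ihy =>
      refine ⟨⟨by rw [QuadraticMap.polar_add_right, ihx.1.1, ihy.1.1, add_zero],
        by rw [QuadraticMap.polar_add_right, ihx.1.2, ihy.1.2, add_zero]⟩, fun t => ?_⟩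
      rw [smul_add, xmap_add p fr hφ (t • x) (t • y)
        (by rw [QuadraticMap.polar_smul_right, ihx.1.1, smul_zero])
        (by rw [QuadraticMap.polar_smul_right, ihx.1.2, smul_zero])
        (by rw [QuadraticMap.polar_smul_right, ihy.1.1, smul_zero])
        (by rw [QuadraticMap.polar_smul_right, ihy.1.2, smul_zero]), ihx.2 t, ihy.2 t,
        xmap_add p fr hφ x y ihx.1.1 ihx.1.2 ihy.1.1 ihy.1.2, smul_add]
    | smul a x hx ih =>
      refine ⟨⟨by rw [QuadraticMap.polar_smul_right, ih.1.1, smul_zero],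
        by rw [QuadraticMap.polar_smul_right, ih.1.2, smul_zero]⟩, fun t => ?_⟩
      rw [smul_smul, ih.2 (t * a), ih.2 a, σmul, smul_smul]
  exact (key h hspan).2 t

end Sigma

section Cone

variable {ι : Type} [Fintype ι] [DecidableEq ι] {F : Type u} [Field F] [Fintype F]
  {Q : QuadraticForm F (ι → F)}
  {hQ : (QuadraticMap.polarBilin Q).Nondegenerate} {hn : 5 ≤ Fintype.card ι}
  (p : ℕ) [Fact p.Prime] [CharP F p]

include p in
/-- **the cone lemma**: the semilinear map on the parameters is a semisimilarity -/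
theorem xmap_cone (hn7 : 7 ≤ Fintype.card ι) {α : POmega F ⇑Q ≃* POmega F ⇑Q}
    {e f e₁ f₁ : ι → F} {φ : (ι → F) → (ι → F)} (fr : Fr Q α e f e₁ f₁)
    (hφ : XMap Q hQ hn α e f e₁ f₁ φ) (σ : F ≃+* F)
    (hσ : ∀ h : ι → F, QuadraticMap.polar ⇑Q e h = 0 → QuadraticMap.polar ⇑Q f h = 0 →
      ∀ t : F, φ (t • h) = σ t • φ h) :
    ∃ c : F, c ≠ 0 ∧ ∀ h : ι → F, QuadraticMap.polar ⇑Q e h = 0 → QuadraticMap.polar ⇑Q f h = 0 →
      Q (φ h) = c * σ (Q h) := by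
  have hR₀ := retr_HH Q e f fr.he fr.hf fr.hef
  have hfr₀ : 3 ≤ finrank F ↥(HH Q e f) := by
    have := finrank_HH_ge Q e f
    omega
  obtain ⟨s₀, hs₀W, hs₀0, hs₀⟩ := exists_sing_in Q _ hfr₀
  obtain ⟨s₁, hs₁W, hs₁, h01, -⟩ := hR₀.partner hQ s₀ 0 hs₀ hs₀W (Submodule.zero_mem _)
    (by intro t h; rw [smul_zero] at h; exact hs₀0 h) (by simp)
  have hR₂ := hR₀.pair s₀ s₁ hs₀ hs₁ h01 hs₀W hs₁W
  have hfr₂ : 3 ≤ finrank F ↥(HH Q e f ⊓ perpSub Q s₀ ⊓ perpSub Q s₁) := by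
    have h1 := finrank_HH_ge Q e f
    have h2 := finrank_pair_ge Q (HH Q e f) s₀ s₁
    omega
  have m₀ := (mem_HH Q e f s₀).mp hs₀W
  have m₁ := (mem_HH Q e f s₁).mp hs₁W
  have hmem₂ : ∀ w : ι → F, w ∈ HH Q e f ⊓ perpSub Q s₀ ⊓ perpSub Q s₁ ↔
      (QuadraticMap.polar ⇑Q e w = 0 ∧ QuadraticMap.polar ⇑Q f w = 0) ∧
        QuadraticMap.polar ⇑Q s₀ w = 0 ∧ QuadraticMap.polar ⇑Q s₁ w = 0 := by
    intro w
    rw [Submodule.mem_inf, Submodule.mem_inf, mem_HH, mem_perpSub, mem_perpSub, and_assoc]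
  have qs₀ : Q (φ s₀) = 0 := (xmap_sing p fr hφ s₀ m₀.1 m₀.2).mpr hs₀
  have qs₁ : Q (φ s₁) = 0 := (xmap_sing p fr hφ s₁ m₁.1 m₁.2).mpr hs₁
  obtain ⟨c, hc⟩ : ∃ c, c = QuadraticMap.polar ⇑Q (φ s₀) (φ s₁) := ⟨_, rfl⟩
  have stepA : ∀ s : ι → F, (QuadraticMap.polar ⇑Q e s = 0 ∧ QuadraticMap.polar ⇑Q f s = 0) →
      Q s = 0 → ∀ w : ι → F, (QuadraticMap.polar ⇑Q e w = 0 ∧ QuadraticMap.polar ⇑Q f w = 0) →
      QuadraticMap.polar ⇑Q s w = 0 → Q w = 0 → QuadraticMap.polar ⇑Q (φ s) (φ w) = 0 := by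
    intro s ms hs w hw hsw hqw
    have h1 : Q (s + w) = 0 := by
      rw [Helper13.Q_add', hs, hsw, hqw]
      simp
    have h2 : Q (φ (s + w)) = 0 := (xmap_sing p fr hφ (s + w)
      (by rw [QuadraticMap.polar_add_right, ms.1, hw.1, add_zero])
      (by rw [QuadraticMap.polar_add_right, ms.2, hw.2, add_zero])).mpr h1
    rw [xmap_add p fr hφ s w ms.1 ms.2 hw.1 hw.2, Helper13.Q_add',
      (xmap_sing p fr hφ s ms.1 ms.2).mpr hs, (xmap_sing p fr hφ w hw.1 hw.2).mpr hqw] at h2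
    simpa using h2
  have stepB : ∀ w ∈ HH Q e f ⊓ perpSub Q s₀ ⊓ perpSub Q s₁,
      QuadraticMap.polar ⇑Q (φ s₀) (φ w) = 0 ∧ QuadraticMap.polar ⇑Q (φ s₁) (φ w) = 0 := by
    intro w hw
    have hspan := span_sing Q hQ _ hR₂ hfr₂ w hw
    have key : ∀ x ∈ Submodule.span F
        {s : ι → F | s ∈ HH Q e f ⊓ perpSub Q s₀ ⊓ perpSub Q s₁ ∧ Q s = 0},
        (QuadraticMap.polar ⇑Q e x = 0 ∧ QuadraticMap.polar ⇑Q f x = 0) ∧
          QuadraticMap.polar ⇑Q (φ s₀) (φ x) = 0 ∧ QuadraticMap.polar ⇑Q (φ s₁) (φ x) = 0 := by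
      intro x hx
      induction hx using Submodule.span_induction with
      | mem x hx =>
        have h1 := (hmem₂ x).mp hx.1
        exact ⟨h1.1, stepA s₀ m₀ hs₀ x h1.1 h1.2.1 hx.2, stepA s₁ m₁ hs₁ x h1.1 h1.2.2 hx.2⟩
      | zero =>
        refine ⟨⟨by simp, by simp⟩, ?_, ?_⟩
        · rw [xmap_zero p fr hφ]; simp
        · rw [xmap_zero p fr hφ]; simp
      | add x y hx hy ihx ihy =>
        refine ⟨⟨by rw [QuadraticMap.polar_add_right, ihx.1.1, ihy.1.1, add_zero],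
          by rw [QuadraticMap.polar_add_right, ihx.1.2, ihy.1.2, add_zero]⟩, ?_, ?_⟩
        · rw [xmap_add p fr hφ x y ihx.1.1 ihx.1.2 ihy.1.1 ihy.1.2, QuadraticMap.polar_add_right,
            ihx.2.1, ihy.2.1, add_zero]
        · rw [xmap_add p fr hφ x y ihx.1.1 ihx.1.2 ihy.1.1 ihy.1.2, QuadraticMap.polar_add_right,
            ihx.2.2, ihy.2.2, add_zero]
      | smul a x hx ih =>
        refine ⟨⟨by rw [QuadraticMap.polar_smul_right, ih.1.1, smul_zero],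
          by rw [QuadraticMap.polar_smul_right, ih.1.2, smul_zero]⟩, ?_, ?_⟩
        · rw [hσ x ih.1.1 ih.1.2 a, QuadraticMap.polar_smul_right, ih.2.1, smul_zero]
        · rw [hσ x ih.1.1 ih.1.2 a, QuadraticMap.polar_smul_right, ih.2.2, smul_zero]
    exact (key w hspan).2
  have stepC : ∀ w ∈ HH Q e f ⊓ perpSub Q s₀ ⊓ perpSub Q s₁, Q (φ w) = c * σ (Q w) := by
    intro w hw
    have hwm := (hmem₂ w).mp hw
    obtain ⟨b0, b1⟩ := stepB w hw
    have hv1' : QuadraticMap.polar ⇑Q e ((-(Q w)) • s₁) = 0 := by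
      rw [QuadraticMap.polar_smul_right, m₁.1, smul_zero]
    have hv2' : QuadraticMap.polar ⇑Q f ((-(Q w)) • s₁) = 0 := by
      rw [QuadraticMap.polar_smul_right, m₁.2, smul_zero]
    have hv1 : QuadraticMap.polar ⇑Q e (s₀ + (-(Q w)) • s₁) = 0 := by
      rw [QuadraticMap.polar_add_right, hv1', m₀.1, add_zero]
    have hv2 : QuadraticMap.polar ⇑Q f (s₀ + (-(Q w)) • s₁) = 0 := by
      rw [QuadraticMap.polar_add_right, hv2', m₀.2, add_zero]
    have hQv : Q (s₀ + (-(Q w)) • s₁ + w) = 0 := by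
      rw [Helper13.Q_add', Helper13.Q_add', QuadraticMap.map_smul, hs₀, hs₁,
        QuadraticMap.polar_smul_right, h01, QuadraticMap.polar_add_left,
        QuadraticMap.polar_smul_left, hwm.2.1, hwm.2.2]
      simp
    have h2 : Q (φ (s₀ + (-(Q w)) • s₁ + w)) = 0 := (xmap_sing p fr hφ _
      (by rw [QuadraticMap.polar_add_right, hv1, hwm.1.1, add_zero])
      (by rw [QuadraticMap.polar_add_right, hv2, hwm.1.2, add_zero])).mpr hQv
    rw [xmap_add p fr hφ _ w hv1 hv2 hwm.1.1 hwm.1.2, xmap_add p fr hφ s₀ _ m₀.1 m₀.2 hv1' hv2',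
      hσ s₁ m₁.1 m₁.2, Helper13.Q_add', Helper13.Q_add', QuadraticMap.map_smul, qs₀, qs₁,
      QuadraticMap.polar_smul_right, ← hc, QuadraticMap.polar_add_left,
      QuadraticMap.polar_smul_left, b0, b1] at h2
    simp only [smul_eq_mul, mul_zero, add_zero, zero_add, map_neg] at h2
    linear_combination h2
  refine ⟨c, ?_, ?_⟩
  · intro hc0
    have hx1 : QuadraticMap.polar ⇑Q e (s₀ + s₁) = 0 := by
      rw [QuadraticMap.polar_add_right, m₀.1, m₁.1, add_zero]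
    have hx2 : QuadraticMap.polar ⇑Q f (s₀ + s₁) = 0 := by
      rw [QuadraticMap.polar_add_right, m₀.2, m₁.2, add_zero]
    have hq : Q (s₀ + s₁) = 1 := by
      rw [Helper13.Q_add', hs₀, hs₁, h01]
      simp
    have h3 : Q (φ (s₀ + s₁)) = 0 := by
      rw [xmap_add p fr hφ s₀ s₁ m₀.1 m₀.2 m₁.1 m₁.2, Helper13.Q_add', qs₀, qs₁, ← hc, hc0]
      simp
    have h4 := (xmap_sing p fr hφ _ hx1 hx2).mp h3
    rw [hq] at h4
    exact one_ne_zero h4
  · intro x hx hfx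
    obtain ⟨a, ha⟩ : ∃ a, a = QuadraticMap.polar ⇑Q s₁ x := ⟨_, rfl⟩
    obtain ⟨b, hb⟩ : ∃ b, b = QuadraticMap.polar ⇑Q s₀ x := ⟨_, rfl⟩
    obtain ⟨w, hwdef⟩ : ∃ w, w = projH Q s₀ s₁ x := ⟨_, rfl⟩
    have hw : w ∈ HH Q e f ⊓ perpSub Q s₀ ⊓ perpSub Q s₁ := by
      rw [hmem₂, hwdef]
      refine ⟨⟨?_, ?_⟩, projH_perp_e Q s₀ s₁ x hs₀ h01, projH_perp_f Q s₀ s₁ x hs₁ h01⟩
      · unfold projH
        rw [QuadraticMap.polar_sub_right, QuadraticMap.polar_sub_right,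
          QuadraticMap.polar_smul_right, QuadraticMap.polar_smul_right, hx, m₀.1, m₁.1]
        simp
      · unfold projH
        rw [QuadraticMap.polar_sub_right, QuadraticMap.polar_sub_right,
          QuadraticMap.polar_smul_right, QuadraticMap.polar_smul_right, hfx, m₀.2, m₁.2]
        simp
    have hwm := (hmem₂ w).mp hw
    have hxdec : x = a • s₀ + b • s₁ + w := by
      rw [ha, hb, hwdef]
      unfold projH
      abel
    obtain ⟨b0, b1⟩ := stepB w hw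
    have hC := stepC w hw
    have hQx : Q x = a * b + Q w := by
      rw [hxdec, Helper13.Q_add', Helper13.Q_add', QuadraticMap.map_smul, QuadraticMap.map_smul,
        hs₀, hs₁, QuadraticMap.polar_smul_left, QuadraticMap.polar_smul_right, h01,
        QuadraticMap.polar_add_left, QuadraticMap.polar_smul_left, QuadraticMap.polar_smul_left,
        hwm.2.1, hwm.2.2]
      simp
    have p1 : QuadraticMap.polar ⇑Q e (a • s₀) = 0 ∧ QuadraticMap.polar ⇑Q f (a • s₀) = 0 :=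
      ⟨by rw [QuadraticMap.polar_smul_right, m₀.1, smul_zero],
        by rw [QuadraticMap.polar_smul_right, m₀.2, smul_zero]⟩
    have p2 : QuadraticMap.polar ⇑Q e (b • s₁) = 0 ∧ QuadraticMap.polar ⇑Q f (b • s₁) = 0 :=
      ⟨by rw [QuadraticMap.polar_smul_right, m₁.1, smul_zero],
        by rw [QuadraticMap.polar_smul_right, m₁.2, smul_zero]⟩
    have p3 : QuadraticMap.polar ⇑Q e (a • s₀ + b • s₁) = 0 ∧
        QuadraticMap.polar ⇑Q f (a • s₀ + b • s₁) = 0 :=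
      ⟨by rw [QuadraticMap.polar_add_right, p1.1, p2.1, add_zero],
        by rw [QuadraticMap.polar_add_right, p1.2, p2.2, add_zero]⟩
    have hφx : φ x = σ a • φ s₀ + σ b • φ s₁ + φ w := by
      rw [hxdec, xmap_add p fr hφ _ _ p3.1 p3.2 hwm.1.1 hwm.1.2,
        xmap_add p fr hφ _ _ p1.1 p1.2 p2.1 p2.2, hσ s₀ m₀.1 m₀.2, hσ s₁ m₁.1 m₁.2]
    rw [hφx, Helper13.Q_add', Helper13.Q_add', QuadraticMap.map_smul, QuadraticMap.map_smul, qs₀,
      qs₁, QuadraticMap.polar_smul_left, QuadraticMap.polar_smul_right, ← hc,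
      QuadraticMap.polar_add_left, QuadraticMap.polar_smul_left, QuadraticMap.polar_smul_left, b0,
      b1, hC, hQx, map_add, map_mul]
    simp only [smul_eq_mul, mul_zero, add_zero, zero_add]
    ring

end Cone

section Adjoint

variable {ι : Type} [Fintype ι] [DecidableEq ι] {F : Type u} [Field F] [Fintype F]
  {Q : QuadraticForm F (ι → F)}
  {hQ : (QuadraticMap.polarBilin Q).Nondegenerate} {hn : 5 ≤ Fintype.card ι}
  (p : ℕ) [Fact p.Prime] [CharP F p]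

include p in
/-- the basic relation between the maps on the two groups of Eichler transformations -/
theorem xmap_adj_sing {α : POmega F ⇑Q ≃* POmega F ⇑Q} {e f e₁ f₁ : ι → F}
    {φ ψ : (ι → F) → (ι → F)} (fr : Fr Q α e f e₁ f₁) (hφ : XMap Q hQ hn α e f e₁ f₁ φ)
    (hψ : XMap Q hQ hn α f e f₁ e₁ ψ) (h k : ι → F) (hh : QuadraticMap.polar ⇑Q e h = 0)
    (hfh : QuadraticMap.polar ⇑Q f h = 0) (hk : QuadraticMap.polar ⇑Q e k = 0)
    (hfk : QuadraticMap.polar ⇑Q f k = 0) (hs : Q h = 0) :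
    QuadraticMap.polar ⇑Q (φ h) (ψ k) = -1 ↔ QuadraticMap.polar ⇑Q h k = -1 := by
  obtain ⟨a1, a2, a3⟩ := hφ h hh hfh
  obtain ⟨b1, b2, b3⟩ := hψ k hfk hk
  have hfe : QuadraticMap.polar ⇑Q f e = 1 := by rw [QuadraticMap.polar_comm]; exact fr.hef
  have hfe₁ : QuadraticMap.polar ⇑Q f₁ e₁ = 1 := by rw [QuadraticMap.polar_comm]; exact fr.hef₁
  have c1 : mv ⇑Q ((eichΩ Q hQ hn e h fr.he hh : ↥(Omega F ⇑Q)) : ↥(isometryGroup F ⇑Q)) f =
      f + (-(Q h)) • e - h := by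
    show mv ⇑Q (eichO Q e h fr.he hh) f = _
    rw [mv_eichO]
    exact eich_pt Q e f h fr.hef hfh
  have c2 : mv ⇑Q ((eichΩ Q hQ hn e₁ (φ h) fr.he₁ a1 : ↥(Omega F ⇑Q)) : ↥(isometryGroup F ⇑Q)) f₁ =
      f₁ + (-(Q (φ h))) • e₁ - φ h := by
    show mv ⇑Q (eichO Q e₁ (φ h) fr.he₁ a1) f₁ = _
    rw [mv_eichO]
    exact eich_pt Q e₁ f₁ (φ h) fr.hef₁ a2
  have d1 : mv ⇑Q ((eichΩ Q hQ hn f k fr.hf hfk : ↥(Omega F ⇑Q)) : ↥(isometryGroup F ⇑Q)) e =
      e + (-(Q k)) • f - k := by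
    show mv ⇑Q (eichO Q f k fr.hf hfk) e = _
    rw [mv_eichO]
    exact eich_pt Q f e k hfe hk
  have d2 : mv ⇑Q ((eichΩ Q hQ hn f₁ (ψ k) fr.hf₁ b1 : ↥(Omega F ⇑Q)) : ↥(isometryGroup F ⇑Q)) e₁ =
      e₁ + (-(Q (ψ k))) • f₁ - ψ k := by
    show mv ⇑Q (eichO Q f₁ (ψ k) fr.hf₁ b1) e₁ = _
    rw [mv_eichO]
    exact eich_pt Q f₁ e₁ (ψ k) hfe₁ b2
  have q1 : Q (mv ⇑Q ((eichΩ Q hQ hn e h fr.he hh : ↥(Omega F ⇑Q)) : ↥(isometryGroup F ⇑Q)) f) = 0 := by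
    rw [mv_quad ⇑Q]; exact fr.hf
  have q2 : Q (mv ⇑Q ((eichΩ Q hQ hn e₁ (φ h) fr.he₁ a1 : ↥(Omega F ⇑Q)) :
      ↥(isometryGroup F ⇑Q)) f₁) = 0 := by
    rw [mv_quad ⇑Q]; exact fr.hf₁
  have q3 : Q (mv ⇑Q ((eichΩ Q hQ hn f k fr.hf hfk : ↥(Omega F ⇑Q)) : ↥(isometryGroup F ⇑Q)) e) = 0 := by
    rw [mv_quad ⇑Q]; exact fr.he
  have q4 : Q (mv ⇑Q ((eichΩ Q hQ hn f₁ (ψ k) fr.hf₁ b1 : ↥(Omega F ⇑Q)) :
      ↥(isometryGroup F ⇑Q)) e₁) = 0 := by
    rw [mv_quad ⇑Q]; exact fr.he₁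
  have hk1 := ub_image Q α _ _ (a3 fr.he fr.he₁ hh a1) f f₁ fr.hf fr.hf₁ fr.hUf q1 q2
  have hk2 := ub_image Q α _ _ (b3 fr.hf fr.hf₁ hfk b1) e e₁ fr.he fr.he₁ fr.hUe q3 q4
  have n1 : mv ⇑Q ((eichΩ Q hQ hn e h fr.he hh : ↥(Omega F ⇑Q)) : ↥(isometryGroup F ⇑Q)) f ≠ 0 := by
    intro h0
    have h1 := mv_polar Q ((eichΩ Q hQ hn e h fr.he hh : ↥(Omega F ⇑Q)) : ↥(isometryGroup F ⇑Q)) e f
    rw [h0, QuadraticMap.polar_zero_right, fr.hef] at h1
    exact zero_ne_one h1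
  have n2 : mv ⇑Q ((eichΩ Q hQ hn e₁ (φ h) fr.he₁ a1 : ↥(Omega F ⇑Q)) :
      ↥(isometryGroup F ⇑Q)) f₁ ≠ 0 := by
    intro h0
    have h1 := mv_polar Q ((eichΩ Q hQ hn e₁ (φ h) fr.he₁ a1 : ↥(Omega F ⇑Q)) :
      ↥(isometryGroup F ⇑Q)) e₁ f₁
    rw [h0, QuadraticMap.polar_zero_right, fr.hef₁] at h1
    exact zero_ne_one h1
  have n3 : mv ⇑Q ((eichΩ Q hQ hn f k fr.hf hfk : ↥(Omega F ⇑Q)) : ↥(isometryGroup F ⇑Q)) e ≠ 0 := by
    intro h0
    have h1 := mv_polar Q ((eichΩ Q hQ hn f k fr.hf hfk : ↥(Omega F ⇑Q)) : ↥(isometryGroup F ⇑Q)) e f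
    rw [h0, QuadraticMap.polar_zero_left, fr.hef] at h1
    exact zero_ne_one h1
  have n4 : mv ⇑Q ((eichΩ Q hQ hn f₁ (ψ k) fr.hf₁ b1 : ↥(Omega F ⇑Q)) :
      ↥(isometryGroup F ⇑Q)) e₁ ≠ 0 := by
    intro h0
    have h1 := mv_polar Q ((eichΩ Q hQ hn f₁ (ψ k) fr.hf₁ b1 : ↥(Omega F ⇑Q)) :
      ↥(isometryGroup F ⇑Q)) e₁ f₁
    rw [h0, QuadraticMap.polar_zero_left, fr.hef₁] at h1
    exact zero_ne_one h1
  have hp := perp_image Q hQ hn p α _ _ _ _ q1 q3 q2 q4 n1 n3 n2 n4 hk1 hk2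
  rw [c1, c2, d1, d2] at hp
  rw [polar_pts Q e f h k fr.he fr.hf fr.hef hh hfh hk hfk,
    polar_pts Q e₁ f₁ (φ h) (ψ k) fr.he₁ fr.hf₁ fr.hef₁ a1 a2 b2 b1, hs,
    (xmap_sing p fr hφ h hh hfh).mpr hs] at hp
  constructor
  · intro h1
    have h2 := hp.mp (by rw [h1]; ring)
    linear_combination h2
  · intro h1
    have h2 := hp.mpr (by rw [h1]; ring)
    linear_combination h2

include p in
theorem xmap_adj_sing' {α : POmega F ⇑Q ≃* POmega F ⇑Q} {e f e₁ f₁ : ι → F}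
    {φ ψ : (ι → F) → (ι → F)} (fr : Fr Q α e f e₁ f₁) (hφ : XMap Q hQ hn α e f e₁ f₁ φ)
    (hψ : XMap Q hQ hn α f e f₁ e₁ ψ) (τ : F ≃+* F)
    (hτ : ∀ k : ι → F, QuadraticMap.polar ⇑Q f k = 0 → QuadraticMap.polar ⇑Q e k = 0 →
      ∀ t : F, ψ (t • k) = τ t • ψ k)
    (h k : ι → F) (hh : QuadraticMap.polar ⇑Q e h = 0)
    (hfh : QuadraticMap.polar ⇑Q f h = 0) (hk : QuadraticMap.polar ⇑Q e k = 0)
    (hfk : QuadraticMap.polar ⇑Q f k = 0) (hs : Q h = 0) :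
    QuadraticMap.polar ⇑Q (φ h) (ψ k) = τ (QuadraticMap.polar ⇑Q h k) := by
  by_cases hhk : QuadraticMap.polar ⇑Q h k = 0
  · rw [hhk, map_zero]
    by_contra hr
    have h1 : QuadraticMap.polar ⇑Q (φ h)
        (ψ (τ.symm (-(QuadraticMap.polar ⇑Q (φ h) (ψ k))⁻¹) • k)) = -1 := by
      rw [hτ k hfk hk, QuadraticMap.polar_smul_right, RingEquiv.apply_symm_apply, smul_eq_mul,
        neg_mul, inv_mul_cancel₀ hr]
    have h2 := (xmap_adj_sing p fr hφ hψ h _ hh hfh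
      (by rw [QuadraticMap.polar_smul_right, hk, smul_zero])
      (by rw [QuadraticMap.polar_smul_right, hfk, smul_zero]) hs).mp h1
    rw [QuadraticMap.polar_smul_right, hhk, smul_zero] at h2
    exact one_ne_zero (neg_eq_zero.mp h2.symm)
  · have h1 : QuadraticMap.polar ⇑Q h ((-(QuadraticMap.polar ⇑Q h k)⁻¹) • k) = -1 := by
      rw [QuadraticMap.polar_smul_right, smul_eq_mul, neg_mul, inv_mul_cancel₀ hhk]
    have h2 := (xmap_adj_sing p fr hφ hψ h _ hh hfh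
      (by rw [QuadraticMap.polar_smul_right, hk, smul_zero])
      (by rw [QuadraticMap.polar_smul_right, hfk, smul_zero]) hs).mpr h1
    rw [hτ k hfk hk, QuadraticMap.polar_smul_right, smul_eq_mul, map_neg, map_inv₀, neg_mul,
      neg_inj] at h2
    have h3 : τ (QuadraticMap.polar ⇑Q h k) ≠ 0 := by
      intro h0
      apply hhk
      exact (map_eq_zero_iff τ τ.injective).mp h0
    calc QuadraticMap.polar ⇑Q (φ h) (ψ k)
        = τ (QuadraticMap.polar ⇑Q h k) * ((τ (QuadraticMap.polar ⇑Q h k))⁻¹ *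
            QuadraticMap.polar ⇑Q (φ h) (ψ k)) := by
          rw [← mul_assoc, mul_inv_cancel₀ h3, one_mul]
      _ = τ (QuadraticMap.polar ⇑Q h k) := by rw [h2, mul_one]

include p in
/-- the two field automorphisms agree -/
theorem xmap_sigma_eq (hn7 : 7 ≤ Fintype.card ι) {α : POmega F ⇑Q ≃* POmega F ⇑Q}
    {e f e₁ f₁ : ι → F} {φ ψ : (ι → F) → (ι → F)} (fr : Fr Q α e f e₁ f₁)
    (hφ : XMap Q hQ hn α e f e₁ f₁ φ) (hψ : XMap Q hQ hn α f e f₁ e₁ ψ) (σ τ : F ≃+* F)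
    (hσ : ∀ h : ι → F, QuadraticMap.polar ⇑Q e h = 0 → QuadraticMap.polar ⇑Q f h = 0 →
      ∀ t : F, φ (t • h) = σ t • φ h)
    (hτ : ∀ k : ι → F, QuadraticMap.polar ⇑Q f k = 0 → QuadraticMap.polar ⇑Q e k = 0 →
      ∀ t : F, ψ (t • k) = τ t • ψ k) : ∀ t : F, σ t = τ t := by
  intro t
  have hfr : 3 ≤ finrank F ↥(HH Q e f) := by
    have := finrank_HH_ge Q e f
    omega
  obtain ⟨h₀, hW, h₀0, hs₀⟩ := exists_sing_in Q _ hfr
  obtain ⟨k₀, hk₀W, -, h01, -⟩ := (retr_HH Q e f fr.he fr.hf fr.hef).partner hQ h₀ 0 hs₀ hW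
    (Submodule.zero_mem _) (by intro t h; rw [smul_zero] at h; exact h₀0 h) (by simp)
  have m₀ := (mem_HH Q e f h₀).mp hW
  have mk := (mem_HH Q e f k₀).mp hk₀W
  have e1 := xmap_adj_sing' p fr hφ hψ τ hτ (t • h₀) k₀
    (by rw [QuadraticMap.polar_smul_right, m₀.1, smul_zero])
    (by rw [QuadraticMap.polar_smul_right, m₀.2, smul_zero]) mk.1 mk.2
    (by rw [QuadraticMap.map_smul, hs₀, smul_zero])
  have e2 := xmap_adj_sing' p fr hφ hψ τ hτ h₀ k₀ m₀.1 m₀.2 mk.1 mk.2 hs₀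
  rw [hσ h₀ m₀.1 m₀.2, QuadraticMap.polar_smul_left, e2, QuadraticMap.polar_smul_left, h01] at e1
  simpa using e1

include p in
/-- the map on the second group is adjoint-inverse to the map on the first -/
theorem xmap_adj (hn7 : 7 ≤ Fintype.card ι) {α : POmega F ⇑Q ≃* POmega F ⇑Q}
    {e f e₁ f₁ : ι → F} {φ ψ : (ι → F) → (ι → F)} (fr : Fr Q α e f e₁ f₁)
    (hφ : XMap Q hQ hn α e f e₁ f₁ φ) (hψ : XMap Q hQ hn α f e f₁ e₁ ψ) (σ : F ≃+* F)
    (hσ : ∀ h : ι → F, QuadraticMap.polar ⇑Q e h = 0 → QuadraticMap.polar ⇑Q f h = 0 →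
      ∀ t : F, φ (t • h) = σ t • φ h)
    (hτ : ∀ k : ι → F, QuadraticMap.polar ⇑Q f k = 0 → QuadraticMap.polar ⇑Q e k = 0 →
      ∀ t : F, ψ (t • k) = σ t • ψ k)
    (h k : ι → F) (hh : QuadraticMap.polar ⇑Q e h = 0)
    (hfh : QuadraticMap.polar ⇑Q f h = 0) (hk : QuadraticMap.polar ⇑Q e k = 0)
    (hfk : QuadraticMap.polar ⇑Q f k = 0) :
    QuadraticMap.polar ⇑Q (φ h) (ψ k) = σ (QuadraticMap.polar ⇑Q h k) := by
  have hfr : 3 ≤ finrank F ↥(HH Q e f) := by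
    have := finrank_HH_ge Q e f
    omega
  have hspan := span_sing Q hQ (HH Q e f) (retr_HH Q e f fr.he fr.hf fr.hef) hfr h
    ((mem_HH Q e f h).mpr ⟨hh, hfh⟩)
  have key : ∀ x ∈ Submodule.span F {s : ι → F | s ∈ HH Q e f ∧ Q s = 0},
      (QuadraticMap.polar ⇑Q e x = 0 ∧ QuadraticMap.polar ⇑Q f x = 0) ∧
        QuadraticMap.polar ⇑Q (φ x) (ψ k) = σ (QuadraticMap.polar ⇑Q x k) := by
    intro x hx
    induction hx using Submodule.span_induction with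
    | mem x hx =>
      have h1 := (mem_HH Q e f x).mp hx.1
      exact ⟨h1, xmap_adj_sing' p fr hφ hψ σ hτ x k h1.1 h1.2 hk hfk hx.2⟩
    | zero =>
      refine ⟨⟨by simp, by simp⟩, ?_⟩
      rw [xmap_zero p fr hφ]
      simp
    | add x y hx hy ihx ihy =>
      refine ⟨⟨by rw [QuadraticMap.polar_add_right, ihx.1.1, ihy.1.1, add_zero],
        by rw [QuadraticMap.polar_add_right, ihx.1.2, ihy.1.2, add_zero]⟩, ?_⟩
      rw [xmap_add p fr hφ x y ihx.1.1 ihx.1.2 ihy.1.1 ihy.1.2, QuadraticMap.polar_add_left,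
        QuadraticMap.polar_add_left, ihx.2, ihy.2, map_add]
    | smul a x hx ih =>
      refine ⟨⟨by rw [QuadraticMap.polar_smul_right, ih.1.1, smul_zero],
        by rw [QuadraticMap.polar_smul_right, ih.1.2, smul_zero]⟩, ?_⟩
      rw [hσ x ih.1.1 ih.1.2, QuadraticMap.polar_smul_left, QuadraticMap.polar_smul_left, ih.2,
        smul_eq_mul, smul_eq_mul, map_mul]
  exact (key h hspan).2

include p in
/-- **the map on the second group is a multiple of the map on the first** -/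
theorem xmap_psi (hn7 : 7 ≤ Fintype.card ι) {α : POmega F ⇑Q ≃* POmega F ⇑Q}
    {e f e₁ f₁ : ι → F} {φ φ' ψ : (ι → F) → (ι → F)} (fr : Fr Q α e f e₁ f₁)
    (hφ : XMap Q hQ hn α e f e₁ f₁ φ) (hφ' : XMap Q hQ hn α.symm e₁ f₁ e f φ')
    (hψ : XMap Q hQ hn α f e f₁ e₁ ψ) (σ : F ≃+* F)
    (hσ : ∀ h : ι → F, QuadraticMap.polar ⇑Q e h = 0 → QuadraticMap.polar ⇑Q f h = 0 →
      ∀ t : F, φ (t • h) = σ t • φ h)
    (hτ : ∀ k : ι → F, QuadraticMap.polar ⇑Q f k = 0 → QuadraticMap.polar ⇑Q e k = 0 →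
      ∀ t : F, ψ (t • k) = σ t • ψ k)
    (c : F) (hc0 : c ≠ 0)
    (hcone : ∀ h : ι → F, QuadraticMap.polar ⇑Q e h = 0 → QuadraticMap.polar ⇑Q f h = 0 →
      Q (φ h) = c * σ (Q h))
    (k : ι → F) (hk : QuadraticMap.polar ⇑Q e k = 0) (hfk : QuadraticMap.polar ⇑Q f k = 0) :
    ψ k = c⁻¹ • φ k := by
  obtain ⟨a1, a2, -⟩ := hφ k hk hfk
  obtain ⟨b1, b2, -⟩ := hψ k hfk hk
  have hpol : ∀ h : ι → F, QuadraticMap.polar ⇑Q e h = 0 → QuadraticMap.polar ⇑Q f h = 0 →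
      QuadraticMap.polar ⇑Q (φ h) (φ k) = c * σ (QuadraticMap.polar ⇑Q h k) := by
    intro h hh hfh
    have h1 := hcone (h + k) (by rw [QuadraticMap.polar_add_right, hh, hk, add_zero])
      (by rw [QuadraticMap.polar_add_right, hfh, hfk, add_zero])
    rw [xmap_add p fr hφ h k hh hfh hk hfk, Helper13.Q_add', Helper13.Q_add', hcone h hh hfh,
      hcone k hk hfk, map_add, map_add] at h1
    linear_combination h1
  have hd : ∀ x : ι → F, QuadraticMap.polar ⇑Q e₁ x = 0 → QuadraticMap.polar ⇑Q f₁ x = 0 →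
      QuadraticMap.polar ⇑Q x (ψ k - c⁻¹ • φ k) = 0 := by
    intro x hx hfx
    have hinv : ∀ y, α (α.symm y) = y := fun y => α.apply_symm_apply y
    obtain ⟨u1, u2, -⟩ := hφ' x hx hfx
    have hx' : φ (φ' x) = x := xmap_inv p hinv fr.symm hφ' hφ x hx hfx
    rw [← hx', QuadraticMap.polar_sub_right, QuadraticMap.polar_smul_right,
      xmap_adj p hn7 fr hφ hψ σ hσ hτ (φ' x) k u1 u2 hk hfk, hpol (φ' x) u1 u2, smul_eq_mul,
      ← mul_assoc, inv_mul_cancel₀ hc0, one_mul, sub_self]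
  have hnd := (retr_HH Q e₁ f₁ fr.he₁ fr.hf₁ fr.hef₁).nd hQ
  by_contra hne
  have hd0 : ψ k - c⁻¹ • φ k ≠ 0 := fun h => hne (sub_eq_zero.mp h)
  have hdW : ψ k - c⁻¹ • φ k ∈ HH Q e₁ f₁ := by
    rw [mem_HH]
    constructor
    · rw [QuadraticMap.polar_sub_right, QuadraticMap.polar_smul_right, b2, a1]
      simp
    · rw [QuadraticMap.polar_sub_right, QuadraticMap.polar_smul_right, b1, a2]
      simp
  obtain ⟨y, hyW, hy⟩ := hnd _ hdW hd0
  rw [mem_HH] at hyW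
  apply hy
  rw [QuadraticMap.polar_comm]
  exact hd y hyW.1 hyW.2

end Adjoint

end Cfsg.Agent.Helper45.AO
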