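import Cfsg.Agent.Helper45.AutH

set_option autoImplicit false
set_option linter.unusedSectionVars false
set_option linter.unusedSimpArgs false
set_option linter.unusedVariables false

/-!
Helper library (helper45), automorphisms of `PΩ(Q)`, part I: generation of `Ω` by the Eichler
transformations of a hyperbolic pair, semilinear semisimilarities and the automorphisms they induce.
-/

universe u

namespace Cfsg.Agent.Helper45.AO

open Cfsg Matrix Module

section Gen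

variable {ι : Type} [Fintype ι] [DecidableEq ι] {F : Type u} [Field F] [Fintype F]
  (Q : QuadraticForm F (ι → F))

/-- `Ω` is generated by the Eichler transformations at the two vectors of a hyperbolic pair -/
theorem gen_top (hQ : (QuadraticMap.polarBilin Q).Nondegenerate) (hn : 5 ≤ Fintype.card ι)
    (e f : ι → F) (he : Q e = 0) (hf : Q f = 0) (hef : QuadraticMap.polar ⇑Q e f = 1)
    (K : Subgroup ↥(Omega F ⇑Q)) (hKe : eichSub Q e he ≤ K) (hKf : eichSub Q f hf ≤ K) : K = ⊤ := by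
  have he0 : e ≠ 0 := by
    intro h0
    rw [h0, QuadraticMap.polar_zero_left] at hef
    exact zero_ne_one hef
  have step : ∀ (v w₁ w₂ : ι → F) (hv : Q v = 0) (hw₁ : Q w₁ = 0) (hw₂ : Q w₂ = 0),
      QuadraticMap.polar ⇑Q v w₁ ≠ 0 → QuadraticMap.polar ⇑Q v w₂ ≠ 0 → eichSub Q v hv ≤ K →
      eichSub Q w₁ hw₁ ≤ K → eichSub Q w₂ hw₂ ≤ K := by
    intro v w₁ w₂ hv hw₁ hw₂ h1 h2 hvK hw₁K
    obtain ⟨r, hrdef⟩ : ∃ r, r = QuadraticMap.polar ⇑Q v w₁ / QuadraticMap.polar ⇑Q v w₂ := ⟨_, rfl⟩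
    have hr0 : r ≠ 0 := by rw [hrdef]; exact div_ne_zero h1 h2
    have hw₂' : Q (r • w₂) = 0 := by rw [QuadraticMap.map_smul, hw₂, smul_zero]
    have h2' : QuadraticMap.polar ⇑Q v (r • w₂) = QuadraticMap.polar ⇑Q v w₁ := by
      rw [QuadraticMap.polar_smul_right, hrdef, smul_eq_mul, div_mul_cancel₀ _ h2]
    obtain ⟨m1, m2⟩ := eich_move Q v w₁ (r • w₂) hw₁ hw₂' (QuadraticMap.polar ⇑Q v w₁) h1 rfl h2'
    obtain ⟨b, hb⟩ : ∃ b, b = (QuadraticMap.polar ⇑Q v w₁)⁻¹ • (w₁ - r • w₂) := ⟨_, rfl⟩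
    rw [← hb] at m1 m2
    have hk : eichΩ Q hQ hn v b hv m1 ∈ K := hvK ⟨b, m1, rfl⟩
    have hmv : mv ⇑Q ((eichΩ Q hQ hn v b hv m1 : ↥(Omega F ⇑Q)) : ↥(isometryGroup F ⇑Q)) w₁ =
        r • w₂ := by
      show mv ⇑Q (eichO Q v b hv m1) w₁ = _
      rw [mv_eichO]
      exact m2
    have hq : Q (mv ⇑Q ((eichΩ Q hQ hn v b hv m1 : ↥(Omega F ⇑Q)) : ↥(isometryGroup F ⇑Q)) w₁) = 0 := by
      rw [mv_quad ⇑Q]; exact hw₁
    have h3 := eichSub_conj Q (eichΩ Q hQ hn v b hv m1) w₁ hw₁ hq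
    rw [← eichSub_smul Q w₂ hw₂ r hr0 hw₂', eichSub_congr Q (r • w₂) _ hw₂' hq hmv.symm, h3]
    intro x hx
    obtain ⟨y, hy, rfl⟩ := Subgroup.mem_map.mp hx
    show eichΩ Q hQ hn v b hv m1 * y * (eichΩ Q hQ hn v b hv m1)⁻¹ ∈ K
    exact K.mul_mem (K.mul_mem hk (hw₁K hy)) (K.inv_mem hk)
  have all : ∀ (u : ι → F) (hu : Q u = 0), u ≠ 0 → eichSub Q u hu ≤ K := by
    intro u hu hu0
    by_cases h : QuadraticMap.polar ⇑Q e u = 0
    · obtain ⟨s, hs, hse, hsu⟩ := exists_sing_nonperp2 Q hQ hn e u he he0 hu hu0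
      have hes : QuadraticMap.polar ⇑Q e s ≠ 0 := by rw [QuadraticMap.polar_comm]; exact hse
      have hsK := step e f s he hf hs (by rw [hef]; exact one_ne_zero) hes hKe hKf
      exact step s e u hs he hu hse hsu hsK hKe
    · exact step e f u he hf hu (by rw [hef]; exact one_ne_zero) h hKe hKf
  rw [eq_top_iff]
  intro g _
  have hg : (g : ↥(isometryGroup F ⇑Q)) ∈ eichGroup Q := by
    rw [← omega_eq_eichGroup Q hQ hn]
    exact g.2
  have key : ∀ x ∈ eichGroup Q, ∀ hx : x ∈ Omega F ⇑Q, (⟨x, hx⟩ : ↥(Omega F ⇑Q)) ∈ K := by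
    intro x hx
    unfold eichGroup at hx
    induction hx using Subgroup.closure_induction with
    | mem x hx =>
      obtain ⟨u, b, hu, hub, rfl⟩ := hx
      intro hx'
      by_cases hu0 : u = 0
      · subst hu0
        have h1 : eichO Q 0 b hu hub = 1 := by
          apply ext_mv
          intro x
          rw [mv_eichO, mv_one, eich_apply]
          simp
        have h2 : (⟨eichO Q 0 b hu hub, hx'⟩ : ↥(Omega F ⇑Q)) = 1 := Subtype.ext h1
        rw [h2]
        exact K.one_mem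
      · exact all u hu hu0 ⟨b, hub, rfl⟩
    | one =>
      intro _
      exact K.one_mem
    | mul x y hx hy ihx ihy =>
      intro hxy
      have hx' : x ∈ Omega F ⇑Q := by rw [omega_eq_eichGroup Q hQ hn]; exact hx
      have hy' : y ∈ Omega F ⇑Q := by rw [omega_eq_eichGroup Q hQ hn]; exact hy
      have h1 : (⟨x * y, hxy⟩ : ↥(Omega F ⇑Q)) = ⟨x, hx'⟩ * ⟨y, hy'⟩ := rfl
      rw [h1]
      exact K.mul_mem (ihx hx') (ihy hy')
    | inv x hx ih =>
      intro hxi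
      have hx' : x ∈ Omega F ⇑Q := by rw [omega_eq_eichGroup Q hQ hn]; exact hx
      have h1 : (⟨x⁻¹, hxi⟩ : ↥(Omega F ⇑Q)) = (⟨x, hx'⟩ : ↥(Omega F ⇑Q))⁻¹ := rfl
      rw [h1]
      exact K.inv_mem (ih hx')
  exact key g hg g.2

end Gen

section SemiSim

variable {ι : Type} [Fintype ι] [DecidableEq ι] {F : Type u} [Field F] [Fintype F]
  (Q : QuadraticForm F (ι → F))

/-- a semilinear semisimilarity -/
structure SS (Φ : (ι → F) → (ι → F)) (σ : F ≃+* F) (c : F) : Prop where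
  add : ∀ x y : ι → F, Φ (x + y) = Φ x + Φ y
  smul : ∀ (t : F) (x : ι → F), Φ (t • x) = σ t • Φ x
  quad : ∀ x : ι → F, Q (Φ x) = c * σ (Q x)
  c0 : c ≠ 0

variable {Q} {Φ : (ι → F) → (ι → F)} {σ : F ≃+* F} {c : F}

theorem SS.zero (h : SS Q Φ σ c) : Φ 0 = 0 := by
  have h1 := h.smul 0 0
  rw [zero_smul, map_zero, zero_smul] at h1
  exact h1

theorem SS.sub (h : SS Q Φ σ c) (x y : ι → F) : Φ (x - y) = Φ x - Φ y := by
  have h1 := h.add (x - y) y
  rw [sub_add_cancel] at h1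
  exact eq_sub_of_add_eq h1.symm

theorem SS.polar (h : SS Q Φ σ c) (x y : ι → F) :
    QuadraticMap.polar ⇑Q (Φ x) (Φ y) = c * σ (QuadraticMap.polar ⇑Q x y) := by
  unfold QuadraticMap.polar
  rw [← h.add, h.quad, h.quad, h.quad, map_sub, map_sub]
  ring

theorem SS.eich (h : SS Q Φ σ c) (u b x : ι → F) :
    Φ (Helper44.eich Q u b x) = Helper44.eich Q (Φ u) (c⁻¹ • Φ b) (Φ x) := by
  have hc := h.c0
  rw [eich_apply, eich_apply, h.sub, h.add, h.smul, h.smul, QuadraticMap.polar_smul_left,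
    QuadraticMap.map_smul, h.polar, h.polar, h.quad, map_sub, map_mul]
  funext i
  simp only [Pi.add_apply, Pi.sub_apply, Pi.smul_apply, smul_eq_mul]
  field_simp

theorem SS.inj (hQ : (QuadraticMap.polarBilin Q).Nondegenerate) (h : SS Q Φ σ c) (x y : ι → F)
    (hxy : Φ x = Φ y) : x = y := by
  have h0 : Φ (x - y) = 0 := by rw [h.sub, hxy, sub_self]
  have h4 : x - y = 0 := by
    apply Helper43.polarNondeg_of_nondegenerate Q hQ
    intro w
    have h1 := h.polar (x - y) w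
    rw [h0, QuadraticMap.polar_zero_left] at h1
    have h2 : σ (QuadraticMap.polar ⇑Q (x - y) w) = 0 := by
      rcases mul_eq_zero.mp h1.symm with h3 | h3
      · exact absurd h3 h.c0
      · exact h3
    exact (map_eq_zero_iff σ σ.injective).mp h2
  exact sub_eq_zero.mp h4

/-- the matrix of a semilinear map -/
def ssMat (Φ : (ι → F) → (ι → F)) : Matrix ι ι F := Matrix.of fun i j => Φ (Pi.single j 1) i

theorem SS.mulVec (h : SS Q Φ σ c) (x : ι → F) : ssMat Φ *ᵥ (fun i => σ (x i)) = Φ x := by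
  have hx : Φ x = ∑ j, σ (x j) • Φ (Pi.single j 1) := by
    have h1 : ∀ (s : Finset ι) (v : ι → ι → F), Φ (∑ j ∈ s, v j) = ∑ j ∈ s, Φ (v j) := by
      intro s v
      induction s using Finset.induction_on with
      | empty => simp [h.zero]
      | insert a s ha ih => rw [Finset.sum_insert ha, Finset.sum_insert ha, h.add, ih]
    conv_lhs => rw [pi_eq_sum_univ' x]
    rw [h1]
    apply Finset.sum_congr rfl
    intro j _
    exact h.smul _ _
  rw [hx]
  funext i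
  simp only [Matrix.mulVec, dotProduct, ssMat, Matrix.of_apply, Finset.sum_apply, Pi.smul_apply,
    smul_eq_mul]
  apply Finset.sum_congr rfl
  intro j _
  ring

theorem SS.isUnit (hQ : (QuadraticMap.polarBilin Q).Nondegenerate) (h : SS Q Φ σ c) :
    IsUnit (ssMat Φ) := by
  rw [← Matrix.mulVec_injective_iff_isUnit]
  intro w w' hww
  have e1 : ∀ w : ι → F, ssMat Φ *ᵥ w = Φ (fun i => σ.symm (w i)) := by
    intro w
    rw [← h.mulVec]
    congr 1
    funext i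
    simp
  have hww' : ssMat Φ *ᵥ w = ssMat Φ *ᵥ w' := hww
  rw [e1, e1] at hww'
  have h2 := h.inj hQ _ _ hww'
  funext i
  have h3 := congrFun h2 i
  exact σ.symm.injective h3

variable (Q)

/-- **a semilinear semisimilarity which intertwines `α` on the Eichler transformations of a
hyperbolic pair induces `α`** -/
theorem induced_of_SS (hQ : (QuadraticMap.polarBilin Q).Nondegenerate) (hn : 5 ≤ Fintype.card ι)
    (h : SS Q Φ σ c) (α : POmega F ⇑Q ≃* POmega F ⇑Q) (e f : ι → F) (he : Q e = 0) (hf : Q f = 0)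
    (hef : QuadraticMap.polar ⇑Q e f = 1)
    (hKe : ∀ s ∈ eichSub Q e he, ∃ s' : ↥(Omega F ⇑Q),
      (∀ x : ι → F, mv ⇑Q (s' : ↥(isometryGroup F ⇑Q)) (Φ x) =
        Φ (mv ⇑Q (s : ↥(isometryGroup F ⇑Q)) x)) ∧ α (piΩ Q s) = piΩ Q s')
    (hKf : ∀ s ∈ eichSub Q f hf, ∃ s' : ↥(Omega F ⇑Q),
      (∀ x : ι → F, mv ⇑Q (s' : ↥(isometryGroup F ⇑Q)) (Φ x) =
        Φ (mv ⇑Q (s : ↥(isometryGroup F ⇑Q)) x)) ∧ α (piΩ Q s) = piΩ Q s') :
    ∃ g : GL ι F, IsSemisimilarityPair ⇑Q g σ ∧ IsInducedBySemilinearPOmega ⇑Q g σ α := by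
  obtain ⟨g, hg⟩ : ∃ g : GL ι F, (g : Matrix ι ι F) = ssMat Φ :=
    ⟨(h.isUnit hQ).unit, IsUnit.unit_spec (h.isUnit hQ)⟩
  refine ⟨g, ⟨Units.mk0 c h.c0, ?_⟩, ?_⟩
  · intro v
    show Q ((g : Matrix ι ι F) *ᵥ fun i => σ (v i)) = c * σ (Q v)
    rw [hg, h.mulVec, h.quad]
  · let K : Subgroup ↥(Omega F ⇑Q) :=
      { carrier := {s | ∃ s' : ↥(Omega F ⇑Q),
          (∀ x : ι → F, mv ⇑Q (s' : ↥(isometryGroup F ⇑Q)) (Φ x) =
            Φ (mv ⇑Q (s : ↥(isometryGroup F ⇑Q)) x)) ∧ α (piΩ Q s) = piΩ Q s'}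
        one_mem' := by
          refine ⟨1, fun x => ?_, by simp⟩
          show mv ⇑Q (1 : ↥(isometryGroup F ⇑Q)) (Φ x) = Φ (mv ⇑Q (1 : ↥(isometryGroup F ⇑Q)) x)
          rw [mv_one, mv_one]
        mul_mem' := by
          rintro a b ⟨a', ha, ha2⟩ ⟨b', hb, hb2⟩
          refine ⟨a' * b', fun x => ?_, ?_⟩
          · show mv ⇑Q ((a' : ↥(isometryGroup F ⇑Q)) * (b' : ↥(isometryGroup F ⇑Q))) (Φ x) =
              Φ (mv ⇑Q ((a : ↥(isometryGroup F ⇑Q)) * (b : ↥(isometryGroup F ⇑Q))) x)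
            rw [mv_mul, mv_mul, hb, ha]
          · rw [map_mul, map_mul, map_mul, ha2, hb2]
        inv_mem' := by
          rintro a ⟨a', ha, ha2⟩
          refine ⟨a'⁻¹, fun x => ?_, ?_⟩
          · show mv ⇑Q ((a' : ↥(isometryGroup F ⇑Q))⁻¹) (Φ x) =
              Φ (mv ⇑Q ((a : ↥(isometryGroup F ⇑Q))⁻¹) x)
            have h1 := ha (mv ⇑Q ((a : ↥(isometryGroup F ⇑Q))⁻¹) x)
            rw [mv_inv_cancel] at h1
            rw [← h1, mv_inv_cancel']
          · rw [map_inv, map_inv, map_inv, ha2] }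
    have hK : K = ⊤ := gen_top Q hQ hn e f he hf hef K hKe hKf
    intro s s' hss'
    have hs : s ∈ K := by rw [hK]; exact Subgroup.mem_top s
    obtain ⟨s'', hrel, hα⟩ := hs
    have heq : s'' = s' := by
      apply Subtype.ext
      apply ext_mv
      intro y
      obtain ⟨x, rfl⟩ : ∃ x, Φ x = y := by
        refine ⟨fun i => σ.symm ((((g⁻¹ : GL ι F) : Matrix ι ι F) *ᵥ y) i), ?_⟩
        rw [← h.mulVec]
        have h1 : (fun i => σ (σ.symm ((((g⁻¹ : GL ι F) : Matrix ι ι F) *ᵥ y) i))) =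
            ((g⁻¹ : GL ι F) : Matrix ι ι F) *ᵥ y := by
          funext i
          simp
        rw [h1, Matrix.mulVec_mulVec, ← hg, ← Units.val_mul, mul_inv_cancel, Units.val_one,
          Matrix.one_mulVec]
      rw [hrel x]
      symm
      show (((s' : ↥(isometryGroup F ⇑Q)) : GL ι F) : Matrix ι ι F) *ᵥ Φ x =
        Φ ((((s : ↥(isometryGroup F ⇑Q)) : GL ι F) : Matrix ι ι F) *ᵥ x)
      rw [hss', ← h.mulVec x, ← h.mulVec, ← hg, Matrix.mulVec_mulVec, Matrix.mul_assoc,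
        Matrix.mul_assoc, ← Units.val_mul, inv_mul_cancel, Units.val_one, Matrix.mul_one,
        ← Matrix.mulVec_mulVec]
      congr 1
      funext i
      exact (RingHom.map_mulVec σ.toRingHom _ x i).symm
    rw [← heq]
    exact hα

end SemiSim

end Cfsg.Agent.Helper45.AO
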