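import Cfsg.Agent.Helper45.AutI

set_option autoImplicit false
set_option linter.unusedSectionVars false
set_option linter.unusedSimpArgs false
set_option linter.unusedVariables false

/-!
Helper library (helper45), automorphisms of `PΩ(Q)`, part J: every automorphism of `PΩ(Q)` is induced
by a semilinear semisimilarity (dimension at least seven, with the triality case excluded).
-/

universe u

namespace Cfsg.Agent.Helper45.AO

open Cfsg Matrix Module

section Main

variable {ι : Type} [Fintype ι] [DecidableEq ι] {F : Type u} [Field F] [Fintype F]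
  (Q : QuadraticForm F (ι → F))

theorem projH_add (e f x y : ι → F) : projH Q e f (x + y) = projH Q e f x + projH Q e f y := by
  unfold projH
  rw [QuadraticMap.polar_add_right, QuadraticMap.polar_add_right, add_smul, add_smul]
  abel

theorem projH_smul (e f x : ι → F) (t : F) : projH Q e f (t • x) = t • projH Q e f x := by
  unfold projH
  rw [QuadraticMap.polar_smul_right, QuadraticMap.polar_smul_right, smul_sub, smul_sub, smul_smul,
    smul_smul, smul_eq_mul, smul_eq_mul]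

theorem quad_decomp (e f x : ι → F) (he : Q e = 0) (hf : Q f = 0)
    (hef : QuadraticMap.polar ⇑Q e f = 1) :
    Q x = QuadraticMap.polar ⇑Q e x * QuadraticMap.polar ⇑Q f x + Q (projH Q e f x) := by
  have hdec : x = QuadraticMap.polar ⇑Q f x • e + QuadraticMap.polar ⇑Q e x • f + projH Q e f x := by
    unfold projH
    abel
  have h1 := projH_perp_e Q e f x he hef
  have h2 := projH_perp_f Q e f x hf hef
  conv_lhs => rw [hdec]
  rw [Helper13.Q_add', Helper13.Q_add', QuadraticMap.map_smul, QuadraticMap.map_smul, he, hf,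
    QuadraticMap.polar_smul_left, QuadraticMap.polar_smul_right, hef, QuadraticMap.polar_add_left,
    QuadraticMap.polar_smul_left, QuadraticMap.polar_smul_left, h1, h2]
  simp only [smul_eq_mul, mul_zero, add_zero, zero_add, mul_one]
  ring

/-- the semilinear map assembled from its restriction to the complement of a hyperbolic pair -/
def PhiMap (e f e₁ f₁ : ι → F) (φ : (ι → F) → (ι → F)) (σ : F ≃+* F) (c : F) (x : ι → F) : ι → F :=
  σ (QuadraticMap.polar ⇑Q f x) • (c • e₁) + σ (QuadraticMap.polar ⇑Q e x) • f₁ + φ (projH Q e f x)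

theorem induced_of_maps (hQ : (QuadraticMap.polarBilin Q).Nondegenerate) (hn : 5 ≤ Fintype.card ι)
    (α : POmega F ⇑Q ≃* POmega F ⇑Q) (e f e₁ f₁ : ι → F) (he : Q e = 0) (hf : Q f = 0)
    (hef : QuadraticMap.polar ⇑Q e f = 1) (he₁ : Q e₁ = 0) (hf₁ : Q f₁ = 0)
    (hef₁ : QuadraticMap.polar ⇑Q e₁ f₁ = 1) (φ : (ι → F) → (ι → F)) (σ : F ≃+* F) (c : F)
    (hc0 : c ≠ 0)
    (hφadd : ∀ h h' : ι → F, QuadraticMap.polar ⇑Q e h = 0 → QuadraticMap.polar ⇑Q f h = 0 →
      QuadraticMap.polar ⇑Q e h' = 0 → QuadraticMap.polar ⇑Q f h' = 0 → φ (h + h') = φ h + φ h')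
    (hφsmul : ∀ h : ι → F, QuadraticMap.polar ⇑Q e h = 0 → QuadraticMap.polar ⇑Q f h = 0 →
      ∀ t : F, φ (t • h) = σ t • φ h)
    (hφH : ∀ h : ι → F, QuadraticMap.polar ⇑Q e h = 0 → QuadraticMap.polar ⇑Q f h = 0 →
      QuadraticMap.polar ⇑Q e₁ (φ h) = 0 ∧ QuadraticMap.polar ⇑Q f₁ (φ h) = 0)
    (hcone : ∀ h : ι → F, QuadraticMap.polar ⇑Q e h = 0 → QuadraticMap.polar ⇑Q f h = 0 →
      Q (φ h) = c * σ (Q h))
    (hφα : ∀ (h : ι → F) (hh : QuadraticMap.polar ⇑Q e h = 0)
      (hh' : QuadraticMap.polar ⇑Q e₁ (φ h) = 0), QuadraticMap.polar ⇑Q f h = 0 →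
      α (piΩ Q (eichΩ Q hQ hn e h he hh)) = piΩ Q (eichΩ Q hQ hn e₁ (φ h) he₁ hh'))
    (hψα : ∀ (k : ι → F) (hk : QuadraticMap.polar ⇑Q f k = 0)
      (hk' : QuadraticMap.polar ⇑Q f₁ (c⁻¹ • φ k) = 0), QuadraticMap.polar ⇑Q e k = 0 →
      α (piΩ Q (eichΩ Q hQ hn f k hf hk)) = piΩ Q (eichΩ Q hQ hn f₁ (c⁻¹ • φ k) hf₁ hk')) :
    ∃ g : GL ι F, IsSemisimilarityPair ⇑Q g σ ∧ IsInducedBySemilinearPOmega ⇑Q g σ α := by
  have hφ0 : φ 0 = 0 := by
    have h1 := hφsmul 0 (by simp) (by simp) 0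
    rw [zero_smul, map_zero, zero_smul] at h1
    exact h1
  have hfe : QuadraticMap.polar ⇑Q f e = 1 := by rw [QuadraticMap.polar_comm]; exact hef
  have hpe : ∀ x : ι → F, QuadraticMap.polar ⇑Q e (projH Q e f x) = 0 :=
    fun x => projH_perp_e Q e f x he hef
  have hpf : ∀ x : ι → F, QuadraticMap.polar ⇑Q f (projH Q e f x) = 0 :=
    fun x => projH_perp_f Q e f x hf hef
  have hSS : SS Q (PhiMap Q e f e₁ f₁ φ σ c) σ c := by
    refine ⟨?_, ?_, ?_, hc0⟩
    · intro x y
      unfold PhiMap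
      rw [QuadraticMap.polar_add_right, QuadraticMap.polar_add_right, map_add, map_add, add_smul,
        add_smul, projH_add, hφadd _ _ (hpe x) (hpf x) (hpe y) (hpf y)]
      abel
    · intro t x
      unfold PhiMap
      rw [QuadraticMap.polar_smul_right, QuadraticMap.polar_smul_right, smul_eq_mul, smul_eq_mul,
        map_mul, map_mul, projH_smul, hφsmul _ (hpe x) (hpf x) t]
      funext i
      simp only [Pi.add_apply, Pi.smul_apply, smul_eq_mul]
      ring
    · intro x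
      obtain ⟨a1, a2⟩ := hφH _ (hpe x) (hpf x)
      unfold PhiMap
      rw [Helper13.Q_add', Helper13.Q_add', QuadraticMap.map_smul, QuadraticMap.map_smul,
        QuadraticMap.map_smul, he₁, hf₁, QuadraticMap.polar_smul_left,
        QuadraticMap.polar_smul_right, QuadraticMap.polar_smul_left, hef₁,
        QuadraticMap.polar_add_left, QuadraticMap.polar_smul_left, QuadraticMap.polar_smul_left,
        QuadraticMap.polar_smul_left, a1, a2, hcone _ (hpe x) (hpf x),
        quad_decomp Q e f x he hf hef, map_add, map_mul]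
      simp only [smul_eq_mul, mul_zero, add_zero, zero_add, mul_one]
      ring
  apply induced_of_SS Q hQ hn hSS α e f he hf hef
  · rintro s ⟨b, hb, hsb⟩
    obtain ⟨a1, a2⟩ := hφH _ (hpe b) (hpf b)
    refine ⟨eichΩ Q hQ hn e₁ (φ (projH Q e f b)) he₁ a1, ?_, ?_⟩
    · intro x
      show mv ⇑Q (eichO Q e₁ (φ (projH Q e f b)) he₁ a1) (PhiMap Q e f e₁ f₁ φ σ c x) =
        PhiMap Q e f e₁ f₁ φ σ c (mv ⇑Q (s : ↥(isometryGroup F ⇑Q)) x)
      rw [hsb, mv_eichO, mv_eichO, hSS.eich]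
      have hΦe : PhiMap Q e f e₁ f₁ φ σ c e = c • e₁ := by
        have h0 : projH Q e f e = 0 := by
          unfold projH
          rw [hfe, polar_self_zero Q e he]
          simp
        unfold PhiMap
        rw [hfe, polar_self_zero Q e he, h0, hφ0]
        simp
      have hΦb : PhiMap Q e f e₁ f₁ φ σ c b =
          φ (projH Q e f b) + (σ (QuadraticMap.polar ⇑Q f b) * c) • e₁ := by
        unfold PhiMap
        rw [hb, map_zero, zero_smul, add_zero, smul_smul]
        abel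
      rw [hΦe, hΦb, eich_smul_left, smul_smul, mul_inv_cancel₀ hc0, one_smul,
        eich_add_smul Q e₁ _ _ _ he₁ a1]
    · have hs : s = eichΩ Q hQ hn e (projH Q e f b) he (hpe b) := by
        apply Subtype.ext
        rw [hsb]
        show eichO Q e b he hb = eichO Q e (projH Q e f b) he (hpe b)
        have h1 : projH Q e f b = b + (-(QuadraticMap.polar ⇑Q f b)) • e := by
          unfold projH
          rw [hb, zero_smul, sub_zero, neg_smul, sub_eq_add_neg]
        have h2 : QuadraticMap.polar ⇑Q e (b + (-(QuadraticMap.polar ⇑Q f b)) • e) = 0 := by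
          rw [← h1]; exact hpe b
        rw [eichO_congr Q e _ _ he (hpe b) h2 h1]
        exact (eichO_add_smul Q e b _ he hb h2).symm
      rw [hs]
      exact hφα _ (hpe b) a1 (hpf b)
  · rintro s ⟨b, hb, hsb⟩
    obtain ⟨a1, a2⟩ := hφH _ (hpe b) (hpf b)
    have hk' : QuadraticMap.polar ⇑Q f₁ (c⁻¹ • φ (projH Q e f b)) = 0 := by
      rw [QuadraticMap.polar_smul_right, a2, smul_zero]
    refine ⟨eichΩ Q hQ hn f₁ (c⁻¹ • φ (projH Q e f b)) hf₁ hk', ?_, ?_⟩
    · intro x
      show mv ⇑Q (eichO Q f₁ (c⁻¹ • φ (projH Q e f b)) hf₁ hk') (PhiMap Q e f e₁ f₁ φ σ c x) =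
        PhiMap Q e f e₁ f₁ φ σ c (mv ⇑Q (s : ↥(isometryGroup F ⇑Q)) x)
      rw [hsb, mv_eichO, mv_eichO, hSS.eich]
      have hΦf : PhiMap Q e f e₁ f₁ φ σ c f = f₁ := by
        have h0 : projH Q e f f = 0 := by
          unfold projH
          rw [hef, polar_self_zero Q f hf]
          simp
        unfold PhiMap
        rw [hef, polar_self_zero Q f hf, h0, hφ0]
        simp
      have hΦb : PhiMap Q e f e₁ f₁ φ σ c b =
          φ (projH Q e f b) + σ (QuadraticMap.polar ⇑Q e b) • f₁ := by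
        unfold PhiMap
        rw [hb, map_zero, zero_smul, zero_add]
        abel
      rw [hΦf, hΦb, smul_add, smul_smul, eich_add_smul Q f₁ _ _ _ hf₁ hk']
    · have hs : s = eichΩ Q hQ hn f (projH Q e f b) hf (hpf b) := by
        apply Subtype.ext
        rw [hsb]
        show eichO Q f b hf hb = eichO Q f (projH Q e f b) hf (hpf b)
        have h1 : projH Q e f b = b + (-(QuadraticMap.polar ⇑Q e b)) • f := by
          unfold projH
          rw [hb, zero_smul, sub_zero, neg_smul, sub_eq_add_neg]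
        have h2 : QuadraticMap.polar ⇑Q f (b + (-(QuadraticMap.polar ⇑Q e b)) • f) = 0 := by
          rw [← h1]; exact hpf b
        rw [eichO_congr Q f _ _ hf (hpf b) h2 h1]
        exact (eichO_add_smul Q f b _ hf hb h2).symm
      rw [hs]
      exact hψα _ (hpf b) hk' (hpe b)

/-- **every automorphism of `PΩ(Q)` is induced by a semilinear semisimilarity** -/
theorem aut_induced (hQ : (QuadraticMap.polarBilin Q).Nondegenerate) (hn7 : 7 ≤ Fintype.card ι)
    (hcase : 9 ≤ Fintype.card ι ∨ TS4free Q) (α : POmega F ⇑Q ≃* POmega F ⇑Q) :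
    ∃ (g : GL ι F) (σ : F ≃+* F),
      IsSemisimilarityPair ⇑Q g σ ∧ IsInducedBySemilinearPOmega ⇑Q g σ α := by
  have hn : 5 ≤ Fintype.card ι := by omega
  have : CharP F (ringChar F) := ringChar.charP F
  have : Fact (ringChar F).Prime := ⟨CharP.char_is_prime F (ringChar F)⟩
  have hstar : ∀ (α' : POmega F ⇑Q ≃* POmega F ⇑Q) (e : ι → F) (he : Q e = 0), e ≠ 0 →
      ∃ (e' : ι → F) (he' : Q e' = 0), e' ≠ 0 ∧ (Ub Q e he).map α'.toMonoidHom = Ub Q e' he' :=
    fun α' e he he0 => star_map Q hQ hn (ringChar F) hcase α' e he he0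
  obtain ⟨e, he, he0⟩ := exists_sing_ne_zero Q hn
  obtain ⟨f, hf, hef⟩ := Helper43.exists_hyperbolic_pair Q
    (Helper43.polarNondeg_of_nondegenerate Q hQ) he0 he
  obtain ⟨e₁, f₁, fr⟩ := exists_frame Q hQ hn (ringChar F) α (hstar α) e f he hf hef
  obtain ⟨φ, hφ⟩ := exists_xmap Q hQ hn fr
  obtain ⟨φ', hφ'⟩ := exists_xmap Q hQ hn fr.symm
  obtain ⟨ψ, hψ⟩ := exists_xmap Q hQ hn fr.swap
  obtain ⟨ψ', hψ'⟩ := exists_xmap Q hQ hn fr.swap.symm
  obtain ⟨σ, hσ⟩ := xmap_semilinear (ringChar F) hn7 fr hφ hφ'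
  obtain ⟨τ, hτ⟩ := xmap_semilinear (ringChar F) hn7 fr.swap hψ hψ'
  have hστ := xmap_sigma_eq (ringChar F) hn7 fr hφ hψ σ τ hσ hτ
  have hτ' : ∀ k : ι → F, QuadraticMap.polar ⇑Q f k = 0 → QuadraticMap.polar ⇑Q e k = 0 →
      ∀ t : F, ψ (t • k) = σ t • ψ k := by
    intro k hk hk' t
    rw [hστ t]
    exact hτ k hk hk' t
  obtain ⟨c, hc0, hcone⟩ := xmap_cone (ringChar F) hn7 fr hφ σ hσ
  have hψeq := xmap_psi (ringChar F) hn7 fr hφ hφ' hψ σ hσ hτ' c hc0 hcone
  obtain ⟨g, h1, h2⟩ := induced_of_maps Q hQ hn α e f e₁ f₁ fr.he fr.hf fr.hef fr.he₁ fr.hf₁ fr.hef₁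
    φ σ c hc0
    (fun h h' a b c' d => xmap_add (ringChar F) fr hφ h h' a b c' d)
    hσ
    (fun h a b => ⟨(hφ h a b).1, (hφ h a b).2.1⟩)
    hcone
    (fun h hh hh' hfh => (hφ h hh hfh).2.2 fr.he fr.he₁ hh hh')
    (fun k hk hk' hek => by
      have h3 := (hψ k hk hek).2.2 fr.hf fr.hf₁ hk (hψ k hk hek).1
      rw [h3]
      congr 1
      exact eichΩ_congr Q hQ hn f₁ _ _ fr.hf₁ _ _ (hψeq k hek hk))
  exact ⟨g, σ, h1, h2⟩

/-- the semisimilarities induce all automorphisms of `PΩ(Q)` -/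
theorem gamma_top (hQ : (QuadraticMap.polarBilin Q).Nondegenerate) (hn7 : 7 ≤ Fintype.card ι)
    (hcase : 9 ≤ Fintype.card ι ∨ TS4free Q) : Cfsg.gammaPOmega F ⇑Q = ⊤ := by
  rw [eq_top_iff]
  intro α _
  unfold Cfsg.gammaPOmega Cfsg.autSubgroupOf
  apply Subgroup.subset_closure
  exact aut_induced Q hQ hn7 hcase α

end Main

end Cfsg.Agent.Helper45.AO
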