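import Cfsg.Agent.Helper45.TSing2

set_option autoImplicit false
set_option linter.unusedSectionVars false

universe u

namespace Cfsg.Agent.Helper45

open Cfsg Matrix

section Frame

variable {ι : Type} [Fintype ι] [DecidableEq ι] {F : Type u} [Field F] (Q : QuadraticForm F (ι → F))
variable {κ : Type} [Fintype κ] [DecidableEq κ]

theorem polar_sum_right (x : ι → F) (l : κ → F) (v : κ → (ι → F)) :
    QuadraticMap.polar ⇑Q x (∑ i, l i • v i) = ∑ i, l i * QuadraticMap.polar ⇑Q x (v i) := by
  have h := map_sum (QuadraticMap.polarBilin Q x) (fun i => l i • v i) Finset.univ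
  simp only [QuadraticMap.polarBilin_apply_apply, map_smul, smul_eq_mul] at h
  exact h

theorem polar_sum_left (x : ι → F) (l : κ → F) (v : κ → (ι → F)) :
    QuadraticMap.polar ⇑Q (∑ i, l i • v i) x = ∑ i, l i * QuadraticMap.polar ⇑Q (v i) x := by
  rw [QuadraticMap.polar_comm, polar_sum_right]
  apply Finset.sum_congr rfl
  intro i _
  rw [QuadraticMap.polar_comm]

/-- `Q` is diagonal on a totally isotropic family -/
theorem quad_sum_ti (c : κ → (ι → F)) (hti : ∀ i j, QuadraticMap.polar ⇑Q (c i) (c j) = 0)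
    (l : κ → F) : Q (∑ i, l i • c i) = ∑ i, l i * l i * Q (c i) := by
  classical
  have key : ∀ s : Finset κ, Q (∑ i ∈ s, l i • c i) = ∑ i ∈ s, l i * l i * Q (c i) := by
    intro s
    induction s using Finset.induction_on with
    | empty => simp
    | insert a s ha ih =>
      rw [Finset.sum_insert ha, Finset.sum_insert ha, Helper13.Q_add', ih, QuadraticMap.map_smul]
      have h0 : QuadraticMap.polar ⇑Q (l a • c a) (∑ i ∈ s, l i • c i) = 0 := by
        have h := map_sum (QuadraticMap.polarBilin Q (l a • c a)) (fun i => l i • c i) s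
        simp only [QuadraticMap.polarBilin_apply_apply] at h
        rw [h]
        apply Finset.sum_eq_zero
        intro i _
        rw [QuadraticMap.polar_smul_left, QuadraticMap.polar_smul_right, hti]
        simp
      rw [h0, add_zero, smul_eq_mul]
  exact key Finset.univ

/-- a totally isotropic frame `c` with a dual family `d`; `σ` records its shape: `Q (c i) = 1` at the
fixed points of the involution `σ` and `Q (c i) = 0` elsewhere -/
structure InvFrame (σ : κ → κ) (c d : κ → (ι → F)) : Prop where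
  ti : ∀ i j, QuadraticMap.polar ⇑Q (c i) (c j) = 0
  dual : ∀ i j, QuadraticMap.polar ⇑Q (d i) (c j) = if i = j then 1 else 0
  quad : ∀ i, Q (c i) = if σ i = i then 1 else 0
  invol : ∀ i, σ (σ i) = i

/-- the nilpotent endomorphism `x ↦ ∑ f(x, c i) c (σ i)` attached to a frame -/
def frameN (σ : κ → κ) (c : κ → (ι → F)) : (ι → F) →ₗ[F] (ι → F) :=
  ∑ i, (QuadraticMap.polarBilin Q (c i)).smulRight (c (σ i))

theorem frameN_apply (σ : κ → κ) (c : κ → (ι → F)) (x : ι → F) :
    frameN Q σ c x = ∑ i, QuadraticMap.polar ⇑Q x (c i) • c (σ i) := by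
  unfold frameN
  rw [LinearMap.sum_apply]
  apply Finset.sum_congr rfl
  intro i _
  rw [LinearMap.smulRight_apply, QuadraticMap.polarBilin_apply_apply, QuadraticMap.polar_comm]

variable {Q}
variable {σ : κ → κ} {c d : κ → (ι → F)}

theorem InvFrame.frameN_d (h : InvFrame Q σ c d) (j : κ) : frameN Q σ c (d j) = c (σ j) := by
  rw [frameN_apply]
  rw [Finset.sum_eq_single j]
  · rw [h.dual, if_pos rfl, one_smul]
  · intro i _ hij
    rw [h.dual, if_neg (Ne.symm hij), zero_smul]
  · intro hj
    exact absurd (Finset.mem_univ j) hj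

theorem InvFrame.polar_frameN_c (h : InvFrame Q σ c d) (x : ι → F) (j : κ) :
    QuadraticMap.polar ⇑Q (frameN Q σ c x) (c j) = 0 := by
  rw [frameN_apply, polar_sum_left]
  apply Finset.sum_eq_zero
  intro i _
  rw [h.ti, mul_zero]

theorem InvFrame.frameN_frameN (h : InvFrame Q σ c d) (x : ι → F) :
    frameN Q σ c (frameN Q σ c x) = 0 := by
  rw [frameN_apply]
  apply Finset.sum_eq_zero
  intro i _
  rw [h.polar_frameN_c, zero_smul]

theorem InvFrame.quad_frameN (h : InvFrame Q σ c d) (x : ι → F) :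
    Q (frameN Q σ c x) = ∑ i, QuadraticMap.polar ⇑Q x (c i) * QuadraticMap.polar ⇑Q x (c i) *
      Q (c (σ i)) := by
  rw [frameN_apply]
  exact quad_sum_ti Q (fun i => c (σ i)) (fun i j => h.ti (σ i) (σ j)) _

theorem InvFrame.linIndep (h : InvFrame Q σ c d) : LinearIndependent F c := by
  rw [Fintype.linearIndependent_iff]
  intro g hg j
  have h1 : QuadraticMap.polar ⇑Q (d j) (∑ i, g i • c i) = g j := by
    rw [polar_sum_right, Finset.sum_eq_single j]
    · rw [h.dual, if_pos rfl, mul_one]
    · intro i _ hij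
      rw [h.dual, if_neg (Ne.symm hij), mul_zero]
    · intro hj
      exact absurd (Finset.mem_univ j) hj
  rw [hg] at h1
  rw [← h1]
  simp

theorem InvFrame.range_frameN (h : InvFrame Q σ c d) :
    LinearMap.range (frameN Q σ c) = Submodule.span F (Set.range c) := by
  apply le_antisymm
  · rintro _ ⟨x, rfl⟩
    rw [frameN_apply]
    apply Submodule.sum_mem
    intro i _
    exact Submodule.smul_mem _ _ (Submodule.subset_span ⟨σ i, rfl⟩)
  · rw [Submodule.span_le]
    rintro _ ⟨j, rfl⟩
    refine ⟨d (σ j), ?_⟩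
    rw [h.frameN_d, h.invol]

theorem InvFrame.finrank_range (h : InvFrame Q σ c d) :
    Module.finrank F (LinearMap.range (frameN Q σ c)) = Fintype.card κ := by
  rw [h.range_frameN]
  exact finrank_span_eq_card h.linIndep

/-- `x ↦ x + N x` preserves `Q` in characteristic two -/
theorem InvFrame.quad_add [CharP F 2] (h : InvFrame Q σ c d) (x : ι → F) :
    Q (x + frameN Q σ c x) = Q x := by
  rw [Helper13.Q_add', h.quad_frameN]
  have h1 : QuadraticMap.polar ⇑Q x (frameN Q σ c x) =
      ∑ i, QuadraticMap.polar ⇑Q x (c i) * QuadraticMap.polar ⇑Q x (c (σ i)) := by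
    rw [frameN_apply, polar_sum_right]
  rw [h1]
  have h2 : ∀ i, QuadraticMap.polar ⇑Q x (c i) * QuadraticMap.polar ⇑Q x (c i) * Q (c (σ i)) =
      if σ i = i then QuadraticMap.polar ⇑Q x (c i) * QuadraticMap.polar ⇑Q x (c i) else 0 := by
    intro i
    rw [h.quad (σ i)]
    by_cases hi : σ i = i
    · rw [if_pos (by rw [hi]; exact hi), if_pos hi, mul_one]
    · rw [if_neg (fun hc => hi (hc.symm.trans (h.invol i))), if_neg hi, mul_zero]
  have h3 : ∀ i, QuadraticMap.polar ⇑Q x (c i) * QuadraticMap.polar ⇑Q x (c (σ i)) =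
      (if σ i = i then QuadraticMap.polar ⇑Q x (c i) * QuadraticMap.polar ⇑Q x (c i) else 0) +
      (if σ i = i then 0 else QuadraticMap.polar ⇑Q x (c i) * QuadraticMap.polar ⇑Q x (c (σ i))) := by
    intro i
    by_cases hi : σ i = i
    · rw [if_pos hi, if_pos hi, add_zero, hi]
    · rw [if_neg hi, if_neg hi, zero_add]
  have h4 : ∑ i, (if σ i = i then (0 : F) else
      QuadraticMap.polar ⇑Q x (c i) * QuadraticMap.polar ⇑Q x (c (σ i))) = 0 := by
    apply Finset.sum_involution (fun i _ => σ i)
    · intro i _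
      by_cases hi : σ i = i
      · rw [if_pos hi, if_pos (by rw [hi]; exact hi), add_zero]
      · rw [if_neg hi, if_neg (fun hc => hi (hc.symm.trans (h.invol i))), h.invol,
          mul_comm (QuadraticMap.polar ⇑Q x (c (σ i)))]
        exact CharTwo.add_self_eq_zero _
    · intro i _ hne hi
      exact hne (if_pos hi)
    · intro i _
      exact Finset.mem_univ _
    · intro i _
      exact h.invol i
  rw [Finset.sum_congr rfl (fun i _ => h2 i), Finset.sum_congr rfl (fun i _ => h3 i),
    Finset.sum_add_distrib, h4, add_zero, add_assoc, CharTwo.add_self_eq_zero, add_zero]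

theorem vec_add_self [CharP F 2] (v : ι → F) : v + v = 0 := by
  funext i
  exact CharTwo.add_self_eq_zero (v i)

theorem InvFrame.involutive [CharP F 2] (h : InvFrame Q σ c d) (x : ι → F) :
    (x + frameN Q σ c x) + frameN Q σ c (x + frameN Q σ c x) = x := by
  rw [map_add, h.frameN_frameN, add_zero, add_assoc, vec_add_self, add_zero]

/-- every frame defines an involution of the isometry group (characteristic two) -/
theorem InvFrame.exists_iso [CharP F 2] (h : InvFrame Q σ c d) :
    ∃ t : ↥(isometryGroup F ⇑Q), t * t = 1 ∧ ∀ x, mv ⇑Q t x = x + frameN Q σ c x := by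
  let τ : (ι → F) →ₗ[F] (ι → F) := LinearMap.id + frameN Q σ c
  have hτ : ∀ x, τ x = x + frameN Q σ c x := fun x => rfl
  have hinv : Function.Involutive τ := by
    intro x
    rw [hτ, hτ]
    exact h.involutive x
  obtain ⟨k, hk⟩ := Helper44.exists_iso_of_linearEquiv Q (LinearEquiv.ofInvolutive τ hinv)
    (fun x => by
      show Q (τ x) = Q x
      rw [hτ]
      exact h.quad_add x)
  have hk' : ∀ x, mv ⇑Q k x = x + frameN Q σ c x := fun x => by
    rw [hk x]
    rfl
  refine ⟨k, ?_, hk'⟩
  apply ext_mv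
  intro x
  rw [mv_mul, mv_one, hk', hk']
  exact h.involutive x

theorem mv_sum' (g : ↥(isometryGroup F ⇑Q)) (v : κ → (ι → F)) :
    mv ⇑Q g (∑ i, v i) = ∑ i, mv ⇑Q g (v i) := Matrix.mulVec_sum _ _ _

/-- two involutions with frames of the same shape are conjugate (Witt) -/
theorem frame_conj (hQ : (QuadraticMap.polarBilin Q).Nondegenerate) {c' d' : κ → (ι → F)}
    (h : InvFrame Q σ c d) (h' : InvFrame Q σ c' d') (t t' : ↥(isometryGroup F ⇑Q))
    (ht : ∀ x, mv ⇑Q t x = x + frameN Q σ c x) (ht' : ∀ x, mv ⇑Q t' x = x + frameN Q σ c' x) :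
    IsConj t t' := by
  let φ : (ι → F) →ₗ[F] (ι → F) := ∑ i, (QuadraticMap.polarBilin Q (d i)).smulRight (c' i)
  have hφ : ∀ x, φ x = ∑ i, QuadraticMap.polar ⇑Q (d i) x • c' i := by
    intro x
    show (∑ i, (QuadraticMap.polarBilin Q (d i)).smulRight (c' i)) x = _
    rw [LinearMap.sum_apply]
    apply Finset.sum_congr rfl
    intro i _
    rw [LinearMap.smulRight_apply, QuadraticMap.polarBilin_apply_apply]
  have hφl : ∀ l : κ → F, φ (∑ j, l j • c j) = ∑ j, l j • c' j := by
    intro l
    rw [hφ]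
    apply Finset.sum_congr rfl
    intro i _
    congr 1
    rw [polar_sum_right, Finset.sum_eq_single i]
    · rw [h.dual, if_pos rfl, mul_one]
    · intro j _ hji
      rw [h.dual, if_neg (Ne.symm hji), mul_zero]
    · intro hi
      exact absurd (Finset.mem_univ i) hi
  have hφc : ∀ j, φ (c j) = c' j := by
    intro j
    rw [hφ, Finset.sum_eq_single j]
    · rw [h.dual, if_pos rfl, one_smul]
    · intro i _ hij
      rw [h.dual, if_neg hij, zero_smul]
    · intro hj
      exact absurd (Finset.mem_univ j) hj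
  obtain ⟨g, hg, hgx⟩ := Helper13.witt_quad Q hQ (Submodule.span F (Set.range c)) φ
    (by
      intro x hx
      obtain ⟨l, rfl⟩ := (Submodule.mem_span_range_iff_exists_fun F).mp hx
      rw [hφl, quad_sum_ti Q c' h'.ti, quad_sum_ti Q c h.ti]
      apply Finset.sum_congr rfl
      intro i _
      rw [h.quad, h'.quad])
    (by
      intro x hx h0
      obtain ⟨l, rfl⟩ := (Submodule.mem_span_range_iff_exists_fun F).mp hx
      rw [hφl] at h0
      have hl := Fintype.linearIndependent_iff.mp h'.linIndep l h0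
      apply Finset.sum_eq_zero
      intro i _
      rw [hl i, zero_smul])
  obtain ⟨k, hk⟩ := Helper44.exists_iso_of_linearEquiv Q g hg
  have hkc : ∀ j, mv ⇑Q k (c j) = c' j := by
    intro j
    rw [hk, hgx (c j) (Submodule.subset_span ⟨j, rfl⟩), hφc]
  rw [isConj_iff]
  refine ⟨k, ?_⟩
  apply ext_mv
  intro x
  have hx : mv ⇑Q k (mv ⇑Q k⁻¹ x) = x := by rw [← mv_mul, mul_inv_cancel, mv_one]
  rw [mv_mul, mv_mul, ht, ht', mv_add, hx, frameN_apply, frameN_apply, mv_sum']
  congr 1
  apply Finset.sum_congr rfl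
  intro i _
  rw [mv_smul, hkc, ← hkc i, ← mv_polar Q k (mv ⇑Q k⁻¹ x) (c i), hx]

/-- the matrix of `t - 1` acts as the frame endomorphism -/
theorem toLin_sub_one_eq (t : ↥(isometryGroup F ⇑Q))
    (ht : ∀ x, mv ⇑Q t x = x + frameN Q σ c x) :
    Matrix.toLin' (((t : GL ι F) : Matrix ι ι F) - 1) = frameN Q σ c := by
  apply LinearMap.ext
  intro x
  rw [Matrix.toLin'_apply, Matrix.sub_mulVec, Matrix.one_mulVec]
  show mv ⇑Q t x - x = _
  rw [ht, add_sub_cancel_left]

theorem InvFrame.rank_eq (h : InvFrame Q σ c d) (t : ↥(isometryGroup F ⇑Q))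
    (ht : ∀ x, mv ⇑Q t x = x + frameN Q σ c x) :
    (((t : GL ι F) : Matrix ι ι F) - 1).rank = Fintype.card κ := by
  rw [← finrank_range_sub_one, toLin_sub_one_eq t ht]
  exact h.finrank_range

end Frame

end Cfsg.Agent.Helper45
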