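import Cfsg.Agent.Helper45.InvFrame
import Cfsg.Agent.S2622
import Cfsg.Agent.Helper13.SympBasis

set_option autoImplicit false
set_option linter.unusedSectionVars false

universe u

namespace Cfsg.Agent.Helper45

open Cfsg Matrix

section Normal

variable {ι : Type} [Fintype ι] [DecidableEq ι] {F : Type u} [Field F] [CharP F 2]
  (Q : QuadraticForm F (ι → F))

/-- the endomorphism `t + 1 = t - 1` of an isometry in characteristic two -/
def nilp (t : ↥(isometryGroup F ⇑Q)) : (ι → F) →ₗ[F] (ι → F) :=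
  Matrix.toLin' (((t : GL ι F) : Matrix ι ι F) - 1)

theorem nilp_apply (t : ↥(isometryGroup F ⇑Q)) (x : ι → F) : nilp Q t x = mv ⇑Q t x + x := by
  unfold nilp
  rw [Matrix.toLin'_apply, Matrix.sub_mulVec, Matrix.one_mulVec]
  show mv ⇑Q t x - x = _
  funext i
  rw [Pi.sub_apply, Pi.add_apply, CharTwo.sub_eq_add]

theorem mv_eq_add_nilp (t : ↥(isometryGroup F ⇑Q)) (x : ι → F) : mv ⇑Q t x = x + nilp Q t x := by
  rw [nilp_apply, add_comm (mv ⇑Q t x) x, ← add_assoc, vec_add_self, zero_add]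

/-- the symmetric bilinear form `β(x, y) = f(x, (t+1) y)` of an involution -/
def invForm (t : ↥(isometryGroup F ⇑Q)) : LinearMap.BilinForm F (ι → F) :=
  (QuadraticMap.polarBilin Q).compl₂ (nilp Q t)

theorem invForm_apply (t : ↥(isometryGroup F ⇑Q)) (x y : ι → F) :
    invForm Q t x y = QuadraticMap.polar ⇑Q x (nilp Q t y) := rfl

theorem invForm_symm (t : ↥(isometryGroup F ⇑Q)) (ht : t * t = 1) (x y : ι → F) :
    invForm Q t x y = invForm Q t y x := by
  rw [invForm_apply, invForm_apply, nilp_apply, nilp_apply, QuadraticMap.polar_add_right,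
    QuadraticMap.polar_add_right]
  have h1 : QuadraticMap.polar ⇑Q x (mv ⇑Q t y) = QuadraticMap.polar ⇑Q (mv ⇑Q t x) y := by
    have h := mv_polar Q t x (mv ⇑Q t y)
    rw [← mv_mul, ht, mv_one] at h
    exact h.symm
  rw [h1, QuadraticMap.polar_comm ⇑Q (mv ⇑Q t x) y, QuadraticMap.polar_comm ⇑Q x y]

theorem invForm_self (t : ↥(isometryGroup F ⇑Q)) (x : ι → F) :
    invForm Q t x x = Q (mv ⇑Q t x + x) := by
  rw [invForm_apply, nilp_apply, Helper13.Q_add', mv_quad ⇑Q t x, QuadraticMap.polar_add_right,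
    QuadraticMap.polar_self, QuadraticMap.polar_comm ⇑Q x (mv ⇑Q t x), two_smul,
    CharTwo.add_self_eq_zero, add_zero, zero_add]

theorem nilp_nilp (t : ↥(isometryGroup F ⇑Q)) (ht : t * t = 1) (x : ι → F) :
    nilp Q t (nilp Q t x) = 0 := by
  rw [nilp_apply, nilp_apply, mv_add, ← mv_mul, ht, mv_one, add_comm x, vec_add_self]

theorem polar_nilp_nilp (t : ↥(isometryGroup F ⇑Q)) (ht : t * t = 1) (x y : ι → F) :
    QuadraticMap.polar ⇑Q (nilp Q t x) (nilp Q t y) = 0 := by
  rw [← invForm_apply, invForm_symm Q t ht, invForm_apply, nilp_nilp Q t ht]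
  exact QuadraticMap.polar_zero_right _ _

theorem nilp_eq_zero_of (hQ : (QuadraticMap.polarBilin Q).Nondegenerate)
    (t : ↥(isometryGroup F ⇑Q)) (ht : t * t = 1) (x : ι → F) (h : ∀ y, invForm Q t x y = 0) :
    nilp Q t x = 0 := by
  apply hQ.1
  intro y
  rw [QuadraticMap.polarBilin_apply_apply, QuadraticMap.polar_comm, ← invForm_apply,
    invForm_symm Q t ht]
  exact h y

/-- normal form of an involution on whose image `Q` does not vanish: a product of commuting
reflections in an orthonormal totally isotropic frame -/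
theorem normal_nonalt [Fintype F] (hQ : (QuadraticMap.polarBilin Q).Nondegenerate)
    (t : ↥(isometryGroup F ⇑Q)) (ht : t * t = 1) (hna : ∃ v, Q (mv ⇑Q t v + v) ≠ 0) (s : ℕ)
    (hs : (((t : GL ι F) : Matrix ι ι F) - 1).rank = s) :
    ∃ c d : Fin s → (ι → F), InvFrame Q id c d ∧ ∀ x, mv ⇑Q t x = x + frameN Q id c x := by
  obtain ⟨U, hU⟩ := Submodule.exists_isCompl (LinearMap.ker (nilp Q t))
  have hfin : Module.finrank F U = s := by
    have h1 := Submodule.finrank_add_eq_of_isCompl hU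
    have h2 := LinearMap.finrank_range_add_finrank_ker (nilp Q t)
    have h3 : Module.finrank F (LinearMap.range (nilp Q t)) = s := by
      rw [← hs]
      exact finrank_range_sub_one Q t
    omega
  let B : LinearMap.BilinForm F U := (invForm Q t).restrict U
  have hB : ∀ a b : U, B a b = invForm Q t (a : ι → F) (b : ι → F) := fun a b => rfl
  have hS : B.IsSymm := ⟨fun a b => invForm_symm Q t ht a b⟩
  have hdecomp : ∀ x : ι → F, ∃ k ∈ LinearMap.ker (nilp Q t), ∃ u ∈ U, k + u = x := by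
    intro x
    have hx : x ∈ LinearMap.ker (nilp Q t) ⊔ U := by
      rw [hU.sup_eq_top]
      trivial
    exact Submodule.mem_sup.mp hx
  have hker : ∀ k ∈ LinearMap.ker (nilp Q t), ∀ x, invForm Q t x k = 0 := by
    intro k hk x
    rw [invForm_apply, LinearMap.mem_ker.mp hk]
    exact QuadraticMap.polar_zero_right _ _
  have hleft : ∀ a : U, (∀ b : U, B a b = 0) → a = 0 := by
    intro a ha
    have h1 : nilp Q t (a : ι → F) = 0 := by
      apply nilp_eq_zero_of Q hQ t ht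
      intro y
      obtain ⟨k, hk, u, hu, rfl⟩ := hdecomp y
      rw [map_add, hker k hk, zero_add]
      exact ha ⟨u, hu⟩
    have h2 : (a : ι → F) ∈ LinearMap.ker (nilp Q t) ⊓ U := ⟨LinearMap.mem_ker.mpr h1, a.2⟩
    rw [hU.inf_eq_bot] at h2
    exact Subtype.ext ((Submodule.mem_bot F).mp h2)
  have hnd : B.Nondegenerate :=
    ⟨hleft, fun a ha => hleft a (fun b => by rw [hS.eq a b]; exact ha b)⟩
  have hna' : ∃ v : U, B v v ≠ 0 := by
    obtain ⟨v, hv⟩ := hna
    obtain ⟨k, hk, u, hu, rfl⟩ := hdecomp v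
    refine ⟨⟨u, hu⟩, ?_⟩
    rw [hB, invForm_self]
    have h1 : mv ⇑Q t (k + u) + (k + u) = mv ⇑Q t u + u := by
      rw [← nilp_apply, ← nilp_apply, map_add, LinearMap.mem_ker.mp hk, zero_add]
    rwa [h1] at hv
  obtain ⟨b, hb⟩ := Cfsg.Agent.S2622.result hfin B hS hnd hna'
  have hbb : ∀ i j, invForm Q t (b i : ι → F) (b j : ι → F) = if i = j then 1 else 0 :=
    fun i j => hb i j
  have hframe : InvFrame Q id (fun i => nilp Q t (b i : ι → F)) (fun i => (b i : ι → F)) :=
    { ti := fun i j => polar_nilp_nilp Q t ht _ _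
      dual := fun i j => hbb i j
      quad := fun i => by
        show Q (nilp Q t (b i : ι → F)) = if i = i then 1 else 0
        rw [if_pos rfl, nilp_apply, ← invForm_self, hbb i i, if_pos rfl]
      invol := fun i => rfl }
  refine ⟨_, _, hframe, ?_⟩
  intro x
  rw [mv_eq_add_nilp]
  congr 1
  obtain ⟨k, hk, u, hu, rfl⟩ := hdecomp x
  have hu' := congrArg U.subtype (b.sum_repr ⟨u, hu⟩)
  rw [map_sum] at hu'
  simp only [map_smul, Submodule.subtype_apply] at hu'
  have hN : nilp Q t (k + u) = ∑ i, (b.repr ⟨u, hu⟩ i) • nilp Q t (b i : ι → F) := by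
    rw [map_add, LinearMap.mem_ker.mp hk, zero_add]
    conv_lhs => rw [← hu']
    rw [map_sum]
    apply Finset.sum_congr rfl
    intro i _
    rw [map_smul]
  have hpol : ∀ j, QuadraticMap.polar ⇑Q (k + u) (nilp Q t (b j : ι → F)) = b.repr ⟨u, hu⟩ j := by
    intro j
    rw [← invForm_apply, invForm_symm Q t ht, invForm_apply, hN, polar_sum_right,
      Finset.sum_eq_single j]
    · rw [← invForm_apply, hbb, if_pos rfl, mul_one]
    · intro i _ hij
      rw [← invForm_apply, hbb, if_neg (Ne.symm hij), mul_zero]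
    · intro hj
      exact absurd (Finset.mem_univ j) hj
  rw [hN, frameN_apply]
  apply Finset.sum_congr rfl
  intro i _
  rw [hpol]
  rfl

/-- normal form of an involution on whose image `Q` vanishes: a product of commuting long root
elements -/
theorem normal_alt (hQ : (QuadraticMap.polarBilin Q).Nondegenerate)
    (t : ↥(isometryGroup F ⇑Q)) (ht : t * t = 1) (halt : ∀ v, Q (mv ⇑Q t v + v) = 0) :
    ∃ (k : ℕ) (c d : Fin k ⊕ Fin k → (ι → F)), InvFrame Q Sum.swap c d ∧
      ∀ x, mv ⇑Q t x = x + frameN Q Sum.swap c x := by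
  have hA : (invForm Q t).IsAlt := fun x => by
    rw [invForm_self]
    exact halt x
  obtain ⟨m, r, b, h1, h2, h3, h4⟩ := Helper13.exists_symplectic_basis (invForm Q t) hA
  have hrad : ∀ j : Fin r, nilp Q t (b (Sum.inr j)) = 0 :=
    fun j => nilp_eq_zero_of Q hQ t ht _ (h4 j)
  have huu : ∀ i j : Fin m ⊕ Fin m, invForm Q t (b (Sum.inl i)) (b (Sum.inl j)) =
      if j = i.swap then 1 else 0 := by
    rintro (i | i) (j | j)
    · rw [h2, Sum.swap_inl, if_neg (fun h => Sum.inl_ne_inr h)]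
    · rw [h1, Sum.swap_inl]
      by_cases hij : i = j
      · rw [if_pos hij, if_pos (by rw [hij])]
      · rw [if_neg hij, if_neg (fun h => hij (Sum.inr_injective h).symm)]
    · rw [invForm_symm Q t ht, h1, Sum.swap_inr]
      by_cases hij : j = i
      · rw [if_pos hij, if_pos (by rw [hij])]
      · rw [if_neg hij, if_neg (fun h => hij (Sum.inl_injective h))]
    · rw [h3, Sum.swap_inr, if_neg (fun h => Sum.inr_ne_inl h)]
  have hframe : InvFrame Q Sum.swap (fun i : Fin m ⊕ Fin m => nilp Q t (b (Sum.inl i)))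
      (fun i : Fin m ⊕ Fin m => b (Sum.inl i.swap)) :=
    { ti := fun i j => polar_nilp_nilp Q t ht _ _
      dual := fun i j => by
        show invForm Q t (b (Sum.inl i.swap)) (b (Sum.inl j)) = _
        rw [huu, Sum.swap_swap]
        by_cases hij : i = j
        · rw [if_pos hij, if_pos hij.symm]
        · rw [if_neg hij, if_neg (Ne.symm hij)]
      quad := fun i => by
        show Q (nilp Q t (b (Sum.inl i))) = _
        rw [nilp_apply, halt, if_neg]
        cases i with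
        | inl i => exact fun h => Sum.inr_ne_inl h
        | inr i => exact fun h => Sum.inl_ne_inr h
      invol := fun i => Sum.swap_swap i }
  refine ⟨m, _, _, hframe, ?_⟩
  intro x
  rw [mv_eq_add_nilp]
  congr 1
  have hx := b.sum_repr x
  rw [Fintype.sum_sum_type] at hx
  have hN : nilp Q t x = ∑ i : Fin m ⊕ Fin m, (b.repr x (Sum.inl i)) • nilp Q t (b (Sum.inl i)) := by
    conv_lhs => rw [← hx]
    rw [map_add, map_sum, map_sum]
    have h0 : ∑ j : Fin r, nilp Q t ((b.repr x (Sum.inr j)) • b (Sum.inr j)) = 0 := by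
      apply Finset.sum_eq_zero
      intro j _
      rw [map_smul, hrad, smul_zero]
    rw [h0, add_zero]
    apply Finset.sum_congr rfl
    intro i _
    rw [map_smul]
  have hpol : ∀ j : Fin m ⊕ Fin m, QuadraticMap.polar ⇑Q x (nilp Q t (b (Sum.inl j))) =
      b.repr x (Sum.inl j.swap) := by
    intro j
    rw [← invForm_apply, invForm_symm Q t ht, invForm_apply, hN, polar_sum_right,
      Finset.sum_eq_single j.swap]
    · rw [← invForm_apply, huu, if_pos rfl, mul_one]
    · intro i _ hij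
      rw [← invForm_apply, huu, if_neg hij, mul_zero]
    · intro hj
      exact absurd (Finset.mem_univ _) hj
  rw [hN, frameN_apply]
  rw [← Equiv.sum_comp (Equiv.sumComm (Fin m) (Fin m))
    (fun i => (b.repr x (Sum.inl i)) • nilp Q t (b (Sum.inl i)))]
  apply Finset.sum_congr rfl
  intro i _
  rw [hpol]
  rfl

end Normal

section Classify

variable {ι : Type} [Fintype ι] [DecidableEq ι] {F : Type u} [Field F] [Fintype F] [CharP F 2]
  (Q : QuadraticForm F (ι → F))

/-- involutions with the same rank and the same type are conjugate in `O(Q)` -/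
theorem involution_isConj (hQ : (QuadraticMap.polarBilin Q).Nondegenerate)
    (t t' : ↥(isometryGroup F ⇑Q)) (ht : t * t = 1) (ht' : t' * t' = 1)
    (hrank : (((t : GL ι F) : Matrix ι ι F) - 1).rank = (((t' : GL ι F) : Matrix ι ι F) - 1).rank)
    (halt : (∀ v, Q (mv ⇑Q t v + v) = 0) ↔ (∀ v, Q (mv ⇑Q t' v + v) = 0)) : IsConj t t' := by
  by_cases h : ∀ v, Q (mv ⇑Q t v + v) = 0
  · obtain ⟨k, c, d, hf, hc⟩ := normal_alt Q hQ t ht h
    obtain ⟨k', c', d', hf', hc'⟩ := normal_alt Q hQ t' ht' (halt.mp h)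
    have h1 := hf.rank_eq t hc
    have h2 := hf'.rank_eq t' hc'
    rw [Fintype.card_sum, Fintype.card_fin] at h1 h2
    have hk : k = k' := by omega
    subst hk
    exact frame_conj hQ hf hf' t t' hc hc'
  · have h' : ¬ ∀ v, Q (mv ⇑Q t' v + v) = 0 := fun hc => h (halt.mpr hc)
    push Not at h h'
    obtain ⟨c, d, hf, hc⟩ := normal_nonalt Q hQ t ht h _ rfl
    obtain ⟨c', d', hf', hc'⟩ := normal_nonalt Q hQ t' ht' h' _ hrank.symm
    exact frame_conj hQ hf hf' t t' hc hc'

theorem rank_sub_one_conj (k t : ↥(isometryGroup F ⇑Q)) :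
    ((((k * t * k⁻¹ : ↥(isometryGroup F ⇑Q)) : GL ι F) : Matrix ι ι F) - 1).rank =
      (((t : GL ι F) : Matrix ι ι F) - 1).rank := by
  rw [← finrank_range_sub_one, ← finrank_range_sub_one, range_sub_one_conj, finrank_imgSub]

theorem alt_conj_iff (k t : ↥(isometryGroup F ⇑Q)) :
    (∀ v, Q (mv ⇑Q (k * t * k⁻¹) v + v) = 0) ↔ (∀ v, Q (mv ⇑Q t v + v) = 0) := by
  have key : ∀ v, mv ⇑Q (k * t * k⁻¹) v + v =
      mv ⇑Q k (mv ⇑Q t (mv ⇑Q k⁻¹ v) + mv ⇑Q k⁻¹ v) := by
    intro v
    rw [mv_add, ← mv_mul, ← mv_mul, ← mv_mul, mul_inv_cancel, mv_one, mul_assoc]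
  constructor
  · intro h v
    have h1 := h (mv ⇑Q k v)
    have hkv : mv ⇑Q k⁻¹ (mv ⇑Q k v) = v := by rw [← mv_mul, inv_mul_cancel, mv_one]
    rw [key, mv_quad ⇑Q k, hkv] at h1
    exact h1
  · intro h v
    rw [key, mv_quad ⇑Q k]
    exact h _

theorem rank_one_sub_one :
    ((((1 : ↥(isometryGroup F ⇑Q)) : GL ι F) : Matrix ι ι F) - 1).rank = 0 := by
  have h : (((1 : ↥(isometryGroup F ⇑Q)) : GL ι F) : Matrix ι ι F) = 1 := rfl
  rw [h, sub_self, Matrix.rank_zero]

theorem rank_pos_of_ne_one (t : ↥(isometryGroup F ⇑Q)) (h1 : t ≠ 1) :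
    0 < (((t : GL ι F) : Matrix ι ι F) - 1).rank := by
  by_contra hcon
  have h0 : (((t : GL ι F) : Matrix ι ι F) - 1).rank = 0 := by omega
  rw [← finrank_range_sub_one, Submodule.finrank_eq_zero] at h0
  apply h1
  apply ext_mv
  intro x
  have hx : mv ⇑Q t x - x ∈ LinearMap.range (Matrix.toLin' (((t : GL ι F) : Matrix ι ι F) - 1)) :=
    (mem_range_sub_one Q t _).mpr ⟨x, rfl⟩
  rw [h0, Submodule.mem_bot, sub_eq_zero] at hx
  rw [hx, mv_one]

theorem two_rank_le (t : ↥(isometryGroup F ⇑Q)) (ht : t * t = 1) :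
    2 * (((t : GL ι F) : Matrix ι ι F) - 1).rank ≤ Fintype.card ι := by
  have h1 := finrank_fixSub_add_rank Q t
  have h2 := fix_involution_ge Q t ht
  omega

theorem alt_rank_even (hQ : (QuadraticMap.polarBilin Q).Nondegenerate)
    (t : ↥(isometryGroup F ⇑Q)) (ht : t * t = 1) (halt : ∀ v, Q (mv ⇑Q t v + v) = 0) :
    ∃ k, (((t : GL ι F) : Matrix ι ι F) - 1).rank = 2 * k := by
  obtain ⟨k, c, d, hf, hc⟩ := normal_alt Q hQ t ht halt
  refine ⟨k, ?_⟩
  rw [hf.rank_eq t hc, Fintype.card_sum, Fintype.card_fin]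
  ring

theorem alt_range_singular (t : ↥(isometryGroup F ⇑Q)) (halt : ∀ v, Q (mv ⇑Q t v + v) = 0) :
    ∀ w ∈ LinearMap.range (Matrix.toLin' (((t : GL ι F) : Matrix ι ι F) - 1)), Q w = 0 := by
  rintro _ ⟨y, rfl⟩
  have h := nilp_apply Q t y
  unfold nilp at h
  rw [h]
  exact halt y

theorem InvFrame.alt_of_swap {k : ℕ} {c d : Fin k ⊕ Fin k → (ι → F)} (h : InvFrame Q Sum.swap c d)
    (t : ↥(isometryGroup F ⇑Q)) (ht : ∀ x, mv ⇑Q t x = x + frameN Q Sum.swap c x) :
    ∀ v, Q (mv ⇑Q t v + v) = 0 := by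
  intro v
  rw [ht, add_comm v, add_assoc, vec_add_self, add_zero, h.quad_frameN]
  apply Finset.sum_eq_zero
  intro i _
  rw [h.quad, if_neg, mul_zero]
  rw [Sum.swap_swap]
  cases i with
  | inl i => exact fun h => Sum.inl_ne_inr h
  | inr i => exact fun h => Sum.inr_ne_inl h

theorem InvFrame.nonalt_of_id {s : ℕ} {c d : Fin s → (ι → F)} (h : InvFrame Q id c d) (hs : 0 < s)
    (t : ↥(isometryGroup F ⇑Q)) (ht : ∀ x, mv ⇑Q t x = x + frameN Q id c x) :
    ∃ v, Q (mv ⇑Q t v + v) ≠ 0 := by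
  refine ⟨d ⟨0, hs⟩, ?_⟩
  rw [ht, add_comm (d ⟨0, hs⟩), add_assoc, vec_add_self, add_zero, h.frameN_d, h.quad,
    if_pos (show id (id (⟨0, hs⟩ : Fin s)) = id ⟨0, hs⟩ from rfl)]
  exact one_ne_zero

omit [Fintype ι] [DecidableEq ι] [Field F] [Fintype F] [CharP F 2] in
/-- counting conjugacy classes through a complete set of representatives separated by an
invariant -/
theorem card_conjClasses_eq {G : Type*} [Group G] {I : Type} [Fintype I] {α : Type*} (inv : G → α)
    (P : G → Prop) (rep : I → G) (hinv : ∀ g h, IsConj g h → inv g = inv h) (hP : ∀ i, P (rep i))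
    (hinj : ∀ i j, inv (rep i) = inv (rep j) → i = j) (hsurj : ∀ g, P g → ∃ i, IsConj g (rep i)) :
    Nat.card {C : ConjClasses G // ∃ g : G, ConjClasses.mk g = C ∧ P g} = Fintype.card I := by
  rw [← Nat.card_eq_fintype_card]
  symm
  apply Nat.card_congr
  refine Equiv.ofBijective (fun i => ⟨ConjClasses.mk (rep i), rep i, rfl, hP i⟩) ⟨?_, ?_⟩
  · intro i j hij
    have h1 : ConjClasses.mk (rep i) = ConjClasses.mk (rep j) := congrArg Subtype.val hij
    exact hinj i j (hinv _ _ (ConjClasses.mk_eq_mk_iff_isConj.mp h1))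
  · rintro ⟨C, g, rfl, hg⟩
    obtain ⟨i, hi⟩ := hsurj g hg
    exact ⟨i, Subtype.ext (ConjClasses.mk_eq_mk_iff_isConj.mpr hi.symm)⟩

/-- the number of classes of involutions of `O(Q)` in characteristic two, from the admissible
ranks of the two types -/
theorem card_involution_classes (hQ : (QuadraticMap.polarBilin Q).Nondegenerate) (A B : ℕ)
    (hA : ∀ t : ↥(isometryGroup F ⇑Q), t * t = 1 → (((t : GL ι F) : Matrix ι ι F) - 1).rank ≤ A)
    (hB : ∀ (t : ↥(isometryGroup F ⇑Q)) (k : ℕ), t * t = 1 → (∀ v, Q (mv ⇑Q t v + v) = 0) →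
      (((t : GL ι F) : Matrix ι ι F) - 1).rank = 2 * k → k ≤ B)
    (exA : ∀ s, 1 ≤ s → s ≤ A → ∃ c d : Fin s → (ι → F), InvFrame Q id c d)
    (exB : ∀ k, 1 ≤ k → k ≤ B → ∃ c d : Fin k ⊕ Fin k → (ι → F), InvFrame Q Sum.swap c d) :
    Nat.card {C : ConjClasses ↥(isometryGroup F ⇑Q) //
      ∃ g : ↥(isometryGroup F ⇑Q), ConjClasses.mk g = C ∧ orderOf g = 2} = A + B := by
  have hrepA : ∀ i : Fin A, ∃ t : ↥(isometryGroup F ⇑Q), t * t = 1 ∧
      (((t : GL ι F) : Matrix ι ι F) - 1).rank = i + 1 ∧ ∃ v, Q (mv ⇑Q t v + v) ≠ 0 := by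
    intro i
    obtain ⟨c, d, hf⟩ := exA (i + 1) (by omega) (by omega)
    obtain ⟨t, ht, hc⟩ := hf.exists_iso
    refine ⟨t, ht, ?_, hf.nonalt_of_id Q (by omega) t hc⟩
    rw [hf.rank_eq t hc, Fintype.card_fin]
  have hrepB : ∀ j : Fin B, ∃ t : ↥(isometryGroup F ⇑Q), t * t = 1 ∧
      (((t : GL ι F) : Matrix ι ι F) - 1).rank = 2 * (j + 1) ∧ ∀ v, Q (mv ⇑Q t v + v) = 0 := by
    intro j
    obtain ⟨c, d, hf⟩ := exB (j + 1) (by omega) (by omega)
    obtain ⟨t, ht, hc⟩ := hf.exists_iso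
    refine ⟨t, ht, ?_, hf.alt_of_swap Q t hc⟩
    rw [hf.rank_eq t hc, Fintype.card_sum, Fintype.card_fin]
    ring
  choose rA hA1 hA2 hA3 using hrepA
  choose rB hB1 hB2 hB3 using hrepB
  have h1 : ∀ g h : ↥(isometryGroup F ⇑Q), IsConj g h →
      ((((g : GL ι F) : Matrix ι ι F) - 1).rank, ∀ v, Q (mv ⇑Q g v + v) = 0) =
      ((((h : GL ι F) : Matrix ι ι F) - 1).rank, ∀ v, Q (mv ⇑Q h v + v) = 0) := by
    intro g h hgh
    obtain ⟨k, rfl⟩ := isConj_iff.mp hgh
    rw [rank_sub_one_conj, propext (alt_conj_iff Q k g)]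
  have h2 : ∀ i : Fin A ⊕ Fin B, orderOf (Sum.elim rA rB i) = 2 := by
    intro i
    rw [orderOf_eq_prime_iff, pow_two]
    cases i with
    | inl i =>
      refine ⟨hA1 i, fun h => ?_⟩
      have h3 := hA2 i
      rw [Sum.elim_inl] at h
      rw [h, rank_one_sub_one] at h3
      omega
    | inr j =>
      refine ⟨hB1 j, fun h => ?_⟩
      have h3 := hB2 j
      rw [Sum.elim_inr] at h
      rw [h, rank_one_sub_one] at h3
      omega
  have h3 : ∀ i j : Fin A ⊕ Fin B,
      (((((Sum.elim rA rB i : ↥(isometryGroup F ⇑Q)) : GL ι F) : Matrix ι ι F) - 1).rank,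
        ∀ v, Q (mv ⇑Q (Sum.elim rA rB i) v + v) = 0) =
      (((((Sum.elim rA rB j : ↥(isometryGroup F ⇑Q)) : GL ι F) : Matrix ι ι F) - 1).rank,
        ∀ v, Q (mv ⇑Q (Sum.elim rA rB j) v + v) = 0) → i = j := by
    rintro (i | i) (j | j) h
    · have h4 : (((rA i : GL ι F) : Matrix ι ι F) - 1).rank =
          (((rA j : GL ι F) : Matrix ι ι F) - 1).rank := congrArg Prod.fst h
      rw [hA2, hA2] at h4
      exact congrArg Sum.inl (Fin.ext (by omega))
    · have h4 : (∀ v, Q (mv ⇑Q (rA i) v + v) = 0) = (∀ v, Q (mv ⇑Q (rB j) v + v) = 0) :=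
        congrArg Prod.snd h
      obtain ⟨v, hv⟩ := hA3 i
      exact absurd (Eq.mpr h4 (hB3 j) v) hv
    · have h4 : (∀ v, Q (mv ⇑Q (rB i) v + v) = 0) = (∀ v, Q (mv ⇑Q (rA j) v + v) = 0) :=
        congrArg Prod.snd h
      obtain ⟨v, hv⟩ := hA3 j
      exact absurd (Eq.mp h4 (hB3 i) v) hv
    · have h4 : (((rB i : GL ι F) : Matrix ι ι F) - 1).rank =
          (((rB j : GL ι F) : Matrix ι ι F) - 1).rank := congrArg Prod.fst h
      rw [hB2, hB2] at h4
      exact congrArg Sum.inr (Fin.ext (by omega))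
  have h4 : ∀ g : ↥(isometryGroup F ⇑Q), orderOf g = 2 → ∃ i, IsConj g (Sum.elim rA rB i) := by
    intro g hg
    rw [orderOf_eq_prime_iff, pow_two] at hg
    obtain ⟨hg2, hg1⟩ := hg
    have hpos := rank_pos_of_ne_one Q g hg1
    by_cases halt : ∀ v, Q (mv ⇑Q g v + v) = 0
    · obtain ⟨k, hk⟩ := alt_rank_even Q hQ g hg2 halt
      have hkB := hB g k hg2 halt hk
      have hk1 : 1 ≤ k := by omega
      refine ⟨Sum.inr ⟨k - 1, by omega⟩, ?_⟩
      apply involution_isConj Q hQ g _ hg2 (hB1 _)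
      · rw [hB2, hk]
        show 2 * k = 2 * ((k - 1) + 1)
        omega
      · exact ⟨fun _ => hB3 _, fun _ => halt⟩
    · have hle := hA g hg2
      refine ⟨Sum.inl ⟨(((g : GL ι F) : Matrix ι ι F) - 1).rank - 1, by omega⟩, ?_⟩
      apply involution_isConj Q hQ g _ hg2 (hA1 _)
      · rw [hA2]
        show _ = ((((g : GL ι F) : Matrix ι ι F) - 1).rank - 1) + 1
        omega
      · constructor
        · intro h
          exact absurd h halt
        · intro h
          obtain ⟨v, hv⟩ := hA3 ⟨(((g : GL ι F) : Matrix ι ι F) - 1).rank - 1, by omega⟩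
          exact absurd (h v) hv
  rw [card_conjClasses_eq (I := Fin A ⊕ Fin B)
    (fun g : ↥(isometryGroup F ⇑Q) =>
      ((((g : GL ι F) : Matrix ι ι F) - 1).rank, ∀ v, Q (mv ⇑Q g v + v) = 0))
    (fun g => orderOf g = 2) (Sum.elim rA rB) h1 h2 h3 h4,
    Fintype.card_sum, Fintype.card_fin, Fintype.card_fin]

end Classify

end Cfsg.Agent.Helper45
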