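import Cfsg.Agent.Helper45.SiegelGen

set_option autoImplicit false

/-!
Helper library (helper45): `Ω` is generated by the long root elements (Siegel transformations
`T_{u,v}(c)` with `u`, `v` singular and orthogonal), over a finite field, in dimension at least five.
-/

universe u

namespace Cfsg.Agent.Helper45

open Cfsg Matrix

section LongRoot

variable {ι : Type} [Fintype ι] [DecidableEq ι] {F : Type u} [Field F] [Fintype F]
  (Q : QuadraticForm F (ι → F))

omit [DecidableEq ι] [Fintype F] in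
/-- a singular vector orthogonal to `p` but not to `y`, given one singular vector orthogonal to `p`
outside the line of `p`, for `y` outside the line of `p` -/
theorem exists_sing_perp_not_perp_aux (hQ : (QuadraticMap.polarBilin Q).Nondegenerate)
    (p y : ι → F) (hy : ∀ t : F, y ≠ t • p) (s : ι → F) (hs : Q s = 0)
    (hxs : QuadraticMap.polar ⇑Q p s = 0) (hsx : ∀ t : F, s ≠ t • p) :
    ∃ d : ι → F, Q d = 0 ∧ QuadraticMap.polar ⇑Q p d = 0 ∧ QuadraticMap.polar ⇑Q d y ≠ 0 := by
  obtain ⟨t₀, hxt₀, hst₀⟩ := exists_perp_not_perp Q hQ p s hsx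
  have hss : QuadraticMap.polar ⇑Q s s = 0 := by
    rw [QuadraticMap.polar_self, hs, smul_zero]
  set β := QuadraticMap.polar ⇑Q s t₀ with hβ
  set t := β⁻¹ • t₀ + (-(β⁻¹ * β⁻¹ * Q t₀)) • s with ht
  have hst : QuadraticMap.polar ⇑Q s t = 1 := by
    rw [ht, QuadraticMap.polar_add_right, QuadraticMap.polar_smul_right, QuadraticMap.polar_smul_right,
      hss, smul_zero, add_zero, smul_eq_mul, ← hβ, inv_mul_cancel₀ hst₀]
  have hQt : Q t = 0 := by
    rw [ht, Helper13.Q_add', QuadraticMap.map_smul, QuadraticMap.map_smul, hs,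
      QuadraticMap.polar_smul_left, QuadraticMap.polar_smul_right, QuadraticMap.polar_comm ⇑Q t₀ s, ← hβ]
    simp only [smul_eq_mul]
    field_simp
    ring
  have hxt : QuadraticMap.polar ⇑Q p t = 0 := by
    rw [ht, QuadraticMap.polar_add_right, QuadraticMap.polar_smul_right, QuadraticMap.polar_smul_right,
      hxt₀, hxs, smul_zero, smul_zero, add_zero]
  by_cases h1 : QuadraticMap.polar ⇑Q s y = 0
  swap
  · exact ⟨s, hs, hxs, h1⟩
  by_cases h2 : QuadraticMap.polar ⇑Q t y = 0
  swap
  · exact ⟨t, hQt, hxt, h2⟩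
  have htt : QuadraticMap.polar ⇑Q t t = 0 := by
    rw [QuadraticMap.polar_self, hQt, smul_zero]
  have hnot : y ∉ Submodule.span F ({p, s, t} : Set (ι → F)) := by
    intro hmem
    rw [Submodule.mem_span_triple] at hmem
    obtain ⟨a, b, c, habc⟩ := hmem
    have hc : c = 0 := by
      have h3 := h1
      rw [← habc, QuadraticMap.polar_add_right, QuadraticMap.polar_add_right,
        QuadraticMap.polar_smul_right, QuadraticMap.polar_smul_right, QuadraticMap.polar_smul_right,
        QuadraticMap.polar_comm ⇑Q s p, hxs, hss, hst] at h3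
      simpa using h3
    have hb : b = 0 := by
      have h3 := h2
      rw [← habc, QuadraticMap.polar_add_right, QuadraticMap.polar_add_right,
        QuadraticMap.polar_smul_right, QuadraticMap.polar_smul_right, QuadraticMap.polar_smul_right,
        QuadraticMap.polar_comm ⇑Q t p, hxt, htt, QuadraticMap.polar_comm ⇑Q t s, hst] at h3
      simpa using h3
    apply hy a
    rw [← habc, hb, hc, zero_smul, zero_smul, add_zero, add_zero]
  obtain ⟨w, hwU, hwy⟩ := exists_perp_of_notMem Q hQ _ y hnot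
  have hxw : QuadraticMap.polar ⇑Q p w = 0 := hwU p (Submodule.subset_span (by simp))
  have hsw : QuadraticMap.polar ⇑Q s w = 0 := hwU s (Submodule.subset_span (by simp))
  have htw : QuadraticMap.polar ⇑Q t w = 0 := hwU t (Submodule.subset_span (by simp))
  refine ⟨w + ((-Q w) • s + t), ?_, ?_, ?_⟩
  · rw [Helper13.Q_add', Helper13.Q_add', QuadraticMap.map_smul, hs, hQt, QuadraticMap.polar_smul_left,
      hst, QuadraticMap.polar_add_right, QuadraticMap.polar_smul_right,
      QuadraticMap.polar_comm ⇑Q w s, hsw, QuadraticMap.polar_comm ⇑Q w t, htw]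
    simp
  · rw [QuadraticMap.polar_add_right, QuadraticMap.polar_add_right, QuadraticMap.polar_smul_right,
      hxw, hxs, hxt]
    simp
  · rw [QuadraticMap.polar_add_left, QuadraticMap.polar_add_left, QuadraticMap.polar_smul_left,
      h1, h2]
    simpa using hwy

omit [DecidableEq ι] in
/-- a singular vector orthogonal to the singular vector `d ≠ 0` but not to `y`, for `y` outside the line
of `d` -/
theorem exists_sing_perp_sing_not_perp (hQ : (QuadraticMap.polarBilin Q).Nondegenerate)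
    (hn : 5 ≤ Fintype.card ι) (d y : ι → F) (hd0 : d ≠ 0) (hy : ∀ t : F, y ≠ t • d) :
    ∃ v : ι → F, Q v = 0 ∧ QuadraticMap.polar ⇑Q d v = 0 ∧ QuadraticMap.polar ⇑Q v y ≠ 0 := by
  obtain ⟨t, ht⟩ : ∃ t, QuadraticMap.polar ⇑Q d t ≠ 0 := by
    by_contra hcon
    push Not at hcon
    exact hd0 (hQ.1 d hcon)
  obtain ⟨s, hs0, hs, hds, hts⟩ := exists_sing_perp2 Q hn d t
  have hsd : ∀ c : F, s ≠ c • d := by
    intro c h
    by_cases hc : c = 0
    · apply hs0
      rw [h, hc, zero_smul]
    · rw [h, QuadraticMap.polar_smul_right, smul_eq_mul, QuadraticMap.polar_comm] at hts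
      rcases mul_eq_zero.mp hts with h1 | h1
      · exact hc h1
      · exact ht h1
  exact exists_sing_perp_not_perp_aux Q hQ d y hy s hs hds hsd

omit [Fintype F] in
theorem eichO_congr (u b b' : ι → F) (hu : Q u = 0) (hub : QuadraticMap.polar ⇑Q u b = 0)
    (hub' : QuadraticMap.polar ⇑Q u b' = 0) (h : b = b') :
    eichO Q u b hu hub = eichO Q u b' hu hub' := by
  subst h
  rfl

omit [Fintype F] in
/-- the matrix of a long root element as an Eichler transformation -/
theorem eichO_coe_siegel (u v : ι → F) (c : F) (hu : Q u = 0) (hv : Q v = 0)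
    (hub : QuadraticMap.polar ⇑Q u ((-c) • v) = 0) :
    (((eichO Q u ((-c) • v) hu hub : ↥(isometryGroup F ⇑Q)) : GL ι F) : Matrix ι ι F) =
      siegelMatrix ⇑Q u v c := by
  apply Helper13.mulVec_ext
  intro x
  have h1 : (((eichO Q u ((-c) • v) hu hub : ↥(isometryGroup F ⇑Q)) : GL ι F) : Matrix ι ι F) *ᵥ x =
      Helper44.eich Q u ((-c) • v) x := mv_eichO Q u ((-c) • v) hu hub x
  rw [h1, Helper13.siegelMatrix_mulVec, Helper44.eich, QuadraticMap.map_smul, hv,
    QuadraticMap.polar_smul_left]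
  funext i
  simp only [Pi.add_apply, Pi.sub_apply, Pi.smul_apply, smul_eq_mul]
  ring

/-- the subgroup generated by the long root elements -/
def longRootGroup : Subgroup ↥(isometryGroup F ⇑Q) :=
  Subgroup.closure {g | ∃ (u v : ι → F) (c : F), Q u = 0 ∧ Q v = 0 ∧ QuadraticMap.polar ⇑Q u v = 0 ∧
    ((g : GL ι F) : Matrix ι ι F) = siegelMatrix ⇑Q u v c}

omit [Fintype F] in
theorem longRoot_eq_eichO (g : ↥(isometryGroup F ⇑Q)) (u v : ι → F) (c : F) (hu : Q u = 0)
    (hv : Q v = 0) (huv : QuadraticMap.polar ⇑Q u v = 0)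
    (hg : ((g : GL ι F) : Matrix ι ι F) = siegelMatrix ⇑Q u v c) :
    g = eichO Q u ((-c) • v) hu (by rw [QuadraticMap.polar_smul_right, huv, smul_zero]) := by
  apply Subtype.ext
  apply Units.ext
  rw [hg, eichO_coe_siegel Q u v c hu hv]

omit [Fintype F] in
theorem longRootGroup_normal : (longRootGroup Q).Normal := by
  apply closure_normal_of_conj
  rintro g h ⟨u, v, c, hu, hv, huv, hh⟩
  have hub : QuadraticMap.polar ⇑Q u ((-c) • v) = 0 := by
    rw [QuadraticMap.polar_smul_right, huv, smul_zero]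
  have e := longRoot_eq_eichO Q h u v c hu hv huv hh
  have hu' : Q (mv ⇑Q g u) = 0 := by rw [mv_quad ⇑Q g]; exact hu
  have hv' : Q (mv ⇑Q g v) = 0 := by rw [mv_quad ⇑Q g]; exact hv
  have huv' : QuadraticMap.polar ⇑Q (mv ⇑Q g u) (mv ⇑Q g v) = 0 := by rw [mv_polar]; exact huv
  have hub' : QuadraticMap.polar ⇑Q (mv ⇑Q g u) (mv ⇑Q g ((-c) • v)) = 0 := by rw [mv_polar]; exact hub
  have hub'' : QuadraticMap.polar ⇑Q (mv ⇑Q g u) ((-c) • mv ⇑Q g v) = 0 := by
    rw [QuadraticMap.polar_smul_right, huv', smul_zero]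
  refine ⟨mv ⇑Q g u, mv ⇑Q g v, c, hu', hv', huv', ?_⟩
  rw [e, conj_eichO Q g u ((-c) • v) hu hub hu' hub',
    eichO_congr Q _ _ _ hu' hub' hub'' (mv_smul Q g (-c) v)]
  exact eichO_coe_siegel Q (mv ⇑Q g u) (mv ⇑Q g v) c hu' hv' hub''

/-- **`Ω` is generated by the long root elements** -/
theorem omega_eq_longRootGroup (hQ : (QuadraticMap.polarBilin Q).Nondegenerate)
    (hn : 5 ≤ Fintype.card ι) : Omega F ⇑Q = longRootGroup Q := by
  apply le_antisymm
  · refine (omega_le_pairGroup Q (reflGroup_top_of_five Q hQ hn)).trans ?_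
    have := longRootGroup_normal Q
    apply pairGroup_le_of_steps Q hQ hn
    intro x d hx hd hd0 hdx
    obtain ⟨v, hv, hdv, hvx⟩ := exists_sing_perp_sing_not_perp Q hQ hn d x hd0
      (ne_smul_of_sing Q x d hx hd)
    set β := QuadraticMap.polar ⇑Q v x with hβ
    have hub : QuadraticMap.polar ⇑Q d ((-(-β⁻¹)) • v) = 0 := by
      rw [QuadraticMap.polar_smul_right, hdv, smul_zero]
    refine ⟨eichO Q d ((-(-β⁻¹)) • v) hd hub, ?_, ?_⟩
    · exact Subgroup.subset_closure ⟨d, v, -β⁻¹, hd, hv, hdv, eichO_coe_siegel Q d v (-β⁻¹) hd hv hub⟩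
    · rw [mv_eichO, Helper44.eich, hdx, QuadraticMap.polar_smul_left, ← hβ, neg_neg, smul_eq_mul,
        inv_mul_cancel₀ hvx]
      simp
  · unfold longRootGroup
    rw [Subgroup.closure_le]
    rintro g ⟨u, v, c, hu, hv, huv, hg⟩
    rw [SetLike.mem_coe, longRoot_eq_eichO Q g u v c hu hv huv hg]
    exact eichO_mem_omega Q hQ hn _ _ _ _

end LongRoot

end Cfsg.Agent.Helper45
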