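import Cfsg.Agent.Helper45.LongRoot

set_option autoImplicit false

/-!
Helper library (helper45): `Ω` of a quadratic form with non-degenerate polar form over a finite field, in
dimension at least six, is perfect (every characteristic).
-/

universe u

namespace Cfsg.Agent.Helper45

open Cfsg Matrix

section Perfect

variable {ι : Type} [Fintype ι] [DecidableEq ι] {F : Type u} [Field F] [Fintype F]
  (Q : QuadraticForm F (ι → F))

/-- a subgroup containing `r_x r_{x+d}` for all non-singular `x` and singular `d ≠ 0` orthogonal to `x`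
contains all products of two reflections of equal norm -/
theorem pairGroup_le_of_key (hQ : (QuadraticMap.polarBilin Q).Nondegenerate)
    (hn : 5 ≤ Fintype.card ι) (S : Subgroup ↥(isometryGroup F ⇑Q))
    (hkey : ∀ (x d : ι → F) (hx : Q x ≠ 0) (hxd : Q (x + d) ≠ 0), Q d = 0 → d ≠ 0 →
      QuadraticMap.polar ⇑Q d x = 0 → reflO Q x hx * reflO Q (x + d) hxd ∈ S) :
    pairGroup Q ≤ S := by
  have key1 : ∀ (x y : ι → F) (hx : Q x ≠ 0) (hy : Q y ≠ 0), Q x = Q y → Q (y - x) = 0 →
      reflO Q x hx * reflO Q y hy ∈ S := by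
    intro x y hx hy hxy hd
    by_cases hyx : y = x
    · rw [Helper44.reflO_congr Q y x hy hx hyx, reflO_mul_self]
      exact one_mem S
    · have hd0 : y - x ≠ 0 := sub_ne_zero.mpr hyx
      have hdx : QuadraticMap.polar ⇑Q (y - x) x = 0 := by
        have h1 : Q y = Q (x + (y - x)) := by rw [add_sub_cancel]
        rw [Helper13.Q_add', hd, add_zero, ← hxy] at h1
        rw [QuadraticMap.polar_comm]
        have h2 : Q x + QuadraticMap.polar ⇑Q x (y - x) = Q x + 0 := by rw [add_zero]; exact h1.symm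
        exact add_left_cancel h2
      have hxd : Q (x + (y - x)) ≠ 0 := by rw [add_sub_cancel]; exact hy
      have h3 := hkey x (y - x) hx hxd hd hd0 hdx
      rw [Helper44.reflO_congr Q (x + (y - x)) y hxd hy (add_sub_cancel x y)] at h3
      exact h3
  unfold pairGroup
  rw [Subgroup.closure_le]
  rintro _ ⟨a, b, ha, hb, hab, rfl⟩
  by_cases hprop : ∃ t : F, b = t • a
  · obtain ⟨t, rfl⟩ := hprop
    have ht : t ≠ 0 := by
      rintro rfl
      rw [zero_smul, map_zero] at hb
      exact hb rfl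
    rw [reflO_smul Q t ht a ha hb, reflO_mul_self]
    exact one_mem S
  · push Not at hprop
    obtain ⟨z, hz, hzx, hyz⟩ := exists_mid Q hQ hn a b ha hprop
    have hz0 : Q z ≠ 0 := by rw [hz]; exact ha
    have e : reflO Q a ha * reflO Q b hb =
        (reflO Q a ha * reflO Q z hz0) * (reflO Q z hz0 * reflO Q b hb) := by
      calc reflO Q a ha * reflO Q b hb
          = reflO Q a ha * (reflO Q z hz0 * reflO Q z hz0) * reflO Q b hb := by
            rw [reflO_mul_self, mul_one]
        _ = _ := by simp only [mul_assoc]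
    rw [e]
    exact mul_mem (key1 a z ha hz0 hz.symm hzx) (key1 z b hz0 hb (hz.trans hab) hyz)

/-- the image in the isometry group of the commutator subgroup of `Ω` -/
def omegaDer : Subgroup ↥(isometryGroup F ⇑Q) :=
  (commutator ↥(Omega F ⇑Q)).map (Omega F ⇑Q).subtype

omit [Fintype F] in
theorem comm_mem_omegaDer (a g : ↥(isometryGroup F ⇑Q)) (ha : a ∈ Omega F ⇑Q) (hg : g ∈ Omega F ⇑Q) :
    a * g * a⁻¹ * g⁻¹ ∈ omegaDer Q := by
  refine ⟨(⟨a, ha⟩ : ↥(Omega F ⇑Q)) * ⟨g, hg⟩ * (⟨a, ha⟩ : ↥(Omega F ⇑Q))⁻¹ *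
    (⟨g, hg⟩ : ↥(Omega F ⇑Q))⁻¹, ?_, ?_⟩
  · rw [commutator_eq_closure]
    exact Subgroup.subset_closure ⟨⟨a, ha⟩, ⟨g, hg⟩, rfl⟩
  · rw [map_mul, map_mul, map_inv, map_inv]
    rfl

/-- the key step: `r_y r_{y+d}` is a commutator of elements of `Ω` -/
theorem pair_step_mem_omegaDer (hQ : (QuadraticMap.polarBilin Q).Nondegenerate)
    (hn : 6 ≤ Fintype.card ι) (y d : ι → F) (hy : Q y ≠ 0) (hyd : Q (y + d) ≠ 0) (hd : Q d = 0)
    (hd0 : d ≠ 0) (hdy : QuadraticMap.polar ⇑Q d y = 0) :
    reflO Q y hy * reflO Q (y + d) hyd ∈ omegaDer Q := by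
  have hn5 : 5 ≤ Fintype.card ι := by omega
  have hcard : 2 ≤ Fintype.card ι := by omega
  obtain ⟨t, ht⟩ : ∃ t, QuadraticMap.polar ⇑Q d t ≠ 0 := by
    by_contra hcon
    push Not at hcon
    exact hd0 (hQ.1 d hcon)
  obtain ⟨s, hs0, hs, hys, hds, hts⟩ := exists_sing_perp3 Q hn y d t
  have hsd : ∀ c : F, s ≠ c • d := by
    intro c h
    by_cases hc : c = 0
    · apply hs0
      rw [h, hc, zero_smul]
    · rw [h, QuadraticMap.polar_smul_right, smul_eq_mul, QuadraticMap.polar_comm] at hts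
      rcases mul_eq_zero.mp hts with h1 | h1
      · exact hc h1
      · exact ht h1
  have hx : Q (y + s) = Q y := by
    rw [Helper13.Q_add', hs, hys, add_zero, add_zero]
  have hx0 : Q (y + s) ≠ 0 := by rw [hx]; exact hy
  have hdx : QuadraticMap.polar ⇑Q d (y + s) = 0 := by
    rw [QuadraticMap.polar_add_right, hdy, hds, add_zero]
  have hnot : y ∉ Submodule.span F ({d, y + s} : Set (ι → F)) := by
    intro hmem
    rw [Submodule.mem_span_pair] at hmem
    obtain ⟨a, b, hab⟩ := hmem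
    have h1 : (1 - b) • y = a • d + b • s := by
      have h2 : a • d + b • (y + s) = a • d + b • s + b • y := by
        rw [smul_add]
        abel
      rw [h2] at hab
      rw [sub_smul, one_smul]
      nth_rewrite 1 [← hab]
      abel
    have h3 : Q ((1 - b) • y) = 0 := by
      rw [h1, Helper13.Q_add', QuadraticMap.map_smul, QuadraticMap.map_smul, hd, hs,
        QuadraticMap.polar_smul_left, QuadraticMap.polar_smul_right, hds]
      simp
    rw [QuadraticMap.map_smul, smul_eq_mul] at h3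
    have hb : b = 1 := by
      rcases mul_eq_zero.mp h3 with h4 | h4
      · have h5 := mul_self_eq_zero.mp h4
        linear_combination (-1 : F) * h5
      · exact absurd h4 hy
    rw [hb, sub_self, zero_smul, one_smul] at h1
    apply hsd (-a)
    rw [neg_smul]
    exact eq_neg_of_add_eq_zero_right h1.symm
  obtain ⟨w, hwU, hwy⟩ := exists_perp_of_notMem Q hQ _ y hnot
  have hdw : QuadraticMap.polar ⇑Q d w = 0 := hwU d (Submodule.subset_span (by simp))
  have hxw : QuadraticMap.polar ⇑Q (y + s) w = 0 := hwU (y + s) (Submodule.subset_span (by simp))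
  set v := (QuadraticMap.polar ⇑Q w y)⁻¹ • w with hv
  have hdv : QuadraticMap.polar ⇑Q d v = 0 := by
    rw [hv, QuadraticMap.polar_smul_right, hdw, smul_zero]
  have hvx : QuadraticMap.polar ⇑Q v (y + s) = 0 := by
    rw [hv, QuadraticMap.polar_smul_left, QuadraticMap.polar_comm ⇑Q w (y + s), hxw, smul_zero]
  have hvy : QuadraticMap.polar ⇑Q v y = 1 := by
    rw [hv, QuadraticMap.polar_smul_left, smul_eq_mul, inv_mul_cancel₀ hwy]
  set g := eichO Q d v hd hdv with hg
  have hgΩ : g ∈ Omega F ⇑Q := eichO_mem_omega Q hQ hn5 d v hd hdv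
  have hgy : mv ⇑Q g y = y + d := by
    rw [hg, mv_eichO, Helper44.eich, hdy, hvy]
    simp
  have hgx : mv ⇑Q g (y + s) = y + s := by
    rw [hg, mv_eichO]
    exact eich_fix Q d v (y + s) hdx hvx
  set a := reflO Q (y + s) hx0 * reflO Q y hy with ha
  have haΩ : a ∈ Omega F ⇑Q := refl_pair_mem_omega_all Q hQ hcard _ _ hx0 hy hx
  have hgx' : Q (mv ⇑Q g (y + s)) ≠ 0 := by rw [hgx]; exact hx0
  have hgy' : Q (mv ⇑Q g y) ≠ 0 := by rw [hgy]; exact hyd
  have e1 : g * a * g⁻¹ = reflO Q (y + s) hx0 * reflO Q (y + d) hyd := by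
    rw [Helper44.reflO_congr Q (y + s) _ hx0 hgx' hgx.symm,
      Helper44.reflO_congr Q (y + d) _ hyd hgy' hgy.symm, ← conj_reflO Q g (y + s) hx0 hgx',
      ← conj_reflO Q g y hy hgy', ha]
    group
  have hainv : a⁻¹ = reflO Q y hy * reflO Q (y + s) hx0 := by
    rw [ha, _root_.mul_inv_rev, Helper44.reflO_inv, Helper44.reflO_inv]
  have e2 : reflO Q y hy * reflO Q (y + d) hyd = a⁻¹ * g * a⁻¹⁻¹ * g⁻¹ := by
    have h5 : a⁻¹ * g * a⁻¹⁻¹ * g⁻¹ = a⁻¹ * (g * a * g⁻¹) := by group
    rw [h5, e1, hainv]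
    calc reflO Q y hy * reflO Q (y + d) hyd
        = reflO Q y hy * (reflO Q (y + s) hx0 * reflO Q (y + s) hx0) * reflO Q (y + d) hyd := by
          rw [reflO_mul_self, mul_one]
      _ = _ := by simp only [mul_assoc]
  rw [e2]
  exact comm_mem_omegaDer Q a⁻¹ g (inv_mem haΩ) hgΩ

/-- **`Ω` is perfect** (finite field, non-degenerate polar form, dimension at least six) -/
theorem omega_perfect (hQ : (QuadraticMap.polarBilin Q).Nondegenerate)
    (hn : 6 ≤ Fintype.card ι) : commutator ↥(Omega F ⇑Q) = ⊤ := by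
  have hn5 : 5 ≤ Fintype.card ι := by omega
  have h1 : Omega F ⇑Q ≤ omegaDer Q := by
    rw [omega_eq_pairGroup Q hQ hn5]
    apply pairGroup_le_of_key Q hQ hn5
    intro x d hx hxd hd hd0 hdx
    exact pair_step_mem_omegaDer Q hQ hn x d hx hxd hd hd0 hdx
  rw [eq_top_iff]
  intro x _
  obtain ⟨y, hy, hyx⟩ := h1 x.2
  have : y = x := Subtype.ext hyx
  rw [← this]
  exact hy

end Perfect

end Cfsg.Agent.Helper45
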