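import Cfsg.Agent.Helper45.AutJ
import Cfsg.Agent.Helper45.POmegaAut

set_option autoImplicit false
set_option linter.unusedSectionVars false
set_option linter.unusedSimpArgs false
set_option linter.unusedVariables false

/-!
Helper library (helper45), outer automorphisms of `PΩ(Q)`, part A: the automorphism of `PΩ(Q)`
induced by a semisimilarity pair `(g, σ)`, composition of pairs.
-/

universe u

namespace Cfsg.Agent.Helper45.OO

open Cfsg Matrix

section Semi

variable {ι : Type} [Fintype ι] [DecidableEq ι] {F : Type u} [Field F] (Q : (ι → F) → F)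

/-- the semilinear map `x ↦ g σ(x)` -/
def semiMap (g : GL ι F) (σ : F ≃+* F) (x : ι → F) : ι → F :=
  (g : Matrix ι ι F) *ᵥ (fun i => σ (x i))

/-- its inverse -/
def semiInv (g : GL ι F) (σ : F ≃+* F) (y : ι → F) : ι → F :=
  fun i => σ.symm ((((g⁻¹ : GL ι F) : Matrix ι ι F) *ᵥ y) i)

theorem semiMap_semiInv (g : GL ι F) (σ : F ≃+* F) (y : ι → F) :
    semiMap g σ (semiInv g σ y) = y := by
  unfold semiMap semiInv
  have h1 : (fun i => σ (σ.symm ((((g⁻¹ : GL ι F) : Matrix ι ι F) *ᵥ y) i))) =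
      ((g⁻¹ : GL ι F) : Matrix ι ι F) *ᵥ y := by
    funext i
    simp
  rw [h1, Matrix.mulVec_mulVec, ← Units.val_mul, mul_inv_cancel, Units.val_one, Matrix.one_mulVec]

theorem semiInv_semiMap (g : GL ι F) (σ : F ≃+* F) (x : ι → F) :
    semiInv g σ (semiMap g σ x) = x := by
  unfold semiMap semiInv
  funext i
  rw [Matrix.mulVec_mulVec, ← Units.val_mul, inv_mul_cancel, Units.val_one, Matrix.one_mulVec]
  simp

theorem semiMap_add (g : GL ι F) (σ : F ≃+* F) (x y : ι → F) :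
    semiMap g σ (x + y) = semiMap g σ x + semiMap g σ y := by
  unfold semiMap
  rw [← Matrix.mulVec_add]
  congr 1
  funext i
  simp

theorem semiMap_smul (g : GL ι F) (σ : F ≃+* F) (t : F) (x : ι → F) :
    semiMap g σ (t • x) = σ t • semiMap g σ x := by
  unfold semiMap
  rw [← Matrix.mulVec_smul]
  congr 1
  funext i
  simp

/-- entrywise field automorphism on `GL` -/
abbrev glMap (σ : F ≃+* F) : GL ι F →* GL ι F := Matrix.GeneralLinearGroup.map (σ : F →+* F)

theorem glMap_coe (σ : F ≃+* F) (h : GL ι F) :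
    ((glMap σ h : GL ι F) : Matrix ι ι F) = (h : Matrix ι ι F).map σ := rfl

theorem glMap_mulVec (σ : F ≃+* F) (h : GL ι F) (x : ι → F) :
    ((glMap σ h : GL ι F) : Matrix ι ι F) *ᵥ (fun i => σ (x i)) =
      fun i => σ (((h : Matrix ι ι F) *ᵥ x) i) := by
  funext i
  rw [glMap_coe]
  exact (RingHom.map_mulVec (σ : F →+* F) _ x i).symm

theorem glMap_glMap (σ σ' : F ≃+* F) (h : GL ι F) :
    glMap σ (glMap σ' h) = glMap (σ * σ' : RingAut F) h := by
  apply Units.ext
  ext i j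
  rfl

theorem glMap_symm_glMap (σ : F ≃+* F) (h : GL ι F) : glMap σ.symm (glMap σ h) = h := by
  apply Units.ext
  ext i j
  show σ.symm (σ ((h : Matrix ι ι F) i j)) = _
  simp

theorem glMap_glMap_symm (σ : F ≃+* F) (h : GL ι F) : glMap σ (glMap σ.symm h) = h := by
  apply Units.ext
  ext i j
  show σ (σ.symm ((h : Matrix ι ι F) i j)) = _
  simp

theorem glMap_refl (h : GL ι F) : glMap (RingEquiv.refl F) h = h := by
  apply Units.ext
  ext i j
  rfl

theorem semiMap_mulVec (g : GL ι F) (σ : F ≃+* F) (h : GL ι F) (x : ι → F) :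
    semiMap g σ ((h : Matrix ι ι F) *ᵥ x) =
      ((g * glMap σ h * g⁻¹ : GL ι F) : Matrix ι ι F) *ᵥ semiMap g σ x := by
  unfold semiMap
  rw [Matrix.mulVec_mulVec, ← Units.val_mul, inv_mul_cancel_right, Units.val_mul,
    ← Matrix.mulVec_mulVec, glMap_mulVec]

theorem semiMap_semiMap (g g' : GL ι F) (σ σ' : F ≃+* F) (x : ι → F) :
    semiMap g σ (semiMap g' σ' x) = semiMap (g * glMap σ g') (σ * σ' : RingAut F) x := by
  unfold semiMap
  rw [Units.val_mul, ← Matrix.mulVec_mulVec]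
  congr 1
  rw [← glMap_mulVec]
  rfl

theorem semi_spec {g : GL ι F} {σ : F ≃+* F} (c : Fˣ)
    (hc : ∀ v : ι → F, Q ((g : Matrix ι ι F) *ᵥ (fun i => σ (v i))) = (c : F) * σ (Q v)) (x : ι → F) :
    Q (semiMap g σ x) = (c : F) * σ (Q x) := hc x

theorem semi_conj_mem {g : GL ι F} {σ : F ≃+* F} (hg : IsSemisimilarityPair Q g σ) {h : GL ι F}
    (hh : h ∈ isometryGroup F Q) : g * glMap σ h * g⁻¹ ∈ isometryGroup F Q := by
  rw [mem_iso_iff] at hh ⊢
  obtain ⟨c, hc⟩ := hg
  intro v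
  have hc' : ∀ x, Q (semiMap g σ x) = (c : F) * σ (Q x) := hc
  rw [← semiMap_semiInv g σ v, ← semiMap_mulVec, hc', hc', hh]

theorem semi_inv {g : GL ι F} {σ : F ≃+* F} (hg : IsSemisimilarityPair Q g σ) :
    IsSemisimilarityPair Q (glMap σ.symm g⁻¹) σ.symm := by
  obtain ⟨c, hc⟩ := hg
  refine ⟨Units.map (σ.symm : F →+* F).toMonoidHom c⁻¹, fun v => ?_⟩
  have hc' : ∀ x, Q (semiMap g σ x) = (c : F) * σ (Q x) := hc
  have h1 : ((glMap σ.symm g⁻¹ : GL ι F) : Matrix ι ι F) *ᵥ (fun i => σ.symm (v i)) =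
      semiInv g σ v := by
    rw [glMap_mulVec]
    rfl
  rw [h1]
  have h2 := hc' (semiInv g σ v)
  rw [semiMap_semiInv] at h2
  show Q (semiInv g σ v) = σ.symm ((c⁻¹ : Fˣ) : F) * σ.symm (Q v)
  rw [h2, ← map_mul, ← mul_assoc, Units.val_inv_eq_inv_val, inv_mul_cancel₀ c.ne_zero, one_mul,
    RingEquiv.symm_apply_apply]

theorem semi_mul {g g' : GL ι F} {σ σ' : F ≃+* F} (hg : IsSemisimilarityPair Q g σ)
    (hg' : IsSemisimilarityPair Q g' σ') :
    IsSemisimilarityPair Q (g * glMap σ g') (σ * σ' : RingAut F) := by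
  obtain ⟨c, hc⟩ := hg
  obtain ⟨c', hc'⟩ := hg'
  refine ⟨c * Units.map (σ : F →+* F).toMonoidHom c', fun v => ?_⟩
  have e1 : ((g * glMap σ g' : GL ι F) : Matrix ι ι F) *ᵥ (fun i => (σ * σ' : RingAut F) (v i)) =
      semiMap g σ (semiMap g' σ' v) := by
    rw [semiMap_semiMap]
    rfl
  rw [e1, semi_spec Q c hc, semi_spec Q c' hc', map_mul]
  show (c : F) * (σ (c' : F) * σ (σ' (Q v))) = (c : F) * σ (c' : F) * σ (σ' (Q v))
  ring

theorem semi_one : IsSemisimilarityPair Q (1 : GL ι F) (RingEquiv.refl F) := by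
  refine ⟨1, fun v => ?_⟩
  rw [Units.val_one, Matrix.one_mulVec]
  simp

/-- conjugation by a semisimilarity, as an automorphism of the isometry group -/
def semiO (g : GL ι F) (σ : F ≃+* F) (hg : IsSemisimilarityPair Q g σ) :
    ↥(isometryGroup F Q) ≃* ↥(isometryGroup F Q) where
  toFun h := ⟨g * glMap σ h * g⁻¹, semi_conj_mem Q hg h.2⟩
  invFun h := ⟨glMap σ.symm (g⁻¹ * h * g), by
    have := semi_conj_mem Q (semi_inv Q hg) h.2
    rw [map_inv, inv_inv] at this
    rw [map_mul, map_mul, map_inv]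
    exact this⟩
  left_inv h := by
    apply Subtype.ext
    show glMap σ.symm (g⁻¹ * (g * glMap σ (h : GL ι F) * g⁻¹) * g) = (h : GL ι F)
    rw [mul_assoc g, inv_mul_cancel_left, inv_mul_cancel_right, glMap_symm_glMap]
  right_inv h := by
    apply Subtype.ext
    show g * glMap σ (glMap σ.symm (g⁻¹ * (h : GL ι F) * g)) * g⁻¹ = (h : GL ι F)
    rw [glMap_glMap_symm, mul_assoc g⁻¹, mul_inv_cancel_left, mul_inv_cancel_right]
  map_mul' a b := by
    apply Subtype.ext
    have h1 : glMap σ (((a * b : ↥(isometryGroup F Q)) : GL ι F)) =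
        glMap σ ((a : ↥(isometryGroup F Q)) : GL ι F) * glMap σ ((b : ↥(isometryGroup F Q)) : GL ι F) := by
      rw [← map_mul]
      rfl
    show g * glMap σ (((a * b : ↥(isometryGroup F Q)) : GL ι F)) * g⁻¹ =
      (g * glMap σ ((a : ↥(isometryGroup F Q)) : GL ι F) * g⁻¹) *
        (g * glMap σ ((b : ↥(isometryGroup F Q)) : GL ι F) * g⁻¹)
    rw [h1]
    group

theorem semiO_coe (g : GL ι F) (σ : F ≃+* F) (hg : IsSemisimilarityPair Q g σ)
    (h : ↥(isometryGroup F Q)) :
    ((semiO Q g σ hg h : ↥(isometryGroup F Q)) : GL ι F) = g * glMap σ (h : GL ι F) * g⁻¹ := rfl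

/-- conjugation by a semisimilarity, as an automorphism of `Ω` -/
noncomputable def semiΩ (g : GL ι F) (σ : F ≃+* F) (hg : IsSemisimilarityPair Q g σ) :
    ↥(Omega F Q) ≃* ↥(Omega F Q) :=
  ((semiO Q g σ hg).subgroupMap (Omega F Q)).trans
    (MulEquiv.subgroupCongr (map_Omega Q (semiO Q g σ hg)))

theorem semiΩ_coe (g : GL ι F) (σ : F ≃+* F) (hg : IsSemisimilarityPair Q g σ) (s : ↥(Omega F Q)) :
    (((semiΩ Q g σ hg s : ↥(Omega F Q)) : ↥(isometryGroup F Q)) : GL ι F) =
      g * glMap σ ((s : ↥(isometryGroup F Q)) : GL ι F) * g⁻¹ := rfl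

/-- the automorphism of `PΩ` induced by a semisimilarity pair -/
noncomputable def semiAut (g : GL ι F) (σ : F ≃+* F) (hg : IsSemisimilarityPair Q g σ) :
    MulAut (POmega F Q) :=
  QuotientGroup.congr (Subgroup.center ↥(Omega F Q)) (Subgroup.center ↥(Omega F Q))
    (semiΩ Q g σ hg) (map_center Q (semiΩ Q g σ hg))

theorem semiAut_mk (g : GL ι F) (σ : F ≃+* F) (hg : IsSemisimilarityPair Q g σ) (s : ↥(Omega F Q)) :
    semiAut Q g σ hg (QuotientGroup.mk s) = QuotientGroup.mk (semiΩ Q g σ hg s) := rfl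

/-- the Prelude predicate says exactly that `β` is the automorphism of the pair -/
theorem semi_ind_iff (g : GL ι F) (σ : F ≃+* F) (hg : IsSemisimilarityPair Q g σ)
    (β : POmega F Q ≃* POmega F Q) :
    IsInducedBySemilinearPOmega Q g σ β ↔ β = semiAut Q g σ hg := by
  constructor
  · intro h
    ext x
    obtain ⟨s, rfl⟩ := QuotientGroup.mk_surjective x
    rw [semiAut_mk]
    apply h s (semiΩ Q g σ hg s)
    rw [semiΩ_coe, Units.val_mul, Units.val_mul, glMap_coe]
  · rintro rfl s s' hss'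
    rw [semiAut_mk]
    congr 1
    apply Subtype.ext
    apply Subtype.ext
    apply Units.ext
    rw [hss', semiΩ_coe, Units.val_mul, Units.val_mul, glMap_coe]

theorem semiAut_congr {g g' : GL ι F} {σ σ' : F ≃+* F} (hg : IsSemisimilarityPair Q g σ)
    (hg' : IsSemisimilarityPair Q g' σ') (h1 : g = g') (h2 : σ = σ') :
    semiAut Q g σ hg = semiAut Q g' σ' hg' := by
  subst h1
  subst h2
  rfl

theorem semiAut_mul (g g' : GL ι F) (σ σ' : F ≃+* F) (hg : IsSemisimilarityPair Q g σ)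
    (hg' : IsSemisimilarityPair Q g' σ') :
    semiAut Q g σ hg * semiAut Q g' σ' hg' =
      semiAut Q (g * glMap σ g') (σ * σ' : RingAut F) (semi_mul Q hg hg') := by
  ext x
  obtain ⟨s, rfl⟩ := QuotientGroup.mk_surjective x
  rw [MulAut.mul_apply, semiAut_mk, semiAut_mk, semiAut_mk]
  congr 1
  apply Subtype.ext
  apply Subtype.ext
  rw [semiΩ_coe, semiΩ_coe, semiΩ_coe, map_mul, map_mul, map_inv, _root_.mul_inv_rev, glMap_glMap]
  group

theorem semiAut_one (h : IsSemisimilarityPair Q (1 : GL ι F) (RingEquiv.refl F)) :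
    semiAut Q (1 : GL ι F) (RingEquiv.refl F) h = 1 := by
  ext x
  obtain ⟨s, rfl⟩ := QuotientGroup.mk_surjective x
  rw [semiAut_mk, MulAut.one_apply]
  congr 1
  apply Subtype.ext
  apply Subtype.ext
  rw [semiΩ_coe, glMap_refl]
  group

theorem sim_iff_semi (g : GL ι F) :
    g ∈ Geo.quadSimilarityGroup (F := F) Q ↔ IsSemisimilarityPair Q g (RingEquiv.refl F) :=
  Iff.rfl

theorem semiAut_refl (g : GL ι F) (hg : IsSemisimilarityPair Q g (RingEquiv.refl F)) :
    semiAut Q g (RingEquiv.refl F) hg = indAut Q g hg := by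
  apply ind_unique Q g hg
  exact (semi_ind_iff Q g (RingEquiv.refl F) hg _).mpr rfl

end Semi

end Cfsg.Agent.Helper45.OO
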