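import Cfsg.Agent.Helper45.OutA

set_option autoImplicit false
set_option linter.unusedSectionVars false
set_option linter.unusedSimpArgs false
set_option linter.unusedVariables false

/-!
Helper library (helper45), outer automorphisms of `PΩ(Q)`, part B: two semisimilarity pairs inducing
the same automorphism of `PΩ(Q)` have the same field automorphism and proportional semilinear maps.
-/

universe u

namespace Cfsg.Agent.Helper45.OO

open Cfsg Matrix Module Cfsg.Agent.Helper45.AO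

section Geo

variable {ι : Type} [Fintype ι] [DecidableEq ι] {F : Type u} [Field F] [Fintype F]
  (Q : QuadraticForm F (ι → F))

theorem ss_semi {g : GL ι F} {σ : F ≃+* F} (c : Fˣ)
    (hc : ∀ v : ι → F, Q ((g : Matrix ι ι F) *ᵥ (fun i => σ (v i))) = (c : F) * σ (Q v)) :
    SS Q (semiMap g σ) σ (c : F) :=
  ⟨semiMap_add g σ, semiMap_smul g σ, hc, c.ne_zero⟩

theorem mv_semiΩ (g : GL ι F) (σ : F ≃+* F) (hg : IsSemisimilarityPair ⇑Q g σ) (s : ↥(Omega F ⇑Q))
    (x : ι → F) :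
    mv ⇑Q ((semiΩ ⇑Q g σ hg s : ↥(Omega F ⇑Q)) : ↥(isometryGroup F ⇑Q)) (semiMap g σ x) =
      semiMap g σ (mv ⇑Q (s : ↥(isometryGroup F ⇑Q)) x) := by
  show ((((semiΩ ⇑Q g σ hg s : ↥(Omega F ⇑Q)) : ↥(isometryGroup F ⇑Q)) : GL ι F) : Matrix ι ι F) *ᵥ
    semiMap g σ x = semiMap g σ ((((s : ↥(isometryGroup F ⇑Q)) : GL ι F) : Matrix ι ι F) *ᵥ x)
  rw [semiMap_mulVec, semiΩ_coe]

/-- the automorphism of a pair maps the star of `e` onto the star of the image of `e` -/
theorem ub_semi (hQ : (QuadraticMap.polarBilin Q).Nondegenerate) (hn : 5 ≤ Fintype.card ι)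
    (g : GL ι F) (σ : F ≃+* F) (hg : IsSemisimilarityPair ⇑Q g σ) (e : ι → F) (he : Q e = 0)
    (he' : Q (semiMap g σ e) = 0) :
    (Ub Q e he).map (semiAut ⇑Q g σ hg).toMonoidHom = Ub Q (semiMap g σ e) he' := by
  obtain ⟨c, hc⟩ := id hg
  have hS := ss_semi Q c hc
  have hc0 : (c : F) ≠ 0 := c.ne_zero
  apply le_antisymm
  · rintro x hx
    obtain ⟨y, hy, rfl⟩ := Subgroup.mem_map.mp hx
    obtain ⟨s, hs, rfl⟩ := Subgroup.mem_map.mp hy
    obtain ⟨b, hb, hsb⟩ := hs
    refine Subgroup.mem_map.mpr ⟨semiΩ ⇑Q g σ hg s, ?_, rfl⟩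
    have hb' : QuadraticMap.polar ⇑Q (semiMap g σ e) ((c : F)⁻¹ • semiMap g σ b) = 0 := by
      rw [QuadraticMap.polar_smul_right, hS.polar, hb]
      simp
    refine ⟨(c : F)⁻¹ • semiMap g σ b, hb', ?_⟩
    apply ext_mv
    intro y
    obtain ⟨x, rfl⟩ : ∃ x, semiMap g σ x = y := ⟨semiInv g σ y, semiMap_semiInv g σ y⟩
    rw [mv_semiΩ, hsb, mv_eichO, mv_eichO, hS.eich]
  · rintro x hx
    obtain ⟨s', hs', rfl⟩ := Subgroup.mem_map.mp hx
    obtain ⟨b', hb', hsb'⟩ := hs'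
    obtain ⟨b, hb⟩ : ∃ b, semiMap g σ b = (c : F) • b' :=
      ⟨semiInv g σ _, semiMap_semiInv g σ _⟩
    have hbe : QuadraticMap.polar ⇑Q e b = 0 := by
      have h1 := hS.polar e b
      rw [hb, QuadraticMap.polar_smul_right, hb', smul_zero] at h1
      rcases mul_eq_zero.mp h1.symm with h3 | h3
      · exact absurd h3 hc0
      · exact (map_eq_zero_iff σ σ.injective).mp h3
    refine Subgroup.mem_map.mpr ⟨piΩ Q (eichΩ Q hQ hn e b he hbe),
      Subgroup.mem_map.mpr ⟨_, ⟨b, hbe, rfl⟩, rfl⟩, ?_⟩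
    show QuotientGroup.mk (semiΩ ⇑Q g σ hg (eichΩ Q hQ hn e b he hbe)) = QuotientGroup.mk s'
    congr 1
    apply Subtype.ext
    apply ext_mv
    intro y
    obtain ⟨x, rfl⟩ : ∃ x, semiMap g σ x = y := ⟨semiInv g σ y, semiMap_semiInv g σ y⟩
    rw [mv_semiΩ, hsb']
    show semiMap g σ (mv ⇑Q (eichO Q e b he hbe) x) = _
    rw [mv_eichO, mv_eichO, hS.eich, hb, smul_smul, inv_mul_cancel₀ hc0, one_smul]

/-- two pairs inducing the same automorphism agree on the singular points -/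
theorem semi_pt (hQ : (QuadraticMap.polarBilin Q).Nondegenerate) (hn : 5 ≤ Fintype.card ι)
    (g g' : GL ι F) (σ σ' : F ≃+* F) (hg : IsSemisimilarityPair ⇑Q g σ)
    (hg' : IsSemisimilarityPair ⇑Q g' σ') (h : semiAut ⇑Q g σ hg = semiAut ⇑Q g' σ' hg')
    (e : ι → F) (he : Q e = 0) (he0 : e ≠ 0) : ∃ t : F, semiMap g' σ' e = t • semiMap g σ e := by
  have : CharP F (ringChar F) := ringChar.charP F
  have : Fact (ringChar F).Prime := ⟨CharP.char_is_prime F (ringChar F)⟩
  obtain ⟨c, hc⟩ := id hg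
  obtain ⟨c', hc'⟩ := id hg'
  have hS := ss_semi Q c hc
  have hS' := ss_semi Q c' hc'
  have he1 : Q (semiMap g σ e) = 0 := by
    rw [hS.quad, he]
    simp
  have he2 : Q (semiMap g' σ' e) = 0 := by
    rw [hS'.quad, he]
    simp
  have h10 : semiMap g σ e ≠ 0 := fun h0 => he0 (hS.inj hQ e 0 (by rw [h0, hS.zero]))
  by_contra hcon
  push Not at hcon
  obtain ⟨v, hv, hdv, hvy⟩ :=
    exists_sing_perp_sing_not_perp Q hQ hn (semiMap g σ e) (semiMap g' σ' e) h10 hcon
  have hv0 : v ≠ 0 := by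
    rintro rfl
    simp at hvy
  have hb1 := ub_inf_bot Q hQ hn (ringChar F) v (semiMap g' σ' e) hv he2 hvy
  have hb2 := ub_inf_ne_bot Q hQ hn (ringChar F) v (semiMap g σ e) hv he1 hv0 h10
    (by rw [QuadraticMap.polar_comm]; exact hdv)
  have hub : Ub Q (semiMap g σ e) he1 = Ub Q (semiMap g' σ' e) he2 := by
    rw [← ub_semi Q hQ hn g σ hg e he he1, ← ub_semi Q hQ hn g' σ' hg' e he he2, h]
  rw [hub] at hb2
  exact hb2 hb1

/-- two semilinear semisimilarities agreeing on the singular points are proportional, with the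
same field automorphism -/
theorem ss_scalar (hQ : (QuadraticMap.polarBilin Q).Nondegenerate) (hn : 5 ≤ Fintype.card ι)
    {Φ Φ' : (ι → F) → (ι → F)} {σ σ' : F ≃+* F} {c c' : F}
    (h : SS Q Φ σ c) (h' : SS Q Φ' σ' c')
    (hpt : ∀ e : ι → F, Q e = 0 → e ≠ 0 → ∃ t : F, Φ' e = t • Φ e) :
    σ' = σ ∧ ∃ l : F, ∀ x, Φ' x = l • Φ x := by
  obtain ⟨u, hu, hu0⟩ := exists_sing_ne_zero Q hn
  obtain ⟨v, hv, huv⟩ := Helper43.exists_hyperbolic_pair Q
    (Helper43.polarNondeg_of_nondegenerate Q hQ) hu0 hu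
  have hv0 : v ≠ 0 := by
    rintro rfl
    simp at huv
  obtain ⟨l, hl⟩ := hpt u hu hu0
  obtain ⟨μ, hμ⟩ := hpt v hv hv0
  have hl0 : l ≠ 0 := by
    rintro rfl
    rw [zero_smul] at hl
    exact hu0 (h'.inj hQ u 0 (by rw [hl, h'.zero]))
  have hμ0 : μ ≠ 0 := by
    rintro rfl
    rw [zero_smul] at hμ
    exact hv0 (h'.inj hQ v 0 (by rw [hμ, h'.zero]))
  have hc := h.c0
  have huu : QuadraticMap.polar ⇑Q (Φ u) (Φ u) = 0 := by
    rw [h.polar, polar_self_zero Q u hu]
    simp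
  have hvv : QuadraticMap.polar ⇑Q (Φ v) (Φ v) = 0 := by
    rw [h.polar, polar_self_zero Q v hv]
    simp
  have huv' : QuadraticMap.polar ⇑Q (Φ u) (Φ v) = c := by
    rw [h.polar, huv, map_one, mul_one]
  have key : ∀ w : ι → F, QuadraticMap.polar ⇑Q u w = 0 → QuadraticMap.polar ⇑Q v w = 0 →
      Φ' w = l • Φ w ∧ σ' (Q w) * μ = l * σ (Q w) := by
    intro w hw1 hw2
    obtain ⟨xw, hxw⟩ : ∃ xw, xw = u + w - Q w • v := ⟨_, rfl⟩
    have hxw' : xw = u + (w + (-(Q w)) • v) := by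
      rw [hxw, neg_smul]
      abel
    have hxq : Q xw = 0 := by
      rw [hxw', Helper13.Q_add', Helper13.Q_add', QuadraticMap.map_smul, hu, hv,
        QuadraticMap.polar_add_right, QuadraticMap.polar_smul_right, QuadraticMap.polar_smul_right,
        hw1, huv, QuadraticMap.polar_comm ⇑Q w v, hw2]
      simp
    have hx0 : xw ≠ 0 := by
      intro h0
      have h1 : QuadraticMap.polar ⇑Q xw v = 1 := by
        rw [hxw', QuadraticMap.polar_add_left, QuadraticMap.polar_add_left,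
          QuadraticMap.polar_smul_left, huv, QuadraticMap.polar_comm ⇑Q w v, hw2,
          polar_self_zero Q v hv]
        simp
      rw [h0, QuadraticMap.polar_zero_left] at h1
      exact zero_ne_one h1
    obtain ⟨lw, hlw⟩ := hpt xw hxq hx0
    have e1 : Φ' xw = l • Φ u + Φ' w - (σ' (Q w) * μ) • Φ v := by
      rw [hxw, h'.sub, h'.add, h'.smul, hl, hμ, smul_smul]
    have e2 : Φ xw = Φ u + Φ w - σ (Q w) • Φ v := by
      rw [hxw, h.sub, h.add, h.smul]
    have e3 : Φ' w = (lw - l) • Φ u + lw • Φ w + (σ' (Q w) * μ - lw * σ (Q w)) • Φ v := by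
      have h3 : Φ' w = lw • (Φ u + Φ w - σ (Q w) • Φ v) - l • Φ u + (σ' (Q w) * μ) • Φ v := by
        rw [← e2, ← hlw, e1]
        abel
      rw [h3]
      funext i
      simp only [Pi.add_apply, Pi.sub_apply, Pi.smul_apply, smul_eq_mul]
      ring
    have p1 : QuadraticMap.polar ⇑Q (Φ' w) (Φ v) = 0 := by
      have h3 := h'.polar w v
      rw [hμ, QuadraticMap.polar_smul_right, QuadraticMap.polar_comm ⇑Q w v, hw2, map_zero,
        mul_zero] at h3
      rcases smul_eq_zero.mp h3 with h0 | h0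
      · exact absurd h0 hμ0
      · exact h0
    have p2 : QuadraticMap.polar ⇑Q (Φ' w) (Φ u) = 0 := by
      have h3 := h'.polar w u
      rw [hl, QuadraticMap.polar_smul_right, QuadraticMap.polar_comm ⇑Q w u, hw1, map_zero,
        mul_zero] at h3
      rcases smul_eq_zero.mp h3 with h0 | h0
      · exact absurd h0 hl0
      · exact h0
    have q1 : QuadraticMap.polar ⇑Q (Φ w) (Φ v) = 0 := by
      rw [h.polar, QuadraticMap.polar_comm ⇑Q w v, hw2]
      simp
    have q2 : QuadraticMap.polar ⇑Q (Φ w) (Φ u) = 0 := by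
      rw [h.polar, QuadraticMap.polar_comm ⇑Q w u, hw1]
      simp
    have hvu' : QuadraticMap.polar ⇑Q (Φ v) (Φ u) = c := by
      rw [QuadraticMap.polar_comm]
      exact huv'
    rw [e3] at p1 p2
    rw [QuadraticMap.polar_add_left, QuadraticMap.polar_add_left, QuadraticMap.polar_smul_left,
      QuadraticMap.polar_smul_left, QuadraticMap.polar_smul_left, huv', q1, hvv] at p1
    rw [QuadraticMap.polar_add_left, QuadraticMap.polar_add_left, QuadraticMap.polar_smul_left,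
      QuadraticMap.polar_smul_left, QuadraticMap.polar_smul_left, huu, q2, hvu'] at p2
    simp only [smul_eq_mul, mul_zero, add_zero, zero_add] at p1 p2
    have hlw' : lw = l := by
      rcases mul_eq_zero.mp p1 with h0 | h0
      · exact sub_eq_zero.mp h0
      · exact absurd h0 hc
    have hd : σ' (Q w) * μ - lw * σ (Q w) = 0 := by
      rcases mul_eq_zero.mp p2 with h0 | h0
      · exact h0
      · exact absurd h0 hc
    constructor
    · rw [e3, hd, hlw']
      simp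
    · rw [hlw'] at hd
      exact sub_eq_zero.mp hd
  obtain ⟨w₀, hw₀, hw₀u, hw₀v⟩ := exists_nonsing_perp2 Q hQ hn u v
  have hw₀0 : w₀ ≠ 0 := by
    rintro rfl
    simp at hw₀
  have hΦw₀ : Φ w₀ ≠ 0 := fun h0 => hw₀0 (h.inj hQ w₀ 0 (by rw [h0, h.zero]))
  have hσ : σ' = σ := by
    ext t
    have k1 := (key (t • w₀) (by rw [QuadraticMap.polar_smul_right, hw₀u, smul_zero])
      (by rw [QuadraticMap.polar_smul_right, hw₀v, smul_zero])).1
    rw [h'.smul, h.smul, (key w₀ hw₀u hw₀v).1, smul_smul, smul_smul] at k1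
    have k2 : (σ' t * l - l * σ t) • Φ w₀ = 0 := by
      rw [sub_smul, k1, sub_self]
    rcases smul_eq_zero.mp k2 with h0 | h0
    · have h1 : (σ' t - σ t) * l = 0 := by linear_combination h0
      rcases mul_eq_zero.mp h1 with h2 | h2
      · exact sub_eq_zero.mp h2
      · exact absurd h2 hl0
    · exact absurd h0 hΦw₀
  subst hσ
  have hμl : μ = l := by
    have k1 := (key w₀ hw₀u hw₀v).2
    have hq : σ' (Q w₀) ≠ 0 := by
      intro h0
      exact hw₀ ((map_eq_zero_iff σ' σ'.injective).mp h0)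
    apply mul_left_cancel₀ hq
    rw [k1, mul_comm]
  refine ⟨rfl, l, fun x => ?_⟩
  have hdec : x = QuadraticMap.polar ⇑Q v x • u + QuadraticMap.polar ⇑Q u x • v + projH Q u v x := by
    unfold projH
    abel
  have hp := key (projH Q u v x) (projH_perp_e Q u v x hu huv) (projH_perp_f Q u v x hv huv)
  obtain ⟨a, ha⟩ : ∃ a, a = QuadraticMap.polar ⇑Q v x := ⟨_, rfl⟩
  obtain ⟨b, hb⟩ : ∃ b, b = QuadraticMap.polar ⇑Q u x := ⟨_, rfl⟩
  obtain ⟨z, hz⟩ : ∃ z, z = projH Q u v x := ⟨_, rfl⟩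
  rw [← ha, ← hb, ← hz] at hdec
  rw [← hz] at hp
  rw [hdec, h'.add, h'.add, h'.smul, h'.smul, h.add, h.add, h.smul, h.smul, hl, hμ, hμl, hp.1]
  funext i
  simp only [Pi.add_apply, Pi.smul_apply, smul_eq_mul]
  ring

/-- **uniqueness of the inducing pair**: two pairs inducing the same automorphism have the same
field automorphism and proportional semilinear maps -/
theorem semi_unique (hQ : (QuadraticMap.polarBilin Q).Nondegenerate) (hn : 5 ≤ Fintype.card ι)
    (g g' : GL ι F) (σ σ' : F ≃+* F) (hg : IsSemisimilarityPair ⇑Q g σ)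
    (hg' : IsSemisimilarityPair ⇑Q g' σ') (h : semiAut ⇑Q g σ hg = semiAut ⇑Q g' σ' hg') :
    σ' = σ ∧ ∃ l : F, ∀ x, semiMap g' σ' x = l • semiMap g σ x := by
  obtain ⟨c, hc⟩ := id hg
  obtain ⟨c', hc'⟩ := id hg'
  exact ss_scalar Q hQ hn (ss_semi Q c hc) (ss_semi Q c' hc')
    (semi_pt Q hQ hn g g' σ σ' hg hg' h)

/-- a similarity inducing the identity on `PΩ` is a scalar matrix -/
theorem scalar_of_ind (hQ : (QuadraticMap.polarBilin Q).Nondegenerate) (hn : 5 ≤ Fintype.card ι)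
    (g : GL ι F) (hg : g ∈ Geo.quadSimilarityGroup (F := F) ⇑Q)
    (h1 : Ind ⇑Q g (1 : MulAut (POmega F ⇑Q))) : ∃ c : F, (g : Matrix ι ι F) = c • (1 : Matrix ι ι F) := by
  have e1 : (1 : MulAut (POmega F ⇑Q)) = semiAut ⇑Q g (RingEquiv.refl F) hg :=
    (semi_ind_iff ⇑Q g (RingEquiv.refl F) hg 1).mp h1
  have e2 : semiAut ⇑Q (1 : GL ι F) (RingEquiv.refl F) (semi_one ⇑Q) =
      semiAut ⇑Q g (RingEquiv.refl F) hg := by
    rw [semiAut_one, e1]
  obtain ⟨-, l, hl⟩ := semi_unique Q hQ hn 1 g (RingEquiv.refl F) (RingEquiv.refl F) (semi_one ⇑Q) hg e2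
  refine ⟨l, ?_⟩
  apply Helper13.mulVec_ext
  intro x
  have h3 := hl x
  unfold semiMap at h3
  rw [Units.val_one, Matrix.one_mulVec] at h3
  rw [Matrix.smul_mulVec, Matrix.one_mulVec]
  exact h3

end Geo

end Cfsg.Agent.Helper45.OO
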