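import Cfsg.Agent.Helper45.SpInv2

set_option autoImplicit false
set_option linter.unusedSectionVars false

universe u

/-!
Centralisers of involutions of the symplectic group in characteristic two: orbit counting on
frames.
-/

namespace Cfsg.Agent.Helper45.SpI

open Cfsg Matrix

/-- counting a group through a map whose fibres are the cosets of a subgroup -/
theorem card_eq_range_mul {G : Type*} [Group G] {X : Type*} (K : Subgroup G) (f : G → X)
    (hf : ∀ g h, f g = f h ↔ g⁻¹ * h ∈ K) :
    Nat.card G = Nat.card (Set.range f) * Nat.card K := by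
  rw [Subgroup.card_eq_card_quotient_mul_card_subgroup K]
  congr 1
  apply Nat.card_congr
  refine Equiv.ofBijective
    (Quotient.lift (s := QuotientGroup.leftRel K) (fun g => (⟨f g, g, rfl⟩ : Set.range f)) ?_)
    ⟨?_, ?_⟩
  · intro a b hab
    exact Subtype.ext ((hf a b).mpr (QuotientGroup.leftRel_apply.mp hab))
  · intro x y
    refine Quotient.inductionOn₂ x y ?_
    intro a b h
    apply Quotient.sound
    exact QuotientGroup.leftRel_apply.mpr ((hf a b).mp (congrArg Subtype.val h))
  · rintro ⟨_, g, rfl⟩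
    exact ⟨Quotient.mk _ g, rfl⟩

section Frames

variable {F : Type u} [Field F] {m : ℕ} {κ : Type} [Fintype κ] [DecidableEq κ]

/-- a linearly independent family has a dual family for the symplectic form -/
theorem exists_dual (c : κ → (Fin m ⊕ Fin m → F)) (hc : LinearIndependent F c) :
    ∃ d : κ → (Fin m ⊕ Fin m → F),
      ∀ i j, Helper13.sympB m F (d i) (c j) = if i = j then 1 else 0 := by
  have hinj := linearIndependent_iff_injective_fintypeLinearCombination.mp hc
  obtain ⟨g, hg⟩ := LinearMap.exists_leftInverse_of_injective (Fintype.linearCombination F c)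
    (LinearMap.ker_eq_bot.mpr hinj)
  have hgc : ∀ j, g (c j) = Pi.single j (1 : F) := by
    intro j
    have h1 : Fintype.linearCombination F c (Pi.single j (1 : F)) = c j := by
      rw [Fintype.linearCombination_apply, Finset.sum_eq_single j]
      · rw [Pi.single_eq_same, one_smul]
      · intro i _ hij
        rw [Pi.single_eq_of_ne hij, zero_smul]
      · intro hj
        exact absurd (Finset.mem_univ j) hj
    rw [← h1]
    exact LinearMap.congr_fun hg _
  refine ⟨fun i => ((Helper13.sympB m F).toDual Helper13.sympB_nondegenerate).symm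
    ((LinearMap.proj i).comp g), ?_⟩
  intro i j
  rw [LinearMap.BilinForm.apply_toDual_symm_apply, LinearMap.comp_apply, hgc, LinearMap.proj_apply,
    Pi.single_apply]

/-- the symplectic group is transitive on frames of a given shape (Witt) -/
theorem frame_trans [CharP F 2] {σ : κ → κ} {c d c' d' : κ → (Fin m ⊕ Fin m → F)}
    (h : InvFrame σ c d) (h' : InvFrame σ c' d') :
    ∃ k : Matrix.symplecticGroup (Fin m) F, ∀ j, smv k (c j) = c' j := by
  let φ : (Fin m ⊕ Fin m → F) →ₗ[F] (Fin m ⊕ Fin m → F) :=
    ∑ i, (Helper13.sympB m F (d i)).smulRight (c' i)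
  have hφ : ∀ x, φ x = ∑ i, Helper13.sympB m F (d i) x • c' i := by
    intro x
    show (∑ i, (Helper13.sympB m F (d i)).smulRight (c' i)) x = _
    rw [LinearMap.sum_apply]
    apply Finset.sum_congr rfl
    intro i _
    rw [LinearMap.smulRight_apply]
  have hφl : ∀ l : κ → F, φ (∑ j, l j • c j) = ∑ j, l j • c' j := by
    intro l
    rw [hφ]
    apply Finset.sum_congr rfl
    intro i _
    congr 1
    rw [sB_sum_right, Finset.sum_eq_single i]
    · rw [h.dual, if_pos rfl, mul_one]
    · intro j _ hji
      rw [h.dual, if_neg (Ne.symm hji), mul_zero]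
    · intro hi
      exact absurd (Finset.mem_univ i) hi
  have hφc : ∀ j, φ (c j) = c' j := by
    intro j
    rw [hφ, Finset.sum_eq_single j]
    · rw [h.dual, if_pos rfl, one_smul]
    · intro i _ hij
      rw [h.dual, if_neg hij, zero_smul]
    · intro hj
      exact absurd (Finset.mem_univ j) hj
  have hzero : ∀ (e : κ → (Fin m ⊕ Fin m → F)),
      (∀ i j, Helper13.sympB m F (e i) (e j) = 0) → ∀ l l' : κ → F,
      Helper13.sympB m F (∑ j, l j • e j) (∑ j, l' j • e j) = 0 := by
    intro e he l l'
    rw [sB_sum_right]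
    apply Finset.sum_eq_zero
    intro i _
    rw [sB_sum_left]
    rw [Finset.sum_eq_zero, mul_zero]
    intro j _
    rw [he, mul_zero]
  obtain ⟨g, hg, hgx⟩ := Helper13.witt_alt (Helper13.sympB m F) Helper13.sympB_nondegenerate
    Helper13.sympB_isAlt (Submodule.span F (Set.range c)) φ
    (by
      intro x hx x' hx'
      obtain ⟨l, rfl⟩ := (Submodule.mem_span_range_iff_exists_fun F).mp hx
      obtain ⟨l', rfl⟩ := (Submodule.mem_span_range_iff_exists_fun F).mp hx'
      rw [hφl, hφl, hzero c' h'.ti, hzero c h.ti])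
    (by
      intro x hx h0
      obtain ⟨l, rfl⟩ := (Submodule.mem_span_range_iff_exists_fun F).mp hx
      rw [hφl] at h0
      have hl := Fintype.linearIndependent_iff.mp h'.linIndep l h0
      apply Finset.sum_eq_zero
      intro i _
      rw [hl i, zero_smul])
  obtain ⟨k, -, hk⟩ := Helper13.TG_to_matrix g hg
  refine ⟨k, ?_⟩
  intro j
  show (k : Matrix (Fin m ⊕ Fin m) (Fin m ⊕ Fin m) F) *ᵥ c j = c' j
  rw [← hk, hgx (c j) (Submodule.subset_span ⟨j, rfl⟩), hφc]

/-- the pointwise stabiliser of a family of vectors -/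
def frameStab (c : κ → (Fin m ⊕ Fin m → F)) : Subgroup (Matrix.symplecticGroup (Fin m) F) where
  carrier := {g | ∀ i, smv g (c i) = c i}
  one_mem' := fun i => smv_one _
  mul_mem' := fun {g h} hg hh i => by
    show smv (g * h) (c i) = c i
    rw [smv_mul, hh i, hg i]
  inv_mem' := fun {g} hg i => by
    show smv g⁻¹ (c i) = c i
    have h1 := smv_inv_cancel' g (c i)
    rw [hg i] at h1
    exact h1

theorem mem_frameStab (c : κ → (Fin m ⊕ Fin m → F)) (g : Matrix.symplecticGroup (Fin m) F) :
    g ∈ frameStab c ↔ ∀ i, smv g (c i) = c i := Iff.rfl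

/-- the image of a frame under a symplectic matrix is a frame -/
theorem InvFrame.map {σ : κ → κ} {c d : κ → (Fin m ⊕ Fin m → F)} (h : InvFrame σ c d)
    (g : Matrix.symplecticGroup (Fin m) F) :
    InvFrame σ (fun i => smv g (c i)) (fun i => smv g (d i)) :=
  { ti := fun i j => by rw [smv_form, h.ti]
    dual := fun i j => by rw [smv_form, h.dual]
    invol := h.invol }

theorem orbit_map_eq_iff (c : κ → (Fin m ⊕ Fin m → F)) (g k : Matrix.symplecticGroup (Fin m) F) :
    ((fun i => smv g (c i)) = fun i => smv k (c i)) ↔ g⁻¹ * k ∈ frameStab c := by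
  rw [mem_frameStab]
  constructor
  · intro h i
    have h1 := congrFun h i
    rw [smv_mul, ← h1, smv_inv_cancel']
  · intro h
    funext i
    have h1 := h i
    rw [smv_mul] at h1
    have h2 := congrArg (smv g) h1
    rw [smv_inv_cancel] at h2
    exact h2.symm

/-- orbit-stabiliser for the symplectic group acting on frames -/
theorem card_sp_eq_frames [CharP F 2] {σ : κ → κ} {c d : κ → (Fin m ⊕ Fin m → F)}
    (h : InvFrame σ c d) :
    Nat.card (Matrix.symplecticGroup (Fin m) F) =
      Nat.card ↥{c' : κ → (Fin m ⊕ Fin m → F) | ∃ d', InvFrame σ c' d'} *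
        Nat.card (frameStab c) := by
  have hset : (Set.range fun (g : Matrix.symplecticGroup (Fin m) F) (i : κ) => smv g (c i)) =
      {c' : κ → (Fin m ⊕ Fin m → F) | ∃ d', InvFrame σ c' d'} := by
    ext c'
    constructor
    · rintro ⟨g, rfl⟩
      exact ⟨_, h.map g⟩
    · rintro ⟨d', h'⟩
      obtain ⟨k, hk⟩ := frame_trans h h'
      exact ⟨k, funext hk⟩
  rw [card_eq_range_mul (frameStab c) (fun g i => smv g (c i)) (orbit_map_eq_iff c), hset]

/-- conjugating the frame endomorphism -/
theorem frameN_conj (σ : κ → κ) (c : κ → (Fin m ⊕ Fin m → F))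
    (g : Matrix.symplecticGroup (Fin m) F) (x : Fin m ⊕ Fin m → F) :
    smv g (frameN σ c (smv g⁻¹ x)) = frameN σ (fun i => smv g (c i)) x := by
  rw [frameN_apply, frameN_apply, smv_sum]
  apply Finset.sum_congr rfl
  intro i _
  rw [smv_smul, ← smv_form g (smv g⁻¹ x) (c i), smv_inv_cancel]

theorem mem_centralizer_iff_frameN [CharP F 2] {σ : κ → κ} {c : κ → (Fin m ⊕ Fin m → F)}
    (t : Matrix.symplecticGroup (Fin m) F) (ht : ∀ x, smv t x = x + frameN σ c x)
    (g : Matrix.symplecticGroup (Fin m) F) :
    g ∈ Subgroup.centralizer ({t} : Set (Matrix.symplecticGroup (Fin m) F)) ↔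
      frameN σ (fun i => smv g (c i)) = frameN σ c := by
  have key : ∀ x, snilp (g * t * g⁻¹) x = frameN σ (fun i => smv g (c i)) x := by
    intro x
    rw [snilp_conj, snilp_eq_frameN t ht, frameN_conj]
  rw [Subgroup.mem_centralizer_iff]
  constructor
  · intro hg
    have h1 : g * t * g⁻¹ = t := by
      rw [← hg t rfl, mul_inv_cancel_right]
    apply LinearMap.ext
    intro x
    rw [← key, h1, snilp_eq_frameN t ht]
  · intro hg s hs
    rw [Set.mem_singleton_iff] at hs
    subst hs
    have h1 : g * s * g⁻¹ = s := by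
      apply ext_smv
      intro x
      rw [smv_eq_add_snilp, key, hg, ht]
    calc s * g = g * s * g⁻¹ * g := by rw [h1]
      _ = g * s := by rw [inv_mul_cancel_right]

theorem frameStab_le_centralizer [CharP F 2] {σ : κ → κ} {c : κ → (Fin m ⊕ Fin m → F)}
    (t : Matrix.symplecticGroup (Fin m) F) (ht : ∀ x, smv t x = x + frameN σ c x) :
    frameStab c ≤ Subgroup.centralizer ({t} : Set (Matrix.symplecticGroup (Fin m) F)) := by
  intro g hg
  rw [mem_centralizer_iff_frameN t ht]
  have h1 : (fun i => smv g (c i)) = c := funext hg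
  rw [h1]

/-- orbit-stabiliser for the centraliser of an involution acting on its frames -/
theorem card_centralizer_eq [CharP F 2] {σ : κ → κ} {c d : κ → (Fin m ⊕ Fin m → F)}
    (h : InvFrame σ c d) (t : Matrix.symplecticGroup (Fin m) F)
    (ht : ∀ x, smv t x = x + frameN σ c x) :
    Nat.card ↥(Subgroup.centralizer ({t} : Set (Matrix.symplecticGroup (Fin m) F))) =
      Nat.card ↥{c' : κ → (Fin m ⊕ Fin m → F) |
        (∃ d', InvFrame σ c' d') ∧ frameN σ c' = frameN σ c} * Nat.card (frameStab c) := by
  have hle := frameStab_le_centralizer t ht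
  have hset : (Set.range fun
      (g : ↥(Subgroup.centralizer ({t} : Set (Matrix.symplecticGroup (Fin m) F)))) (i : κ) =>
      smv (g : Matrix.symplecticGroup (Fin m) F) (c i)) =
      {c' : κ → (Fin m ⊕ Fin m → F) | (∃ d', InvFrame σ c' d') ∧ frameN σ c' = frameN σ c} := by
    ext c'
    constructor
    · rintro ⟨g, rfl⟩
      exact ⟨⟨_, h.map g⟩, (mem_centralizer_iff_frameN t ht g).mp g.2⟩
    · rintro ⟨⟨d', h'⟩, hN⟩
      obtain ⟨k, hk⟩ := frame_trans h h'
      have hk' : (fun i => smv k (c i)) = c' := funext hk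
      refine ⟨⟨k, (mem_centralizer_iff_frameN t ht k).mpr ?_⟩, hk'⟩
      rw [hk', hN]
  rw [card_eq_range_mul ((frameStab c).subgroupOf
      (Subgroup.centralizer ({t} : Set (Matrix.symplecticGroup (Fin m) F))))
    (fun (g : ↥(Subgroup.centralizer ({t} : Set (Matrix.symplecticGroup (Fin m) F)))) i =>
      smv (g : Matrix.symplecticGroup (Fin m) F) (c i))
    (fun g k => by
      rw [Subgroup.mem_subgroupOf]
      exact orbit_map_eq_iff c g k),
    Nat.card_congr (Subgroup.subgroupOfEquivOfLe hle).toEquiv, hset]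

end Frames

end Cfsg.Agent.Helper45.SpI
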