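import Cfsg.Agent.Helper45.SpCent1

set_option autoImplicit false
set_option linter.unusedSectionVars false

universe u

/-!
Centralisers of involutions of the symplectic group in characteristic two: the frames of an
involution are parametrised by the matrices preserving the shape.
-/

namespace Cfsg.Agent.Helper45.SpI

open Cfsg Matrix

section Shape

variable {F : Type u} [Field F] {m : ℕ} {κ : Type} [Fintype κ] [DecidableEq κ]

/-- the permutation matrix of a shape -/
def shapeM (F : Type u) [Field F] (σ : κ → κ) : Matrix κ κ F :=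
  Matrix.of fun i j => if j = σ i then 1 else 0

/-- the coordinates `f(x, c j)` -/
def cvec (c : κ → (Fin m ⊕ Fin m → F)) (x : Fin m ⊕ Fin m → F) : κ → F :=
  fun j => Helper13.sympB m F x (c j)

/-- linear combinations of a family -/
def lincomb (c : κ → (Fin m ⊕ Fin m → F)) (η : κ → F) : Fin m ⊕ Fin m → F :=
  ∑ l, η l • c l

/-- a matrix acting on a family -/
def mact (A : Matrix κ κ F) (c : κ → (Fin m ⊕ Fin m → F)) : κ → (Fin m ⊕ Fin m → F) :=
  fun i => ∑ j, A i j • c j

theorem shapeM_mulVec (σ : κ → κ) (ξ : κ → F) (l : κ) : (shapeM F σ *ᵥ ξ) l = ξ (σ l) := by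
  show ∑ j, shapeM F σ l j * ξ j = ξ (σ l)
  rw [Finset.sum_eq_single (σ l)]
  · show (if σ l = σ l then (1 : F) else 0) * ξ (σ l) = ξ (σ l)
    rw [if_pos rfl, one_mul]
  · intro j _ hj
    show (if j = σ l then (1 : F) else 0) * ξ j = 0
    rw [if_neg hj, zero_mul]
  · intro hj
    exact absurd (Finset.mem_univ _) hj

theorem frameN_eq_lincomb (σ : κ → κ) (hσ : ∀ i, σ (σ i) = i) (c : κ → (Fin m ⊕ Fin m → F))
    (x : Fin m ⊕ Fin m → F) : frameN σ c x = lincomb c (shapeM F σ *ᵥ cvec c x) := by
  rw [frameN_apply]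
  unfold lincomb
  rw [← Equiv.sum_comp (Function.Involutive.toPerm σ hσ)
    (fun i => Helper13.sympB m F x (c i) • c (σ i))]
  apply Finset.sum_congr rfl
  intro l _
  rw [shapeM_mulVec]
  show Helper13.sympB m F x (c (σ l)) • c (σ (σ l)) = _
  rw [hσ]
  rfl

theorem cvec_mact (A : Matrix κ κ F) (c : κ → (Fin m ⊕ Fin m → F)) (x : Fin m ⊕ Fin m → F) :
    cvec (mact A c) x = A *ᵥ cvec c x := by
  funext i
  show Helper13.sympB m F x (∑ j, A i j • c j) = ∑ j, A i j * cvec c x j
  rw [sB_sum_right]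
  rfl

theorem lincomb_mact (A : Matrix κ κ F) (c : κ → (Fin m ⊕ Fin m → F)) (η : κ → F) :
    lincomb (mact A c) η = lincomb c (Aᵀ *ᵥ η) := by
  unfold lincomb mact
  have h1 : ∀ l, (Aᵀ *ᵥ η) l • c l = ∑ i, (η i * A i l) • c l := by
    intro l
    show (∑ i, Aᵀ l i * η i) • c l = _
    rw [Finset.sum_smul]
    apply Finset.sum_congr rfl
    intro i _
    rw [Matrix.transpose_apply, mul_comm]
  have h2 : ∀ i, η i • ∑ j, A i j • c j = ∑ j, (η i * A i j) • c j := by
    intro i
    rw [Finset.smul_sum]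
    apply Finset.sum_congr rfl
    intro j _
    rw [smul_smul]
  rw [Finset.sum_congr rfl (fun l _ => h1 l), Finset.sum_congr rfl (fun i _ => h2 i),
    Finset.sum_comm]

theorem frameN_mact (σ : κ → κ) (hσ : ∀ i, σ (σ i) = i) (A : Matrix κ κ F)
    (c : κ → (Fin m ⊕ Fin m → F)) (x : Fin m ⊕ Fin m → F) :
    frameN σ (mact A c) x = lincomb c ((Aᵀ * shapeM F σ * A) *ᵥ cvec c x) := by
  rw [frameN_eq_lincomb σ hσ, cvec_mact, lincomb_mact, Matrix.mulVec_mulVec, Matrix.mulVec_mulVec,
    Matrix.mul_assoc]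

theorem form_dual_lincomb {σ : κ → κ} {c d : κ → (Fin m ⊕ Fin m → F)} (h : InvFrame σ c d)
    (η : κ → F) (l : κ) : Helper13.sympB m F (d l) (lincomb c η) = η l := by
  unfold lincomb
  rw [sB_sum_right, Finset.sum_eq_single l]
  · rw [h.dual, if_pos rfl, mul_one]
  · intro j _ hj
    rw [h.dual, if_neg (Ne.symm hj), mul_zero]
  · intro hl
    exact absurd (Finset.mem_univ _) hl

theorem lincomb_injective {σ : κ → κ} {c d : κ → (Fin m ⊕ Fin m → F)} (h : InvFrame σ c d)
    (η η' : κ → F) (he : lincomb c η = lincomb c η') : η = η' := by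
  funext l
  rw [← form_dual_lincomb h η l, ← form_dual_lincomb h η' l, he]

theorem cvec_lincomb_dual [CharP F 2] {σ : κ → κ} {c d : κ → (Fin m ⊕ Fin m → F)}
    (h : InvFrame σ c d) (η : κ → F) : cvec c (lincomb d η) = η := by
  funext j
  show Helper13.sympB m F (∑ l, η l • d l) (c j) = η j
  rw [sB_sum_left, Finset.sum_eq_single j]
  · rw [h.dual, if_pos rfl, mul_one]
  · intro l _ hl
    rw [h.dual, if_neg hl, mul_zero]
  · intro hj
    exact absurd (Finset.mem_univ _) hj

theorem frameN_mact_eq_iff [CharP F 2] {σ : κ → κ} {c d : κ → (Fin m ⊕ Fin m → F)}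
    (h : InvFrame σ c d) (A : Matrix κ κ F) :
    frameN σ (mact A c) = frameN σ c ↔ Aᵀ * shapeM F σ * A = shapeM F σ := by
  constructor
  · intro hN
    apply Helper13.mulVec_ext
    intro η
    apply lincomb_injective h
    have h1 := LinearMap.congr_fun hN (lincomb d η)
    rw [frameN_mact σ h.invol, frameN_eq_lincomb σ h.invol c, cvec_lincomb_dual h] at h1
    exact h1
  · intro hA
    apply LinearMap.ext
    intro x
    rw [frameN_mact σ h.invol, hA, ← frameN_eq_lincomb σ h.invol]

theorem mact_injective {σ : κ → κ} {c d : κ → (Fin m ⊕ Fin m → F)} (h : InvFrame σ c d)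
    (A A' : Matrix κ κ F) (he : mact A c = mact A' c) : A = A' := by
  ext i j
  have h1 : lincomb c (A i) = lincomb c (A' i) := congrFun he i
  exact congrFun (lincomb_injective h _ _ h1) j

theorem form_span_zero [CharP F 2] (c : κ → (Fin m ⊕ Fin m → F))
    (hti : ∀ i j, Helper13.sympB m F (c i) (c j) = 0) (x y : Fin m ⊕ Fin m → F)
    (hx : x ∈ Submodule.span F (Set.range c)) (hy : y ∈ Submodule.span F (Set.range c)) :
    Helper13.sympB m F x y = 0 := by
  obtain ⟨l, rfl⟩ := (Submodule.mem_span_range_iff_exists_fun F).mp hx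
  obtain ⟨l', rfl⟩ := (Submodule.mem_span_range_iff_exists_fun F).mp hy
  rw [sB_sum_right]
  apply Finset.sum_eq_zero
  intro i _
  rw [sB_sum_left]
  rw [Finset.sum_eq_zero, mul_zero]
  intro j _
  rw [hti, mul_zero]

theorem range_frameN_le (σ : κ → κ) (c : κ → (Fin m ⊕ Fin m → F)) :
    LinearMap.range (frameN σ c) ≤ Submodule.span F (Set.range c) := by
  rintro _ ⟨x, rfl⟩
  rw [frameN_apply]
  apply Submodule.sum_mem
  intro i _
  exact Submodule.smul_mem _ _ (Submodule.subset_span ⟨σ i, rfl⟩)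

/-- a family with the same frame endomorphism as a frame is a frame inside the same span -/
theorem frame_of_frameN_eq [CharP F 2] {σ : κ → κ} {c d : κ → (Fin m ⊕ Fin m → F)}
    (h : InvFrame σ c d) (c' : κ → (Fin m ⊕ Fin m → F)) (hN : frameN σ c' = frameN σ c) :
    (∃ d', InvFrame σ c' d') ∧ ∀ i, c' i ∈ Submodule.span F (Set.range c) := by
  have h1 : Module.finrank F (LinearMap.range (frameN σ c')) = Fintype.card κ := by
    rw [hN]
    exact h.finrank_range
  have h2 := Submodule.finrank_mono (range_frameN_le σ c')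
  have h3 : Module.finrank F (Submodule.span F (Set.range c')) ≤ Fintype.card κ :=
    finrank_range_le_card c'
  have h4 : Module.finrank F (Submodule.span F (Set.range c')) = Fintype.card κ := by omega
  have hli : LinearIndependent F c' :=
    linearIndependent_iff_card_eq_finrank_span.mpr h4.symm
  have h5 : LinearMap.range (frameN σ c') = Submodule.span F (Set.range c') :=
    Submodule.eq_of_le_of_finrank_eq (range_frameN_le σ c') (by rw [h1, h4])
  have h6 : Submodule.span F (Set.range c') = Submodule.span F (Set.range c) := by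
    rw [← h5, hN, h.range_frameN]
  have hmem : ∀ i, c' i ∈ Submodule.span F (Set.range c) := by
    intro i
    rw [← h6]
    exact Submodule.subset_span ⟨i, rfl⟩
  obtain ⟨d', hd'⟩ := exists_dual c' hli
  exact ⟨⟨d', ⟨fun i j => form_span_zero c h.ti _ _ (hmem i) (hmem j), hd', h.invol⟩⟩, hmem⟩

/-- the frames of an involution are parametrised by the matrices preserving the shape -/
theorem card_frames_eq [CharP F 2] {σ : κ → κ} {c d : κ → (Fin m ⊕ Fin m → F)}
    (h : InvFrame σ c d) :
    Nat.card ↥{c' : κ → (Fin m ⊕ Fin m → F) |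
        (∃ d', InvFrame σ c' d') ∧ frameN σ c' = frameN σ c} =
      Nat.card {A : Matrix κ κ F // Aᵀ * shapeM F σ * A = shapeM F σ} := by
  symm
  apply Nat.card_congr
  refine Equiv.ofBijective (fun A => ⟨mact A.1 c, ?_⟩) ⟨?_, ?_⟩
  · have hN := (frameN_mact_eq_iff h A.1).mpr A.2
    exact ⟨(frame_of_frameN_eq h _ hN).1, hN⟩
  · intro A A' hAA
    exact Subtype.ext (mact_injective h _ _ (congrArg Subtype.val hAA))
  · rintro ⟨c', hc', hN⟩
    have hmem := (frame_of_frameN_eq h c' hN).2
    have hex : ∀ i, ∃ a : κ → F, ∑ j, a j • c j = c' i :=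
      fun i => (Submodule.mem_span_range_iff_exists_fun F).mp (hmem i)
    choose A hA using hex
    have hAc : mact (Matrix.of A) c = c' := funext hA
    refine ⟨⟨Matrix.of A, (frameN_mact_eq_iff h _).mp ?_⟩, Subtype.ext hAc⟩
    rw [hAc, hN]

end Shape

end Cfsg.Agent.Helper45.SpI
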