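import Cfsg.Agent.Helper45.SpCent2

set_option autoImplicit false
set_option linter.unusedSectionVars false

universe u

/-!
Centralisers of involutions of the symplectic group in characteristic two: the number of totally
isotropic frames.
-/

namespace Cfsg.Agent.Helper45.SpI

open Cfsg Matrix

section CountFrames

variable {F : Type u} [Field F] [CharP F 2] {m : ℕ}

/-- linearly independent totally isotropic families -/
def IsTI {κ : Type} (c : κ → (Fin m ⊕ Fin m → F)) : Prop :=
  LinearIndependent F c ∧ ∀ i j, Helper13.sympB m F (c i) (c j) = 0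

theorem frame_iff_isTI {κ : Type} [Fintype κ] [DecidableEq κ] (σ : κ → κ)
    (hσ : ∀ i, σ (σ i) = i) (c : κ → (Fin m ⊕ Fin m → F)) :
    (∃ d, InvFrame σ c d) ↔ IsTI c := by
  constructor
  · rintro ⟨d, h⟩
    exact ⟨h.linIndep, h.ti⟩
  · rintro ⟨hli, hti⟩
    obtain ⟨d, hd⟩ := exists_dual c hli
    exact ⟨d, ⟨hti, hd, hσ⟩⟩

theorem isTI_cons {s : ℕ} (v : Fin m ⊕ Fin m → F) (c : Fin s → (Fin m ⊕ Fin m → F)) :
    IsTI (Fin.cons v c : Fin (s + 1) → (Fin m ⊕ Fin m → F)) ↔
      IsTI c ∧ (v ∉ Submodule.span F (Set.range c) ∧ ∀ j, Helper13.sympB m F v (c j) = 0) := by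
  unfold IsTI
  rw [linearIndependent_finCons]
  constructor
  · rintro ⟨⟨h1, h2⟩, h3⟩
    refine ⟨⟨h1, fun i j => ?_⟩, h2, fun j => ?_⟩
    · have := h3 i.succ j.succ
      rwa [Fin.cons_succ, Fin.cons_succ] at this
    · have := h3 0 j.succ
      rwa [Fin.cons_zero, Fin.cons_succ] at this
  · rintro ⟨⟨h1, h2⟩, h3, h4⟩
    refine ⟨⟨h1, h3⟩, fun i j => ?_⟩
    refine Fin.cases ?_ (fun i' => ?_) i
    · refine Fin.cases ?_ (fun j' => ?_) j
      · rw [Fin.cons_zero]
        exact sB_self v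
      · rw [Fin.cons_zero, Fin.cons_succ]
        exact h4 j'
    · refine Fin.cases ?_ (fun j' => ?_) j
      · rw [Fin.cons_zero, Fin.cons_succ, sB_comm]
        exact h4 i'
      · rw [Fin.cons_succ, Fin.cons_succ]
        exact h2 i' j'

variable [Fintype F]

theorem card_submodule (W : Submodule F (Fin m ⊕ Fin m → F)) :
    (W : Set (Fin m ⊕ Fin m → F)).ncard = Fintype.card F ^ Module.finrank F W := by
  classical
  rw [← Nat.card_coe_set_eq]
  show Nat.card ↥W = _
  rw [Nat.card_eq_fintype_card, Module.card_eq_pow_finrank (K := F)]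

/-- the number of ways to extend a totally isotropic family by one vector -/
theorem card_ext {s : ℕ} (c : Fin s → (Fin m ⊕ Fin m → F)) (hc : IsTI c) :
    Nat.card {v : Fin m ⊕ Fin m → F //
        v ∉ Submodule.span F (Set.range c) ∧ ∀ j, Helper13.sympB m F v (c j) = 0} =
      Fintype.card F ^ (2 * m - s) - Fintype.card F ^ s := by
  have hW : Module.finrank F (Submodule.span F (Set.range c)) = s := by
    rw [finrank_span_eq_card hc.1, Fintype.card_fin]
  have hO : Module.finrank F ((Helper13.sympB m F).orthogonal (Submodule.span F (Set.range c))) =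
      2 * m - s := by
    rw [LinearMap.BilinForm.finrank_orthogonal Helper13.sympB_nondegenerate, hW,
      Module.finrank_fintype_fun_eq_card, Fintype.card_sum, Fintype.card_fin, two_mul]
  have hmem : ∀ v : Fin m ⊕ Fin m → F,
      v ∈ (Helper13.sympB m F).orthogonal (Submodule.span F (Set.range c)) ↔
        ∀ j, Helper13.sympB m F v (c j) = 0 := by
    intro v
    rw [LinearMap.BilinForm.mem_orthogonal_iff]
    constructor
    · intro h j
      rw [sB_comm]
      exact h _ (Submodule.subset_span ⟨j, rfl⟩)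
    · intro h w hw
      obtain ⟨l, rfl⟩ := (Submodule.mem_span_range_iff_exists_fun F).mp hw
      rw [sB_sum_left]
      apply Finset.sum_eq_zero
      intro j _
      rw [sB_comm, h j, mul_zero]
  have hsub : (Submodule.span F (Set.range c) : Set (Fin m ⊕ Fin m → F)) ⊆
      ((Helper13.sympB m F).orthogonal (Submodule.span F (Set.range c)) :
        Set (Fin m ⊕ Fin m → F)) := by
    intro v hv
    show v ∈ (Helper13.sympB m F).orthogonal (Submodule.span F (Set.range c))
    rw [hmem]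
    intro j
    exact form_span_zero c hc.2 _ _ hv (Submodule.subset_span ⟨j, rfl⟩)
  have hset : {v : Fin m ⊕ Fin m → F |
      v ∉ Submodule.span F (Set.range c) ∧ ∀ j, Helper13.sympB m F v (c j) = 0} =
      ((Helper13.sympB m F).orthogonal (Submodule.span F (Set.range c)) :
        Set (Fin m ⊕ Fin m → F)) \ (Submodule.span F (Set.range c) : Set (Fin m ⊕ Fin m → F)) := by
    ext v
    constructor
    · rintro ⟨h1, h2⟩
      exact ⟨(hmem v).mpr h2, h1⟩
    · rintro ⟨h1, h2⟩
      exact ⟨h2, (hmem v).mp h1⟩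
  show Nat.card ↥{v : Fin m ⊕ Fin m → F |
      v ∉ Submodule.span F (Set.range c) ∧ ∀ j, Helper13.sympB m F v (c j) = 0} = _
  rw [Nat.card_coe_set_eq, hset, Set.ncard_sdiff' hsub (Set.toFinite _), card_submodule,
    card_submodule, hW, hO]

theorem card_isTI_succ (s : ℕ) :
    Nat.card {c : Fin (s + 1) → (Fin m ⊕ Fin m → F) // IsTI c} =
      Nat.card {c : Fin s → (Fin m ⊕ Fin m → F) // IsTI c} *
        (Fintype.card F ^ (2 * m - s) - Fintype.card F ^ s) := by
  classical
  let e₁ : (Fin s → (Fin m ⊕ Fin m → F)) × (Fin m ⊕ Fin m → F) ≃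
      (Fin (s + 1) → (Fin m ⊕ Fin m → F)) :=
    (Equiv.prodComm _ _).trans (Fin.consEquiv (fun _ => (Fin m ⊕ Fin m → F)))
  have he₁ : ∀ p, e₁ p = Fin.cons p.2 p.1 := fun p => rfl
  let e₂ : {p : (Fin s → (Fin m ⊕ Fin m → F)) × (Fin m ⊕ Fin m → F) // IsTI p.1 ∧
      (p.2 ∉ Submodule.span F (Set.range p.1) ∧ ∀ j, Helper13.sympB m F p.2 (p.1 j) = 0)} ≃
      {c : Fin (s + 1) → (Fin m ⊕ Fin m → F) // IsTI c} :=
    Equiv.subtypeEquiv e₁ (fun p => by rw [he₁, isTI_cons])
  let e₃ : {p : (Fin s → (Fin m ⊕ Fin m → F)) × (Fin m ⊕ Fin m → F) // IsTI p.1 ∧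
      (p.2 ∉ Submodule.span F (Set.range p.1) ∧ ∀ j, Helper13.sympB m F p.2 (p.1 j) = 0)} ≃
      (Σ c : {c : Fin s → (Fin m ⊕ Fin m → F) // IsTI c}, {v : Fin m ⊕ Fin m → F //
        v ∉ Submodule.span F (Set.range c.1) ∧ ∀ j, Helper13.sympB m F v (c.1 j) = 0}) :=
    { toFun := fun p => ⟨⟨p.1.1, p.2.1⟩, ⟨p.1.2, p.2.2⟩⟩
      invFun := fun q => ⟨(q.1.1, q.2.1), q.1.2, q.2.2⟩
      left_inv := fun p => rfl
      right_inv := fun q => rfl }
  rw [← Nat.card_congr e₂, Nat.card_congr e₃, Nat.card_sigma,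
    Finset.sum_congr rfl (fun c _ => card_ext c.1 c.2), Finset.sum_const, Finset.card_univ,
    smul_eq_mul, Nat.card_eq_fintype_card]

theorem card_isTI (s : ℕ) :
    Nat.card {c : Fin s → (Fin m ⊕ Fin m → F) // IsTI c} =
      ∏ i ∈ Finset.range s, (Fintype.card F ^ (2 * m - i) - Fintype.card F ^ i) := by
  induction s with
  | zero =>
    rw [Finset.prod_range_zero]
    have : Nonempty {c : Fin 0 → (Fin m ⊕ Fin m → F) // IsTI c} :=
      ⟨⟨Fin.elim0, linearIndependent_empty_type, fun i => i.elim0⟩⟩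
    have hsub : Subsingleton {c : Fin 0 → (Fin m ⊕ Fin m → F) // IsTI c} :=
      ⟨fun a b => Subtype.ext (Subsingleton.elim _ _)⟩
    exact Nat.card_unique
  | succ s ih =>
    rw [card_isTI_succ, ih, Finset.prod_range_succ]

/-- the number of frames of a given shape -/
theorem card_frames {κ : Type} [Fintype κ] [DecidableEq κ] (σ : κ → κ) (hσ : ∀ i, σ (σ i) = i) :
    Nat.card ↥{c : κ → (Fin m ⊕ Fin m → F) | ∃ d, InvFrame σ c d} =
      ∏ i ∈ Finset.range (Fintype.card κ), (Fintype.card F ^ (2 * m - i) - Fintype.card F ^ i) := by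
  rw [← card_isTI]
  apply Nat.card_congr
  refine Equiv.subtypeEquiv (Equiv.arrowCongr (Fintype.equivFin κ) (Equiv.refl _)) ?_
  intro c
  show (∃ d, InvFrame σ c d) ↔ IsTI (c ∘ (Fintype.equivFin κ).symm)
  rw [frame_iff_isTI σ hσ]
  unfold IsTI
  rw [linearIndependent_equiv]
  constructor
  · rintro ⟨h1, h2⟩
    exact ⟨h1, fun i j => h2 _ _⟩
  · rintro ⟨h1, h2⟩
    refine ⟨h1, fun i j => ?_⟩
    have := h2 (Fintype.equivFin κ i) (Fintype.equivFin κ j)
    simpa using this

end CountFrames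

end Cfsg.Agent.Helper45.SpI
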