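import Cfsg.Agent.Helper45.InvNormal
import Cfsg.Agent.Helper13.SympGen

set_option autoImplicit false
set_option linter.unusedSectionVars false

universe u

/-!
Involutions of the symplectic group in characteristic two: frames and conjugacy (the symplectic
counterpart of `InvFrame.lean`).
-/

namespace Cfsg.Agent.Helper45.SpI

open Cfsg Matrix

section Basic

variable {F : Type u} [Field F] {m : ℕ}

/-- the action of a symplectic matrix on a vector -/
abbrev smv (t : Matrix.symplecticGroup (Fin m) F) (x : Fin m ⊕ Fin m → F) : Fin m ⊕ Fin m → F :=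
  (t : Matrix (Fin m ⊕ Fin m) (Fin m ⊕ Fin m) F) *ᵥ x

theorem smv_mul (g h : Matrix.symplecticGroup (Fin m) F) (x : Fin m ⊕ Fin m → F) :
    smv (g * h) x = smv g (smv h x) := by
  show ((g : Matrix (Fin m ⊕ Fin m) (Fin m ⊕ Fin m) F) * (h : Matrix (Fin m ⊕ Fin m) (Fin m ⊕ Fin m) F)) *ᵥ x = _
  rw [← Matrix.mulVec_mulVec]

theorem smv_one (x : Fin m ⊕ Fin m → F) : smv (1 : Matrix.symplecticGroup (Fin m) F) x = x := by
  show (1 : Matrix (Fin m ⊕ Fin m) (Fin m ⊕ Fin m) F) *ᵥ x = x
  rw [Matrix.one_mulVec]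

theorem smv_add (g : Matrix.symplecticGroup (Fin m) F) (x y : Fin m ⊕ Fin m → F) :
    smv g (x + y) = smv g x + smv g y := Matrix.mulVec_add _ _ _

theorem smv_smul (g : Matrix.symplecticGroup (Fin m) F) (a : F) (x : Fin m ⊕ Fin m → F) :
    smv g (a • x) = a • smv g x := Matrix.mulVec_smul _ _ _

theorem smv_sum {κ : Type} [Fintype κ] (g : Matrix.symplecticGroup (Fin m) F)
    (v : κ → (Fin m ⊕ Fin m → F)) : smv g (∑ i, v i) = ∑ i, smv g (v i) := Matrix.mulVec_sum _ _ _

theorem smv_inv_cancel (g : Matrix.symplecticGroup (Fin m) F) (x : Fin m ⊕ Fin m → F) :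
    smv g (smv g⁻¹ x) = x := by rw [← smv_mul, mul_inv_cancel, smv_one]

theorem smv_inv_cancel' (g : Matrix.symplecticGroup (Fin m) F) (x : Fin m ⊕ Fin m → F) :
    smv g⁻¹ (smv g x) = x := by rw [← smv_mul, inv_mul_cancel, smv_one]

theorem smv_form (g : Matrix.symplecticGroup (Fin m) F) (x y : Fin m ⊕ Fin m → F) :
    Helper13.sympB m F (smv g x) (smv g y) = Helper13.sympB m F x y :=
  (Helper13.mem_symplecticGroup_iff_sympForm _).mp g.2 x y

theorem ext_smv (g h : Matrix.symplecticGroup (Fin m) F) (H : ∀ x, smv g x = smv h x) : g = h :=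
  Subtype.ext (Helper13.mulVec_ext _ _ H)

/-- in characteristic two the symplectic form is symmetric -/
theorem sB_comm [CharP F 2] (x y : Fin m ⊕ Fin m → F) :
    Helper13.sympB m F x y = Helper13.sympB m F y x := by
  rw [← Helper13.sympB_isAlt.neg_eq x y]
  exact (CharTwo.neg_eq _).symm

theorem sB_self (x : Fin m ⊕ Fin m → F) : Helper13.sympB m F x x = 0 := Helper13.sympB_isAlt x

variable {κ : Type} [Fintype κ] [DecidableEq κ]

theorem sB_sum_right (x : Fin m ⊕ Fin m → F) (l : κ → F) (v : κ → (Fin m ⊕ Fin m → F)) :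
    Helper13.sympB m F x (∑ i, l i • v i) = ∑ i, l i * Helper13.sympB m F x (v i) := by
  rw [map_sum]
  apply Finset.sum_congr rfl
  intro i _
  rw [map_smul, smul_eq_mul]

theorem sB_sum_left [CharP F 2] (x : Fin m ⊕ Fin m → F) (l : κ → F)
    (v : κ → (Fin m ⊕ Fin m → F)) :
    Helper13.sympB m F (∑ i, l i • v i) x = ∑ i, l i * Helper13.sympB m F (v i) x := by
  rw [sB_comm, sB_sum_right]
  apply Finset.sum_congr rfl
  intro i _
  rw [sB_comm]

/-- a totally isotropic frame `c` with a dual family `d`, of shape `σ` -/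
structure InvFrame (σ : κ → κ) (c d : κ → (Fin m ⊕ Fin m → F)) : Prop where
  ti : ∀ i j, Helper13.sympB m F (c i) (c j) = 0
  dual : ∀ i j, Helper13.sympB m F (d i) (c j) = if i = j then 1 else 0
  invol : ∀ i, σ (σ i) = i

/-- the nilpotent endomorphism `x ↦ ∑ f(x, c i) c (σ i)` -/
def frameN (σ : κ → κ) (c : κ → (Fin m ⊕ Fin m → F)) :
    (Fin m ⊕ Fin m → F) →ₗ[F] (Fin m ⊕ Fin m → F) :=
  ∑ i, ((Helper13.sympB m F).flip (c i)).smulRight (c (σ i))

theorem frameN_apply (σ : κ → κ) (c : κ → (Fin m ⊕ Fin m → F)) (x : Fin m ⊕ Fin m → F) :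
    frameN σ c x = ∑ i, Helper13.sympB m F x (c i) • c (σ i) := by
  unfold frameN
  rw [LinearMap.sum_apply]
  apply Finset.sum_congr rfl
  intro i _
  rw [LinearMap.smulRight_apply]
  rfl

variable {σ : κ → κ} {c d : κ → (Fin m ⊕ Fin m → F)}

theorem InvFrame.frameN_d (h : InvFrame σ c d) (j : κ) : frameN σ c (d j) = c (σ j) := by
  rw [frameN_apply, Finset.sum_eq_single j]
  · rw [h.dual, if_pos rfl, one_smul]
  · intro i _ hij
    rw [h.dual, if_neg (Ne.symm hij), zero_smul]
  · intro hj
    exact absurd (Finset.mem_univ j) hj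

theorem InvFrame.form_frameN_c [CharP F 2] (h : InvFrame σ c d) (x : Fin m ⊕ Fin m → F) (j : κ) :
    Helper13.sympB m F (frameN σ c x) (c j) = 0 := by
  rw [frameN_apply, sB_sum_left]
  apply Finset.sum_eq_zero
  intro i _
  rw [h.ti, mul_zero]

theorem InvFrame.frameN_frameN [CharP F 2] (h : InvFrame σ c d) (x : Fin m ⊕ Fin m → F) :
    frameN σ c (frameN σ c x) = 0 := by
  rw [frameN_apply]
  apply Finset.sum_eq_zero
  intro i _
  rw [h.form_frameN_c, zero_smul]

theorem InvFrame.linIndep (h : InvFrame σ c d) : LinearIndependent F c := by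
  rw [Fintype.linearIndependent_iff]
  intro g hg j
  have h1 : Helper13.sympB m F (d j) (∑ i, g i • c i) = g j := by
    rw [sB_sum_right, Finset.sum_eq_single j]
    · rw [h.dual, if_pos rfl, mul_one]
    · intro i _ hij
      rw [h.dual, if_neg (Ne.symm hij), mul_zero]
    · intro hj
      exact absurd (Finset.mem_univ j) hj
  rw [hg] at h1
  rw [← h1]
  simp

theorem InvFrame.range_frameN (h : InvFrame σ c d) :
    LinearMap.range (frameN σ c) = Submodule.span F (Set.range c) := by
  apply le_antisymm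
  · rintro _ ⟨x, rfl⟩
    rw [frameN_apply]
    apply Submodule.sum_mem
    intro i _
    exact Submodule.smul_mem _ _ (Submodule.subset_span ⟨σ i, rfl⟩)
  · rw [Submodule.span_le]
    rintro _ ⟨j, rfl⟩
    refine ⟨d (σ j), ?_⟩
    rw [h.frameN_d, h.invol]

theorem InvFrame.finrank_range (h : InvFrame σ c d) :
    Module.finrank F (LinearMap.range (frameN σ c)) = Fintype.card κ := by
  rw [h.range_frameN]
  exact finrank_span_eq_card h.linIndep

/-- `f(x, N y) + f(N x, y) = 0` in characteristic two -/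
theorem InvFrame.form_cross [CharP F 2] (h : InvFrame σ c d) (x y : Fin m ⊕ Fin m → F) :
    Helper13.sympB m F x (frameN σ c y) + Helper13.sympB m F (frameN σ c x) y = 0 := by
  have h1 : Helper13.sympB m F x (frameN σ c y) =
      ∑ i, Helper13.sympB m F y (c i) * Helper13.sympB m F x (c (σ i)) := by
    rw [frameN_apply, sB_sum_right]
  have h2 : Helper13.sympB m F (frameN σ c x) y =
      ∑ i, Helper13.sympB m F y (c i) * Helper13.sympB m F x (c (σ i)) := by
    rw [frameN_apply, sB_sum_left]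
    rw [← Equiv.sum_comp (Function.Involutive.toPerm σ h.invol)
      (fun i => Helper13.sympB m F y (c i) * Helper13.sympB m F x (c (σ i)))]
    apply Finset.sum_congr rfl
    intro i _
    show _ = Helper13.sympB m F y (c (σ i)) * Helper13.sympB m F x (c (σ (σ i)))
    rw [h.invol, sB_comm (c (σ i)) y, mul_comm]
  rw [h1, h2]
  exact CharTwo.add_self_eq_zero _

theorem InvFrame.form_add [CharP F 2] (h : InvFrame σ c d) (x y : Fin m ⊕ Fin m → F) :
    Helper13.sympB m F (x + frameN σ c x) (y + frameN σ c y) = Helper13.sympB m F x y := by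
  have h0 : Helper13.sympB m F (frameN σ c x) (frameN σ c y) = 0 := by
    rw [frameN_apply σ c y, sB_sum_right]
    apply Finset.sum_eq_zero
    intro i _
    rw [h.form_frameN_c, mul_zero]
  have h1 := h.form_cross x y
  rw [map_add, map_add, LinearMap.add_apply, LinearMap.add_apply, h0, add_zero]
  calc Helper13.sympB m F x y + Helper13.sympB m F (frameN σ c x) y +
        Helper13.sympB m F x (frameN σ c y)
      = Helper13.sympB m F x y + (Helper13.sympB m F x (frameN σ c y) +
        Helper13.sympB m F (frameN σ c x) y) := by ring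
    _ = Helper13.sympB m F x y := by rw [h1, add_zero]

theorem InvFrame.involutive [CharP F 2] (h : InvFrame σ c d) (x : Fin m ⊕ Fin m → F) :
    (x + frameN σ c x) + frameN σ c (x + frameN σ c x) = x := by
  rw [map_add, h.frameN_frameN, add_zero, add_assoc, vec_add_self, add_zero]

/-- every frame defines an involution of the symplectic group (characteristic two) -/
theorem InvFrame.exists_iso [CharP F 2] (h : InvFrame σ c d) :
    ∃ t : Matrix.symplecticGroup (Fin m) F, t * t = 1 ∧ ∀ x, smv t x = x + frameN σ c x := by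
  let τ : (Fin m ⊕ Fin m → F) →ₗ[F] (Fin m ⊕ Fin m → F) := LinearMap.id + frameN σ c
  have hτ : ∀ x, τ x = x + frameN σ c x := fun x => rfl
  have hmem : LinearMap.toMatrix' τ ∈ Matrix.symplecticGroup (Fin m) F := by
    rw [Helper13.mem_symplecticGroup_iff_sympForm]
    intro x y
    rw [LinearMap.toMatrix'_mulVec, LinearMap.toMatrix'_mulVec, hτ, hτ]
    exact h.form_add x y
  have hk : ∀ x, smv (⟨LinearMap.toMatrix' τ, hmem⟩ : Matrix.symplecticGroup (Fin m) F) x =
      x + frameN σ c x := fun x => by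
    show LinearMap.toMatrix' τ *ᵥ x = _
    rw [LinearMap.toMatrix'_mulVec, hτ]
  refine ⟨⟨LinearMap.toMatrix' τ, hmem⟩, ?_, hk⟩
  apply ext_smv
  intro x
  rw [smv_mul, smv_one, hk, hk]
  exact h.involutive x

/-- two involutions with frames of the same shape are conjugate (Witt) -/
theorem frame_conj [CharP F 2] {c' d' : κ → (Fin m ⊕ Fin m → F)}
    (h : InvFrame σ c d) (h' : InvFrame σ c' d') (t t' : Matrix.symplecticGroup (Fin m) F)
    (ht : ∀ x, smv t x = x + frameN σ c x) (ht' : ∀ x, smv t' x = x + frameN σ c' x) :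
    IsConj t t' := by
  let φ : (Fin m ⊕ Fin m → F) →ₗ[F] (Fin m ⊕ Fin m → F) :=
    ∑ i, (Helper13.sympB m F (d i)).smulRight (c' i)
  have hφ : ∀ x, φ x = ∑ i, Helper13.sympB m F (d i) x • c' i := by
    intro x
    show (∑ i, (Helper13.sympB m F (d i)).smulRight (c' i)) x = _
    rw [LinearMap.sum_apply]
    apply Finset.sum_congr rfl
    intro i _
    rw [LinearMap.smulRight_apply]
  have hφl : ∀ l : κ → F, φ (∑ j, l j • c j) = ∑ j, l j • c' j := by
    intro l
    rw [hφ]
    apply Finset.sum_congr rfl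
    intro i _
    congr 1
    rw [sB_sum_right, Finset.sum_eq_single i]
    · rw [h.dual, if_pos rfl, mul_one]
    · intro j _ hji
      rw [h.dual, if_neg (Ne.symm hji), mul_zero]
    · intro hi
      exact absurd (Finset.mem_univ i) hi
  have hφc : ∀ j, φ (c j) = c' j := by
    intro j
    rw [hφ, Finset.sum_eq_single j]
    · rw [h.dual, if_pos rfl, one_smul]
    · intro i _ hij
      rw [h.dual, if_neg hij, zero_smul]
    · intro hj
      exact absurd (Finset.mem_univ j) hj
  have hzero : ∀ (e : κ → (Fin m ⊕ Fin m → F)),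
      (∀ i j, Helper13.sympB m F (e i) (e j) = 0) → ∀ l l' : κ → F,
      Helper13.sympB m F (∑ j, l j • e j) (∑ j, l' j • e j) = 0 := by
    intro e he l l'
    rw [sB_sum_right]
    apply Finset.sum_eq_zero
    intro i _
    rw [sB_sum_left]
    rw [Finset.sum_eq_zero, mul_zero]
    intro j _
    rw [he, mul_zero]
  obtain ⟨g, hg, hgx⟩ := Helper13.witt_alt (Helper13.sympB m F) Helper13.sympB_nondegenerate
    Helper13.sympB_isAlt (Submodule.span F (Set.range c)) φ
    (by
      intro x hx x' hx'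
      obtain ⟨l, rfl⟩ := (Submodule.mem_span_range_iff_exists_fun F).mp hx
      obtain ⟨l', rfl⟩ := (Submodule.mem_span_range_iff_exists_fun F).mp hx'
      rw [hφl, hφl, hzero c' h'.ti, hzero c h.ti])
    (by
      intro x hx h0
      obtain ⟨l, rfl⟩ := (Submodule.mem_span_range_iff_exists_fun F).mp hx
      rw [hφl] at h0
      have hl := Fintype.linearIndependent_iff.mp h'.linIndep l h0
      apply Finset.sum_eq_zero
      intro i _
      rw [hl i, zero_smul])
  obtain ⟨k, -, hk⟩ := Helper13.TG_to_matrix g hg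
  have hkc : ∀ j, smv k (c j) = c' j := by
    intro j
    show (k : Matrix (Fin m ⊕ Fin m) (Fin m ⊕ Fin m) F) *ᵥ c j = c' j
    rw [← hk, hgx (c j) (Submodule.subset_span ⟨j, rfl⟩), hφc]
  rw [isConj_iff]
  refine ⟨k, ?_⟩
  apply ext_smv
  intro x
  rw [smv_mul, smv_mul, ht, ht', smv_add, smv_inv_cancel, frameN_apply, frameN_apply, smv_sum]
  congr 1
  apply Finset.sum_congr rfl
  intro i _
  rw [smv_smul, hkc, ← hkc i, ← smv_form k (smv k⁻¹ x) (c i), smv_inv_cancel]

end Basic

end Cfsg.Agent.Helper45.SpI
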