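import Cfsg.Agent.Helper45.SpInv1

set_option autoImplicit false
set_option linter.unusedSectionVars false

universe u

/-!
Involutions of the symplectic group in characteristic two: normal forms and the number of
classes (the symplectic counterpart of `InvNormal.lean`).
-/

namespace Cfsg.Agent.Helper45.SpI

open Cfsg Matrix

section Normal

variable {F : Type u} [Field F] [CharP F 2] {m : ℕ}

/-- the endomorphism `t + 1 = t - 1` of a symplectic matrix in characteristic two -/
def snilp (t : Matrix.symplecticGroup (Fin m) F) :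
    (Fin m ⊕ Fin m → F) →ₗ[F] (Fin m ⊕ Fin m → F) :=
  Matrix.toLin' ((t : Matrix (Fin m ⊕ Fin m) (Fin m ⊕ Fin m) F) - 1)

theorem snilp_apply (t : Matrix.symplecticGroup (Fin m) F) (x : Fin m ⊕ Fin m → F) :
    snilp t x = smv t x + x := by
  unfold snilp
  rw [Matrix.toLin'_apply, Matrix.sub_mulVec, Matrix.one_mulVec]
  show smv t x - x = _
  funext i
  rw [Pi.sub_apply, Pi.add_apply, CharTwo.sub_eq_add]

theorem smv_eq_add_snilp (t : Matrix.symplecticGroup (Fin m) F) (x : Fin m ⊕ Fin m → F) :
    smv t x = x + snilp t x := by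
  rw [snilp_apply, add_comm (smv t x) x, ← add_assoc, vec_add_self, zero_add]

/-- the rank of `t - 1` -/
noncomputable def srank (t : Matrix.symplecticGroup (Fin m) F) : ℕ :=
  Module.finrank F (LinearMap.range (snilp t))

/-- the symmetric bilinear form `β(x, y) = f(x, (t+1) y)` of an involution -/
def sForm (t : Matrix.symplecticGroup (Fin m) F) : LinearMap.BilinForm F (Fin m ⊕ Fin m → F) :=
  (Helper13.sympB m F).compl₂ (snilp t)

theorem sForm_apply (t : Matrix.symplecticGroup (Fin m) F) (x y : Fin m ⊕ Fin m → F) :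
    sForm t x y = Helper13.sympB m F x (snilp t y) := rfl

theorem sForm_symm (t : Matrix.symplecticGroup (Fin m) F) (ht : t * t = 1)
    (x y : Fin m ⊕ Fin m → F) : sForm t x y = sForm t y x := by
  rw [sForm_apply, sForm_apply, snilp_apply, snilp_apply, map_add, map_add]
  have h1 : Helper13.sympB m F x (smv t y) = Helper13.sympB m F y (smv t x) := by
    have h := smv_form t x (smv t y)
    rw [← smv_mul, ht, smv_one] at h
    rw [← h, sB_comm]
  rw [h1, sB_comm x y]

theorem sForm_self (t : Matrix.symplecticGroup (Fin m) F) (x : Fin m ⊕ Fin m → F) :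
    sForm t x x = Helper13.sympB m F x (smv t x) := by
  rw [sForm_apply, snilp_apply, map_add, sB_self, add_zero]

theorem snilp_snilp (t : Matrix.symplecticGroup (Fin m) F) (ht : t * t = 1)
    (x : Fin m ⊕ Fin m → F) : snilp t (snilp t x) = 0 := by
  rw [snilp_apply, snilp_apply, smv_add, ← smv_mul, ht, smv_one, add_comm x, vec_add_self]

theorem form_snilp_snilp (t : Matrix.symplecticGroup (Fin m) F) (ht : t * t = 1)
    (x y : Fin m ⊕ Fin m → F) : Helper13.sympB m F (snilp t x) (snilp t y) = 0 := by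
  rw [← sForm_apply, sForm_symm t ht, sForm_apply, snilp_snilp t ht, map_zero]

theorem snilp_eq_zero_of (t : Matrix.symplecticGroup (Fin m) F) (ht : t * t = 1)
    (x : Fin m ⊕ Fin m → F) (h : ∀ y, sForm t x y = 0) : snilp t x = 0 := by
  apply Helper13.sympB_nondegenerate.1
  intro y
  rw [sB_comm, ← sForm_apply, sForm_symm t ht]
  exact h y

/-- normal form of an involution `t` with `f(v, t v) ≠ 0` for some `v` -/
theorem normal_nonalt [Finite F] (t : Matrix.symplecticGroup (Fin m) F) (ht : t * t = 1)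
    (hna : ∃ v, Helper13.sympB m F v (smv t v) ≠ 0) (s : ℕ) (hs : srank t = s) :
    ∃ c d : Fin s → (Fin m ⊕ Fin m → F), InvFrame id c d ∧ ∀ x, smv t x = x + frameN id c x := by
  obtain ⟨U, hU⟩ := Submodule.exists_isCompl (LinearMap.ker (snilp t))
  have hfin : Module.finrank F U = s := by
    have h1 := Submodule.finrank_add_eq_of_isCompl hU
    have h2 := LinearMap.finrank_range_add_finrank_ker (snilp t)
    have h3 : Module.finrank F (LinearMap.range (snilp t)) = s := hs
    omega
  let B : LinearMap.BilinForm F U := (sForm t).restrict U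
  have hB : ∀ a b : U, B a b = sForm t (a : Fin m ⊕ Fin m → F) (b : Fin m ⊕ Fin m → F) :=
    fun a b => rfl
  have hS : B.IsSymm := ⟨fun a b => sForm_symm t ht a b⟩
  have hdecomp : ∀ x : Fin m ⊕ Fin m → F, ∃ k ∈ LinearMap.ker (snilp t), ∃ u ∈ U, k + u = x := by
    intro x
    have hx : x ∈ LinearMap.ker (snilp t) ⊔ U := by
      rw [hU.sup_eq_top]
      trivial
    exact Submodule.mem_sup.mp hx
  have hker : ∀ k ∈ LinearMap.ker (snilp t), ∀ x, sForm t x k = 0 := by
    intro k hk x
    rw [sForm_apply, LinearMap.mem_ker.mp hk, map_zero]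
  have hleft : ∀ a : U, (∀ b : U, B a b = 0) → a = 0 := by
    intro a ha
    have h1 : snilp t (a : Fin m ⊕ Fin m → F) = 0 := by
      apply snilp_eq_zero_of t ht
      intro y
      obtain ⟨k, hk, u, hu, rfl⟩ := hdecomp y
      rw [map_add, hker k hk, zero_add]
      exact ha ⟨u, hu⟩
    have h2 : (a : Fin m ⊕ Fin m → F) ∈ LinearMap.ker (snilp t) ⊓ U :=
      ⟨LinearMap.mem_ker.mpr h1, a.2⟩
    rw [hU.inf_eq_bot] at h2
    exact Subtype.ext ((Submodule.mem_bot F).mp h2)
  have hnd : B.Nondegenerate :=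
    ⟨hleft, fun a ha => hleft a (fun b => by rw [hS.eq a b]; exact ha b)⟩
  have hna' : ∃ v : U, B v v ≠ 0 := by
    obtain ⟨v, hv⟩ := hna
    obtain ⟨k, hk, u, hu, rfl⟩ := hdecomp v
    refine ⟨⟨u, hu⟩, ?_⟩
    rw [hB]
    rw [← sForm_self, map_add, hker k hk, zero_add, sForm_symm t ht (k + u) u, map_add,
      hker k hk, zero_add] at hv
    exact hv
  obtain ⟨b, hb⟩ := Cfsg.Agent.S2622.result hfin B hS hnd hna'
  have hbb : ∀ i j, sForm t (b i : Fin m ⊕ Fin m → F) (b j : Fin m ⊕ Fin m → F) =
      if i = j then 1 else 0 := fun i j => hb i j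
  have hframe : InvFrame id (fun i => snilp t (b i : Fin m ⊕ Fin m → F))
      (fun i => (b i : Fin m ⊕ Fin m → F)) :=
    { ti := fun i j => form_snilp_snilp t ht _ _
      dual := fun i j => hbb i j
      invol := fun i => rfl }
  refine ⟨_, _, hframe, ?_⟩
  intro x
  rw [smv_eq_add_snilp]
  congr 1
  obtain ⟨k, hk, u, hu, rfl⟩ := hdecomp x
  have hu' := congrArg U.subtype (b.sum_repr ⟨u, hu⟩)
  rw [map_sum] at hu'
  simp only [map_smul, Submodule.subtype_apply] at hu'
  have hN : snilp t (k + u) = ∑ i, (b.repr ⟨u, hu⟩ i) • snilp t (b i : Fin m ⊕ Fin m → F) := by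
    rw [map_add, LinearMap.mem_ker.mp hk, zero_add]
    conv_lhs => rw [← hu']
    rw [map_sum]
    apply Finset.sum_congr rfl
    intro i _
    rw [map_smul]
  have hpol : ∀ j, Helper13.sympB m F (k + u) (snilp t (b j : Fin m ⊕ Fin m → F)) =
      b.repr ⟨u, hu⟩ j := by
    intro j
    rw [← sForm_apply, sForm_symm t ht, sForm_apply, hN, sB_sum_right,
      Finset.sum_eq_single j]
    · rw [← sForm_apply, hbb, if_pos rfl, mul_one]
    · intro i _ hij
      rw [← sForm_apply, hbb, if_neg (Ne.symm hij), mul_zero]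
    · intro hj
      exact absurd (Finset.mem_univ j) hj
  rw [hN, frameN_apply]
  apply Finset.sum_congr rfl
  intro i _
  rw [hpol]
  rfl

/-- normal form of an involution `t` with `f(v, t v) = 0` for all `v` -/
theorem normal_alt (t : Matrix.symplecticGroup (Fin m) F) (ht : t * t = 1)
    (halt : ∀ v, Helper13.sympB m F v (smv t v) = 0) :
    ∃ (k : ℕ) (c d : Fin k ⊕ Fin k → (Fin m ⊕ Fin m → F)), InvFrame Sum.swap c d ∧
      ∀ x, smv t x = x + frameN Sum.swap c x := by
  have hA : (sForm t).IsAlt := fun x => by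
    rw [sForm_self]
    exact halt x
  obtain ⟨n, r, b, h1, h2, h3, h4⟩ := Helper13.exists_symplectic_basis (sForm t) hA
  have hrad : ∀ j : Fin r, snilp t (b (Sum.inr j)) = 0 :=
    fun j => snilp_eq_zero_of t ht _ (h4 j)
  have huu : ∀ i j : Fin n ⊕ Fin n, sForm t (b (Sum.inl i)) (b (Sum.inl j)) =
      if j = i.swap then 1 else 0 := by
    rintro (i | i) (j | j)
    · rw [h2, Sum.swap_inl, if_neg (fun h => Sum.inl_ne_inr h)]
    · rw [h1, Sum.swap_inl]
      by_cases hij : i = j
      · rw [if_pos hij, if_pos (by rw [hij])]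
      · rw [if_neg hij, if_neg (fun h => hij (Sum.inr_injective h).symm)]
    · rw [sForm_symm t ht, h1, Sum.swap_inr]
      by_cases hij : j = i
      · rw [if_pos hij, if_pos (by rw [hij])]
      · rw [if_neg hij, if_neg (fun h => hij (Sum.inl_injective h))]
    · rw [h3, Sum.swap_inr, if_neg (fun h => Sum.inr_ne_inl h)]
  have hframe : InvFrame Sum.swap (fun i : Fin n ⊕ Fin n => snilp t (b (Sum.inl i)))
      (fun i : Fin n ⊕ Fin n => b (Sum.inl i.swap)) :=
    { ti := fun i j => form_snilp_snilp t ht _ _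
      dual := fun i j => by
        show sForm t (b (Sum.inl i.swap)) (b (Sum.inl j)) = _
        rw [huu, Sum.swap_swap]
        by_cases hij : i = j
        · rw [if_pos hij, if_pos hij.symm]
        · rw [if_neg hij, if_neg (Ne.symm hij)]
      invol := fun i => Sum.swap_swap i }
  refine ⟨n, _, _, hframe, ?_⟩
  intro x
  rw [smv_eq_add_snilp]
  congr 1
  have hx := b.sum_repr x
  rw [Fintype.sum_sum_type] at hx
  have hN : snilp t x =
      ∑ i : Fin n ⊕ Fin n, (b.repr x (Sum.inl i)) • snilp t (b (Sum.inl i)) := by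
    conv_lhs => rw [← hx]
    rw [map_add, map_sum, map_sum]
    have h0 : ∑ j : Fin r, snilp t ((b.repr x (Sum.inr j)) • b (Sum.inr j)) = 0 := by
      apply Finset.sum_eq_zero
      intro j _
      rw [map_smul, hrad, smul_zero]
    rw [h0, add_zero]
    apply Finset.sum_congr rfl
    intro i _
    rw [map_smul]
  have hpol : ∀ j : Fin n ⊕ Fin n, Helper13.sympB m F x (snilp t (b (Sum.inl j))) =
      b.repr x (Sum.inl j.swap) := by
    intro j
    rw [← sForm_apply, sForm_symm t ht, sForm_apply, hN, sB_sum_right,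
      Finset.sum_eq_single j.swap]
    · rw [← sForm_apply, huu, if_pos rfl, mul_one]
    · intro i _ hij
      rw [← sForm_apply, huu, if_neg hij, mul_zero]
    · intro hj
      exact absurd (Finset.mem_univ _) hj
  rw [hN, frameN_apply]
  rw [← Equiv.sum_comp (Equiv.sumComm (Fin n) (Fin n))
    (fun i => (b.repr x (Sum.inl i)) • snilp t (b (Sum.inl i)))]
  apply Finset.sum_congr rfl
  intro i _
  rw [hpol]
  rfl

end Normal

section Classify

variable {F : Type u} [Field F] [CharP F 2] {m : ℕ}

theorem snilp_eq_frameN {κ : Type} [Fintype κ] [DecidableEq κ] {σ : κ → κ}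
    {c : κ → (Fin m ⊕ Fin m → F)} (t : Matrix.symplecticGroup (Fin m) F)
    (ht : ∀ x, smv t x = x + frameN σ c x) : snilp t = frameN σ c := by
  apply LinearMap.ext
  intro x
  rw [snilp_apply, ht, add_comm x, add_assoc, vec_add_self, add_zero]

theorem InvFrame.srank_eq {κ : Type} [Fintype κ] [DecidableEq κ] {σ : κ → κ}
    {c d : κ → (Fin m ⊕ Fin m → F)} (h : InvFrame σ c d) (t : Matrix.symplecticGroup (Fin m) F)
    (ht : ∀ x, smv t x = x + frameN σ c x) : srank t = Fintype.card κ := by
  unfold srank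
  rw [snilp_eq_frameN t ht]
  exact h.finrank_range

/-- involutions with the same rank and the same type are conjugate in `Sp` -/
theorem involution_isConj [Finite F] (t t' : Matrix.symplecticGroup (Fin m) F) (ht : t * t = 1)
    (ht' : t' * t' = 1) (hrank : srank t = srank t')
    (halt : (∀ v, Helper13.sympB m F v (smv t v) = 0) ↔
      (∀ v, Helper13.sympB m F v (smv t' v) = 0)) : IsConj t t' := by
  by_cases h : ∀ v, Helper13.sympB m F v (smv t v) = 0
  · obtain ⟨k, c, d, hf, hc⟩ := normal_alt t ht h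
    obtain ⟨k', c', d', hf', hc'⟩ := normal_alt t' ht' (halt.mp h)
    have h1 := hf.srank_eq t hc
    have h2 := hf'.srank_eq t' hc'
    rw [Fintype.card_sum, Fintype.card_fin] at h1 h2
    have hk : k = k' := by omega
    subst hk
    exact frame_conj hf hf' t t' hc hc'
  · have h' : ¬ ∀ v, Helper13.sympB m F v (smv t' v) = 0 := fun hc => h (halt.mpr hc)
    push Not at h h'
    obtain ⟨c, d, hf, hc⟩ := normal_nonalt t ht h _ rfl
    obtain ⟨c', d', hf', hc'⟩ := normal_nonalt t' ht' h' _ hrank.symm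
    exact frame_conj hf hf' t t' hc hc'

theorem snilp_conj (k t : Matrix.symplecticGroup (Fin m) F) (x : Fin m ⊕ Fin m → F) :
    snilp (k * t * k⁻¹) x = smv k (snilp t (smv k⁻¹ x)) := by
  rw [snilp_apply, snilp_apply, smv_add, smv_mul, smv_mul, smv_inv_cancel]

theorem srank_conj_le (k t : Matrix.symplecticGroup (Fin m) F) :
    srank (k * t * k⁻¹) ≤ srank t := by
  unfold srank
  have h1 : LinearMap.range (snilp (k * t * k⁻¹)) ≤
      (LinearMap.range (snilp t)).map
        (Matrix.toLin' (k : Matrix (Fin m ⊕ Fin m) (Fin m ⊕ Fin m) F)) := by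
    rintro _ ⟨x, rfl⟩
    refine ⟨snilp t (smv k⁻¹ x), ⟨_, rfl⟩, ?_⟩
    rw [snilp_conj, Matrix.toLin'_apply]
  exact (Submodule.finrank_mono h1).trans (Submodule.finrank_map_le _ _)

theorem srank_conj (k t : Matrix.symplecticGroup (Fin m) F) :
    srank (k * t * k⁻¹) = srank t := by
  apply le_antisymm (srank_conj_le k t)
  have h := srank_conj_le k⁻¹ (k * t * k⁻¹)
  have h2 : k⁻¹ * (k * t * k⁻¹) * k⁻¹⁻¹ = t := by group
  rwa [h2] at h

theorem alt_conj_iff (k t : Matrix.symplecticGroup (Fin m) F) :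
    (∀ v, Helper13.sympB m F v (smv (k * t * k⁻¹) v) = 0) ↔
      (∀ v, Helper13.sympB m F v (smv t v) = 0) := by
  have key : ∀ v, Helper13.sympB m F v (smv (k * t * k⁻¹) v) =
      Helper13.sympB m F (smv k⁻¹ v) (smv t (smv k⁻¹ v)) := by
    intro v
    rw [smv_mul, smv_mul, ← smv_form k (smv k⁻¹ v), smv_inv_cancel]
  constructor
  · intro h v
    have h1 := h (smv k v)
    rw [key, smv_inv_cancel'] at h1
    exact h1
  · intro h v
    rw [key]
    exact h _

theorem srank_one : srank (1 : Matrix.symplecticGroup (Fin m) F) = 0 := by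
  unfold srank
  have h : snilp (1 : Matrix.symplecticGroup (Fin m) F) = 0 := by
    apply LinearMap.ext
    intro x
    rw [snilp_apply, smv_one, vec_add_self]
    rfl
  rw [h, LinearMap.range_zero, finrank_bot]

theorem srank_pos_of_ne_one (t : Matrix.symplecticGroup (Fin m) F) (h1 : t ≠ 1) :
    0 < srank t := by
  by_contra hcon
  have h0 : srank t = 0 := by omega
  unfold srank at h0
  rw [Submodule.finrank_eq_zero] at h0
  apply h1
  apply ext_smv
  intro x
  have hx : snilp t x ∈ LinearMap.range (snilp t) := ⟨x, rfl⟩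
  rw [h0, Submodule.mem_bot] at hx
  rw [smv_eq_add_snilp, hx, add_zero, smv_one]

theorem srank_le (t : Matrix.symplecticGroup (Fin m) F) (ht : t * t = 1) : srank t ≤ m := by
  unfold srank
  have h1 := LinearMap.finrank_range_add_finrank_ker (snilp t)
  have h2 : LinearMap.range (snilp t) ≤ LinearMap.ker (snilp t) := by
    rintro _ ⟨x, rfl⟩
    exact LinearMap.mem_ker.mpr (snilp_snilp t ht x)
  have h3 := Submodule.finrank_mono h2
  rw [Module.finrank_fintype_fun_eq_card, Fintype.card_sum, Fintype.card_fin] at h1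
  omega

theorem alt_srank_even (t : Matrix.symplecticGroup (Fin m) F) (ht : t * t = 1)
    (halt : ∀ v, Helper13.sympB m F v (smv t v) = 0) : ∃ k, srank t = 2 * k := by
  obtain ⟨k, c, d, hf, hc⟩ := normal_alt t ht halt
  refine ⟨k, ?_⟩
  rw [hf.srank_eq t hc, Fintype.card_sum, Fintype.card_fin]
  ring

theorem InvFrame.alt_of_swap {k : ℕ} {c d : Fin k ⊕ Fin k → (Fin m ⊕ Fin m → F)}
    (_h : InvFrame Sum.swap c d) (t : Matrix.symplecticGroup (Fin m) F)
    (ht : ∀ x, smv t x = x + frameN Sum.swap c x) :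
    ∀ v, Helper13.sympB m F v (smv t v) = 0 := by
  intro v
  rw [ht, map_add, sB_self, zero_add, frameN_apply, sB_sum_right, Fintype.sum_sum_type]
  have h1 : ∑ i : Fin k, Helper13.sympB m F v (c (Sum.inr i)) *
      Helper13.sympB m F v (c (Sum.swap (Sum.inr i))) =
      ∑ i : Fin k, Helper13.sympB m F v (c (Sum.inl i)) *
      Helper13.sympB m F v (c (Sum.swap (Sum.inl i))) := by
    apply Finset.sum_congr rfl
    intro i _
    rw [Sum.swap_inr, Sum.swap_inl, mul_comm]
  rw [h1]
  exact CharTwo.add_self_eq_zero _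

theorem InvFrame.nonalt_of_id {s : ℕ} {c d : Fin s → (Fin m ⊕ Fin m → F)} (h : InvFrame id c d)
    (hs : 0 < s) (t : Matrix.symplecticGroup (Fin m) F)
    (ht : ∀ x, smv t x = x + frameN id c x) :
    ∃ v, Helper13.sympB m F v (smv t v) ≠ 0 := by
  refine ⟨d ⟨0, hs⟩, ?_⟩
  rw [ht, map_add, sB_self, zero_add, h.frameN_d, h.dual,
    if_pos (show (⟨0, hs⟩ : Fin s) = id ⟨0, hs⟩ from rfl)]
  exact one_ne_zero

/-- standard frames -/
theorem std_frame {κ : Type} [Fintype κ] [DecidableEq κ] (σ : κ → κ) (hσ : ∀ i, σ (σ i) = i)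
    (ρ : κ → Fin m) (hρ : Function.Injective ρ) :
    InvFrame σ (fun i => (Pi.single (Sum.inl (ρ i)) (1 : F) : Fin m ⊕ Fin m → F))
      (fun i => (Pi.single (Sum.inr (ρ i)) (1 : F) : Fin m ⊕ Fin m → F)) :=
  { ti := fun i j => by
      rw [Helper13.sympB_apply, Helper13.sympForm_apply]
      apply Finset.sum_eq_zero
      intro l _
      simp [Pi.single_apply]
    dual := fun i j => by
      rw [Helper13.sympB_apply, Helper13.sympForm_apply, Finset.sum_eq_single (ρ i)]
      · rw [Pi.single_apply, Pi.single_apply, Pi.single_apply, Pi.single_apply, if_pos rfl,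
          if_neg (fun h => Sum.inl_ne_inr h), zero_mul, sub_zero, one_mul]
        by_cases hij : i = j
        · rw [if_pos hij, if_pos (by rw [hij])]
        · rw [if_neg hij, if_neg (fun h => hij (hρ (Sum.inl_injective h)))]
      · intro l _ hl
        rw [Pi.single_apply, Pi.single_apply (Sum.inr (ρ i)) (1 : F) (Sum.inl l),
          if_neg (fun h => hl (Sum.inr_injective h)), if_neg (fun h => Sum.inl_ne_inr h), zero_mul,
          zero_mul, sub_zero]
      · intro hj
        exact absurd (Finset.mem_univ _) hj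
    invol := hσ }

/-- the number of classes of involutions of `Sp_{2m}(F)`, `F` finite of characteristic two -/
theorem card_sp_involution_classes [Finite F] :
    Nat.card {C : ConjClasses ↥(Matrix.symplecticGroup (Fin m) F) //
      ∃ g : Matrix.symplecticGroup (Fin m) F, ConjClasses.mk g = C ∧ orderOf g = 2} =
      m + m / 2 := by
  have hrepA : ∀ i : Fin m, ∃ t : Matrix.symplecticGroup (Fin m) F, t * t = 1 ∧
      srank t = i + 1 ∧ ∃ v, Helper13.sympB m F v (smv t v) ≠ 0 := by
    intro i
    have hf := std_frame (F := F) (m := m) (id : Fin (i + 1) → Fin (i + 1)) (fun _ => rfl)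
      (Fin.castLE (by omega)) (Fin.castLE_injective _)
    obtain ⟨t, ht, hc⟩ := hf.exists_iso
    refine ⟨t, ht, ?_, hf.nonalt_of_id (by omega) t hc⟩
    rw [hf.srank_eq t hc, Fintype.card_fin]
  have hrepB : ∀ j : Fin (m / 2), ∃ t : Matrix.symplecticGroup (Fin m) F, t * t = 1 ∧
      srank t = 2 * (j + 1) ∧ ∀ v, Helper13.sympB m F v (smv t v) = 0 := by
    intro j
    have hf := std_frame (F := F) (m := m)
      (Sum.swap : Fin (j + 1) ⊕ Fin (j + 1) → Fin (j + 1) ⊕ Fin (j + 1)) Sum.swap_swap
      (fun i => Fin.castLE (by omega) (finSumFinEquiv i))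
      (fun a b hab => finSumFinEquiv.injective (Fin.castLE_injective _ hab))
    obtain ⟨t, ht, hc⟩ := hf.exists_iso
    refine ⟨t, ht, ?_, hf.alt_of_swap t hc⟩
    rw [hf.srank_eq t hc, Fintype.card_sum, Fintype.card_fin]
    ring
  choose rA hA1 hA2 hA3 using hrepA
  choose rB hB1 hB2 hB3 using hrepB
  have h1 : ∀ g h : Matrix.symplecticGroup (Fin m) F, IsConj g h →
      ((srank g, ∀ v, Helper13.sympB m F v (smv g v) = 0) : ℕ × Prop) =
      (srank h, ∀ v, Helper13.sympB m F v (smv h v) = 0) := by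
    intro g h hgh
    obtain ⟨k, rfl⟩ := isConj_iff.mp hgh
    rw [srank_conj, propext (alt_conj_iff k g)]
  have h2 : ∀ i : Fin m ⊕ Fin (m / 2), orderOf (Sum.elim rA rB i) = 2 := by
    intro i
    rw [orderOf_eq_prime_iff, pow_two]
    cases i with
    | inl i =>
      refine ⟨hA1 i, fun h => ?_⟩
      have h3 := hA2 i
      rw [Sum.elim_inl] at h
      rw [h, srank_one] at h3
      omega
    | inr j =>
      refine ⟨hB1 j, fun h => ?_⟩
      have h3 := hB2 j
      rw [Sum.elim_inr] at h
      rw [h, srank_one] at h3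
      omega
  have h3 : ∀ i j : Fin m ⊕ Fin (m / 2),
      ((srank (Sum.elim rA rB i), ∀ v, Helper13.sympB m F v (smv (Sum.elim rA rB i) v) = 0) :
        ℕ × Prop) =
      (srank (Sum.elim rA rB j), ∀ v, Helper13.sympB m F v (smv (Sum.elim rA rB j) v) = 0) →
      i = j := by
    rintro (i | i) (j | j) h
    · have h4 : srank (rA i) = srank (rA j) := congrArg Prod.fst h
      rw [hA2, hA2] at h4
      exact congrArg Sum.inl (Fin.ext (by omega))
    · have h4 : (∀ v, Helper13.sympB m F v (smv (rA i) v) = 0) =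
          (∀ v, Helper13.sympB m F v (smv (rB j) v) = 0) := congrArg Prod.snd h
      obtain ⟨v, hv⟩ := hA3 i
      exact absurd (Eq.mpr h4 (hB3 j) v) hv
    · have h4 : (∀ v, Helper13.sympB m F v (smv (rB i) v) = 0) =
          (∀ v, Helper13.sympB m F v (smv (rA j) v) = 0) := congrArg Prod.snd h
      obtain ⟨v, hv⟩ := hA3 j
      exact absurd (Eq.mp h4 (hB3 i) v) hv
    · have h4 : srank (rB i) = srank (rB j) := congrArg Prod.fst h
      rw [hB2, hB2] at h4
      exact congrArg Sum.inr (Fin.ext (by omega))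
  have h4 : ∀ g : Matrix.symplecticGroup (Fin m) F, orderOf g = 2 →
      ∃ i, IsConj g (Sum.elim rA rB i) := by
    intro g hg
    rw [orderOf_eq_prime_iff, pow_two] at hg
    obtain ⟨hg2, hg1⟩ := hg
    have hpos := srank_pos_of_ne_one g hg1
    have hle := srank_le g hg2
    by_cases halt : ∀ v, Helper13.sympB m F v (smv g v) = 0
    · obtain ⟨k, hk⟩ := alt_srank_even g hg2 halt
      have hk1 : 1 ≤ k := by omega
      refine ⟨Sum.inr ⟨k - 1, by omega⟩, ?_⟩
      apply involution_isConj g _ hg2 (hB1 _)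
      · rw [hB2, hk]
        show 2 * k = 2 * ((k - 1) + 1)
        omega
      · exact ⟨fun _ => hB3 _, fun _ => halt⟩
    · refine ⟨Sum.inl ⟨srank g - 1, by omega⟩, ?_⟩
      apply involution_isConj g _ hg2 (hA1 _)
      · rw [hA2]
        show _ = (srank g - 1) + 1
        omega
      · constructor
        · intro h
          exact absurd h halt
        · intro h
          obtain ⟨v, hv⟩ := hA3 ⟨srank g - 1, by omega⟩
          exact absurd (h v) hv
  rw [Helper45.card_conjClasses_eq (I := Fin m ⊕ Fin (m / 2))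
    (fun g : Matrix.symplecticGroup (Fin m) F =>
      ((srank g, ∀ v, Helper13.sympB m F v (smv g v) = 0) : ℕ × Prop))
    (fun g => orderOf g = 2) (Sum.elim rA rB) h1 h2 h3 h4,
    Fintype.card_sum, Fintype.card_fin, Fintype.card_fin]

end Classify

end Cfsg.Agent.Helper45.SpI
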